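import Cfsg.Agent.H7.Ab1
import Cfsg.Agent.H1.Wc
import Cfsg.Agent.H24.SL2Table

/-! Principal `2`-blocks with abelian Sylow subgroup: free action (`FA.struct`, `FA.card_eq`),
`AS.main` (`l = e` when the abelian inertial quotient acts freely off its fixed points). -/

set_option autoImplicit false

open Cfsg H18 H22 Subgroup H1 H5
open H17 (lay)
open H8 (cC nN c1)
open scoped ComplexConjugate commutatorElement MatrixGroups

namespace H7

universe u

variable {G H : Type u} [Group G] [Finite G] [Group H] [Finite H] {P : Subgroup G} {M : Ideal AlgInt}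

theorem cls_eq {y : G} (hy : y ∈ P) (y1 : y ≠ 1) (h : (c1 y).relIndex (nN P) + 1 = Nat.card P)
    {w : G} (hw : w ∈ P) (w1 : w ≠ 1) : ∃ n ∈ nN P, n * y * n⁻¹ = w := by
  have h1 : {w | ∃ n ∈ nN P, n * y * n⁻¹ = w} ⊆ (P : Set G) \ {1} := by
    rintro _ ⟨n, hn, rfl⟩
    exact ⟨conj_mem_nN hn hy, by simpa using y1⟩
  refine (Set.eq_of_subset_of_ncard_le h1 ?_).ge ⟨hw, w1⟩
  rw [ncard_cls, Set.ncard_diff_singleton_of_mem P.one_mem, ← Nat.card_coe_set_eq,
    SetLike.coe_sort_coe]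
  omega

/-- irreducible characters have absolute value `0` or `1` on involutions -/
def Sm (G : Type*) [Group G] : Prop := ∀ χ : G → ℂ, IsIrrCharacter G χ → ∀ t : G, orderOf t = 2 →
  χ t = 0 ∨ χ t * conj (χ t) = 1

theorem sm_SL2 {F : Type} [Field F] [Fintype F] (h : (2 : F) = 0) : Sm SL(2, F) := by
  classical
  intro χ hχ t ht
  obtain ⟨w, hw⟩ := H24.exists_ell_SL (F := F)
  have t2 : (t : H24.M2 F) * t = 1 := congrArg Subtype.val (sq1 (t := t) ht)
  have h1 : ¬ H24.IsScal (t : H24.M2 F) := fun e => ne1 ht (Subtype.ext (by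
    have e1 := e.det_eq
    rw [t.2] at e1
    have : (t : H24.M2 F) 0 0 = 1 := by grind
    rw [e.eq_smul, this, one_smul]; rfl))
  have h2 : (t : H24.M2 F).trace = 1 + 1 := by
    have e := H24.cayley (t : H24.M2 F)
    rw [t2, t.2] at e
    have := (H24.isScal_lin_iff h1 _ _).1 (e ▸ H24.isScal_one)
    grind
  rcases H24.irr_SL2 hw hχ with rfl | rfl | ⟨α, -, rfl⟩ | ⟨θ, -, rfl⟩ | ⟨α, ψ, h3, h4, -⟩ |
    ⟨α, ψ, h3, h4, -⟩
  · simp
  · exact Or.inl (H24.StS_par h1 h2 (mul_one 1))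
  · simp [H24.WS_par α h1 h2 (mul_one 1)]
  · simp [H24.cuspS_unip hw θ h1 h2]
  · exact (H24.two_ne_zero_of_quad h3 h4 h).elim
  · exact (H24.two_ne_zero_of_quadC hw h3 h4 h).elim

theorem sm_of_lev (h : Lev G) : Sm G := by
  obtain ⟨k, hk, F, _, _, e, ⟨f⟩⟩ := h
  intro χ hχ t ht
  let π := f.symm.toMonoidHom.comp (QuotientGroup.mk' (center SL(2, F)))
  have hπ : Function.Surjective π := f.symm.surjective.comp (QuotientGroup.mk'_surjective _)
  have h1 : Even (Fintype.card F) := e ▸ Nat.even_pow.2 ⟨even_two, by omega⟩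
  have h2 : π.ker = center SL(2, F) := by
    rw [← MonoidHom.comap_ker, (MonoidHom.ker_eq_bot_iff _).2 f.symm.injective, MonoidHom.comap_bot,
      QuotientGroup.ker_mk']
  obtain ⟨s, hs, rfl⟩ := lift_inv' hπ (by
    rw [h2, H10.card_center_SL2, (Nat.coprime_two_left.2
      (Nat.Even.sub_odd Fintype.card_pos h1 odd_one)).gcd_eq_one]; exact odd_one) ht
  refine sm_SL2 ?_ _ (hχ.comp_surjective π hπ) s hs
  have := FiniteField.cast_card_eq_zero F
  rw [e, Nat.cast_pow] at this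
  exact_mod_cast pow_eq_zero_iff (by omega) |>.1 this

theorem solv_of_odd_ker {π : G →* H} (h : ¬ 2 ∣ Nat.card π.ker) [Group.IsSolvable H] :
    Group.IsSolvable G :=
  haveI := solv_of_two_not_dvd h
  solvable_of_ker_le_range π.ker.subtype π (range_subtype _).ge

theorem PNil.solv (h : PNil 2 G) : Group.IsSolvable G := by
  obtain ⟨k, hk⟩ := h
  haveI := (IsPGroup.of_card (G := G ⧸ pPrimeCore 2 G) hk).isNilpotent
  exact solv_of_odd_ker (π := QuotientGroup.mk' (pPrimeCore 2 G))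
    (by rw [QuotientGroup.ker_mk']; exact not_dvd_card_pPrimeCore)

theorem AS.abs (h : AS 2 P) : AbS P ⊤ := by
  obtain ⟨Q, rfl⟩ := h.syl.exists_sylow
  exact ⟨hall_sylow_top Nat.prime_two Q, h.ab⟩

theorem FA.struct (h : FA 2 P) (hO : pPrimeCore 2 G = ⊥) (hs : ¬ Group.IsSolvable G) :
    Nat.card P = 4 ∨ (∀ v ∈ P, v ≠ 1 → ∀ w ∈ P, w ≠ 1 → IsConj v w) ∧
      ∃ L : Subgroup G, L.Normal ∧ P ≤ L ∧ L ⊔ cC P = ⊤ ∧ Lev L := by
  have a := h.as.abs
  rw [pPrimeCore_eq Nat.prime_two] at hO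
  have h0 : ∀ t : G, orderOf t = 2 → Solv C1(t) := fun t ht => by
    obtain ⟨v, v1, e⟩ := h.exists_conj (g := t) (ht ▸ dvd_rfl)
    obtain ⟨x, hx⟩ := isConj_iff.1 e.symm
    rw [pp_of_isPE ⟨1, ht⟩] at hx
    rw [← hx, ← cj_C1]
    exact Solv.cj (h.pnil v.2 (by simpa)).solv x
  obtain ⟨h1, h2, h3⟩ := simple_lay' hO (fun e => hs (solv_top_iff.1 (a.solv_of_nml (a.nml_of_lay e hO))))
    fun K _ e => odd_of_no_inv fun s hs' s2 => e ((h0 s s2).of_le (le_C1_iff.2 hs'.2))
  set L := lay (⊤ : Subgroup G)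
  have hL : L ⊴ ⊤ := lay_nml
  have le : P ≤ L := fun y hy => by
    obtain ⟨q, hq, e⟩ := a.inner hL hy
    have : q⁻¹ * y ∈ ⊤ ⊓ C(L) := ⟨trivial, fun g hg => (commutatorElement_eq_one_iff_mul_comm.1
      (mem_bot.1 (hO ▸ hL.pcore_le_pcore (e g hg)))).symm⟩
    rw [h1, mem_bot, inv_mul_eq_one] at this
    exact this ▸ hq.2
  have b := (a.sub le le_top).top
  by_cases r : PRankLE 2 2 L
  · exact Or.inl (H18.card_subgroupOf le ▸ (b.four_of_rank h3 r).1)
  obtain ⟨K, hK⟩ := b.se_of_solv h3 r fun t ht => solv_map_subtype.1 (by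
    rw [map_C1]; exact (h0 t (by rwa [orderOf_coe])).of_le inf_le_right)
  have c := b.pe hK
  have tr : ∀ y ∈ P, y ≠ 1 → ∀ w ∈ P, w ≠ 1 → ∃ m ∈ L ⊓ nN P, m * y * m⁻¹ = w := by
    intro y hy y1 w hw w1
    have y2 : (⟨y, le hy⟩ : L) ≠ 1 := by simpa using y1
    obtain ⟨m, hm, e⟩ := cls_eq (P := P.subgroupOf L) hy y2 (w := ⟨w, le hw⟩) (by
      have h4 := c.cardN
      rw [← H18.card_mul_relIndex le_N, ← mul_add_one] at h4
      rw [show c1 _ = _ from c.cen _ hy y2]
      exact Nat.eq_of_mul_eq_mul_left Nat.card_pos h4) hw (by simpa using w1)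
    exact ⟨m, (map_nN_sub le).le ⟨m, hm, rfl⟩, congrArg Subtype.val e⟩
  refine Or.inr ⟨fun y hy y1 w hw w1 => ?_, L, hL.normal, le, top_le_iff.1 ?_, c.iso⟩
  · obtain ⟨m, -, e⟩ := tr y hy y1 w hw w1
    exact isConj_iff.2 ⟨m, e⟩
  rw [← frattini_arg Nat.prime_two hL (a.sub le le_top).syl]
  refine sup_le le_sup_left fun n hn => ?_
  obtain ⟨y, hy, y1⟩ := (bot_or_exists_ne_one P).resolve_left fun e => b.ne_bot_of h3 (by simp [e])
  obtain ⟨m, hm, e⟩ := tr y hy y1 _ (conj_mem_nN hn.2 hy) (by simpa using y1)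
  have h6 : m⁻¹ * n ∈ cC P := h.free y hy y1 (mem_inf.2 ⟨mem_c1'.2 (by
    calc _ = m⁻¹ * (n * y * n⁻¹) * m := by group
      _ = _ := by rw [← e]; group), mul_mem (inv_mem (mem_inf.1 hm).2) (mem_inf.1 hn).2⟩)
  simpa using mul_mem (mem_sup_left (mem_inf.1 hm).1) (mem_sup_right h6)

/-- the abelian inertial quotient acts freely off its fixed points -/
structure Fz (P : Subgroup G) : Prop where
  free : ∀ v ∈ P, nN P ≤ c1 v ∨ c1 v ⊓ nN P ≤ cC P
  comm : ∀ a ∈ nN P, ∀ b ∈ nN P, ⁅a, b⁆ ∈ cC P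
  one : ei P ≠ 1

theorem Fz.map (f : Fz P) {π : G →* H} (q : QH π P) (e : (nN P).map π = nN (P.map π)) :
    Fz (P.map π) := by
  refine ⟨?_, ?_, by rw [ei, ← e, q.rel le_rfl]; exact f.one⟩
  · rintro _ ⟨v, hv, rfl⟩
    rw [← e, ← q.map_inf hv, map_le_iff_le_comap, map_le_iff_le_comap]
    exact (f.free v hv).imp (fun h n hn => (q.c1_iff hn hv).2 (h hn))
      fun h n hn => (q.cC_iff hn.2).2 (h hn)
  · rw [← e]
    rintro _ ⟨a, ha, rfl⟩ _ ⟨b, hb, rfl⟩
    rw [← map_commutatorElement]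
    exact (q.cC_iff (H8.cC_le_nN P (f.comm a ha b hb))).2 (f.comm a ha b hb)

theorem comm_of_quot (h : ∀ a b : nN P ⧸ (cC P).subgroupOf (nN P), a * b = b * a) {a b : G}
    (ha : a ∈ nN P) (hb : b ∈ nN P) : ⁅a, b⁆ ∈ cC P := by
  have : (QuotientGroup.mk' ((cC P).subgroupOf (nN P))) ⁅(⟨a, ha⟩ : nN P), ⟨b, hb⟩⁆ = 1 := by
    rw [map_commutatorElement, commutatorElement_eq_one_iff_mul_comm, h]
  exact mem_subgroupOf.1 ((QuotientGroup.eq_one_iff _).1 this)

theorem fz_of_prime (h : (ei P).Prime) : Fz P := by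
  refine ⟨fun v hv => ?_, fun a ha b hb => comm_of_quot ?_ ha hb, h.ne_one⟩
  · rcases (Nat.dvd_prime h).1 (Dvd.intro _ (es_mul hv)) with e | e
    · exact Or.inr (relIndex_eq_one.1 e)
    · have := es_mul hv
      rw [e] at this
      exact Or.inl (relIndex_eq_one.1 (Nat.eq_of_mul_eq_mul_left h.pos (this.trans (mul_one _).symm)))
  · haveI := Fact.mk h
    exact (isCyclic_of_prime_card (p := ei P) rfl).isMulCommutative.is_comm.comm

variable [PM 2 M]

theorem FA.card_eq (h : FA 2 P) (hO : pPrimeCore 2 G = ⊥) (hs : ¬ Group.IsSolvable G) :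
    Nat.card (principalBlock M G) = Nat.card P := by
  classical
  have hn : ¬ PNil 2 G := fun e => hs e.solv
  have h1 := h.syl.card
  rw [card_top] at h1
  rcases h.struct hO hs with e | ⟨tr, L, _, le, hL, hv⟩
  · rw [e, (k4_of_not_pnil (Nat.pow_right_injective le_rfl (h1.symm.trans e)) hn).main.1]
  have h2 : (Nat.card G).factorization 2 ≠ 0 := (Nat.prime_two.factorization_pos_of_dvd
    Nat.card_pos.ne' (by_contra fun e => hs (solv_top_iff.1
      (solv_of_two_not_dvd (by rwa [card_top]))))).ne'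
  obtain ⟨t, ht, t2⟩ := exists_inv (h1 ▸ dvd_pow_self 2 h2)
  have h3 := h.mu_eq (M := M) ht (ne1 t2) t
  rw [pp_of_isPE ⟨1, t2⟩, if_pos (IsConj.refl t), mu, finsum_mem_congr rfl (g := fun _ => 1)
    fun χ hχ => ?_, finsum_mem_eq_finite_toFinset_sum _ (Set.toFinite _)] at h3
  · rw [Nat.card_coe_set_eq, Set.ncard_eq_toFinset_card _ (Set.toFinite _)]
    simpa using h3
  refine (sm_of_lev hv _ (H8.AD.irr_res (h.syl.of_le le le_top) hL (fun e => h.syl.not_dvd
    (e.trans (relIndex_top_right P ▸ index_dvd_of_le le))) hχ) ⟨t, le ht⟩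
      (by rwa [← orderOf_coe])).resolve_left fun e => ?_
  obtain ⟨g, hg, e2⟩ := exists_ne_zero_of_defect isPBlock_principalBlock
    (by rwa [blockDefect_principal (M := M)]) hχ
  obtain ⟨v, v1, e3⟩ := h.exists_conj hg
  exact e2 ((h.apply hχ ht (ne1 t2) (e3.trans (tr v v.2 (by simpa) t ht (ne1 t2)))).trans e)

theorem AS.main_aux (n : ℕ) : ∀ {G : Type u} [Group G] [Finite G], Nat.card G = n →
    ∀ {P : Subgroup G}, AS 2 P → Fz P → blockRank 2 (principalBlock M G) = ei P ∧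
      (¬ Group.IsSolvable G → iz P = ei P + 1) := by
  induction n using Nat.strong_induction_on with
  | _ n ih =>
  intro G _ _ hG P h f
  have step : ∀ (K : Subgroup G) [K.Normal], K ≠ ⊥ → QH (QuotientGroup.mk' K) P →
      blockRank 2 (principalBlock M G) = blockRank 2 (principalBlock M (G ⧸ K)) →
      (Group.IsSolvable (G ⧸ K) → Group.IsSolvable G) → blockRank 2 (principalBlock M G) = ei P ∧
      (¬ Group.IsSolvable G → iz P = ei P + 1) := by
    intro K _ h0 q e hs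
    have hπ := QuotientGroup.mk'_surjective K
    have h1 := ih _ (by
      rw [← hG, card_eq_card_quotient_mul_card_subgroup K]
      exact lt_mul_of_one_lt_right Nat.card_pos ((one_lt_card_iff_ne_bot K).2 h0)) rfl (h.map hπ)
      (f.map q (h.syl.map_nN hπ))
    rw [ei, iz, ← h.syl.map_nN hπ, q.rel le_rfl, q.iz] at h1
    exact ⟨e.trans h1.1, fun e => h1.2 (mt hs e)⟩
  by_cases hO : pPrimeCore 2 G = ⊥
  swap
  · have h1 : ¬ 2 ∣ Nat.card (QuotientGroup.mk' (pPrimeCore 2 G)).ker := by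
      rw [QuotientGroup.ker_mk']; exact not_dvd_card_pPrimeCore
    refine step _ hO (qh_of_inf (eq_bot_iff.2 fun x hx => (isPE_of_mem h.syl.isPGroup hx.1).eq_one
      (not_dvd_orderOf_of_mem h1 hx.2))) ?_ fun _ => solv_of_odd_ker h1
    rw [principal_odd (QuotientGroup.mk'_surjective _) h1, blockRank_icomp]
  by_cases hz : ∃ z ∈ P, z ≠ 1 ∧ nN P ≤ c1 z
  · obtain ⟨y, hy, y1, e⟩ := hz
    obtain ⟨z, ⟨k, rfl⟩, z2⟩ := exists_inv (K := zpowers y) (by
      rw [Nat.card_zpowers]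
      exact by_contra fun e => y1 ((isPE_of_mem h.syl.isPGroup hy).eq_one e))
    have h1 := h.abs.zstar (zpow_mem hy k) z2 fun n hn => mem_centralizer_singleton_iff.2
      (Commute.zpow_right (mem_centralizer_singleton_iff.1 (e hn.2)) k)
    rw [← pPrimeCore_eq Nat.prime_two, hO, le_bot_iff, commutator_eq_bot_iff_le_centralizer] at h1
    have h2 : ∀ z ∈ zpowers (y ^ k), ∀ g, g * z = z * g := fun z hz g => (h1 trivial z hz).symm
    haveI : (zpowers (y ^ k)).Normal := ⟨fun z hz g => by simpa [h2 z hz g]⟩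
    have hπ := QuotientGroup.mk'_surjective (zpowers (y ^ k))
    rw [← QuotientGroup.ker_mk' (zpowers (y ^ k))] at h2
    have h3 : IsPGroup 2 (QuotientGroup.mk' (zpowers (y ^ k))).ker := by
      rw [QuotientGroup.ker_mk']; exact IsPE.isPGroup_zpowers ⟨1, z2⟩
    refine step _ (by simpa using ne1 z2) (h.qh h3 h2) ?_ fun _ => ?_
    · rw [blockRank_quot hπ h3 (fun y _ z hz => (h2 z hz y).symm)
        (isSat_of_isPBlock isPBlock_principalBlock), preimage_principal hπ fun χ ψ =>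
          sameBlock_of_comp hπ h3 fun y _ z hz => (h2 z hz y).symm]
    · haveI := h3.isNilpotent
      exact solvable_of_ker_le_range _ (QuotientGroup.mk' (zpowers (y ^ k))) (range_subtype _).ge
  have a : FA 2 P := ⟨h.syl, h.ab, fun y hy y1 =>
    (f.free y hy).resolve_left fun e => hz ⟨y, hy, y1, e⟩⟩
  haveI : Nontrivial P := (nontrivial_iff_ne_bot P).2 fun e => f.one (relIndex_eq_one.2 fun x _ =>
    mem_cC'.2 fun y hy => by simp [mem_bot.1 (e.le hy)])
  by_cases hs : Group.IsSolvable G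
  · have h1 := h.abs.nml_of_solv (solv_top_iff.2 hs) (by rwa [← pPrimeCore_eq Nat.prime_two])
    haveI : P.Normal := normalizer_eq_top_iff.1 (top_le_iff.1 h1)
    exact ⟨a.rank_of_normal fun a b => f.comm a (h1 trivial) b (h1 trivial), fun e => (e hs).elim⟩
  obtain ⟨h1, h2⟩ := a.rank_le (M := M)
  have h3 : iz P = Nat.card P := by
    rw [iz, ← inf_relIndex_right, ← relIndex_bot_left]
    congr 1
    exact eq_bot_iff.2 fun y hy => by_contra fun e =>
      hz ⟨y, hy.2, e, le_centralizer_singleton_iff.2 hy.1⟩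
  rw [a.card_eq hO hs] at h2
  have h4 := f.one
  have h5 := ei_ne_zero P
  have h6 := Finite.one_lt_card (α := P)
  rw [h3]
  generalize ei P = e, Nat.card P = q, blockRank 2 (principalBlock M G) = l at *
  obtain ⟨d, rfl⟩ := Nat.exists_eq_add_of_lt (show l < q by nlinarith)
  obtain ⟨e, rfl⟩ : ∃ k, e = k + 2 := ⟨e - 2, by omega⟩
  have : d = 0 := by nlinarith
  subst this
  have : l = e + 2 := by nlinarith
  exact ⟨this, fun _ => by omega⟩

theorem AS.main (h : AS 2 P) (f : Fz P) : blockRank 2 (principalBlock M G) = ei P ∧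
    (¬ Group.IsSolvable G → iz P = ei P + 1) := AS.main_aux _ rfl h f

theorem AS.rank_c1 (h : AS 2 P) {v : G} (hv : v ∈ P) (e : es P v = 1 ∨ (es P v).Prime) :
    blockRank 2 (principalBlock M (c1 v)) = es P v := by
  rcases e with e | e
  · rw [e, (h.pnil hv e).blockRank]
  · rw [es, ← ei_sub (h.le_c1 hv)] at e ⊢
    exact ((h.sub (h.le_c1 hv)).main (fz_of_prime e)).1

theorem AS.card_prime (h : AS 2 P) (e : (ei P).Prime) : ∃ z, z * iz P = Nat.card P ∧
    (∃ y, z + y * ei P = Nat.card P) ∧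
    Nat.card (principalBlock M G) * ei P + z = z * ei P ^ 2 + Nat.card P := by
  classical
  have := Fintype.ofFinite P
  let Z := (cC (nN P)).subgroupOf P
  have hZ : ∀ v : P, v ∈ Z ↔ nN P ≤ c1 (v : G) := fun v => le_centralizer_singleton_iff.symm
  have h1 : ∀ v : P, v ∉ Z → es P v = 1 := fun v hv =>
    relIndex_eq_one.2 (((fz_of_prime e).free v v.2).resolve_left (mt (hZ v).2 hv))
  have h2 : Nat.card Z = (Finset.univ.filter (· ∈ Z)).card := by
    rw [Nat.card_eq_fintype_card, Fintype.card_subtype]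
  have h3 := Finset.card_filter_add_card_filter_not (s := Finset.univ) (· ∈ Z)
  rw [Finset.card_univ, ← Nat.card_eq_fintype_card, ← h2] at h3
  have h4 : Nat.card (principalBlock M G) * ei P + Nat.card Z =
      Nat.card Z * ei P ^ 2 + Nat.card P := by
    rw [h.card_mul, Finset.sum_congr rfl (g := fun v => if v ∈ Z then ei P ^ 2 else 1) fun v _ => ?_,
      Finset.sum_ite, Finset.sum_const, Finset.sum_const, ← h2, ← h3, smul_eq_mul, smul_eq_mul]
    · ring
    split_ifs with hv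
    · rw [h.rank_c1 v.2 (Or.inr (by rwa [es_of_le ((hZ v).1 hv)])), es_of_le ((hZ v).1 hv), sq]
    · rw [h.rank_c1 v.2 (Or.inl (h1 v hv)), h1 v hv]
  refine ⟨Nat.card Z, Z.card_mul_index, ?_, h4⟩
  obtain ⟨y, hy⟩ : ei P ∣ (Finset.univ.filter (· ∉ Z)).card := by
    rw [← h3, ← add_assoc, add_right_comm, add_right_cancel_iff] at h4
    exact (Nat.dvd_add_right (Dvd.dvd.mul_left (dvd_pow_self _ two_ne_zero) _)).1
      (h4 ▸ dvd_mul_left _ _)
  exact ⟨y, by rw [← h3, hy, mul_comm]⟩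

end H7
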