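import Cfsg.Agent.H7.Ab2
import Cfsg.Agent.S0944

/-! The principal `2`-block with Sylow subgroup `2⁴` and inertial index `9` (`AS.nine`): orbits of
the inertial group (`nine_struct`), the integral matrix lemma `Q9.odd`. -/

set_option autoImplicit false

open Cfsg Subgroup H5 MulAction
open H8 (cC nN c1)
open scoped ComplexConjugate

namespace H7

section comb
variable {ι : Type*} [Fintype ι] [DecidableEq ι] {N N' : ι → ι → ℤ} {w : ι → ℤ} {i j : ι}

/-- `N/4` is a symmetric idempotent fixing `w` -/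
structure Q9 (N : ι → ι → ℤ) (w : ι → ℤ) : Prop where
  symm : ∀ i j, N i j = N j i
  sq : ∀ i j, ∑ k, N i k * N k j = 4 * N i j
  eig : ∀ i, ∑ k, N i k * w k = 4 * w i
  one : ∀ i, w i ^ 2 = 1 ∨ w i ^ 2 = 4 ∧ N i i = 2
  two : ∀ a b c, w a ^ 2 = 4 → w b ^ 2 = 4 → w c ^ 2 = 4 → a = b ∨ a = c ∨ b = c

namespace Q9
variable (h : Q9 N w)
include h

omit [DecidableEq ι] in
theorem par (k : ι) : Even (∑ l, if w l ^ 2 = 4 then N k l else 0) := by
  have h1 : Even (∑ l, (N k l * N l k - N k l * w l - if w l ^ 2 = 4 then N k l else 0)) :=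
    Finset.even_sum _ fun l _ => by
      rw [h.symm l k]
      split_ifs with e
      · convert (Int.even_mul_pred_self (N k l)).sub ((Had.even_of_sq e).mul_left (N k l)) using 1
        ring
      · have := Had.odd_of_sq ((h.one l).resolve_right fun e' => e e'.1)
        rw [sub_zero, ← mul_sub]
        grind
  rw [Finset.sum_sub_distrib, Finset.sum_sub_distrib, h.sq, h.eig] at h1
  grind

omit [DecidableEq ι] in
theorem diag (hi : w i ^ 2 = 4) : N i i = 2 := ((h.one i).resolve_left (by omega)).2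

omit [DecidableEq ι] in
theorem zo (hi : w i ^ 2 = 4) (h0 : ∀ j ≠ i, w j ^ 2 = 4 → N i j = 0) (k : ι) :
    N i k = 0 ∨ 2 * N i k = w i * w k := by
  have h1 : ∑ k, N i k * (2 * N i k - w i * w k) = 0 := by
    rw [Finset.sum_congr rfl (g := fun k => 2 * (N i k * N k i) - w i * (N i k * w k))
      fun k _ => by rw [h.symm k i]; ring, Finset.sum_sub_distrib, ← Finset.mul_sum,
      ← Finset.mul_sum, h.sq, h.eig, h.diag hi]
    linarith
  have h2 := (Finset.sum_eq_zero_iff_of_nonneg fun k _ => ?_).1 h1 k (Finset.mem_univ k)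
  · exact (mul_eq_zero.1 h2).imp_right sub_eq_zero.1
  rcases h.one k with e | e
  · have : (w i * w k) ^ 2 = 2 ^ 2 := by rw [mul_pow, hi, e]; rfl
    rcases sq_eq_sq_iff_eq_or_eq_neg.1 this with e | e <;> rw [e] <;>
      rcases le_or_gt (N i k) (-1) with h3 | h3 <;> rcases le_or_gt (N i k) 0 with h4 | h4 <;>
      nlinarith
  · by_cases e' : k = i
    · rw [e', h.diag hi]; nlinarith
    · rw [h0 k e' e.1, zero_mul]

theorem par2 (hi : w i ^ 2 = 4) (hj : w j ^ 2 = 4) (ne : i ≠ j) (k : ι) : Even (N k i + N k j) := by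
  have := h.par k
  rwa [Fintype.sum_eq_add i j ne fun l hl => if_neg fun e => by
    have := h.two i j l hi hj e; grind, if_pos hi, if_pos hj] at this

theorem exists_ne (hi : w i ^ 2 = 4) : ∃ j ≠ i, w j ^ 2 = 4 ∧ N i j ≠ 0 := by
  by_contra! h0
  obtain ⟨k, ne, hk⟩ : ∃ k ≠ i, N i k ≠ 0 := by
    by_contra! e
    have := h.sq i i
    rw [Fintype.sum_eq_single i fun k hk => by rw [e k hk, zero_mul], h.diag hi] at this
    omega
  have h1 := (h.zo hi h0 k).resolve_left hk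
  have h2 := (h.one k).resolve_right fun e => hk (h0 k ne e.1)
  have h3 : Odd (N i k) := Had.odd_of_sq (by
    have : (2 * N i k) ^ 2 = 4 := by rw [h1, mul_pow, hi, h2, mul_one]
    linarith)
  obtain ⟨j, ne', hj⟩ : ∃ j ≠ i, w j ^ 2 = 4 := by
    by_contra! e
    have := h.par k
    rw [Fintype.sum_eq_single i fun l hl => if_neg (e l hl), if_pos hi, h.symm] at this
    exact Int.not_even_iff_odd.2 h3 this
  have h4 := h.zo hj fun l hl e => by
    obtain rfl : l = i := by have := h.two i j l hi hj e; grind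
    rw [h.symm, h0 j ne' hj]
  have h5 : ∀ l, w i * w j * (N i l * N l j) = 0 ∨ 4 * (w i * w j * (N i l * N l j)) =
      (w i * w j * w l) ^ 2 := fun l => by
    rw [h.symm l j]
    have := h.zo hi h0 l
    have := h4 l
    grind
  have h6 : ∑ l, w i * w j * (N i l * N l j) = 0 := by
    rw [← Finset.mul_sum, h.sq, h0 j ne' hj]; simp
  have h7 := (Finset.sum_eq_zero_iff_of_nonneg fun l _ => by
    rcases h5 l with e | e
    · exact e.ge
    · nlinarith [sq_nonneg (w i * w j * w l)]).1 h6 k (Finset.mem_univ k)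
  have h8 := h.par2 hi hj ne'.symm k
  rw [h.symm k i] at h8
  have : N k j ≠ 0 := fun e => by rw [e, add_zero] at h8; exact Int.not_even_iff_odd.2 h3 h8
  grind

theorem row (hi : w i ^ 2 = 4) : ∃ j ≠ i, w j ^ 2 = 4 ∧ N i j * w j = 2 * w i ∧
    ∀ k, k ≠ i ∧ k ≠ j → N i k = 0 := by
  obtain ⟨j, ne, hj, h0⟩ := h.exists_ne hi
  have h1 := h.par2 hi hj ne.symm i
  rw [h.diag hi] at h1
  have h2 := Had.four_le_sq (n := N i j) (by grind) h0
  have h3 : ∀ k, k ≠ i ∧ k ≠ j → N i k = 0 := fun k hk =>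
    Had.eq_zero_of_sum_sq (a := N i) (s := {i, j}) (by
      rw [Finset.sum_pair ne.symm, Had.ip, Finset.sum_congr rfl (g := fun k => N i k * N k i)
        fun k _ => by rw [h.symm k i], h.sq, h.diag hi]
      linarith) (by simpa using hk)
  refine ⟨j, ne, hj, ?_, h3⟩
  have := h.eig i
  rw [Fintype.sum_eq_add i j ne.symm fun k hk => by rw [h3 k hk, zero_mul], h.diag hi] at this
  linarith

theorem odd (h' : Q9 N' w) (e : ∀ i, ∑ k, N i k * N' k i = w i ^ 2) (i : ι) : w i ^ 2 = 1 := by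
  refine (h.one i).resolve_right fun ⟨hi, _⟩ => ?_
  obtain ⟨j, ne, hj, h1, h2⟩ := h.row hi
  obtain ⟨j', ne', hj', h1', -⟩ := h'.row hi
  obtain rfl : j' = j := by have := h.two i j j' hi hj hj'; grind
  have := e i
  rw [Fintype.sum_eq_add i j' ne.symm fun k hk => by rw [h2 k hk, zero_mul], h.diag hi, h'.diag hi,
    h'.symm j' i] at this
  grind

end Q9

omit [DecidableEq ι] in
theorem eig_of (q : ∀ i j, ∑ k, N i k * N k j = 4 * N i j)
    (m : ∀ i j, ∑ k, N i k * N' k j = w i * w j) (h0 : w i ≠ 0) : ∑ k, N i k * w k = 4 * w i := by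
  refine mul_right_cancel₀ h0 ?_
  rw [mul_assoc, ← m, Finset.mul_sum, Finset.sum_mul]
  simp only [mul_assoc, ← m, Finset.mul_sum]
  rw [Finset.sum_comm]
  exact Finset.sum_congr rfl fun k _ => by
    rw [← mul_assoc, ← q, Finset.sum_mul]; simp only [mul_assoc]

theorem nine_card (s : ∀ i j, N i j = N j i) (s' : ∀ i j, N' i j = N' j i)
    (q : ∀ i j, ∑ k, N i k * N k j = 4 * N i j) (q' : ∀ i j, ∑ k, N' i k * N' k j = 4 * N' i j)
    (m : ∀ i j, ∑ k, N i k * N' k j = w i * w j) (t : ∑ i, N i i = 16) (t' : ∑ i, N' i i = 16)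
    (h0 : ∀ i, w i ≠ 0) (hw : ∑ i, w i ^ 2 = 16) (l : ∀ i, w i ^ 2 < 4 * N i i)
    (l' : ∀ i, w i ^ 2 < 4 * N' i i) (u : ∀ i, 4 * N i i + 4 * N' i i < 16 + w i ^ 2) :
    Fintype.card ι = 8 ∨ Fintype.card ι = 16 := by
  have c : ∀ i, w i ^ 2 = 1 ∧ N i i + N' i i ≤ 4 ∨ (w i ^ 2 = 4 ∧ N i i = 2 ∧ N' i i = 2) ∨
      w i ^ 2 = 9 ∧ N i i + N' i i = 6 := fun i => by
    have h1 := hw ▸ Finset.single_le_sum (f := fun i => w i ^ 2) (fun _ _ => sq_nonneg _)
      (Finset.mem_univ i)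
    have := h0 i; have := l i; have := l' i; have := u i
    have h2 : w i ≤ 4 := by nlinarith
    have h3 : -4 ≤ w i := by nlinarith
    generalize w i = x at *
    interval_cases x <;> omega
  have g : ∀ S : Finset ι, ∑ i ∈ S, (4 * w i ^ 2 - (N i i + N' i i)) ≤ 32 := fun S => by
    refine (Finset.sum_le_univ_sum_of_nonneg fun i => by have := c i; omega).trans ?_
    rw [Finset.sum_sub_distrib, Finset.sum_add_distrib, ← Finset.mul_sum, hw, t, t']
    rfl
  have n4 : ∀ i, w i ^ 2 ≠ 4 := fun i hi => by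
    have c2 : ∀ j, w j ^ 2 = 1 ∨ w j ^ 2 = 4 ∧ N j j = 2 ∧ N' j j = 2 := fun j => by
      by_cases e : i = j
      · have := c j; grind
      · have := g {i, j}
        rw [Finset.sum_pair e] at this
        have := c i; have := c j; omega
    have c3 : ∀ a b c, w a ^ 2 = 4 → w b ^ 2 = 4 → w c ^ 2 = 4 → a = b ∨ a = c ∨ b = c := by
      intro a b d ha hb hd
      by_contra! e
      have := g {a, b, d}
      rw [Finset.sum_insert (by simp [e]), Finset.sum_pair e.2.2] at this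
      have := c2 a; have := c2 b; have := c2 d; omega
    have := Q9.odd ⟨s, q, fun i => eig_of q m (h0 i), fun i => by have := c2 i; omega, c3⟩
      ⟨s', q', fun i => eig_of (N' := N) q' (fun i j => by
        rw [mul_comm, ← m]; exact Finset.sum_congr rfl fun k _ => by rw [s' i k, s k j, mul_comm])
        (h0 i), fun i => by have := c2 i; omega, c3⟩ (fun i => by rw [m, sq]) i
    omega
  rw [Finset.sum_congr rfl (g := fun i => 1 + if w i ^ 2 = 9 then 8 else 0) fun i _ => by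
    have := c i; have := n4 i; split_ifs <;> omega, Finset.sum_add_distrib, ← Finset.sum_filter,
    Finset.sum_const, Finset.sum_const, Finset.card_univ] at hw
  have := Finset.card_le_univ (Finset.univ.filter fun i => w i ^ 2 = 9)
  simp only [nsmul_eq_mul] at hw
  omega

end comb

section act
variable {D : Type*} [Group D] [Finite D] {E : Subgroup (MulAut D)} {V : Subgroup D} {u x : D}

theorem ncard_ec (u : D) : {x | EC E u x}.ncard * Nat.card (stabilizer E u) = Nat.card E := by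
  rw [← (stabilizer E u).index_mul_card, index_stabilizer]
  congr 2
  exact Set.ext fun _ => ⟨fun ⟨σ, h, e⟩ => ⟨⟨σ, h⟩, e⟩, fun ⟨σ, e⟩ => ⟨σ, σ.2, e⟩⟩

theorem ec_four (hE : Nat.card E = 9) (h4 : Nat.card V = 4) (hV : ∀ σ ∈ E, ∀ v ∈ V, σ v ∈ V)
    (hu : u ∈ V) {τ : MulAut D} (hτ : τ ∈ E) (h : τ u ≠ u) :
    {x | EC E u x} = (V : Set D) \ {1} := by
  have u1 : u ≠ 1 := by rintro rfl; simp at h
  have h1 : {x | EC E u x} ⊆ (V : Set D) \ {1} := by
    rintro _ ⟨σ, hσ, rfl⟩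
    exact ⟨hV σ hσ u hu, by simpa⟩
  have h2 : ((V : Set D) \ {1}).ncard = 3 := by
    rw [Set.ncard_diff_singleton_of_mem V.one_mem, ← Nat.card_coe_set_eq, SetLike.coe_sort_coe, h4]
  have h3 := Set.ncard_le_ncard h1
  have h5 : 1 < {x | EC E u x}.ncard :=
    (Set.one_lt_ncard (Set.toFinite _)).2 ⟨_, ⟨τ, hτ, rfl⟩, _, EC.refl u, h⟩
  have h6 := ncard_ec (E := E) u
  refine Set.eq_of_subset_of_ncard_le h1 ?_
  rw [h2] at h3 ⊢
  by_contra h7
  rw [show {x | EC E u x}.ncard = 2 by omega] at h6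
  omega

theorem fix_four (hE : Nat.card E = 9) (h4 : Nat.card V = 4) (hV : ∀ σ ∈ E, ∀ v ∈ V, σ v ∈ V)
    (hu : u ∈ V) (u1 : u ≠ 1) {τ : MulAut D} (hτ : τ ∈ E) (h : τ u = u) (hx : x ∈ V) : τ x = x := by
  by_contra e
  obtain ⟨ρ, hρ, rfl⟩ := (ec_four hE h4 hV hx hτ e).ge ⟨hu, u1⟩
  have := (IsPGroup.isMulCommutative_of_card_eq_prime_sq (p := 3) hE).is_comm.comm ⟨τ, hτ⟩ ⟨ρ, hρ⟩
  have h1 : τ (ρ x) = ρ (τ x) := congrArg (fun σ : E => σ.1 x) this
  exact e (ρ.injective (h1.symm.trans h))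

theorem nine_struct (hc : ∀ a b : D, a * b = b * a) (h2 : ∀ a : D, a * a = 1)
    (hD : Nat.card D = 16) (hE : Nat.card E = 9) : ∃ (V W : Subgroup D) (u v w : D),
    Nat.card V = 4 ∧ Nat.card W = 4 ∧ Disjoint V W ∧ {x | EC E u x} = (V : Set D) \ {1} ∧
    {x | EC E v x} = (W : Set D) \ {1} ∧ {x | EC E w x} = ((V : Set D) ∪ W)ᶜ ∧
    {x | EC E w x}.ncard = 9 := by
  letI : CommGroup D := { (inferInstance : Group D) with mul_comm := hc }
  obtain ⟨σ, hσ, y, y1, e, σ1⟩ : ∃ σ ∈ E, ∃ y, y ≠ 1 ∧ σ y = y ∧ σ ≠ 1 := by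
    by_contra! h
    have := Fr.card_image ⟨hc, h⟩ (ζ := fun l => {m | Orb E l m}) fun l _ m _ =>
      ⟨fun e => e.ge (Orb.refl m), fun e => Set.ext fun _ => ⟨e.symm.trans, e.trans⟩⟩
    rw [hE, hD] at this
    omega
  have cm : ∀ ρ ∈ E, ∀ x, σ (ρ x) = ρ (σ x) := fun ρ hρ x => congrArg (fun σ : E => σ.1 x)
    ((IsPGroup.isMulCommutative_of_card_eq_prime_sq (p := 3) hE).is_comm.comm ⟨σ, hσ⟩ ⟨ρ, hρ⟩)
  let φ : D →* D := σ.toMonoidHom / MonoidHom.id D
  have hφ : ∀ x, x ∈ φ.ker ↔ σ x = x := fun x => div_eq_one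
  have h3 : Nat.card φ.ker = 4 := by
    have h1 := ((IsPGroup.of_card (p := 3) (n := 2) hE).to_subgroup
      (zpowers ⟨σ, hσ⟩)).card_modEq_card_fixedPoints D
    rw [Nat.card_congr (β := φ.ker) (Equiv.subtypeEquivRight fun x => ?_), hD] at h1
    · have h4 : φ.ker ≠ ⊤ := fun e => σ1 (MulEquiv.ext fun x => (hφ x).1 (e ▸ mem_top x))
      have h5 := (one_lt_card_iff_ne_bot _).2 ((ne_bot_iff_exists_ne_one (H := φ.ker)).2
        ⟨⟨y, (hφ y).2 e⟩, by simpa⟩)
      have h6 := hD ▸ card_subgroup_dvd_card φ.ker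
      have h7 : Nat.card φ.ker ≠ 16 := fun e => h4 (eq_top_of_card_eq _ (e.trans hD.symm))
      have h8 := Nat.le_of_dvd (by norm_num) h6
      generalize Nat.card φ.ker = n at *
      interval_cases n <;> simp_all [Nat.ModEq]
    · rw [hφ]
      exact ⟨fun h => h ⟨_, mem_zpowers _⟩, fun h g =>
        (zpowers_le (H := stabilizer E x)).2 h g.2⟩
  have h4 : Nat.card φ.range = 4 := by
    have := φ.ker.index_mul_card
    rw [index_ker, h3, hD] at this
    omega
  have h5 : Disjoint φ.ker φ.range := disjoint_def.2 fun {x} hx ⟨z, hz⟩ => by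
    have e1 : σ z = x * z := div_eq_iff_eq_mul.1 hz
    have e2 : ∀ k : ℕ, (σ ^ k) z = x ^ k * z := fun k => by
      induction k with
      | zero => simp
      | succ k ih => rw [pow_succ', MulAut.mul_apply, ih, map_mul, map_pow, (hφ x).1 hx, e1,
          pow_succ, mul_assoc]
    have e3 := e2 9
    rw [show σ ^ 9 = 1 from congrArg Subtype.val (hE ▸ pow_card_eq_one' (x := (⟨σ, hσ⟩ : E))),
      pow_succ, show 8 = 2 * 4 from rfl, pow_mul, sq, h2] at e3
    simpa using e3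
  have hV : ∀ ρ ∈ E, ∀ v ∈ φ.ker, ρ v ∈ φ.ker := fun ρ hρ v hv => by
    rw [hφ, cm ρ hρ, (hφ v).1 hv]
  have hW : ∀ ρ ∈ E, ∀ v ∈ φ.range, ρ v ∈ φ.range := by
    rintro ρ hρ _ ⟨v, rfl⟩
    exact ⟨ρ v, by simp [φ, cm ρ hρ]⟩
  have top : ∀ ρ : MulAut D, (∀ x ∈ φ.ker, ρ x = x) → (∀ x ∈ φ.range, ρ x = x) → ρ = 1 := by
    intro ρ h h'
    ext x
    obtain ⟨⟨a, b⟩, rfl⟩ := (isComplement'_of_card_mul_and_disjoint (by rw [h3, h4, hD]) h5).2 x
    simp [h a a.2, h' b b.2]
  obtain ⟨⟨v, hv⟩, v1⟩ := ne_bot_iff_exists_ne_one.1 ((one_lt_card_iff_ne_bot φ.range).1 (by omega))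
  replace v1 : v ≠ 1 := by simpa using v1
  have ev := ec_four hE h4 hW hv hσ fun e => v1 (disjoint_def.1 h5 ((hφ v).2 e) hv)
  obtain ⟨⟨τ, hτ⟩, τ1⟩ := ne_bot_iff_exists_ne_one.1 ((one_lt_card_iff_ne_bot (stabilizer E v)).1 (by
    have := ncard_ec (E := E) v
    rw [ev, Set.ncard_diff_singleton_of_mem φ.range.one_mem, ← Nat.card_coe_set_eq,
      SetLike.coe_sort_coe, h4] at this
    omega))
  obtain ⟨u, hu, e⟩ : ∃ u ∈ φ.ker, τ.1 u ≠ u := by
    by_contra! e
    exact τ1 (Subtype.ext (Subtype.ext (top _ e fun x => fix_four hE h4 hW hv v1 τ.2 hτ)))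
  have u1 : u ≠ 1 := by rintro rfl; simp at e
  have h6 : {x | EC E (u * v) x}.ncard = 9 := by
    have := ncard_ec (E := E) (u * v)
    rw [(eq_bot_iff_forall (stabilizer E (u * v))).2 fun ρ hρ => ?_, card_bot, mul_one, hE] at this
    · exact this
    have e1 : ρ.1 u * ρ.1 v = u * v := (map_mul _ _ _).symm.trans hρ
    have e2 : u⁻¹ * ρ.1 u = 1 := disjoint_def.1 h5 (mul_mem (inv_mem hu) (hV _ ρ.2 u hu)) (by
      rw [show u⁻¹ * ρ.1 u = v * (ρ.1 v)⁻¹ by rw [eq_mul_inv_iff_mul_eq, mul_assoc, e1]; simp]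
      exact mul_mem hv (inv_mem (hW _ ρ.2 v hv)))
    rw [inv_mul_eq_one] at e2
    rw [← e2, mul_right_inj] at e1
    exact Subtype.ext (top _ (fun x => fix_four hE h3 hV hu u1 ρ.2 e2.symm)
      fun x => fix_four hE h4 hW hv v1 ρ.2 e1)
  refine ⟨_, _, u, v, u * v, h3, h4, h5, ec_four hE h3 hV hu τ.2 e, ev,
    Set.eq_of_subset_of_ncard_le ?_ ?_, h6⟩
  · rintro x ⟨ρ, hρ, rfl⟩ (h | h)
    · have := hV _ (inv_mem hρ) _ h
      rw [MulAut.inv_apply_self] at this
      exact v1 (disjoint_def.1 h5 ((mul_mem_cancel_left hu).1 this) hv)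
    · have := hW _ (inv_mem hρ) _ h
      rw [MulAut.inv_apply_self] at this
      exact u1 (disjoint_def.1 h5 hu ((mul_mem_cancel_right hv).1 this))
  · have h7 := Set.ncard_union_add_ncard_inter (φ.ker : Set D) φ.range
    have h8 := Set.ncard_add_ncard_compl ((φ.ker : Set D) ∪ φ.range)
    rw [← coe_inf, h5.eq_bot, coe_bot, Set.ncard_singleton, ← Nat.card_coe_set_eq (φ.ker : Set D),
      ← Nat.card_coe_set_eq (φ.range : Set D), SetLike.coe_sort_coe, SetLike.coe_sort_coe] at h7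
    omega

end act

variable {M : Ideal AlgInt} {G : Type*} [Group G] [Finite G] {p : ℕ} {P : Subgroup G}

omit [Finite G] in
theorem sum_sub_eq {ι : Type*} [Fintype ι] (B : Set ι) [Fintype B] {f : ι → ℂ} (h : ∀ i ∉ B, f i = 0) :
    ∑ i : B, f i = ∑ i, f i := by
  classical
  rw [← Finset.sum_subtype (Finset.univ.filter (· ∈ B)) (by simp), Finset.sum_filter_of_ne
    fun i _ e => by_contra fun e' => e (h i e')]

namespace MP
variable [Fact p.Prime] [PM p M]

section
variable {B : Set (IrrCharacter G)} (m : MP p M B P)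

theorem sumB_mul [Fintype B] (a b : P) (θ θ' : G → ℂ) :
    ∑ k : B, m.ct a θ (k : IrrCharacter G) * m.ct b (k : IrrCharacter G) θ' =
      ∑ k : IrrCharacter G, m.ct a θ k * m.ct b k θ' :=
  sum_sub_eq B (f := fun k => m.ct a θ k * m.ct b k θ') fun _ hk =>
    mul_eq_zero_of_right _ (m.ct_of_notMem hk _ _)

theorem sumB_tr [Fintype B] (a : P) :
    ∑ k : B, m.ct a (k : IrrCharacter G) (k : IrrCharacter G) = blockRank p (m.bu a) :=
  (sum_sub_eq B (f := fun k => m.ct a k k) fun _ hk => m.ct_of_notMem hk _ _).trans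
    (m.sum_ct_self' a)

theorem ct_pos {a : P} (ha : (a : G) ∈ cC P) {χ : IrrCharacter G} (hχ : χ ∈ B) {n : ℤ} {c : ℕ}
    (hc : c ≠ 0) (e : c * m.ct a χ χ = n) : 0 < n := by
  have h3 := m.ct_self_nonneg a χ
  have h4 := congrArg Complex.re e
  simp only [Complex.mul_re, Complex.natCast_re, Complex.natCast_im, zero_mul, sub_zero,
    Complex.intCast_re] at h4
  refine lt_of_le_of_ne (Int.cast_nonneg_iff.1 ((mul_nonneg c.cast_nonneg h3).trans h4.le)) fun e' => ?_
  simp [← e', m.ct_self_major_ne_zero ha hχ, hc] at e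

end

variable (m : MP p M (principalBlock M G) P) {v w : P}

theorem fc_ec (h : AS p P) : m.FC v w ↔ EC (autN P) v w :=
  m.fc_pr.trans ((h.isConj_iff' v.2 w.2).trans (ec_autE P.subtype_injective (autN_le P)).symm)

include m in
theorem es_mul_ec (h : AS p P) (v : P) : es P v * {x | EC (autN P) v x}.ncard = ei P := by
  rw [← es_mul v.2, ← m.cl_pr h, cl, ← Nat.card_coe_set_eq]
  exact congrArg _ (Nat.card_congr (Equiv.subtypeEquivRight fun _ => (m.fc_ec h).symm))

theorem ct_pr (h : AS p P) (hv : es P v = 1) {χ ψ : IrrCharacter G} (hχ : χ ∈ principalBlock M G)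
    (hψ : ψ ∈ principalBlock M G) :
    Nat.card P * m.ct v (χ : G → ℂ) ψ = (χ : G → ℂ) v * conj ((ψ : G → ℂ) v) := by
  classical
  have := Fintype.ofFinite (c1 (v : G))
  have hn := h.pnil v.2 hv
  have L := locSet_centralizer (p := p) (m.isPE v)
  let I : c1 (v : G) → ℂ := fun y => if pp p y = selfC (v : G) then 1 else 0
  have h1 : ∀ χ ∈ principalBlock M G, H8.secF p (selfC (v : G)) (m.bu v) (fun x : c1 (v : G) =>
      ((χ : IrrCharacter G) : G → ℂ) x) = (χ : G → ℂ) v • I := fun χ hχ => funext fun y => by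
    simp only [H8.secF, I, Pi.smul_apply]
    split_ifs with e
    · have e' : pp p (y : G) = v := by rw [pp_coe, e, coe_selfC]
      rw [bu_pr, ← L.indSet_principal, smul_eq_mul, mul_one, ← apply_section hn hχ (g := y) (by rw [e'])]
      exact (eq_blockPart_indSet (p := p) L.inj (isSat_of_isPBlock isPBlock_principalBlock)
        (h := y) (by simp [e']) hχ).symm
    · simp
  have h2 : ∀ χ ∈ principalBlock M G, ∀ ψ ∈ principalBlock M G, m.ct v (χ : IrrCharacter G).1
      (ψ : IrrCharacter G).1 = classInner I I * (χ.1 v * conj (ψ.1 v)) := fun χ hχ ψ hψ => by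
    rw [ct_eq, H8.ctr, h1 χ hχ, h1 ψ hψ, classInner_smul_left, classInner_smul_right]; ring
  have h3 := m.sum_ct_self v
  have h4 := mu_principal_of_pnil (M := M) (m.isPE v) hn
  rw [← (h.syl.of_le (h.le_c1 v.2) le_top).card, mu, finsum_mem_def, finsum_eq_sum_of_fintype] at h4
  rw [bu_pr, hn.blockRank, Finset.sum_congr rfl (g := fun χ => classInner I I * _) fun χ _ => ?_,
    ← Finset.mul_sum, h4] at h3
  · rw [h2 χ hχ ψ hψ, ← mul_assoc, mul_comm _ (classInner _ _), h3, Nat.cast_one, one_mul]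
  · rw [Set.indicator_apply]
    split_ifs with e
    exacts [h2 χ e χ e, (mul_zero _).symm]

end MP

universe u

theorem AS.nine {G : Type u} [Group G] [Finite G] {P : Subgroup G} [PM 2 M] (h : AS 2 P)
    (hP : Nat.card P = 16) (h2 : ∀ x : P, x * x = 1) (he : ei P = 9) :
    Nat.card (principalBlock M G) = 16 ∧ blockRank 2 (principalBlock M G) = 9 := by
  classical
  have := Fintype.ofFinite G
  have := Fintype.ofFinite P
  have := Fintype.ofFinite (principalBlock M G)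
  obtain ⟨m⟩ := h.nonempty_mp (M := M)
  obtain ⟨V, W, u, v, w, cV, cW, hd, eu, ev, ew, nw⟩ := nine_struct (fun a b : P =>
    Subtype.ext (h.ab b.2 a a.2)) h2 hP ((card_autN P).trans he)
  have fu : ∀ x, m.FC u x ↔ x ∈ V ∧ x ≠ 1 := fun x => (m.fc_ec h).trans (Set.ext_iff.1 eu x)
  have fv : ∀ x, m.FC v x ↔ x ∈ W ∧ x ≠ 1 := fun x => (m.fc_ec h).trans (Set.ext_iff.1 ev x)
  have fw : ∀ x, m.FC w x ↔ x ∉ V ∧ x ∉ W := fun x =>
    (m.fc_ec h).trans ((Set.ext_iff.1 ew x).trans not_or)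
  have dj : ∀ x ∈ V, x ∈ W → x = 1 := fun x => disjoint_def.1 hd
  have u1 := (fu u).1 (.refl m u)
  have v1 := (fv v).1 (.refl m v)
  have w1 := (fw w).1 (.refl m w)
  have r3 : ∀ {V : Subgroup P} {u : P}, Nat.card V = 4 → {x | EC (autN P) u x} = (V : Set P) \ {1} →
      blockRank 2 (m.bu u) = 3 := fun {V u} c e => by
    have := m.es_mul_ec h u
    rw [e, Set.ncard_diff_singleton_of_mem V.one_mem, ← Nat.card_coe_set_eq,
      SetLike.coe_sort_coe, c, he] at this
    have h3 : es P u = 3 := by omega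
    rw [m.bu_pr, h.rank_c1 u.2 (Or.inr (h3 ▸ Nat.prime_three)), h3]
  have e1 : es P w = 1 := by have := m.es_mul_ec h w; rw [nw, he] at this; omega
  have r1 : blockRank 2 (m.bu w) = 1 := by rw [m.bu_pr, h.rank_c1 w.2 (Or.inl e1), e1]
  have cls : ∀ {φ : P → ℂ}, m.Stb φ → ∑ x, (m.cl x : ℂ)⁻¹ * φ x = φ 1 + φ u + φ v + φ w := by
    intro φ hφ
    rw [← m.sum_fc 1 (φ 1), ← m.sum_fc u (φ u), ← m.sum_fc v (φ v), ← m.sum_fc w (φ w),
      ← Finset.sum_add_distrib, ← Finset.sum_add_distrib, ← Finset.sum_add_distrib]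
    refine Finset.sum_congr rfl fun x _ => ?_
    by_cases a : x = 1
    · simp [a, fu, fv, fw, MP.FC.refl]
    by_cases b : x ∈ V
    · simp [m.fc_one_iff, a, b, fu, fv, fw, mt (dj x b) a, hφ u x ((fu x).2 ⟨b, a⟩)]
    by_cases c : x ∈ W
    · simp [m.fc_one_iff, a, b, c, fu, fv, fw, hφ v x ((fv x).2 ⟨c, a⟩)]
    · simp [m.fc_one_iff, a, b, c, fu, fv, fw, hφ w x ((fw x).2 ⟨b, c⟩)]
  have st : ∀ χ ψ : IrrCharacter G, m.Stb fun x => m.ct x (χ : G → ℂ) ψ := fun χ ψ _ _ e =>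
    e.ct_eq χ.2.isClassFunction ψ.2.isClassFunction
  have hk : Nat.card (principalBlock M G) = blockRank 2 (principalBlock M G) + 7 := by
    have := m.card_eq
    rw [cls fun _ _ e => by rw [e.rank_eq], m.rank_bu_one, r3 cV eu, r3 cW ev, r1] at this
    exact Nat.cast_injective (R := ℂ) (this.trans (by push_cast; ring))
  have key : ∀ V : Subgroup P, Nat.card V = 4 → (∀ x y, m.FC x y → x ∈ V → y ∈ V) →
      ∀ χ ψ : IrrCharacter G, ∃ n : ℤ, (if u ∈ V then 0 else 4) * m.ct u (χ : G → ℂ) ψ +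
        (if v ∈ V then 0 else 4) * m.ct v (χ : G → ℂ) ψ +
        (if w ∈ V then 0 else 4) * m.ct w (χ : G → ℂ) ψ = n := fun V c s χ ψ => by
    have hs : m.Stb fun x => if x ∈ V then (0 : ℂ) else 4 := fun x y e =>
      if_congr ⟨s x y e, s y x e.symm⟩ rfl rfl
    haveI : V.Normal := ⟨fun a ha g => by
      rwa [show g * a = a * g from Subtype.ext (h.ab a.2 g g.2), mul_inv_cancel_right]⟩
    have hi : V.index = 4 := by have := V.index_mul_card; rw [c, hP] at this; omega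
    obtain ⟨n, hn⟩ := (hs.isGen_star (by
      convert (isGen_one.nsmul 4).sub (isGen_ind V) using 1
      funext x
      simp only [hi, Pi.sub_apply, Pi.smul_apply]
      split_ifs <;> simp) χ.2.isGen).exists_classInner_int ψ.2.isGen
    rw [m.inner_star χ.2.isClassFunction ψ.2.isClassFunction, Finset.sum_congr rfl fun x _ => by
      rw [div_eq_inv_mul, mul_assoc]] at hn
    exact ⟨n, by simpa using (cls (hs.mul (st χ ψ))).symm.trans hn⟩
  choose N hN using key W cW fun x y e hx => by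
    by_cases a : x = 1
    · rw [(m.fc_one_iff (v := y)).1 (a ▸ e)]; exact one_mem _
    · exact ((fv y).1 (((fv x).2 ⟨hx, a⟩).trans e)).1
  choose N' hN' using key V cV fun x y e hx => by
    by_cases a : x = 1
    · rw [(m.fc_one_iff (v := y)).1 (a ▸ e)]; exact one_mem _
    · exact ((fu y).1 (((fu x).2 ⟨hx, a⟩).trans e)).1
  simp only [u1.1, v1.1, w1.1, w1.2, mt (dj u u1.1) u1.2, show v ∉ V from fun e => v1.2 (dj v e v1.1), if_true,
    if_false, zero_mul, add_zero, zero_add] at hN hN'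
  choose t ht using fun χ : IrrCharacter G => Cfsg.Agent.S0944.result χ w
    (orderOf_eq_prime (by rw [sq, ← coe_mul, h2, coe_one]) fun e => w1.1 ((OneMemClass.coe_eq_one.1 e).symm ▸ one_mem V))
  have hw : ∀ i j : principalBlock M G, 16 * m.ct w i.1.1 j.1.1 = t i * t j := fun i j => by
    simpa only [hP, (ht _).1, Nat.cast_ofNat, map_intCast] using m.ct_pr h e1 i.2 j.2
  have pos : ∀ a (i : principalBlock M G) (n : ℤ), 16 * m.ct a i.1.1 i.1.1 = n → 0 < n :=
    fun a i n => m.ct_pos (h.ab a.2) i.2 (c := 16) (by norm_num)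
  have nf : ∀ {a b}, ¬ m.FC a b → ¬ m.FC b a := fun e e' => e e'.symm
  have uw : ¬ m.FC u w := by simp [fu, w1]
  have vw : ¬ m.FC v w := by simp [fv, w1]
  have uv : ¬ m.FC u v := fun e => v1.2 (dj v ((fu v).1 e).1 v1.1)
  have := nine_card (N := fun i j : principalBlock M G => N i j) (N' := fun i j => N' i j)
    (w := fun i => t i) ?_ ?_ ?_ ?_ ?_ ?_ ?_ ?_ ?_ ?_ ?_ ?_
  · rw [← Nat.card_eq_fintype_card] at this
    have := h.ei_eq_one (M := M)
    omega
  iterate 2
    refine fun i j => Int.cast_injective (α := ℂ) ?_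
    rw [← map_intCast (starRingEnd ℂ)]
    simp only [← hN, ← hN', map_add, map_mul, m.ct_conj, map_ofNat]
  iterate 3
    refine fun i j => Int.cast_injective (α := ℂ) ?_
    simp only [Int.cast_sum, Int.cast_mul, ← hN, ← hN', ← hw, add_mul, mul_add, mul_mul_mul_comm (4 : ℂ),
      Finset.sum_add_distrib, ← Finset.mul_sum, m.sumB_mul, m.sum_ct_mul', m.sum_ct_mul_of_not uw,
      m.sum_ct_mul_of_not vw, m.sum_ct_mul_of_not uv, m.sum_ct_mul_of_not (nf uw),
      m.sum_ct_mul_of_not (nf vw)]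
    push_cast
    ring
  iterate 2
    refine Int.cast_injective (α := ℂ) ?_
    simp only [Int.cast_sum, ← hN, ← hN', Finset.sum_add_distrib, ← Finset.mul_sum, m.sumB_tr, r1, r3 cV eu,
      r3 cW ev]
    norm_num
  · intro i e
    simpa [e] using pos w i (t i * t i) (by rw [hw]; simp)
  · refine Int.cast_injective (α := ℂ) ?_
    simp [sq, ← hw, ← Finset.mul_sum, m.sumB_tr, r1]
  · exact fun i => sub_pos.1 (pos u i _ (by push_cast; rw [← hN, sq, ← hw]; ring))
  · exact fun i => sub_pos.1 (pos v i _ (by push_cast; rw [← hN', sq, ← hw]; ring))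
  · refine fun i => sub_pos.1 (pos 1 i _ ?_)
    have := m.sum_ct i.2 i.1.2.isClassFunction
    rw [cls (st _ _), i.1.2.classInner_self] at this
    push_cast
    rw [← hN, ← hN', sq, ← hw]
    linear_combination 16 * this

end H7
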