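import Cfsg.Agent.H7.TameG
import Cfsg.Agent.H7.Ab1
import Cfsg.Agent.H20.AFT

/-! Alperin's fusion theorem for Brauer pairs in elementary form (`Act`, `mx_alp`, `MP.alp`,
`MP.rank_one_of_act`, `MP.rank_bu_of_act`), stable linear characters (`MP.exists_stb`,
`MP.sum_lin_rank`), twins in central quotients (`MP.exists_twin`, `DH.le_one_of_twin`). -/

open H5 Cfsg MonoidAlgebra Subgroup
open H8 (cC nN c1 cA mp io St Le Mx NilB)
open H7.Had
open scoped ComplexConjugate Classical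

namespace H7

section alg
variable {G : Type*} [Group G] [Finite G] {k : Type*} [Field k] {N H P Q R : Subgroup G}
  {b e f : k[G]} {p : ℕ}

/-- `t` induces a nontrivial `p'`-automorphism of the centric subpair on `R`. -/
def Act (p : ℕ) (N H P : Subgroup G) (e : k[G]) (R : Subgroup G) (t : G) : Prop :=
  ∃ f, Le p N R f P e ∧ P ⊓ cC R ≤ R ∧ t ∈ H ⊓ nN R ⊓ St f ∧ ¬ p ∣ orderOf t ∧ t ∉ cC R

variable [hp : Fact p.Prime] [CharP k p] [IsAlgClosed k]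

theorem exists_act (m : Mx p N H b P e) {F : FusionSystem P} (hF : H8.IsBF p N H P e F)
    (hR : H20.EssS F p R) {α : Equiv.Perm G} (hα : α ∈ H20.AutF F R) (hq : H20.QElt p α) :
    α = 1 ∨ ∃ t, Act p N H P e R t ∧ ∀ v ∈ R, α v = t * v * t⁻¹ := by
  obtain ⟨f, hf⟩ := m.exists_le hR.le
  rw [hF.autF_eq m hf] at hα
  obtain ⟨g, hg, hn, rfl⟩ := H20.mem_AutK'.1 hα
  have h0 := H20.homOn_cr R
  have h1 : H20.cr R (pp p g) = 1 := by
    obtain ⟨a, ha⟩ := exists_pow_eq_pp (p := p) g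
    obtain ⟨n, hn'⟩ := isPE_pp (p := p) g
    refine orderOf_eq_one_iff.1 (Nat.eq_one_of_dvd_coprimes (Nat.Coprime.pow_right n hq) ?_ ?_)
    · rw [← ha, h0.pow hn]; exact orderOf_pow_dvd _
    · rw [orderOf_dvd_iff_pow_eq_one, ← h0.pow (pp_mem hn), ← hn', pow_orderOf_eq_one, h0.one]
  have h2 : H20.cr R g = H20.cr R (pr p g) := by
    conv_lhs => rw [← pp_mul_pr (p := p) g, h0.mul (pp_mem hn) (pr_mem hn), h1, one_mul]
  rw [h2]
  by_cases h3 : pr p g ∈ cC R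
  · exact .inl ((H20.cr_eq_one_iff (pr_mem hn)).2 h3)
  · exact .inr ⟨_, ⟨f, hf, fun x hx => H20.centric_self (hR.crfn m.pg (hF.sat m)).1
      (H20.mem_cIn.2 hx), pr_mem hg, not_dvd_orderOf_pr g, h3⟩,
      fun v hv => H20.cr_apply (pr_mem hn) hv⟩

theorem mx_alp (m : Mx p N H b P e) {α : Type*} (φ : G → α)
    (h1 : ∀ u ∈ P, ∀ v ∈ P, φ (u * v * u⁻¹) = φ v)
    (h2 : ∀ R t, Act p N H P e R t → ∀ v ∈ R, φ (t * v * t⁻¹) = φ v) (h : Le p N Q f P e) {x : G}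
    (hx : x ∈ H) (h' : Le p N (cj x Q) (cA x f) P e) {v : G} (hv : v ∈ Q) :
    φ (x * v * x⁻¹) = φ v := by
  obtain ⟨F, hF⟩ := m.exists_isBF
  obtain ⟨E, hE⟩ := H20.exists_sub' F (fun R σ => ∀ y ∈ R, φ (σ y) = φ y)
    (fun _ h e y hy => by rw [e y hy, h y hy]) (fun h hg y hy => h1 _ hg y (h hy))
    (fun _ _ h h' e y hy => (h' _ (e y hy)).trans (h y hy))
    (fun h h' y hy => by rw [← h' _ (h.mem_img.1 hy), H20.pm_apply_inv])
  refine ((hE _ _).1 (H20.aft_Res m.pg (hF.sat m) (E := E) (fun R hR β hβ hq => (hE _ _).2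
    ⟨H20.AutF_mor hR.le hβ, fun y hy => ?_⟩) _ _ (hF.mor_cj h hx h'))).2 v hv
  rcases exists_act m hF hR hβ hq with rfl | ⟨t, ht, e⟩
  · rfl
  · rw [e y hy, h2 R t ht y hy]

theorem mx_nilB (m : Mx p N H b P e) (h : ∀ R t, ¬ Act p N H P e R t) : NilB p N H b := by
  obtain ⟨F, hF⟩ := m.exists_isBF
  exact (hF.nilB_iff m).2 (H20.sub_inner_of m.pg (hF.sat m) fun R hR β hβ hq =>
    (exists_act m hF hR hβ hq).resolve_right fun ⟨t, ht, _⟩ => h R t ht)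

end alg

theorem exists_lin {P : Type*} [Group P] [Finite P] (N : Subgroup P)
    (hN : ∀ a b : P, b⁻¹ * (a * b * a⁻¹) ∈ N) {u : P} (hu : u ∉ N) :
    ∃ l : P →* ℂˣ, l u ≠ 1 ∧ ∀ n ∈ N, l n = 1 := by
  have hc : commutator P ≤ N := Subgroup.commutator_le.2 fun a _ b _ => by
    simpa [commutatorElement_def, mul_assoc] using hN b a⁻¹
  have := Subgroup.Normal.of_commutator_le _ hc
  letI : CommGroup (P ⧸ N) := { (inferInstance : Group (P ⧸ N)) with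
    mul_comm := (Subgroup.Normal.quotient_commutative_iff_commutator_le.2 hc).1.comm }
  have : NeZero (Monoid.exponent (P ⧸ N)) := ⟨Monoid.exponent_ne_zero_of_finite⟩
  obtain ⟨l, hl⟩ := CommGroup.exists_apply_ne_one_of_hasEnoughRootsOfUnity (P ⧸ N) ℂ
    (mt (QuotientGroup.eq_one_iff u).1 hu)
  exact ⟨l.comp (QuotientGroup.mk' N), hl, fun n hn => by
    rw [MonoidHom.comp_apply, QuotientGroup.mk'_apply, (QuotientGroup.eq_one_iff _).2 hn, map_one]⟩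

variable {M : Ideal AlgInt} {G K L : Type*} [Group G] [Finite G] [Group K] [Finite K] [Group L]
  [Finite L] {p : ℕ} [hp : Fact p.Prime] [PM p M] {B : Set (IrrCharacter G)} {P R : Subgroup G}

theorem rank_of_nil (hB : IsPBlock M B) (h : IsNilpotentBlock p M B) : blockRank p B = 1 := by
  obtain ⟨P, hP⟩ := exists_isDefectGroup p hB
  obtain ⟨m⟩ := nonempty_mp hB hP
  exact (m.nl_of_nil h).rank

theorem height_icomp {π : K →* L} (hπ : Function.Surjective π) (hN : IsPGroup p π.ker)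
    (hc : ∀ y, ¬ p ∣ orderOf y → y ∈ cC π.ker) {b : Set (IrrCharacter K)} (hb : IsPBlock M b)
    {χ : IrrCharacter L} (hχ : icomp π hπ χ ∈ b) :
    blockHeight p b (icomp π hπ χ : K → ℂ) = blockHeight p (icomp π hπ ⁻¹' b) (χ : L → ℂ) := by
  have h1 := factorization_add_defect (M := M) (p := p) hχ
  have h2 := factorization_add_defect (M := M) (p := p) (B := icomp π hπ ⁻¹' b) hχ
  have h3 := (H8.dominated hπ hN hc hb).2.2
  obtain ⟨a, ha⟩ := IsPGroup.iff_card.1 hN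
  have h4 : Nat.card K = p ^ a * Nat.card L := by
    rw [← ha, ← π.ker.card_mul_index, index_ker, MonoidHom.range_eq_top.2 hπ, card_top]
  rw [ha, ← pow_add] at h3
  rw [h4, Nat.factorization_mul (pow_ne_zero _ hp.out.ne_zero) Nat.card_pos.ne',
    Nat.pow_right_injective hp.out.two_le h3, Finsupp.add_apply, hp.out.factorization_pow,
    Finsupp.single_eq_same, show charDegree (icomp π hπ χ : K → ℂ) = charDegree (χ : L → ℂ) from
      charDegree_eq (by rw [icomp_apply, map_one, charDegree_cast χ.2.isCharacter])] at h1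
  omega

namespace MP
variable (m : MP p M B P) {u v w : P} {t : G}

/-- active pairs of the block -/
abbrev A (R : Subgroup G) (t : G) : Prop := Act p ⊤ ⊤ P m.e R t

variable {m} in
theorem A.le (h : m.A R t) : R ≤ P := h.choose_spec.1.le
variable {m} in
theorem A.cen (h : m.A R t) : P ⊓ cC R ≤ R := h.choose_spec.2.1
variable {m} in
theorem A.nor (h : m.A R t) : t ∈ nN R := h.choose_spec.2.2.1.1.2
variable {m} in
theorem A.reg (h : m.A R t) : ¬ p ∣ orderOf t := h.choose_spec.2.2.2.1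
variable {m} in
theorem A.ne (h : m.A R t) : t ∉ cC R := h.choose_spec.2.2.2.2

variable {m} in
theorem A.fc (h : m.A R t) (hv : (v : G) ∈ R) (e : t * v * t⁻¹ = w) : m.FC v w := by
  obtain ⟨f, h1, -, h2, -⟩ := h
  refine ⟨t, ?_, e⟩
  have := m.mx.le_cj_mono (x := t) trivial h1 (by
    rwa [H8.mem_nN_iff.1 h2.1.2, H8.mem_St.1 h2.2]) (zpowers_le.2 hv) (m.le_fv v)
  rwa [cj_zpowers] at this

theorem alp {α : Type*} (φ : G → α) (h1 : ∀ u ∈ P, ∀ v ∈ P, φ (u * v * u⁻¹) = φ v)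
    (h2 : ∀ R t, m.A R t → ∀ v ∈ R, φ (t * v * t⁻¹) = φ v) (h : m.FC v w) : φ w = φ v := by
  obtain ⟨x, h3, h4⟩ := h
  rw [← h4]
  exact mx_alp m.mx φ h1 h2 (m.le_fv v) trivial (by rwa [cj_zpowers]) (mem_zpowers _)

theorem rank_one_of_act (h : ∀ R t, ¬ m.A R t) : blockRank p B = 1 :=
  rank_of_nil m.blk ((H8.nil_iff m.blk).2 (mx_nilB m.mx h))

theorem exists_mx_bu (hd : Nat.card (P ⊓ c1 (v : G) : Subgroup G) = p ^ blockDefect p (m.bu v)) :
    ∃ g, Mx p (c1 (v : G)) (c1 (v : G)) (io M _ (m.bu v)) (P ⊓ c1 (v : G)) g ∧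
      Le p ⊤ (P ⊓ c1 (v : G)) g P m.e ∧ ∀ R t, Act p (c1 (v : G)) (c1 (v : G)) (P ⊓ c1 (v : G)) g R t →
        m.A R t ∧ t ∈ c1 (v : G) ∧ (v : G) ∈ R := by
  obtain ⟨D, h1, h2, h3, h4⟩ := m.exists_def_bu v
  obtain rfl : P ⊓ c1 (v : G) = D := eq_of_le_of_card_ge h1 (h4.trans hd.symm).le
  obtain ⟨g, hg⟩ := m.mx.exists_le (Q := P ⊓ c1 (v : G)) inf_le_left
  have h5 : zpowers (v : G) ≤ P ⊓ c1 (v : G) := zpowers_le.2 ⟨v.2, mem_c1'.2 (by simp)⟩
  have h6 := top_inf_cC_zpowers (v : G)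
  have h7 : c1 (v : G) ≤ ⊤ ⊓ nN (zpowers (v : G)) ⊓ St (m.fv v) :=
    (centralizer_zpowers _).ge.trans (m.cent_le_stab (m.le_fv v))
  have := Mx.loc (H8.Tw.refl ⊤) ((m.le_fv v).lo m.mx.pair) h6.le h7
    (by rw [← m.io_bu]; exact (H8.def_io' (m.bu_blk v) h2).1 h3)
    (Le.ns_of_le m.mx.pair m.mx.norm (m.le_fv v) hg h5 (h2.trans fun x hx => (h7 hx).1.2))
  rw [h6, ← m.io_bu] at this
  refine ⟨g, this, hg, fun R t ⟨f, a1, a2, a3, a4, a5⟩ => ?_⟩
  have h8 : (v : G) ∈ R := a2 ⟨h5 (mem_zpowers _), fun y hy =>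
    mem_centralizer_singleton_iff.1 (a1.le hy).2⟩
  rw [← h6, H8.le_loc (zpowers_le.2 h8), h6] at a1
  exact ⟨⟨f, a1.trans hg, fun y hy => a2 ⟨⟨hy.1, mem_centralizer_singleton_iff.2 (hy.2 _ h8).symm⟩,
    hy.2⟩, ⟨⟨trivial, a3.1.2⟩, a3.2⟩, a4, a5⟩, a3.1.1, h8⟩

theorem rank_bu_of_act (hd : Nat.card (P ⊓ c1 (v : G) : Subgroup G) = p ^ blockDefect p (m.bu v))
    (h : ∀ R t, m.A R t → t ∈ c1 (v : G) → (v : G) ∉ R) : blockRank p (m.bu v) = 1 := by
  obtain ⟨g, h1, -, h2⟩ := m.exists_mx_bu hd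
  exact rank_of_nil (m.bu_blk v) ((H8.nil_io (m.bu_blk v)).2 (mx_nilB h1 fun R t e =>
    h R t (h2 R t e).1 (h2 R t e).2.1 (h2 R t e).2.2))

theorem card_central (hu : (u : G) ∈ cC P) : P ⊓ c1 (u : G) = P ∧
    Nat.card (P ⊓ c1 (u : G) : Subgroup G) = p ^ blockDefect p (m.bu u) := by
  have h : P ⊓ c1 (u : G) = P := inf_eq_left.2 (le_centralizer_singleton_iff.2 hu)
  exact ⟨h, by rw [h, m.defect_bu hu, IsDefectGroup.card m.blk m.dfc]⟩

theorem alp_loc (hu : (u : G) ∈ cC P) :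
    ∃ m' : MP p M (m.bu u) (P.subgroupOf (c1 (u : G))), ∀ W : Subgroup G,
      (∀ a ∈ P, ∀ v ∈ P, v⁻¹ * (a * v * a⁻¹) ∈ W) →
      (∀ R t, m.A R t → t ∈ c1 (u : G) → ∀ v ∈ R, v⁻¹ * (t * v * t⁻¹) ∈ W) →
      ∀ v w, m'.FC v w → ((v : c1 (u : G)) : G)⁻¹ * (w : c1 (u : G)) ∈ W := by
  obtain ⟨e1, e2⟩ := m.card_central hu
  obtain ⟨g, h1, -, h2⟩ := m.exists_mx_bu e2
  rw [e1] at h1 h2
  obtain ⟨m', hm⟩ := exists_mp_sub (m.bu_blk u) h1
  refine ⟨m', fun W a1 a2 v w ⟨x, a3, a4⟩ => ?_⟩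
  have hi := (c1 (u : G)).subtype_injective
  have a5 := (m'.le_fv v).mp hi
  have a6 := Le.mp hi a3
  simp only [H8.map_top_subtype, subgroupOf_map_subtype, e1, hm, MonoidHom.map_zpowers,
    H8.mp_cA] at a5 a6
  have := mx_alp h1 (fun y => (y : G ⧸ W)) (fun a ha v hv => (QuotientGroup.eq.2 (a1 a ha v hv)).symm)
    (fun R t e v hv => (QuotientGroup.eq.2 (a2 R t (h2 R t e).1 (h2 R t e).2.1 v hv)).symm) a5 x.2
    (by rwa [cj_zpowers]) (mem_zpowers _)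
  rw [← a4]
  exact QuotientGroup.eq.1 this.symm

theorem eq_of_fc_central (h0 : ∀ t, ¬ m.A P t) (h : m.FC v w) (hv : (v : G) ∈ cC P)
    (hw : (w : G) ∈ cC P) : v = w := by
  obtain ⟨n, hn, e⟩ := h.exists_of_central hv hw
  have h1 : cC P ⊔ P ≤ c1 (v : G) := sup_le (fun y hy => mem_centralizer_singleton_iff.2
    (hy _ v.2).symm) (le_centralizer_singleton_iff.2 hv)
  have h2 : n ∈ c1 (v : G) := by
    rw [← pp_mul_pr (p := p) n]
    refine mul_mem (h1 ?_) (h1 (mem_sup_left (by_contra fun e => h0 _ ⟨m.e, Le.refl, inf_le_left,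
      ⟨⟨trivial, pr_mem hn.1⟩, pr_mem hn.2⟩, not_dvd_orderOf_pr n, e⟩)))
    simpa using m.mx.mem_sup_of_isPE ⟨⟨trivial, pp_mem hn.1⟩, pp_mem hn.2⟩ (isPE_pp n)
  exact Subtype.ext ((mem_c1'.1 h2).symm.trans e)

theorem exists_stb (N : Subgroup P) (hN : ∀ v w, m.FC v w → v⁻¹ * w ∈ N) (hu : u ∉ N) :
    ∃ l : P →* ℂˣ, (m.Stb fun v => l v) ∧ l u ≠ 1 ∧ ∀ n ∈ N, l n = 1 := by
  obtain ⟨l, h1, h2⟩ := exists_lin N
    (fun a b => hN _ _ (m.fc_of_isConj (isConj_iff.2 ⟨a, rfl⟩))) hu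
  exact ⟨l, m.stb_hom fun v w e => h2 _ (hN v w e), h1, h2⟩

theorem sum_lin_rank [Fintype P] (hu : (u : G) ∈ cC P) {l : P →* ℂˣ} (hl : m.Stb fun v => l v)
    (h1 : l u ≠ 1) : ∑ v, (m.cl v : ℂ)⁻¹ * (l v * blockRank p (m.bu v)) = 0 := by
  have := Fintype.ofFinite G
  simp only [← sum_ct_self, Finset.mul_sum, ← mul_assoc, ← div_eq_inv_mul]
  rw [Finset.sum_comm]
  refine Finset.sum_eq_zero fun χ _ => ?_
  by_cases hχ : χ ∈ B
  · simp only [if_pos hχ]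
    obtain ⟨ψ, -, e⟩ := m.exists_star_lin hl hχ
    rw [← m.inner_star χ.2.isClassFunction χ.2.isClassFunction, e, classInner_irr, if_neg]
    rintro rfl
    exact h1 (Units.ext (m.eq_of_star_eq hl ψ.2.isClassFunction e (m.ct_self_major_ne_zero hu hχ)))
  · simp [hχ]

theorem exists_twin {π : G →* L} (hπ : Function.Surjective π) (hk : π.ker ≤ P)
    (hc : ∀ y, y ∈ cC π.ker) (N : Subgroup P) (hN : ∀ v w, m.FC v w → v⁻¹ * w ∈ N)
    (h1 : ∀ v : P, π v = 1 → v ∈ N) (hu : u ∉ N) :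
    ∃ χ ∈ icomp π hπ ⁻¹' B, ∃ ψ ∈ icomp π hπ ⁻¹' B, χ ≠ ψ ∧
      blockHeight p (icomp π hπ ⁻¹' B) (χ : L → ℂ) = 0 ∧
      ∀ y, ¬ p ∣ orderOf y → (ψ : L → ℂ) y = (χ : L → ℂ) y := by
  have hN' : IsPGroup p π.ker := m.mx.pg.to_le hk
  obtain ⟨l, l1, l2, l3⟩ := m.exists_stb N hN hu
  obtain ⟨χ, hχ, h0⟩ := exists_height_zero (p := p)
    (block_nonempty (H8.dominated hπ hN' (fun y _ => hc y) m.blk).1)
  have h2 := (height_icomp hπ hN' (fun y _ => hc y) m.blk hχ).trans h0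
  obtain ⟨ψ, hψ, e⟩ := m.exists_star_lin l1 hχ
  have h3 : ∀ y, ¬ p ∣ orderOf y → (ψ : G → ℂ) y = (χ : L → ℂ) (π y) := fun y hy => by
    rw [← e, m.star_reg _ hχ hy]; simp
  obtain ⟨ψ', rfl⟩ := (exists_icomp_eq hπ (χ := ψ)).1 fun n hn => by
    rw [h3 1 (by simpa using hp.out.ne_one), ← e, m.star_eq_mul (c := 1) hχ l1, one_mul, icomp_apply,
      hn, map_one]
    intro v hv
    obtain ⟨a, ha⟩ := isConj_iff.1 hv
    rw [l3 v (h1 v (by rw [← ha]; exact π.normal_ker.conj_mem _ (pp_mem hn) a)), Units.val_one]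
  refine ⟨χ, hχ, ψ', hψ, fun e' => l2 (Units.ext (m.eq_of_star_eq l1
    (icomp π hπ χ).2.isClassFunction (by rw [e, e']) (m.ct_ne_zero u hχ hχ h2 h2))), h0,
    fun y hy => ?_⟩
  obtain ⟨y', hy', rfl⟩ := exists_pRegular_lift hπ hy
  exact h3 y' hy'

end MP

theorem DH.le_one_of_twin [PM 2 M] {m : MP 2 M B P} {j n : ℕ} {S : Finset (IrrCharacter G)}
    {τ : Option (Fin n) → IrrCharacter G → ℤ} (d : DH m (j + 1) n S τ)
    (hd : blockDefect 2 B = j + 3) {χ ψ : IrrCharacter G} (hχ : χ ∈ B) (hψ : ψ ∈ B) (hne : χ ≠ ψ)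
    (h0 : blockHeight 2 B (χ : G → ℂ) = 0)
    (h : ∀ y, ¬ 2 ∣ orderOf y → (ψ : G → ℂ) y = (χ : G → ℂ) y) : n ≤ 1 := by
  have := Fintype.ofFinite G
  have h1 : ∀ i, τ i ψ = τ i χ := fun i => by
    apply Int.cast_injective (α := ℂ)
    rw [← d.rp.fix, ← d.rp.fix]
    refine Finset.sum_congr rfl fun ξ _ => ?_
    rw [← m.ct_conj, ← m.ct_conj 1 (χ : G → ℂ), m.ct_one hχ ξ.2.isClassFunction,
      m.ct_one hψ ξ.2.isClassFunction, show reg 2 (ψ : G → ℂ) = reg 2 (χ : G → ℂ) from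
        funext fun y => by unfold reg; split_ifs with e; exacts [rfl, h y e]]
  have h2 : χ ∈ S := by
    by_contra e
    have h3 := (m.odd_iff (v := 1) (χ := χ) (ψ := χ) (d := j + 3)
      (n := ∑ i, wt (j + 1) i * τ i χ * τ i χ) ((m.defect_bu (one_mem _)).trans hd)
      (by push_cast; exact_mod_cast d.rp.eq χ χ)).2 ⟨⟨hχ, h0⟩, hχ, h0⟩
    rw [Fintype.sum_option, Finset.sum_eq_zero fun a _ => by rw [(d.yS a).2 χ e, mul_zero]] at h3
    have h4 := d.tO χ hχ e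
    simp only [wt, Option.elim, Nat.cast_one, one_mul, add_zero, ← sq, h4] at h3
    exact absurd h3 (by decide)
  have h3 : ψ ∈ S := by
    by_contra e
    have := d.tO ψ hψ e
    rw [h1, d.tS χ h2] at this
    omega
  by_contra hn
  obtain ⟨a, b, hab⟩ : ∃ a b : Fin n, a ≠ b := ⟨⟨0, by omega⟩, ⟨1, by omega⟩, by simp⟩
  obtain ⟨x, y, hxy, e⟩ := Finset.card_eq_two.1 (show ((S.erase χ).erase ψ).card = 2 by
    rw [Finset.card_erase_of_mem (Finset.mem_erase.2 ⟨hne.symm, h3⟩), Finset.card_erase_of_mem h2,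
      d.card])
  have hx : x ∈ S := Finset.mem_of_mem_erase (Finset.mem_of_mem_erase (e.ge (by simp)))
  have hy : y ∈ S := Finset.mem_of_mem_erase (Finset.mem_of_mem_erase (e.ge (by simp)))
  have key : ∀ i (c : Fin n), i ≠ some c → 2 * (τ i χ * τ (some c) χ) + τ i x * τ (some c) x +
      τ i y * τ (some c) y = 0 := fun i c hi => by
    rw [← d.rp.orth hi, ip, ← Finset.sum_subset (Finset.subset_univ S) fun ξ _ e => by
      rw [(d.yS c).2 ξ e, mul_zero], ← Finset.add_sum_erase _ _ h2,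
      ← Finset.add_sum_erase _ _ (Finset.mem_erase.2 ⟨hne.symm, h3⟩), e, Finset.sum_pair hxy, h1, h1]
    ring
  have k1 := key none a (by simp)
  have k2 := key none b (by simp)
  have k3 := key (some a) b (by simpa using hab)
  have s := fun ξ (h : ξ ∈ S) => sq_eq_one_iff.1 (d.tS ξ h)
  have t := fun c ξ (h : ξ ∈ S) => sq_eq_one_iff.1 ((d.yS c).1 ξ h)
  rcases s χ h2 with e1 | e1 <;> rcases s x hx with e2 | e2 <;> rcases t a χ h2 with e3 | e3 <;>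
    rcases t a x hx with e4 | e4 <;> rcases t b χ h2 with e5 | e5 <;>
    rcases t b x hx with e6 | e6 <;> rcases s y hy with e7 | e7 <;>
    rcases t b y hy with e8 | e8 <;>
    simp only [e1, e2, e3, e4, e5, e6, e7, e8] at k1 k2 k3 <;> omega

end H7
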