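import Cfsg.Agent.H7.Ab1
import Cfsg.Agent.H9.MaxClass
import Cfsg.Agent.H20.AFT

/-! Automorphisms of odd order of `2`-groups with a cyclic subgroup of index at most four
(`OA.q8`, `OA.e8`, `OA.four`, `CY.cases`, `CY.exists_a`, `CY.quot`). -/

open Subgroup
open H8 (cC nN c1)

namespace H7

variable {G L : Type*} [Group G] [Group L] {A E Q X D P R : Subgroup G} {t x y z c g : G}

theorem chain4 (h1 : X ≤ E) (h2 : E ≤ Q) (h : X.relIndex Q ∣ 4) :
    E ≤ X ∨ (X.relIndex E = 2 ∧ E.relIndex Q ∣ 2) ∨ Q ≤ E := by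
  rw [← relIndex_mul_relIndex X E Q h1 h2] at h
  rw [← relIndex_eq_one, ← relIndex_eq_one]
  have h3 := Nat.le_of_dvd (by norm_num) (dvd_of_mul_right_dvd h)
  have h4 := Nat.le_of_dvd (by norm_num) (dvd_of_mul_left_dvd h)
  generalize X.relIndex E = a at *
  generalize E.relIndex Q = b at *
  interval_cases a <;> interval_cases b <;> simp_all

theorem two_of_dvd (h : A.relIndex E ∣ 2) (hg : g ∈ E) (h' : g ∉ A) : A.relIndex E = 2 :=
  ((Nat.dvd_prime Nat.prime_two).1 h).resolve_left fun e => h' (relIndex_eq_one.1 e hg)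

theorem sq_mem_of_dvd (h : A.relIndex E ∣ 2) (hg : g ∈ E) : g * g ∈ A := by
  by_cases h' : g ∈ A
  exacts [mul_mem h' h', H9.mul_mem_of_relIndex_two (two_of_dvd h hg h') hg hg h' h']

theorem conj_mem_of_dvd (h : A.relIndex E ∣ 2) (hA : A ≤ E) (hg : g ∈ E) (hx : x ∈ A) :
    g * x * g⁻¹ ∈ A := by
  by_cases h' : g ∈ A
  exacts [mul_mem (mul_mem h' hx) (inv_mem h'),
    H9.conj_mem_of_relIndex_two (two_of_dvd h hg h') hA hg hx]

theorem zp_cases (h : y ∈ zpowers x) : y ∈ zpowers (x * x) ∨ y * x⁻¹ ∈ zpowers (x * x) := by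
  obtain ⟨i, rfl⟩ := h
  obtain ⟨k, rfl | rfl⟩ := Int.even_or_odd' i
  · exact .inl ⟨k, by simp only [← zpow_two, zpow_mul]⟩
  · exact .inr ⟨k, by simp only [← zpow_two, zpow_mul, zpow_add_one, mul_inv_cancel_right]⟩

theorem relIndex_sq_dvd (x : G) : (zpowers (x * x)).relIndex (zpowers x) ∣ 2 := by
  by_cases h : x ∈ zpowers (x * x)
  · rw [relIndex_eq_one.2 (zpowers_le.2 h)]; exact one_dvd _
  · rw [H9.relIndex_eq_two_of (mem_zpowers x) h fun g hg => zp_cases hg]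

theorem sq_le (x : G) : zpowers (x * x) ≤ zpowers x :=
  zpowers_le.2 (mul_mem (mem_zpowers x) (mem_zpowers x))

theorem comm_zp (h : Commute t x) (hy : y ∈ zpowers x) : Commute t y := by
  obtain ⟨i, rfl⟩ := hy
  exact h.zpow_right i

theorem comm_iff : Commute t x ↔ t * x * t⁻¹ = x := mul_inv_eq_iff_eq_mul.symm

theorem comm_of_conj (h : Commute t (t * x * t⁻¹)) : Commute t x := by
  have := h.eq
  rw [inv_mul_cancel_right, ← mul_assoc, mul_inv_eq_iff_eq_mul, mul_assoc t x,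
    mul_right_inj] at this
  exact this

variable [Finite G]

theorem exists_mul_of_relIndex (h : Q ≤ D) (e : X.relIndex D ≤ X.relIndex Q) (hg : g ∈ D) :
    ∃ q ∈ Q, q⁻¹ * g ∈ X := by
  obtain ⟨a, ha⟩ := ((quotientSubgroupOfEmbeddingOfLE X h).injective.bijective_of_nat_card_le e).2
    (⟨g, hg⟩ : D)
  obtain ⟨q, rfl⟩ := QuotientGroup.mk_surjective a
  rw [quotientSubgroupOfEmbeddingOfLE_apply_mk] at ha
  have := QuotientGroup.eq.1 ha
  exact ⟨q, q.2, this⟩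

theorem exists_nN (hQ : IsPGroup 2 Q) (h : X ≤ Q) (h' : Q ⊓ nN X ≤ X) : Q ≤ X := by
  by_contra e
  obtain ⟨g, h1, h2⟩ := SetLike.exists_of_lt (H20.lt_nIn hQ (lt_of_le_not_ge h e))
  exact h2 (h' (H20.mem_nIn.1 h1))

theorem conj_sq_mem (hQ : IsPGroup 2 Q) (h : X ≤ Q) (hi : X.relIndex Q ∣ 4) (hg : g ∈ Q)
    (hx : x ∈ X) : g * (x * x) * g⁻¹ ∈ X := by
  have h1 : X ≤ Q ⊓ nN X := le_inf h le_normalizer
  rcases chain4 h1 inf_le_left hi with e | e | e
  · exact conj_mem_nN (le_normalizer (exists_nN hQ h e hg)) (mul_mem hx hx)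
  · rw [← conj_mul]
    exact sq_mem_of_dvd e.1.dvd (conj_mem_of_dvd e.2 inf_le_left hg (h1 hx))
  · exact conj_mem_nN (e hg).2 (mul_mem hx hx)

theorem pow_four_mem (hQ : IsPGroup 2 Q) (h : X ≤ Q) (hi : X.relIndex Q ∣ 4) (hg : g ∈ Q) :
    g * g * (g * g) ∈ X := by
  rcases chain4 (le_inf h le_normalizer : X ≤ Q ⊓ nN X) inf_le_left hi with e | e | e
  · have := exists_nN hQ h e hg
    exact mul_mem (mul_mem this this) (mul_mem this this)
  · exact sq_mem_of_dvd e.1.dvd (sq_mem_of_dvd e.2 hg)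
  · have := (normal_subgroupOf_iff_le_normalizer h).2 (e.trans inf_le_right)
    obtain ⟨k, hk⟩ := hi
    have h1 : g ^ X.relIndex Q ∈ X := pow_index_mem (X.subgroupOf Q) ⟨g, hg⟩
    have h2 := pow_mem h1 k
    rwa [← pow_mul, ← hk, show g ^ 4 = g * g * (g * g) by simp [pow_succ, mul_assoc]] at h2

theorem eq_one_of_odd (hx : IsPE 2 x) {b : ℤ} (h : x ^ (2 * b + 1) = 1) : x = 1 := by
  obtain ⟨_ | k, hk⟩ := hx
  · exact orderOf_eq_one_iff.1 hk
  · obtain ⟨a, ha⟩ := (Dvd.intro_left _ (pow_succ (2 : ℤ) k).symm).trans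
      (by simpa [hk] using orderOf_dvd_iff_zpow_eq_one.2 h)
    omega

theorem two_dvd_ord (hx : IsPE 2 x) (h : x ≠ 1) : 2 ∣ orderOf x := by
  obtain ⟨_ | k, hk⟩ := hx
  · exact absurd (orderOf_eq_one_iff.1 hk) h
  · exact hk ▸ Dvd.intro_left _ (pow_succ 2 k).symm

theorem mem_zp_of_sq (hz : IsPE 2 z) (h1 : z ≠ 1) (h2 : z ∈ zpowers c) (h3 : y ∈ zpowers c)
    (h4 : y * y = 1) : y ∈ zpowers z := H9.mem_zpowers_of_orderOf_dvd h3 h2
  ((orderOf_dvd_of_pow_eq_one (by rwa [sq])).trans (two_dvd_ord hz h1))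

theorem comm_of_sq (h : Odd (orderOf t)) (h' : Commute (t * t) x) : Commute t x :=
  (comm_zp h'.symm (by
    rw [← sq]; exact mem_zpowers_pow_iff.2 (Nat.coprime_two_left.2 h))).symm

theorem comm_of_cyc (h : Odd (orderOf t)) (hy : IsPE 2 y) (h1 : y ∈ zpowers x)
    (h2 : t * y * t⁻¹ ∈ zpowers x) : Commute t y := by
  obtain ⟨k, hk⟩ := hy
  exact H9.commute_of_odd_of_conj_mem (hk ▸ pow_orderOf_eq_one y) h
    (H9.mem_zpowers_of_orderOf_dvd h2 h1 (by rw [← MulAut.conj_apply, MulEquiv.orderOf_eq]))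

/-- An element of odd order normalizing a `2`-group. -/
structure OA (Q : Subgroup G) (t : G) : Prop where
  pg : IsPGroup 2 Q
  nor : t ∈ nN Q
  odd : Odd (orderOf t)

namespace OA
variable (h : OA Q t)
include h

theorem mem (hx : x ∈ Q) : t * x * t⁻¹ ∈ Q := conj_mem_nN h.nor hx

theorem pe (hx : x ∈ Q) : IsPE 2 x := isPE_of_mem h.pg hx

theorem st (hy : y ∈ Q) (e : Commute t (t * y * t⁻¹ * y⁻¹)) : Commute t y :=
  H9.commute_of_odd_of_stable (A := Q ⊓ c1 t) h.pg.to_inf_left h.odd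
    (fun _ ha => (mem_centralizer_singleton_iff.1 ha.2).symm)
    ⟨Q.mul_mem (h.mem hy) (Q.inv_mem hy), mem_centralizer_singleton_iff.2 e.symm⟩

omit [Finite G] in
theorem inf (e : t ∈ nN E) : OA (Q ⊓ E) t := ⟨h.pg.to_inf_left, H8.nN_inf_le _ _ ⟨h.nor, e⟩, h.odd⟩

omit [Finite G] in
theorem inf_c1 (e : Commute t x) : OA (Q ⊓ c1 x) t := h.inf (by
  rw [c1, ← centralizer_zpowers]
  exact H8.nN_le_nN_cC _ (H8.cC_le_nN _ fun y hy => (comm_zp e hy).symm))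

theorem idx (hA : ∀ a ∈ A, Commute t a) (hi : A.relIndex Q ∣ 2) (hy : y ∈ Q) : Commute t y := by
  by_cases h1 : y ∈ A
  · exact hA y h1
  by_cases h2 : t * y * t⁻¹ ∈ A
  · exact comm_of_conj (hA _ h2)
  exact h.st hy (hA _ (H9.mul_inv_mem_of_relIndex_two (two_of_dvd hi hy h1) (h.mem hy) hy h2 h1))

theorem q8 (hx : x ∈ Q) (hi : (zpowers x).relIndex Q ∣ 2) (hn : ¬ Commute t x)
    (hy : t * x * t⁻¹ = y) : y ∉ zpowers x ∧ y * y = x * x ∧ x * x * (x * x) = 1 ∧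
      y * x * y⁻¹ = x⁻¹ := by
  have y0 : y ∈ Q := hy ▸ h.mem hx
  have y1 : y ∉ zpowers x := fun e => hn (comm_of_cyc h.odd (h.pe hx) (mem_zpowers x) (hy ▸ e))
  have y2 : Commute t (x * x) := comm_of_cyc h.odd (h.pe (mul_mem hx hx)) (sq_le x (mem_zpowers _))
    (by rw [← conj_mul, hy]; exact sq_mem_of_dvd hi y0)
  have y3 : y * y = x * x := by rw [← hy, conj_mul, comm_iff.1 y2]
  have y4 : t * y * t⁻¹ ∉ zpowers x := fun e => hn (comm_of_sq h.odd (comm_of_cyc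
    (by rw [← sq]; exact h.odd.of_dvd_nat (orderOf_pow_dvd 2)) (h.pe hx) (mem_zpowers x)
    (by convert e using 1; rw [← hy]; group)))
  obtain ⟨b, hb⟩ := (zp_cases (H9.mul_inv_mem_of_relIndex_two (two_of_dvd hi y0 y1) (h.mem y0) y0 y4
    y1)).resolve_left fun e => hn (comm_of_conj (hy ▸ h.st y0 (comm_zp y2 e)))
  obtain ⟨c, hc⟩ : ∃ c, y * x * y⁻¹ * x⁻¹ = c := ⟨_, rfl⟩
  have c0 : Commute x c := comm_zp (Commute.refl x) (hc ▸ mul_mem
    (conj_mem_of_dvd hi (zpowers_le.2 hx) y0 (mem_zpowers x)) (inv_mem (mem_zpowers x)))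
  have c1 : y * x * y⁻¹ = c * x := by rw [← hc]; group
  obtain ⟨z, hz⟩ : ∃ z, x * x = z := ⟨_, rfl⟩
  have z0 : IsPE 2 (z * z) := hz ▸ h.pe (mul_mem (mul_mem hx hx) (mul_mem hx hx))
  have z1 : Commute x z := hz ▸ (Commute.refl x).mul_right (Commute.refl x)
  have z2 : Commute y z := (y3.trans hz) ▸ (Commute.refl y).mul_right (Commute.refl y)
  rw [hz] at hb y2 y3 ⊢
  have c2 : c * c = 1 := by
    have : y * (x * x) * y⁻¹ = c * c * (x * x) := by
      rw [← conj_mul, c1, mul_assoc, ← mul_assoc x, c0.eq]; group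
    rwa [hz, comm_iff.1 z2, right_eq_mul] at this
  have c3 : z ^ (2 * b + 1) * c = 1 := by
    have e1 : t * y * t⁻¹ = z ^ b * x * y := by simp only at hb; rw [hb]; group
    have e2 : z ^ b * x * y * (z ^ b * x * y) = z := by rw [← e1, conj_mul, y3, comm_iff.1 y2]
    have e3 : z ^ b * x * y * (z ^ b * x * y) = z ^ b * (x * y * z ^ b) * y⁻¹ *
      (y * x * y⁻¹) * (y * y) := by group
    rw [e2, ((z1.mul_left z2).zpow_right b).eq, c1, y3, right_eq_mul] at e3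
    rw [← e3, ← c0.eq, two_mul, zpow_add_one, zpow_add]
    nth_rw 3 [← hz]
    group
  have c4 : z * z = 1 := eq_one_of_odd z0 (b := b) (by
    rw [(Commute.refl z).mul_zpow, eq_inv_of_mul_eq_one_left c3, ← mul_inv_rev, c2, inv_one])
  refine ⟨y1, y3, c4, ?_⟩
  rw [zpow_add_one, zpow_mul, zpow_two, c4, one_zpow, one_mul] at c3
  rw [c1, eq_inv_of_mul_eq_one_right c3, ← hz]; group

theorem e8 (h8 : Nat.card Q ∣ 8) (hx : x ∈ Q) (h2 : x * x = 1) (hn : ¬ Commute t x) (hg : g ∈ Q) :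
    g * g = 1 := by
  by_contra h1
  have hi : (zpowers g).relIndex Q ∣ 2 := by
    obtain ⟨k, hk⟩ := h.pe hg
    have h3 := ((zpowers g).subgroupOf Q).card_mul_index
    rw [Nat.card_congr (subgroupOfEquivOfLe (zpowers_le.2 hg)).toEquiv, Nat.card_zpowers, hk] at h3
    rw [← h3] at h8
    rcases k with _ | _ | k
    · simp [orderOf_eq_one_iff.1 hk] at h1
    · exact absurd (by rw [← sq]; simpa [hk] using pow_orderOf_eq_one g) h1
    · exact Nat.dvd_of_mul_dvd_mul_left (k := 4) (by norm_num)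
        ((Nat.mul_dvd_mul_right (pow_dvd_pow 2 (by omega) : 2 ^ 2 ∣ _) _).trans h8)
  have h3 : ¬ Commute t g := fun e => hn (h.idx (fun a => comm_zp e) hi hx)
  obtain ⟨y1, y2, -, y4⟩ := h.q8 hg hi h3 rfl
  by_cases h4 : x ∈ zpowers g
  · exact hn (comm_zp (comm_iff.2 (by rw [← conj_mul, y2])) (mem_zp_of_sq (h.pe (mul_mem hg hg)) h1
      (sq_le g (mem_zpowers _)) h4 h2))
  obtain ⟨i, hi⟩ := H9.mul_inv_mem_of_relIndex_two (two_of_dvd hi hx h4) hx (h.mem hg) h4 y1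
  generalize t * g * t⁻¹ = y at *
  rw [show x = g ^ i * y by simp only at hi; rw [hi]; group, show g ^ i * y * (g ^ i * y) =
    g ^ i * (y * g * y⁻¹) ^ i * (y * y) by rw [conj_zpow]; group, y4, y2] at h2
  exact h1 (by simpa using h2)

theorem four (hx : x ∈ Q) (hi : (zpowers x).relIndex Q ∣ 4) (hn : ¬ Commute t (x * x)) :
    x * x * (x * x) = 1 := by
  by_contra h0
  have x1 := zpowers_le.2 hx
  have x2 := mul_mem hx hx
  have x4 := mul_mem x2 x2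
  have s2 := sq_le x (mem_zpowers _)
  have s4 := mul_mem s2 s2
  have y0 := h.mem hx
  have y1 : t * x * t⁻¹ * (t * x * t⁻¹) ∉ zpowers x := fun e =>
    hn (comm_of_cyc h.odd (h.pe x2) s2 (by rwa [← conj_mul]))
  have y2 : Commute t (x * x * (x * x)) := comm_of_cyc h.odd (h.pe x4) s4 (by
    rw [← conj_mul, ← conj_mul]; exact pow_four_mem h.pg x1 hi y0)
  have y3 : ∀ g ∈ Q, Commute g (x * x * (x * x)) := by
    have e1 : t * x * t⁻¹ ∈ Q ⊓ c1 (x * x * (x * x)) := ⟨y0, mem_c1'.2 (by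
      rw [← comm_iff.1 y2]; group)⟩
    rcases chain4 (E := Q ⊓ c1 (x * x * (x * x))) (le_inf x1 fun y hy =>
      mem_centralizer_singleton_iff.2 (zp_comm hy s4)) inf_le_left hi with e | e | e
    · exact absurd (mul_mem (e e1) (e e1)) y1
    · exact absurd (sq_mem_of_dvd e.1.dvd e1) y1
    · exact fun g hg => mem_centralizer_singleton_iff.1 (e hg).2
  set I := zpowers (x * x * (x * x))
  have i1 : ∀ g ∈ Q, ∀ i ∈ I, g * i * g⁻¹ = i := fun g hg i hi => comm_iff.1 (comm_zp (y3 g hg) hi)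
  have i2 : ∀ i ∈ I, t * i * t⁻¹ = i := fun i hi => comm_iff.1 (comm_zp y2 hi)
  have i3 : I ≤ zpowers x := zpowers_le.2 s4
  let B : Subgroup G :=
    { carrier := {q | q ∈ Q ∧ q * q ∈ I ∧ ∀ g ∈ Q, g * q * g⁻¹ * q⁻¹ ∈ I}
      one_mem' := ⟨one_mem _, by simp, by simp⟩
      mul_mem' := fun {a b} ha hb => ⟨mul_mem ha.1 hb.1, by
        have := mul_mem (mul_mem (i1 a ha.1 _ (ha.2.2 b hb.1) ▸ ha.2.2 b hb.1) ha.2.1) hb.2.1
        convert this using 1; group, fun g hg => by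
        have := mul_mem (ha.2.2 g hg) (i1 a ha.1 _ (hb.2.2 g hg) ▸ hb.2.2 g hg)
        convert this using 1; group⟩
      inv_mem' := fun {a} ha => ⟨inv_mem ha.1, by simpa using inv_mem ha.2.1, fun g hg => by
        have := inv_mem (i1 _ (inv_mem ha.1) _ (ha.2.2 g hg) ▸ ha.2.2 g hg)
        have e := i1 _ (inv_mem ha.1) _ (ha.2.2 g hg)
        convert inv_mem (ha.2.2 g hg) using 1
        rw [← e]; group⟩ }
  have b1 : B ≤ Q := fun q hq => hq.1
  have b2 : OA B t := ⟨h.pg.to_le b1, H20.mem_normalizer_of_conj fun q hq => ⟨h.mem hq.1, by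
    rw [conj_mul, i2 _ hq.2.1]; exact hq.2.1, fun g hg => by
      have e := hq.2.2 _ (conj_mem_nN (inv_mem h.nor) hg)
      convert e using 1
      rw [← i2 _ e]; group⟩, h.odd⟩
  have b3 : x * x ∈ B := ⟨x2, mem_zpowers _, fun g hg => by
    have e1 := mul_mem (conj_sq_mem h.pg x1 hi hg (mem_zpowers x)) (inv_mem s2)
    refine mem_zp_of_sq (h.pe x4) h0 s4 e1 ?_
    have e2 := zp_comm e1 s2
    obtain ⟨c, hc⟩ : ∃ c, g * (x * x) * g⁻¹ * (x * x)⁻¹ = c := ⟨_, rfl⟩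
    have e3 := comm_iff.1 (y3 g hg)
    rw [hc] at e2 ⊢
    rwa [← conj_mul, mul_inv_eq_iff_eq_mul.1 hc, mul_assoc c, ← mul_assoc (x * x) c, ← e2,
      mul_assoc c, ← mul_assoc c, mul_eq_right] at e3⟩
  have b4 : ¬ B.relIndex Q ∣ 2 := fun e => by
    have e1 : x ∉ B := fun e => hn (comm_zp y2 e.2.1)
    have e2 : t * x * t⁻¹ ∉ B := fun e => y1 (i3 e.2.1)
    have e3 := H9.mul_inv_mem_of_relIndex_two (two_of_dvd e hx e1) hx y0 e1 e2
    have e4 := e3.2.2 _ y0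
    have e5 := i1 _ e3.1 _ e4
    generalize t * x * t⁻¹ = y at *
    refine y1 ?_
    convert mul_mem (inv_mem (mul_mem (i3 e4) (i3 e3.2.1))) s2 using 1
    rw [← e5, ← sq y]; group
  have b5 : (zpowers (x * x)).relIndex B ∣ 2 := by
    have e := Nat.mul_dvd_mul (relIndex_sq_dvd x) hi
    rw [relIndex_mul_relIndex _ _ _ (sq_le x) x1, ← relIndex_mul_relIndex _ B _ (zpowers_le.2 b3) b1]
      at e
    have h3 := Nat.le_of_dvd (by norm_num) (dvd_of_mul_right_dvd e)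
    have h4 := Nat.le_of_dvd (by norm_num) (dvd_of_mul_left_dvd e)
    generalize (zpowers (x * x)).relIndex B = a at *
    generalize B.relIndex Q = b at *
    interval_cases a <;> interval_cases b <;> simp_all
  obtain ⟨-, -, q1, q2⟩ := b2.q8 b3 b5 hn rfl
  have e1 := (b2.mem b3).2.2 x hx
  have e2 := i1 x hx _ e1
  have e3 := H9.eq_one_or_eq_of_mem_zpowers q1 e1
  generalize t * (x * x) * t⁻¹ = b at *
  obtain ⟨i, hi⟩ : ∃ i, x * b * x⁻¹ * b⁻¹ = i := ⟨_, rfl⟩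
  rw [hi] at e2 e3
  have e4 : x * x * b * (x * x)⁻¹ = i * i * b := by
    rw [mul_assoc i, ← mul_inv_eq_iff_eq_mul.1 hi, ← e2, conj_mul, ← mul_inv_eq_iff_eq_mul.1 hi]
    group
  rw [show i * i = 1 by rcases e3 with rfl | rfl; exacts [mul_one _, q1], one_mul,
    mul_inv_eq_iff_eq_mul] at e4
  rw [← e4, mul_inv_cancel_right] at q2
  exact h0 (by nth_rw 1 [q2]; exact inv_mul_cancel _)

end OA

/-- A `2`-group `D` whose centre `⟨z⟩` lies in a cyclic subgroup `⟨c⟩` of index four. -/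
structure CY (D : Subgroup G) (c z : G) : Prop where
  pg : IsPGroup 2 D
  hc : c ∈ D
  idx : (zpowers c).relIndex D = 4
  hz : z ∈ zpowers c
  z1 : z ≠ 1
  zc : ∀ g, Commute g z
  cen : D ⊓ cC D ≤ zpowers z

/-- The exceptional configuration. -/
structure CX (D Q : Subgroup G) (c z t x : G) : Prop where
  inf : Q ⊓ zpowers c = zpowers x
  idx : (zpowers x).relIndex Q = 4
  nc : ¬ Commute t x
  sq : zpowers z = zpowers (x * x)
  dec : ∀ d ∈ D, ∃ q ∈ Q, q⁻¹ * d ∈ zpowers c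

namespace CY
variable (h : CY D c z)
include h

omit [Finite G] in
theorem mem_Z (dec : ∀ d ∈ D, ∃ q ∈ Q, q⁻¹ * d ∈ zpowers c) (hy : y ∈ D) (h1 : Commute y c)
    (h2 : ∀ q ∈ Q, Commute y q) : y ∈ zpowers z := h.cen ⟨hy, fun d hd => by
  obtain ⟨q, hq, e⟩ := dec d hd
  simpa using ((h2 q hq).mul_right (comm_zp h1 e)).symm.eq⟩

theorem cases (hQ : Q ≤ D) (hz : z ∈ Q) (o : OA Q t) (ht : t ∉ cC Q) :
    (zpowers z).relIndex Q ∣ 4 ∨ ∃ x, CX D Q c z t x := by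
  obtain ⟨n, hn⟩ := (le_zpowers_iff c (Q ⊓ zpowers c)).1 inf_le_right
  obtain ⟨x, hx⟩ : ∃ x, c ^ n = x := ⟨_, rfl⟩
  rw [hx] at hn
  have x0 : x ∈ Q ⊓ zpowers c := hn ▸ mem_zpowers x
  have x1 := zpowers_le.2 x0.1
  have x2 : (zpowers x).relIndex Q = (zpowers c).relIndex Q := by rw [← hn, inf_relIndex_left]
  have x3 : (zpowers x).relIndex Q ∣ 4 := by
    obtain ⟨k, hk⟩ := IsPGroup.iff_card.1 o.pg
    obtain ⟨j, -, e⟩ := (Nat.dvd_prime_pow Nat.prime_two).1 (hk ▸ relIndex_dvd_card (zpowers c) Q)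
    have := relIndex_le_of_le_right hQ (h.idx ▸ (by norm_num) : (zpowers c).relIndex D ≠ 0)
    rw [x2, e]
    rw [e, h.idx] at this
    exact pow_dvd_pow 2 ((Nat.pow_le_pow_iff_right (a := 2) (m := 2) one_lt_two).1 this)
  have x4 : ¬ (zpowers x).relIndex Q ∣ 2 → (zpowers x).relIndex Q = 4 := fun e => by
    have := Nat.le_of_dvd (by norm_num) x3
    generalize (zpowers x).relIndex Q = a at *
    interval_cases a <;> first | rfl | simp at x3 e
  have x5 : (zpowers x).relIndex Q = 4 → ∀ d ∈ D, ∃ q ∈ Q, q⁻¹ * d ∈ zpowers c := fun e d =>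
    exists_mul_of_relIndex hQ (by rw [h.idx, ← x2, e])
  have z0 : z ∈ zpowers x := hn ▸ ⟨hz, h.hz⟩
  have c0 : ∀ y ∈ zpowers x, Commute y c := fun y hy => zp_comm (hn.ge hy).2 (mem_zpowers c)
  obtain ⟨q, hq, q1⟩ : ∃ q ∈ Q, ¬ Commute t q := by
    by_contra! e
    exact ht fun q hq => (e q hq).symm
  by_cases h1 : Commute t x
  · have e1 : ∀ E, OA E t → (zpowers x).relIndex E = 2 → ¬ E.relIndex Q ∣ 2 := fun E o' e e' =>
      q1 (o.idx (fun a => o'.idx (fun a => comm_zp h1) e.dvd) e' hq)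
    have e2 : ¬ (zpowers x).relIndex Q ∣ 2 := fun e => q1 (o.idx (fun a => comm_zp h1) e hq)
    have e3 : Q ≤ nN (zpowers x) := by
      rcases chain4 (le_inf x1 le_normalizer : _ ≤ Q ⊓ nN (zpowers x)) inf_le_left x3 with e | e | e
      · exact absurd (comm_zp h1 (exists_nN o.pg x1 e hq)) q1
      · exact absurd e.2 (e1 _ (o.inf (le_normalizer (H8.cC_le_nN _ fun y hy => (comm_zp h1 hy).symm))) e.1)
      · exact e.trans inf_le_right
    rcases chain4 (E := Q ⊓ c1 x) (le_inf x1 fun y hy => mem_centralizer_singleton_iff.2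
      (zp_comm hy (mem_zpowers x))) inf_le_left x3 with e | e | e
    · refine absurd (o.st hq (comm_zp h1 (e ⟨Q.mul_mem (o.mem hq) (Q.inv_mem hq), mem_c1'.2 ?_⟩))) q1
      have := comm_iff.1 (comm_zp h1 (conj_mem_nN (inv_mem (e3 hq)) (mem_zpowers x))).inv_left
      calc _ = t * q * (t⁻¹ * (q⁻¹ * x * q⁻¹⁻¹) * t⁻¹⁻¹) * q⁻¹ * t⁻¹ := by group
        _ = x := by rw [this, ← comm_iff.1 h1]; simp [mul_assoc, h1.eq]
    · exact absurd e.2 (e1 _ (o.inf_c1 h1) e.1)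
    · left
      rwa [le_antisymm (zpowers_le.2 z0) (zpowers_le.2 (h.mem_Z (x5 (x4 e2)) (hQ x0.1)
        (c0 x (mem_zpowers x)) fun q hq => (mem_centralizer_singleton_iff.1 (e hq).2).symm))]
  have z1 : z ∈ zpowers (x * x) := (zp_cases z0).resolve_right fun e => h1 (comm_zp (h.zc t) (by
    obtain ⟨i, hi⟩ := e
    have e1 : z = x ^ (2 * i + 1) := by
      rw [zpow_add_one, zpow_mul, zpow_two]; exact mul_inv_eq_iff_eq_mul.1 hi.symm
    obtain ⟨k, hk⟩ := o.pe x0.1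
    rw [e1, mem_zpowers_zpow_iff, hk, Int.gcd_eq_natAbs, Int.natAbs_natCast]
    exact Nat.Coprime.pow_right _ (Nat.coprime_two_right.2 (Int.natAbs_odd.2 (odd_two_mul_add_one i)))))
  have h2 : Commute t (x * x) := by_contra fun e => e (comm_zp (h.zc t) (mem_zp_of_sq (o.pe hz)
    h.z1 z0 (sq_le x (mem_zpowers _)) (o.four x0.1 x3 e)))
  have h3 : ∀ E, OA E t → x ∈ E → (zpowers x).relIndex E ∣ 2 → z = x * x := fun E o' e e' =>
    (H9.eq_one_or_eq_of_mem_zpowers (o'.q8 e e' h1 rfl).2.2.1 z1).resolve_left h.z1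
  by_cases h4 : (zpowers x).relIndex Q ∣ 2
  · left
    rw [h3 Q o x0.1 h4, ← relIndex_mul_relIndex _ _ _ (sq_le x) x1]
    exact Nat.mul_dvd_mul (relIndex_sq_dvd x) h4
  have h5 : x ∈ Q ⊓ c1 (x * x) := ⟨x0.1, mem_c1'.2 (by group)⟩
  rcases chain4 (zpowers_le.2 h5) inf_le_left x3 with e | e | e
  · exact absurd (comm_of_cyc o.odd (o.pe x0.1) (mem_zpowers x) (e ((o.inf_c1 h2).mem h5))) h1
  · have e1 := h3 _ (o.inf_c1 h2) h5 e.1.dvd
    rw [inf_eq_left.2 fun q _ => mem_centralizer_singleton_iff.2 (e1 ▸ h.zc q)] at e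
    exact absurd e.1.dvd h4
  · exact .inr ⟨x, hn, x4 h4, h1, le_antisymm (zpowers_le.2 z1) (zpowers_le.2 (h.mem_Z (x5 (x4 h4))
      (hQ (mul_mem x0.1 x0.1)) (c0 _ (sq_le x (mem_zpowers _))) fun q hq =>
        (mem_centralizer_singleton_iff.1 (e hq).2).symm)), x5 (x4 h4)⟩

theorem mem_half {m : ℕ} (e : orderOf c = 2 ^ (m + 1)) : c ^ 2 ^ m ∈ zpowers z :=
  mem_zp_of_sq (isPE_of_mem h.pg (zpowers_le.2 h.hc h.hz)) h.z1 h.hz (npow_mem_zpowers _ _)
    (by rw [← sq, ← pow_mul, ← pow_succ, ← e, pow_orderOf_eq_one])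

theorem exists_a (hQ : Q ≤ D) (o : OA Q t) (e : CX D Q c z t x)
    (hs : ∀ q ∈ Q, q * q ∈ zpowers z) : c ∉ Q ∧ ∃ a ∈ Q, a ∉ zpowers c ∧ (∀ q ∈ Q, Commute a q) ∧
      t * a * t⁻¹ * a⁻¹ ∈ zpowers z ∧ a * c * a⁻¹ * c⁻¹ ∈ zpowers z := by
  have x0 : x ∈ Q ⊓ zpowers c := e.inf ▸ mem_zpowers x
  have x1 := zpowers_le.2 x0.1
  have z0 : ∀ g, ∀ i ∈ zpowers z, Commute g i := fun g i => comm_zp (h.zc g)
  have z1 : zpowers z ≤ zpowers x := e.sq ▸ sq_le x
  have z2 : x ∉ zpowers z := fun e' => e.nc (z0 t x e')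
  have z3 := zpowers_le.2 h.hz
  have z4 : ∀ g y, g * y * g⁻¹ ∈ zpowers z → y ∈ zpowers z := fun g y e => by
    rw [← comm_iff.1 (z0 g⁻¹ _ e)] at e
    simpa [mul_assoc] using e
  obtain ⟨m, hm⟩ : ∃ m, orderOf c = 2 ^ (m + 1) := by
    obtain ⟨_ | m, hm⟩ := isPE_of_mem h.pg h.hc
    · exact absurd (by simpa [orderOf_eq_one_iff.1 hm] using h.hz) h.z1
    · exact ⟨m, hm⟩
  have u0 := h.mem_half hm
  obtain ⟨u, hu⟩ : ∃ u, c ^ 2 ^ m = u := ⟨_, rfl⟩
  have u1 : u * u = 1 := by rw [← hu, ← sq, ← pow_mul, ← pow_succ, ← hm, pow_orderOf_eq_one]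
  have u2 : ∀ q ∈ Q, ∀ r ∈ Q, Commute q r ∨ q * r = u * (r * q) := fun q hq r hr => by
    have e1 : q * r * q⁻¹ * r⁻¹ ∈ zpowers z := by
      convert mul_mem (mul_mem (hs _ (mul_mem hq hr)) (inv_mem (hs q hq))) (inv_mem (hs r hr)) using 1
      rw [← comm_iff.1 (z0 r⁻¹ _ (hs q hq))]; group
    have e2 := comm_iff.1 (z0 q _ e1)
    refine (H9.eq_one_or_eq_of_mem_zpowers u1 (mem_zp_of_sq ⟨1, ?_⟩ ?_ (hu ▸ npow_mem_zpowers _ _)
      (z3 e1) ?_)).imp (fun e => ?_) fun e => ?_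
    · rw [← hu]; exact H9.orderOf_pow_two_pow (by rw [hm, add_comm])
    · rw [← hu]; exact pow_ne_one_of_lt_orderOf (by positivity) (hm ▸ Nat.pow_lt_pow_right one_lt_two
        (by omega))
    · nth_rw 1 [← e2]
      calc _ = q * q * r * (q * q)⁻¹ * r⁻¹ := by group
        _ = 1 := by rw [← (z0 r _ (hs q hq)).eq]; group
    · rwa [mul_inv_eq_one, mul_inv_eq_iff_eq_mul] at e
    · rw [← e]; group
  rw [hu] at u0
  obtain ⟨j, hj, j1⟩ : ∃ j ∈ Q, ¬ Commute j x := by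
    by_contra! e'
    exact z2 (h.mem_Z e.dec (hQ x0.1) (zp_comm x0.2 (mem_zpowers c)) fun q hq => (e' q hq).symm)
  have u3 : ∀ q ∈ Q, ∀ r ∈ Q, ∀ y ∈ Q, ¬ Commute q y → ¬ Commute r y → Commute (q * r) y :=
    fun q hq r hr y hy e1 e2 => by
      rw [Commute, SemiconjBy, mul_assoc, (u2 r hr y hy).resolve_left e2, ← mul_assoc,
        (z0 q u u0).eq, mul_assoc, ← mul_assoc q, (u2 q hq y hy).resolve_left e1, ← mul_assoc,
        ← mul_assoc, u1, one_mul, mul_assoc]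
  have e1 : ∀ q ∈ Q, q ∈ Q ⊓ c1 x ∨ q * j⁻¹ ∈ Q ⊓ c1 x := fun q hq => by
    by_cases e1 : Commute q x
    · exact .inl ⟨hq, mem_centralizer_singleton_iff.2 e1⟩
    · exact .inr ⟨Q.mul_mem hq (Q.inv_mem hj), mem_centralizer_singleton_iff.2
        (u3 q hq _ (inv_mem hj) x x0.1 e1 fun e => j1 (by simpa using e.inv_left))⟩
  have e2 : zpowers x ≤ Q ⊓ c1 x := zpowers_le.2 ⟨x0.1, mem_c1'.2 (by simp)⟩
  have e3 : (zpowers x).relIndex (Q ⊓ c1 x) = 2 := by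
    have := relIndex_mul_relIndex _ _ _ e2 inf_le_left
    rw [H9.relIndex_eq_two_of hj (fun e => j1 (mem_centralizer_singleton_iff.1 (mem_inf.1 e).2)) e1,
      e.idx] at this
    omega
  obtain ⟨a, ha, a1, a2⟩ : ∃ a ∈ Q ⊓ c1 x, a ∉ zpowers x ∧ Commute a j := by
    obtain ⟨v, hv, v1⟩ := H9.exists_notMem_of_relIndex_two e3
    by_cases e : Commute v j
    · exact ⟨v, hv, v1, e⟩
    · exact ⟨x * v, mul_mem (e2 (mem_zpowers x)) hv, by rwa [mul_mem_cancel_left (mem_zpowers x)],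
        u3 x x0.1 v hv.1 j hj (fun e => j1 e.symm) e⟩
  have a3 : ∀ v ∈ Q ⊓ c1 x, v ∈ zpowers x ∨ v * a⁻¹ ∈ zpowers x := fun v hv =>
    or_iff_not_imp_left.2 fun e => H9.mul_inv_mem_of_relIndex_two e3 hv ha e a1
  have a4 : ∀ q ∈ Q, Commute a q := fun q hq => by
    have : ∀ v ∈ Q ⊓ c1 x, Commute a v := fun v hv => by
      have e := comm_zp (mem_centralizer_singleton_iff.1 ha.2 : Commute a x) (y := v * a⁻¹)
      exact (a3 v hv).elim (comm_zp (mem_centralizer_singleton_iff.1 ha.2)) fun e' => by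
        simpa using (e e').mul_right (Commute.refl a)
    exact (e1 q hq).elim (this q) fun e => by simpa using (this _ e).mul_right a2
  have a5 : a ∉ zpowers c := fun e' => a1 (e.inf.le ⟨ha.1, e'⟩)
  have a6 : ∀ y ∈ zpowers x, Commute j y → y ∈ zpowers z := fun y hy e' => e.sq ▸
    (zp_cases hy).resolve_right fun e'' => j1 (by
      have := (z0 j _ (e.sq ▸ e'')).inv_right.mul_right e'
      rwa [mul_inv_rev, inv_inv, inv_mul_cancel_right] at this)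
  have a7 : t * a * t⁻¹ * a⁻¹ ∈ zpowers z := by
    have : ∀ q ∈ Q, Commute (t * a * t⁻¹) q := fun q hq => by
      simpa [mul_assoc] using (a4 _ (conj_mem_nN (inv_mem o.nor) hq)).conj t
    rcases a3 _ ⟨o.mem ha.1, mem_centralizer_singleton_iff.2 (this x x0.1)⟩ with e' | e'
    · exact absurd (z1 (z4 _ _ (a6 _ e' (this j hj).symm))) a1
    · exact a6 _ e' ((this j hj).symm.mul_right a2.symm.inv_right)
  have c0 : c ∉ Q := fun e' => a1 (z1 (h.mem_Z e.dec (hQ ha.1) (a4 c e') a4))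
  have c1 : x ∈ zpowers (c * c) := (zp_cases x0.2).resolve_right fun ⟨i, hi⟩ => c0 (x1 (by
    have e1 : x = c ^ (2 * i + 1) := by
      rw [zpow_add_one, zpow_mul, zpow_two]; exact mul_inv_eq_iff_eq_mul.1 hi.symm
    rw [e1, mem_zpowers_zpow_iff, hm, Int.gcd_eq_natAbs, Int.natAbs_natCast]
    exact Nat.Coprime.pow_right _ (Nat.coprime_two_right.2 (Int.natAbs_odd.2 (odd_two_mul_add_one i)))))
  have c2 : ∀ q ∈ Q, q ∈ nN (zpowers c) → (∃ v ∈ zpowers z, q * c * q⁻¹ = v * c ∧ Commute q x) ∨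
      ∃ v ∈ zpowers z, q * c * q⁻¹ = v * c⁻¹ ∧ ¬ Commute q x := fun q hq hn => by
    have e1 : ∀ v ∈ zpowers z, v * v = 1 → q * c * q⁻¹ = v * c → Commute q x := fun v hv e1 e2 =>
      comm_zp (comm_iff.2 (by rw [← conj_mul, e2, mul_assoc, ← mul_assoc c, (z0 c v hv).eq,
        ← mul_assoc, ← mul_assoc, e1, one_mul])) c1
    have e2 : ∀ v ∈ zpowers z, v * v = 1 → q * c * q⁻¹ = v * c⁻¹ → ¬ Commute q x :=
      fun v hv e1 e2 e3 => h.z1 (by
        obtain ⟨i, hi⟩ := c1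
        have e4 := comm_iff.1 e3
        rw [← hi] at e4
        simp only at e4 hi
        rw [← conj_zpow, ← conj_mul, e2, mul_assoc, ← mul_assoc c⁻¹, (z0 c⁻¹ v hv).eq, ← mul_assoc,
          ← mul_assoc, e1, one_mul, ← mul_inv_rev, inv_zpow, hi] at e4
        simpa [show x * x = 1 by nth_rw 1 [← e4]; exact inv_mul_cancel x] using
          e.sq.le (mem_zpowers z))
    rcases H9.conj_cases hm (conj_mem_nN hn (mem_zpowers c)) (z0 c _ (hs q hq)).symm with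
      e | e | e | e
    · exact .inl ⟨1, one_mem _, by simpa using e, e1 1 (one_mem _) (by simp) (by simpa using e)⟩
    · rw [hu, (z0 c u u0).eq] at e; exact .inl ⟨u, u0, e, e1 u u0 u1 e⟩
    · exact .inr ⟨1, one_mem _, by simpa using e, e2 1 (one_mem _) (by simp) (by simpa using e)⟩
    · rw [hu, (z0 c⁻¹ u u0).eq] at e; exact .inr ⟨u, u0, e, e2 u u0 u1 e⟩
  have c3 : a ∈ nN (zpowers c) := by
    have e4 : zpowers c ≤ D ⊓ nN (zpowers c) := le_inf (zpowers_le.2 h.hc) le_normalizer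
    rcases chain4 e4 inf_le_left h.idx.dvd with e' | e' | e'
    · exact absurd (exists_nN h.pg (zpowers_le.2 h.hc) e' (hQ ha.1)) a5
    swap
    · exact (e' (hQ ha.1)).2
    obtain ⟨g, hg, g1⟩ := H9.exists_notMem_of_relIndex_two e'.1
    obtain ⟨q, hq, q1⟩ := e.dec g hg.1
    have q2 : q ∈ nN (zpowers c) := by
      simpa using mul_mem (mem_inf.1 hg).2 (inv_mem (le_normalizer q1))
    have q3 : q ∉ zpowers c := fun e => g1 (by simpa using mul_mem e q1)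
    rcases c2 q hq q2 with ⟨-, -, -, q4⟩ | ⟨v, hv, q4, -⟩
    · have := (a3 q ⟨hq, mem_centralizer_singleton_iff.2 q4⟩).resolve_left
        fun e' => q3 (e.inf.ge e').2
      simpa using mul_mem (inv_mem (le_normalizer (e.inf.ge this).2)) q2
    have e5 := conj_mem_of_dvd e'.2 inf_le_left (hQ ha.1) (e4 (mem_zpowers c))
    by_cases e6 : a * c * a⁻¹ ∈ zpowers c
    · refine H20.mem_normalizer_of_conj ?_
      rintro _ ⟨i, rfl⟩
      simp only [← conj_zpow]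
      exact zpow_mem e6 i
    obtain ⟨i, hi⟩ := H9.mul_inv_mem_of_relIndex_two e'.1 e5 ⟨hQ hq, q2⟩ e6 q3
    have e7 : a * (c * c) * a⁻¹ ∈ zpowers z := by
      rw [← conj_mul, mul_inv_eq_iff_eq_mul.1 hi.symm, show c ^ i * q * (c ^ i * q) =
        c ^ i * (q * c * q⁻¹) ^ i * (q * q) by rw [conj_zpow]; group, q4, (z0 c⁻¹ v hv).symm.mul_zpow,
        ← ((z0 c⁻¹ v hv).zpow_zpow i i).eq, inv_zpow, mul_inv_cancel_left]
      exact mul_mem (zpow_mem hv i) (hs q hq)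
    exact absurd (zpowers_le.2 (z4 _ _ e7) c1) z2
  refine ⟨c0, a, ha.1, a5, a4, a7, ?_⟩
  rcases c2 a ha.1 c3 with ⟨v, hv, e', -⟩ | ⟨-, -, -, e'⟩
  · rwa [e', mul_inv_cancel_right]
  · exact absurd (a4 x x0.1) e'

end CY

/-- An elementary abelian active subgroup. -/
structure EA (P R : Subgroup G) (c t r a : G) : Prop where
  exp : ∀ g ∈ R, g * g = 1
  card : Nat.card R ∣ 8
  inf : R ⊓ zpowers c = zpowers r
  nr : ¬ Commute t r
  ha : a ∈ R
  na : a ∉ zpowers c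
  ca : Commute t a
  za : a ∈ cC P
  nc : c ∉ R
  dec : ∀ d ∈ P, ∃ q ∈ R, q⁻¹ * d ∈ zpowers c

theorem CY.quot [Finite L] (h : CY D c z) {π : G →* L} (hπ : Function.Surjective π)
    (hk : π.ker = zpowers z) {R : Subgroup L} {τ : L} (hR : R ≤ D.map π) (h1 : τ ∈ nN R)
    (h2 : ¬ 2 ∣ orderOf τ) (h3 : τ ∉ cC R) :
    Nat.card R ∣ 4 ∨ ∃ r a, EA (D.map π) R (π c) τ r a := by
  obtain ⟨t, t1, rfl⟩ := exists_pRegular_lift hπ h2
  have z0 : ∀ {y}, π y = 1 ↔ y ∈ zpowers z := fun {y} => hk ▸ Iff.rfl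
  have z1 : zpowers z ≤ zpowers c := zpowers_le.2 h.hz
  have z2 := zpowers_le.2 h.hc
  have q0 : R.comap π ≤ D := by
    refine (comap_mono hR).trans ?_
    rw [comap_map_eq, hk]
    exact sup_le le_rfl (z1.trans z2)
  have q1 : z ∈ R.comap π := by rw [mem_comap, z0.2 (mem_zpowers z)]; exact one_mem _
  have o : OA (R.comap π) t := ⟨h.pg.to_le q0, H20.mem_normalizer_of_conj fun q hq => by
    simpa using conj_mem_nN h1 hq, Nat.not_even_iff_odd.1 (mt even_iff_two_dvd.1 t1)⟩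
  have o' : OA R (π t) := ⟨(h.pg.map π).to_le hR, h1, Nat.not_even_iff_odd.1 (mt even_iff_two_dvd.1 h2)⟩
  have q2 : (zpowers z).relIndex (R.comap π) = Nat.card R := by
    rw [← hk, relIndex_ker, map_comap_eq_self_of_surjective hπ]
  have q3 : ∀ y, π y ∈ zpowers (π c) → y ∈ zpowers c := fun y ⟨i, hi⟩ => by
    simpa using mul_mem (z1 (z0.1 (show π (y * (c ^ i)⁻¹) = 1 by simp [← hi]))) (zpow_mem_zpowers c i)
  rcases h.cases q0 q1 o fun e => h3 fun y hy => by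
    obtain ⟨y, rfl⟩ := hπ y
    rw [← map_mul, e y hy, map_mul] with e | ⟨x, e⟩
  · exact .inl (q2 ▸ e)
  have x0 : x ∈ R.comap π ⊓ zpowers c := e.inf ▸ mem_zpowers x
  have x1 : ¬ Commute (π t) (π x) := fun e' => e.nc (o.st x0.1 (comm_zp (h.zc t) (z0.1 (by
    simp [e'.eq]))))
  have x2 : Nat.card R ∣ 8 := by
    rw [← q2, e.sq, ← relIndex_mul_relIndex _ _ _ (sq_le x) (zpowers_le.2 x0.1), e.idx]
    exact Nat.mul_dvd_mul_right (relIndex_sq_dvd x) 4
  have x3 : ∀ g ∈ R, g * g = 1 := fun g => o'.e8 x2 x0.1 (by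
    rw [← map_mul, z0, e.sq]; exact mem_zpowers _) x1
  obtain ⟨c0, a, a1, a2, a3, a4, a5⟩ := h.exists_a q0 o e fun q hq => z0.1 (by
    rw [map_mul, x3 _ hq])
  refine .inr ⟨π x, π a, x3, x2, le_antisymm (fun y hy => ?_) (zpowers_le.2 ⟨x0.1, ?_⟩), x1, a1,
    fun e => a2 (q3 a e), by simpa [mul_inv_eq_one, ← comm_iff] using z0.2 a4, ?_, c0, ?_⟩
  · obtain ⟨y, rfl⟩ := hπ y
    exact π.map_zpowers x ▸ mem_map_of_mem π (e.inf.le ⟨hy.1, q3 y hy.2⟩)
  · exact π.map_zpowers c ▸ mem_map_of_mem π x0.2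
  · rintro _ ⟨d, hd, rfl⟩
    obtain ⟨q, hq, e'⟩ := e.dec d hd
    have : Commute (π a) (π c) := by simpa [mul_inv_eq_one, ← comm_iff] using z0.2 a5
    have := (((a3 q hq).map π).mul_right (comm_zp this
      (π.map_zpowers c ▸ mem_map_of_mem π e'))).symm.eq
    rwa [← map_mul, mul_inv_cancel_left] at this
  · rintro _ ⟨d, hd, rfl⟩
    obtain ⟨q, hq, e'⟩ := e.dec d hd
    exact ⟨π q, hq, by simpa using mem_map_of_mem π e'⟩

end H7
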