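import Cfsg.Agent.H7.Cy4a
import Cfsg.Agent.H7.Cy4b
import Cfsg.Agent.S4698

/-! `2`-blocks whose defect group has a cyclic subgroup of index at most two have at most three
Brauer characters (`MP.le_three_of_two`); the configuration `HC4` (abelian subgroup of index two,
centre a four group) and the bound `HC4.le_three`. -/

open H5 Cfsg Subgroup
open H8 (cC nN c1)
open scoped Classical commutatorElement

namespace H7

variable {M : Ideal AlgInt} {G K L : Type*} [Group G] [Finite G] [Group K] [Finite K] [Group L]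
  [Finite L] [PM 2 M] {B : Set (IrrCharacter G)} {P R : Subgroup G} {c t : G}

omit [Finite G] in
theorem le_cC_of_comm (h : IsMulCommutative P) : P ≤ cC P := fun x hx y hy =>
  congrArg Subtype.val (h.is_comm.comm ⟨y, hy⟩ ⟨x, hx⟩)

theorem exists_ord {x : G} (hx : IsPE 2 x) (h : x * x ≠ 1) : ∃ k, orderOf x = 2 ^ (k + 2) := by
  obtain ⟨_ | _ | k, hk⟩ := hx
  · simp [orderOf_eq_one_iff.1 hk] at h
  · exact absurd (by rw [← sq]; simpa [hk] using pow_orderOf_eq_one x) h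
  · exact ⟨k, hk⟩

theorem dih_quot {π : K →* L} {P : Subgroup K} {x y b : K} {k : ℕ} (hk : π.ker = zpowers b)
    (hb : b * b = 1) (hx : x ∈ P) (hy : y ∈ P) (ho : orderOf x = 2 ^ (k + 2)) (h1 : b ∉ zpowers x)
    (h2 : y ∉ zpowers x) (h3 : y * b ∉ zpowers x) (h4 : y * y = 1) (h5 : y * x * y⁻¹ = x⁻¹)
    (h6 : ∀ g ∈ P, ∃ u ∈ zpowers b, g * u ∈ zpowers x ∨ g * y⁻¹ * u ∈ zpowers x) :
    H9.MC (P.map π) k (π x) ∧ Nonempty (P.map π ≃* DihedralGroup (2 ^ (k + 2))) := by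
  have e0 : ∀ {g}, π g = 1 ↔ g ∈ zpowers b := fun {g} => hk ▸ Iff.rfl
  have e1 : ∀ g ∈ P.map π, g ∈ zpowers (π x) ∨ g * (π y)⁻¹ ∈ zpowers (π x) := by
    rintro _ ⟨g, hg, rfl⟩
    obtain ⟨u, hu, e⟩ := h6 g hg
    exact e.imp (fun e => by simpa [e0.2 hu] using mem_map_of_mem π e)
      fun e => by simpa [e0.2 hu] using mem_map_of_mem π e
  have e2 : π y ∉ zpowers (π x) := fun ⟨i, hi⟩ => by
    rcases H9.eq_one_or_eq_of_mem_zpowers hb (e0.1 (show π (y⁻¹ * x ^ i) = 1 by simp [← hi]))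
      with e | e
    · exact h2 ⟨i, (inv_mul_eq_one.1 e).symm⟩
    · exact h3 ⟨i, inv_mul_eq_iff_eq_mul.1 e⟩
  have e3 : π y * π x * (π y)⁻¹ = (π x)⁻¹ := by simpa using congrArg π h5
  have e4 := H9.mc_of_gen (P := P.map π) (k := k) ((orderOf_eq_orderOf_iff.2 fun n =>
    ⟨fun e => (H9.eq_one_or_eq_of_mem_zpowers hb (e0.1 (by rwa [map_pow]))).resolve_right
      fun e => h1 (e ▸ npow_mem_zpowers x n), fun e => by rw [← map_pow, e, map_one]⟩).trans ho)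
    (mem_map_of_mem π hx) (H9.relIndex_eq_two_of (mem_map_of_mem π hy) e2 e1) (mem_map_of_mem π hy)
    e2 (.inl e3)
  refine ⟨e4, e4.equiv_dihedral fun g hg h => ?_⟩
  obtain ⟨i, hi⟩ := (e1 g hg).resolve_left h
  rw [mul_inv_eq_iff_eq_mul.1 hi.symm, show π x ^ i * π y * (π x ^ i * π y) =
    π x ^ i * (π y * π x * (π y)⁻¹) ^ i * (π y * π y) by rw [conj_zpow]; group, e3, ← map_mul, h4]
  simp

namespace MP
variable (m : MP 2 M B P)
include m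

theorem le_three_of_mc {k : ℕ} (h : H9.MC P k c) : blockRank 2 B ≤ 3 := by
  obtain ⟨z, g, t⟩ := exists_tm h
  obtain ⟨n, S, E, ξ, s⟩ := t.exists_ts m
  have := s.rank'
  omega

theorem le_three_of_four (h : Nat.card P ∣ 4) : blockRank 2 B ≤ 3 := by
  rw [IsDefectGroup.card m.blk m.dfc, show 4 = 2 ^ 2 from rfl, Nat.pow_dvd_pow_iff_le_right one_lt_two]
    at h
  have h1 := (Cfsg.Agent.S4698.result 2 M PM.out B m.blk _ rfl).1 h
  have h2 := blockRank_le_card (p := 2) (isSat_of_isPBlock m.blk)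
  have h3 := blockRank_lt_card (p := 2) m.blk
  generalize blockDefect 2 B = d at *
  interval_cases d <;> omega

theorem le_three_of_cen (hR : R ≤ P) (hc : P ⊓ cC R ≤ R) (h4 : Nat.card R ∣ 4) :
    blockRank 2 B ≤ 3 := by
  by_cases h1 : R ≤ cC P
  · exact m.le_three_of_four ((card_dvd_of_le ((le_inf le_rfl (H8.le_cC_comm.1 h1)).trans hc)).trans h4)
  obtain ⟨g, hg, g1⟩ := SetLike.not_le_iff_exists.1 h1
  obtain ⟨z, hz, z1⟩ := (SetLike.exists_of_lt (bot_lt_iff_ne_bot.2 (H20.cIn_ne_bot m.mx.pg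
    fun e => h1 (hR.trans (e.le.trans bot_le)))))
  rw [H20.mem_cIn] at hz
  have g2 : g ∉ (⊥ : Subgroup G) := fun e => g1 (mem_bot.1 e ▸ one_mem _)
  suffices h : P ⊓ c1 g ≤ R by
    obtain ⟨k, x, e⟩ := H9.mc_of_card_centralizer m.mx.pg (hR hg) ((card_le_of_le h).trans
      (Nat.le_of_dvd (by norm_num) h4)) fun e => h1 (hR.trans (le_cC_of_comm e))
    exact m.le_three_of_mc e
  refine fun y hy => hc ⟨hy.1, ?_⟩
  have g3 : g ∈ R ⊓ c1 y := ⟨hg, mem_centralizer_singleton_iff.2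
    (mem_centralizer_singleton_iff.1 hy.2).symm⟩
  rcases chain4 (E := R ⊓ c1 y) bot_le inf_le_left (by rwa [relIndex_bot_left]) with e | e | e
  · exact absurd (e g3) g2
  · exact absurd (mul_inv_eq_one.1 (H9.mul_inv_mem_of_relIndex_two e.1 g3 ⟨hc ⟨hz.1,
      H8.cC_anti hR hz.2⟩, mem_centralizer_singleton_iff.2 (hz.2 y hy.1).symm⟩ g2 z1) ▸ hz.2) g1
  · exact le_centralizer_singleton_iff.1 (e.trans inf_le_right)

variable {m} in
theorem A.oa (h : m.A R t) : OA R t :=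
  ⟨m.mx.pg.to_le h.le, h.nor, Nat.not_even_iff_odd.1 (mt even_iff_two_dvd.1 h.reg)⟩

theorem le_three_of_two (hc : c ∈ P) (hi : (zpowers c).relIndex P ∣ 2) : blockRank 2 B ≤ 3 := by
  by_cases h : ∀ R t, ¬ m.A R t
  · rw [m.rank_one_of_act h]; norm_num
  push Not at h
  obtain ⟨R, t, h⟩ := h
  obtain ⟨n, hn⟩ := (le_zpowers_iff c (R ⊓ zpowers c)).1 inf_le_right
  obtain ⟨x, hx⟩ : ∃ x, c ^ n = x := ⟨_, rfl⟩
  rw [hx] at hn
  have x0 : x ∈ R ⊓ zpowers c := hn ▸ mem_zpowers x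
  have x1 : (zpowers x).relIndex R ∣ 2 := by
    have e1 := relIndex_le_of_le_right h.le (ne_zero_of_dvd_ne_zero two_ne_zero hi)
    have e2 : (zpowers c).relIndex R ≠ 0 := index_ne_zero_of_finite
    have e3 := e1.trans (Nat.le_of_dvd two_pos hi)
    rw [← hn, inf_relIndex_left]
    generalize (zpowers c).relIndex R = a at *
    interval_cases a <;> simp at e2 ⊢
  obtain ⟨-, -, y1, y2⟩ := h.oa.q8 x0.1 x1 (fun e => h.ne fun y hy =>
    (h.oa.idx (fun a => comm_zp e) x1 hy).symm) rfl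
  have y0 := h.le (h.oa.mem x0.1)
  generalize t * x * t⁻¹ = y at *
  by_cases y3 : x * x = 1
  · refine m.le_three_of_cen h.le h.cen ?_
    rw [← ((zpowers x).subgroupOf R).card_mul_index,
      Nat.card_congr (subgroupOfEquivOfLe (zpowers_le.2 x0.1)).toEquiv, Nat.card_zpowers]
    exact Nat.mul_dvd_mul (orderOf_dvd_of_pow_eq_one (x := x) (n := 2) (by rwa [sq])) x1
  have y4 : ¬ Commute y x := fun e => y3 (by
    rw [comm_iff.1 e] at y2; nth_rw 1 [y2]; exact inv_mul_cancel x)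
  obtain ⟨k, x', e, e' | ⟨b, e'⟩⟩ := H9.mc_or_mod_of_cyclic m.mx.pg inferInstance (zpowers_le.2 hc)
    (two_of_dvd hi y0 fun e => y4 (zp_comm e x0.2))
    fun e => y4 (le_cC_of_comm e (h.le x0.1) y y0)
  · exact m.le_three_of_mc e'
  refine absurd (comm_zp (x := x' ^ 2) ?_ (H9.mem_zpowers_of_orderOf_dvd (e ▸ x0.2)
    (npow_mem_zpowers _ _) ?_)) y4
  · obtain ⟨i, rfl | rfl⟩ := e'.cases y0
    exacts [((Commute.refl x').pow_right 2).zpow_left i,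
      (((Commute.refl x').pow_right 2).zpow_left i).mul_left e'.commute_sq]
  · rw [H9.orderOf_sq e'.ordx]
    exact (orderOf_dvd_of_pow_eq_one (n := 2 ^ 2) (by simpa [pow_succ, mul_assoc] using y1)).trans
      (pow_dvd_pow 2 (by have := e'.pos; omega))

theorem le_three_of_notMem (hc : c ∈ P) (hi : (zpowers c).relIndex P ∣ 4) {u : P}
    (hu : (u : G) ∈ cC P) (h : (u : G) ∉ zpowers c) : blockRank 2 (m.bu u) ≤ 3 := by
  obtain ⟨L, _, _, π, hπ, hk, h1, h2⟩ := H8.exists_quot_central (p := 2) (z := selfC (u : G))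
    (fun c => Subtype.ext (mem_centralizer_singleton_iff.1 c.2)) (isPE_coe.1 (m.isPE u))
  obtain ⟨b1, b2, -⟩ := H8.dominated hπ h1 (fun y _ => h2 y) (m.bu_blk u)
  obtain ⟨m'⟩ := nonempty_mp b1 (b2 _ (m.dfc_bu hu))
  have h3 := le_centralizer_singleton_iff.2 hu
  rw [blockRank_quot hπ h1 (fun y _ => h2 y) (m.bu_sat u)]
  obtain ⟨c', rfl⟩ : ∃ c' : c1 (u : G), c'.1 = c := ⟨⟨c, h3 hc⟩, rfl⟩
  have h4 : c' ∈ P.subgroupOf (c1 (u : G)) := hc
  have h5 : selfC (u : G) ∈ P.subgroupOf (c1 (u : G)) := u.2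
  have h6 : (zpowers c').relIndex (P.subgroupOf (c1 (u : G))) ∣ 4 := by
    rwa [← relIndex_map_map_of_injective _ _ (subtype_injective _), MonoidHom.map_zpowers,
      subgroupOf_map_subtype, inf_eq_left.2 h3]
  refine m'.le_three_of_two (mem_map_of_mem π h4) ?_
  rw [← relIndex_comap, ← MonoidHom.map_zpowers, comap_map_eq, hk]
  rcases chain4 le_sup_left (sup_le (zpowers_le.2 h4) (zpowers_le.2 h5)) h6 with e | e | e
  · obtain ⟨i, hi⟩ := e (mem_sup_right (mem_zpowers _))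
    exact absurd ⟨i, congrArg Subtype.val hi⟩ h
  · exact e.2
  · rw [relIndex_eq_one.2 e]; exact one_dvd _

theorem sum_central [Fintype P] (nf : ∀ v w : P, m.FC v w → v.1 ∈ cC P → w.1 ∈ cC P → v = w)
    {F : P → ℂ} (hF : m.Stb F) :
    ∑ v, (if ∃ z : P, z.1 ∈ cC P ∧ m.FC z v then (m.cl v : ℂ)⁻¹ * F v else 0) =
      ∑ z : P, if z.1 ∈ cC P then F z else 0 := by
  rw [Finset.sum_congr rfl fun z _ => (m.sum_fc z (if z.1 ∈ cC P then F z else 0)).symm,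
    Finset.sum_comm]
  refine Finset.sum_congr rfl fun v _ => ?_
  split_ifs with h
  · obtain ⟨z, h1, h2⟩ := h
    rw [Finset.sum_eq_single z, if_pos h2, if_pos h1, hF _ _ h2]
    · intro w _ hw
      split_ifs with e e'
      · exact absurd (nf _ _ (e.trans h2.symm) e' h1) hw
      all_goals simp
    · simp
  · refine (Finset.sum_eq_zero fun z _ => ?_).symm
    split_ifs with e e'
    · exact absurd ⟨z, e', e⟩ h
    all_goals simp

theorem sum_split [Fintype P] {b : P} (hb : b.1 ∈ cC P) {l : P →* ℂˣ} (hl : m.Stb fun v => l v)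
    (lb : l b = -1) {V : P → Prop} (hV : ∀ v, V (b * v) ↔ V v)
    (h1 : ∀ v w, ¬ V v → m.FC v w → IsConj v w) (h2 : ∀ v, ¬ V v → blockRank 2 (m.bu v) = 1) :
    ∑ v, (if V v then (m.cl v : ℂ)⁻¹ * (l v * blockRank 2 (m.bu v)) else 0) = 0 := by
  have e1 := m.sum_lin_rank hb hl (by rw [lb]; norm_num [Units.ext_iff])
  have e2 : ∀ v, ¬ V v → m.cl (b * v) = m.cl v := fun v hv => by
    refine (Nat.card_congr (Equiv.subtypeEquiv (Equiv.mulLeft b) fun w => ?_)).symm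
    have : ∀ a : P, a * (b * v) * a⁻¹ = b * (a * v * a⁻¹) := fun a => Subtype.ext (by
      simp only [coe_mul, ← mul_assoc, hb a a.2])
    refine ⟨fun e => m.fc_of_isConj ?_, fun e => m.fc_of_isConj ?_⟩
    · obtain ⟨a, rfl⟩ := isConj_iff.1 (h1 _ _ hv e)
      exact isConj_iff.2 ⟨a, this a⟩
    · obtain ⟨a, ha⟩ := isConj_iff.1 (h1 _ _ (mt (hV v).1 hv) e)
      exact isConj_iff.2 ⟨a, mul_left_cancel ((this a).symm.trans ha)⟩
  have e3 : ∑ v, (if V v then 0 else (m.cl v : ℂ)⁻¹ * (l v * blockRank 2 (m.bu v))) = 0 := by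
    rw [← neg_eq_self, ← Finset.sum_neg_distrib, ← Equiv.sum_comp (Equiv.mulLeft b)]
    refine Finset.sum_congr rfl fun v _ => ?_
    by_cases e : V v
    · simp [e, hV]
    · rw [Equiv.coe_mulLeft, h2 _ (mt (hV v).1 e)]
      simp [e, hV, e2 v e, lb, h2 v e]
  rw [← add_zero (Finset.sum _ _)]
  nth_rw 2 [← e3]
  rw [← Finset.sum_add_distrib]
  exact (Finset.sum_congr rfl fun v _ => by split_ifs <;> simp).trans e1

/-- fusion of elements of the ambient group -/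
def Fu (x y : G) : Prop := ∃ hx hy, m.FC ⟨x, hx⟩ ⟨y, hy⟩

variable {m} {x y z : G}

theorem Fu.symm (h : m.Fu x y) : m.Fu y x := have ⟨a, b, e⟩ := h; ⟨b, a, e.symm⟩

theorem Fu.trans (h : m.Fu x y) (h' : m.Fu y z) : m.Fu x z :=
  have ⟨a, _, e⟩ := h; have ⟨_, b, e'⟩ := h'; ⟨a, b, e.trans e'⟩

variable (m) in
theorem fu_conj (hx : x ∈ P) (hy : y ∈ P) (e : x * y * x⁻¹ = z) : m.Fu y z :=
  ⟨hy, e ▸ mul_mem (mul_mem hx hy) (inv_mem hx), m.fc_of_conj hx e⟩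

variable (m) in
theorem fu_refl (hx : x ∈ P) : m.Fu x x := ⟨hx, hx, FC.refl m _⟩

theorem Fu.eq_one (h : m.Fu x 1) : x = 1 :=
  have ⟨_, _, e⟩ := h; congrArg Subtype.val (m.fc_one_iff.1 e.symm)

theorem A.fu (h : m.A R t) (hx : x ∈ R) : m.Fu x (t * x * t⁻¹) :=
  ⟨h.le hx, h.le (h.oa.mem hx), h.fc hx rfl⟩

end MP

/-- Data of an active pair. -/
structure AD (m : MP 2 M B P) (N R : Subgroup G) (s t a y : G) : Prop where
  za : a ∈ P ⊓ cC P
  a1 : a ≠ 1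
  ca : Commute t a
  ns : ¬ Commute t s
  rk : ∀ h, blockRank 2 (m.bu ⟨a, h⟩) ≤ 3
  hy : y ∈ P
  ny : y ∉ N
  yy : y * y = 1
  f1 : m.Fu y s
  f2 : m.Fu (a * y) (a * s)
  dec : ∀ v ∈ R, v ∈ cC P ∨ v * y⁻¹ ∈ cC P
  com : ∀ v ∈ R, v⁻¹ * (t * v * t⁻¹) ∈ zpowers s ⊔ zpowers y

/-- The hard configuration. -/
structure HC4 (m : MP 2 M B P) (N : Subgroup G) (s b c d : G) : Prop where
  le : N ≤ P
  idx : N.relIndex P = 2
  ab : ∀ x ∈ N, ∀ y ∈ N, Commute x y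
  cen : ∀ v, v ∈ P ⊓ cC P ↔ v = 1 ∨ v = s ∨ v = b ∨ v = b * s
  ss : s * s = 1
  bb : b * b = 1
  s1 : s ≠ 1
  b1 : b ≠ 1
  bs : b ≠ s
  cN : P ⊓ cC P ≤ N
  hc : c ∈ N
  gen : ∀ y ∈ N, ∃ i : ℤ, (c ^ i)⁻¹ * y ∈ cC P
  hd : ∀ y ∈ P, y ∉ N → c * y * c⁻¹ = d * y
  com : ∃ x ∈ N, ∀ y ∈ P, y ∉ N → x * y * x⁻¹ = s * y
  nf : ∀ v w, m.Fu v w → v ∈ cC P → w ∈ cC P → v = w
  act : ∀ R t, m.A R t → ∃ a y, AD m N R s t a y

omit [Finite G] in
theorem conj_out {N : Subgroup G} (h : N.relIndex P = 2) (hN : N ≤ P)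
    (ab : ∀ x ∈ N, ∀ y ∈ N, Commute x y) {x j y : G} (hx : x ∈ N) (hj : j ∈ P) (j1 : j ∉ N)
    (hy : y ∈ P) (y1 : y ∉ N) : x * y * x⁻¹ = x * j * x⁻¹ * j⁻¹ * y := by
  have e1 := H9.mul_inv_mem_of_relIndex_two h hy hj y1 j1
  have e2 := mul_mem hx (H9.conj_mem_of_relIndex_two h hN hj (inv_mem hx))
  calc _ = x * (y * j⁻¹) * x⁻¹ * (x * (j * x⁻¹ * j⁻¹)) * j := by group
    _ = _ := by rw [comm_iff.1 (ab _ hx _ e1), (ab _ e1 _ e2).eq]; group

omit [Finite G] in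
theorem cent_out {N : Subgroup G} (h : N.relIndex P = 2) (ab : ∀ x ∈ N, ∀ y ∈ N, Commute x y)
    {x y : G} (hx : x ∈ N) (hy : y ∈ P) (y1 : y ∉ N) (e : Commute x y) : x ∈ cC P := fun g hg => by
  by_cases g1 : g ∈ N
  · exact ab g g1 x hx
  · simpa using ((ab x hx _ (H9.mul_inv_mem_of_relIndex_two h hg hy g1 y1)).mul_right e).symm.eq

namespace HC4
variable {m : MP 2 M B P} {N : Subgroup G} {s b c d x y j v : G} (h : HC4 m N s b c d)
include h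

theorem hs : s ∈ P ⊓ cC P := (h.cen s).2 (by simp)
theorem hb : b ∈ P ⊓ cC P := (h.cen b).2 (by simp)
theorem hbs : b * s ∈ P ⊓ cC P := (h.cen _).2 (by simp)
theorem bs1 : b * s ≠ 1 := fun e => h.bs (mul_right_cancel (e.trans h.ss.symm))
theorem bss : b * s ≠ s := fun e => h.b1 (mul_eq_right.1 e)
theorem bsb : b * s ≠ b := fun e => h.s1 (mul_eq_left.1 e)
theorem bs_s : b * s * s = b := by rw [mul_assoc, h.ss, mul_one]

theorem swap : HC4 m N s (b * s) c d :=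
  { h with
    cen := fun v => by rw [h.cen, h.bs_s]; tauto
    bb := by rw [mul_assoc, ← mul_assoc s, h.hb.2 s h.hs.1, mul_assoc, h.ss, mul_one, h.bb]
    b1 := h.bs1
    bs := h.bss }

theorem cent (hx : x ∈ N) (hy : y ∈ P) (y1 : y ∉ N) (e : Commute x y) : x ∈ cC P :=
  cent_out h.idx h.ab hx hy y1 e

theorem hdN : d ∈ N := by
  obtain ⟨y, hy, y1⟩ := H9.exists_notMem_of_relIndex_two h.idx
  rw [show d = c * (y * c⁻¹ * y⁻¹) by rw [← mul_inv_cancel_right d y, ← h.hd y hy y1]; group]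
  exact mul_mem h.hc (H9.conj_mem_of_relIndex_two h.idx h.le hy (inv_mem h.hc))

theorem zconj (i : ℤ) (hy : y ∈ P) (y1 : y ∉ N) : c ^ i * y * (c ^ i)⁻¹ = d ^ i * y := by
  have e1 := H9.conj_mem_of_relIndex_two h.idx h.le hy (inv_mem h.hc)
  rw [show d = c * (y * c⁻¹ * y⁻¹) by rw [← mul_inv_cancel_right d y, ← h.hd y hy y1]; group,
    (h.ab _ h.hc _ e1).mul_zpow, conj_zpow]
  group

theorem gen' (hx : x ∈ N) : ∃ i : ℤ, ∃ z ∈ cC P, x = c ^ i * z :=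
  have ⟨i, hi⟩ := h.gen x hx
  ⟨i, _, hi, (mul_inv_cancel_left _ _).symm⟩

theorem exists_conj (hx : x ∈ N) : ∃ i : ℤ, ∀ y ∈ P, y ∉ N → x * y * x⁻¹ = d ^ i * y := by
  obtain ⟨i, z, hz, rfl⟩ := h.gen' hx
  refine ⟨i, fun y hy y1 => ?_⟩
  rw [← h.zconj i hy y1]
  nth_rw 2 [← mem_cC'.1 hz y hy]
  group

theorem fu_d (hx : x ∈ zpowers d) (hy : y ∈ P) (y1 : y ∉ N) {z : G} (hz : z ∈ P ⊓ cC P) :
    m.Fu (z * y) (z * (x * y)) := by
  obtain ⟨i, rfl⟩ := hx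
  have e := h.le (zpow_mem h.hc i)
  exact m.fu_conj e (mul_mem hz.1 hy) (by
    simp only [← h.zconj i hy y1, ← mul_assoc, hz.2 _ e])

theorem s_mem : s ∈ zpowers d := by
  obtain ⟨y, hy, y1⟩ := H9.exists_notMem_of_relIndex_two h.idx
  obtain ⟨x, hx, e⟩ := h.com
  obtain ⟨i, hi⟩ := h.exists_conj hx
  exact ⟨i, mul_right_cancel ((hi y hy y1).symm.trans (e y hy y1))⟩

theorem b_notMem (hx : s ∈ zpowers x) : b ∉ zpowers x := fun e =>
  (H9.eq_one_or_eq_of_mem_zpowers h.ss (mem_zp_of_sq (isPE_of_mem m.mx.pg h.hs.1) h.s1 hx e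
    h.bb)).elim h.b1 h.bs

/-- even elements -/
def Ev (_ : HC4 m N s b c d) (x : G) : Prop := ∃ u ∈ zpowers d, u⁻¹ * x ∈ cC P

theorem ev_pow (k : ℤ) : (d ^ k)⁻¹ * c ^ (2 * k) ∈ cC P := by
  obtain ⟨y, hy, y1⟩ := H9.exists_notMem_of_relIndex_two h.idx
  have e1 := H9.conj_mem_of_relIndex_two h.idx h.le hy h.hc
  have e2 : c * (y * c * y⁻¹) ∈ cC P := h.cent (mul_mem h.hc e1) hy y1 (Commute.symm (comm_iff.2 (by
    rw [← conj_mul, show y * (y * c * y⁻¹) * y⁻¹ = y * y * c * (y * y)⁻¹ by group, comm_iff.1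
      (h.ab _ (H9.mul_mem_of_relIndex_two h.idx hy hy y1 y1) _ h.hc), (h.ab _ h.hc _ e1).eq])))
  have e3 : d⁻¹ * (c * c) ∈ cC P := by
    rw [show d = c * (y * c * y⁻¹)⁻¹ by rw [← mul_inv_cancel_right d y, ← h.hd y hy y1]; group,
      mul_inv_rev, inv_inv, mul_assoc, inv_mul_cancel_left, ← (h.ab _ h.hc _ e1).eq]
    exact e2
  rw [zpow_mul, zpow_two, ← inv_zpow, ← (h.ab _ (inv_mem h.hdN) _ (mul_mem h.hc h.hc)).mul_zpow]
  exact zpow_mem e3 k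

theorem parity (hx : x ∈ N) : h.Ev x ∨ h.Ev (x * c⁻¹) := by
  obtain ⟨i, hi⟩ := h.gen x hx
  obtain ⟨k, rfl | rfl⟩ := Int.even_or_odd' i
  · exact .inl ⟨_, ⟨k, rfl⟩, by simpa [mul_assoc] using mul_mem (h.ev_pow k) hi⟩
  · refine .inr ⟨_, ⟨k, rfl⟩, ?_⟩
    convert mul_mem (h.ev_pow k) hi using 1
    rw [← (h.ab _ (inv_mem h.hc) _ hx).eq]; group

theorem change (hx : x ∈ N) (e : ¬ h.Ev x) : ∃ d', HC4 m N s b x d' := by
  obtain ⟨j, hj, j1⟩ := H9.exists_notMem_of_relIndex_two h.idx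
  refine ⟨_, { h with
    hc := hx
    gen := fun y hy => ?_
    hd := fun y hy y1 => conj_out h.idx h.le h.ab hx hj j1 hy y1 }⟩
  obtain ⟨i, z, hz, rfl⟩ := h.gen' hx
  obtain ⟨k, rfl | rfl⟩ := Int.even_or_odd' i
  · exact absurd ⟨_, ⟨k, rfl⟩, by simpa [mul_assoc] using mul_mem (h.ev_pow k) hz⟩ e
  obtain ⟨l, hl⟩ : c ∈ zpowers (c ^ (2 * k + 1)) := by
    obtain ⟨n, hn⟩ := isPE_of_mem m.mx.pg (h.le h.hc)
    rw [mem_zpowers_zpow_iff, hn, Int.gcd_eq_natAbs, Int.natAbs_natCast]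
    exact Nat.Coprime.pow_right _ (Nat.coprime_two_right.2 (Int.natAbs_odd.2 (odd_two_mul_add_one k)))
  obtain ⟨n, hn⟩ := h.gen y hy
  refine ⟨l * n, ?_⟩
  simp only at hl
  have e1 : Commute (c ^ (2 * k + 1)) z := hz _ (h.le (zpow_mem h.hc _))
  rw [e1.mul_zpow, zpow_mul _ l, hl, mul_inv_rev, mul_assoc]
  exact mul_mem (inv_mem (zpow_mem hz _)) hn

theorem comm_mem (hx : x ∈ P) (hy : y ∈ P) : y⁻¹ * (x * y * x⁻¹) ∈ zpowers d := by
  obtain ⟨j, hj, j1⟩ := H9.exists_notMem_of_relIndex_two h.idx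
  refine H9.commutator_le_of_index_two h.idx h.le h.ab hj j1 (fun a ha => ?_)
    (by simpa [commutatorElement_def, mul_assoc] using commutator_mem_commutator (inv_mem hy) hx)
  obtain ⟨i, hi⟩ := h.exists_conj ha
  rw [← inv_mem_iff, commutatorElement_inv, commutatorElement_def, hi j hj j1, mul_inv_cancel_right]
  exact zpow_mem_zpowers d i

theorem sup_inf {W : Subgroup G} (h1 : d ∈ W) (h2 : W ≤ N) (hj : j ∈ P) (j1 : j ∉ N) (j2 : j * j = 1)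
    (hx : x ∈ W ⊔ zpowers j) (x1 : x ∈ N) : x ∈ W := by
  obtain ⟨w, hw, u, hu, rfl⟩ := H20.mem_sup_of_le_normalizer' (zpowers_le.2
    (H20.mem_normalizer_of_conj fun w hw => by
      simpa using mul_mem hw (zpowers_le.2 h1 (h.comm_mem hj (h.le (h2 hw)))))) hx
  rcases H9.eq_one_or_eq_of_mem_zpowers j2 hu with rfl | rfl
  · rwa [mul_one]
  · exact absurd ((mul_mem_cancel_left (h2 hw)).1 x1) j1

/-- outer involutions fused to `s` -/
structure J (_ : HC4 m N s b c d) (v : G) : Prop where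
  hv : v ∈ P
  nv : v ∉ N
  vv : v * v = 1
  f1 : m.Fu v s
  f2 : ¬ m.Fu (b * v) s

theorem fu_s (hy : y ∈ P) (y1 : y ∉ N) : m.Fu (b * y) (b * s * y) :=
  mul_assoc b s y ▸ h.fu_d h.s_mem hy y1 h.hb

theorem ad_cases {R : Subgroup G} {a : G} (e : AD m N R s t a y) : h.J y ∧
    (a = b ∧ m.Fu (b * y) (b * s) ∨ a = b * s ∧ m.Fu (b * y) b) := by
  have : a = b ∧ m.Fu (b * y) (b * s) ∨ a = b * s ∧ m.Fu (b * y) b := by
    rcases (h.cen a).1 e.za with rfl | rfl | rfl | rfl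
    · exact absurd rfl e.a1
    · exact absurd e.ca e.ns
    · exact .inl ⟨rfl, e.f2⟩
    · exact .inr ⟨rfl, (h.fu_s e.hy e.ny).trans (by simpa only [h.bs_s] using e.f2)⟩
  refine ⟨⟨e.hy, e.ny, e.yy, e.f1, fun e' => ?_⟩, this⟩
  rcases this with e | e
  · exact h.bss (h.nf _ _ (e.2.symm.trans e') h.hbs.2 h.hs.2)
  · exact h.bs (h.nf _ _ (e.2.symm.trans e') h.hb.2 h.hs.2)

theorem mem_of_ev (hv : h.J v) (hj : h.J j) (e : h.Ev (v * j⁻¹)) : v * j⁻¹ ∈ zpowers d := by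
  obtain ⟨u, hu, e⟩ := e
  have e1 := h.le (zpowers_le.2 h.hdN hu)
  have e2 : ∀ w ∈ zpowers d, u⁻¹ * (v * j⁻¹) ≠ b * w := fun w hw e => hv.f2 (by
    have := (h.fu_d (mul_mem hu hw) hj.hv hj.nv (one_mem _)).symm
    rw [one_mul, one_mul] at this
    rw [show v = u * (b * w) * j by rw [← e]; group, ← mul_assoc u, h.hb.2 u e1, ← mul_assoc,
      ← mul_assoc, ← mul_assoc, h.bb, one_mul]
    exact this.trans hj.f1)
  rw [← mul_mem_cancel_left (inv_mem hu)]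
  rcases (h.cen _).1 ⟨P.mul_mem (P.inv_mem e1) (P.mul_mem hv.hv (P.inv_mem hj.hv)), e⟩ with
    e | e | e | e
  · exact e ▸ one_mem _
  · exact e ▸ h.s_mem
  · exact absurd (e.trans (mul_one b).symm) (e2 1 (one_mem _))
  · exact absurd e (e2 s h.s_mem)

theorem fu_of_ev (hv : h.J v) (hj : h.J j) (e : h.Ev (v * j⁻¹)) : m.Fu (b * j) (b * v) := by
  simpa using h.fu_d (h.mem_of_ev hv hj e) hj.hv hj.nv h.hb

omit h in
theorem J.mul_mem {h : HC4 m N s b c d} (hv : h.J v) (hj : h.J j) : v * j⁻¹ ∈ N :=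
  H9.mul_inv_mem_of_relIndex_two h.idx hv.hv hj.hv hv.nv hj.nv

omit h in
theorem inverts (hv : v * v = 1) (hj : j * j = 1) : j * (v * j⁻¹) * j⁻¹ = (v * j⁻¹)⁻¹ := by
  rw [mul_inv_rev, inv_inv, mul_assoc, mul_assoc, ← mul_inv_rev, hj, inv_one, mul_one,
    inv_eq_of_mul_eq_one_left hv]

omit h in
theorem d_eq {h : HC4 m N s b (v * j⁻¹) d} (hv : h.J v) (hj : h.J j) :
    d = v * j⁻¹ * (v * j⁻¹) := by
  rw [← mul_inv_cancel_right d j, ← h.hd j hj.hv hj.nv, mul_assoc _ j, mul_assoc _ (j * _),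
    ← conj_inv, inverts hv.vv hj.vv, inv_inv]

theorem exists_W (hj : h.J j) : ∃ W : Subgroup G, d ∈ W ∧ W ≤ N ∧ b ∉ W ∧
    ∀ v, h.J v → v * j⁻¹ ∈ W := by
  by_cases e : ∀ v, h.J v → h.Ev (v * j⁻¹)
  · exact ⟨_, mem_zpowers d, zpowers_le.2 h.hdN, h.b_notMem h.s_mem,
      fun v hv => h.mem_of_ev hv hj (e v hv)⟩
  push Not at e
  obtain ⟨v, hv, e⟩ := e
  obtain ⟨d', h'⟩ := h.change (hv.mul_mem hj) e
  have e0 : ∀ {w}, h.J w → h'.J w := fun e => { e with }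
  have e1 : zpowers d' ≤ zpowers (v * j⁻¹) := d_eq (e0 hv) (e0 hj) ▸ sq_le _
  refine ⟨_, e1 ?_, zpowers_le.2 h'.hc, h.b_notMem (e1 h'.s_mem), fun w hw => ?_⟩
  · obtain ⟨i, hi⟩ := h'.exists_conj h.hc
    exact ⟨i, mul_right_cancel ((hi j hj.hv hj.nv).symm.trans (h.hd j hj.hv hj.nv))⟩
  · rcases h'.parity (hw.mul_mem hj) with e | e
    · exact e1 (h'.mem_of_ev (e0 hw) (e0 hj) e)
    · rw [mul_inv_rev, inv_inv, mul_assoc, inv_mul_cancel_left] at e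
      simpa [mul_assoc] using mul_mem (e1 (h'.mem_of_ev (e0 hw) (e0 hv) e)) (mem_zpowers _)

theorem two {R₀ R₁ : Subgroup G} {t₀ t₁ : G} (a0 : m.A R₀ t₀) (a1 : m.A R₁ t₁) (c0 : Commute t₀ b)
    (c1 : Commute t₁ (b * s)) : blockRank 2 (m.bu ⟨b, h.hb.1⟩) ≤ 2 := by
  have key : ∀ {R t a y}, AD m N R s t a y → Commute t b → m.Fu (b * y) (b * s) :=
    fun e e' => ((h.ad_cases e).2.resolve_right fun e'' => e.ns (by
      have := e'.mul_right (e''.1 ▸ e.ca)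
      rwa [← mul_assoc, h.bb, one_mul] at this)).2
  obtain ⟨a, j, e0⟩ := h.act _ _ a0
  obtain ⟨a', v, e1⟩ := h.act _ _ a1
  have j0 := key e0 c0
  have v0 : m.Fu (b * v) b := ((h.ad_cases e1).2.resolve_left fun e => e1.ns (by
    have := (show Commute t₁ b from e.1 ▸ e1.ca).mul_right c1
    rwa [← mul_assoc, h.bb, one_mul] at this)).2
  have ne : ∀ {c d w}, ∀ h' : HC4 m N s b c d, h'.J w → h'.J v → m.Fu (b * w) (b * s) →
      ¬ h'.Ev (v * w⁻¹) := fun h' hw hv e e' =>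
    h.bsb (h.nf _ _ ((e.symm.trans (h'.fu_of_ev hv hw e')).trans v0) h.hbs.2 h.hb.2)
  have hj := (h.ad_cases e0).1
  have hv := (h.ad_cases e1).1
  obtain ⟨d', h'⟩ := h.change (hv.mul_mem hj) (ne h hj hv j0)
  have e2 : ∀ {w}, h.J w → h'.J w := fun e => { e with }
  have e3 := d_eq (e2 hv) (e2 hj)
  have e4 := inverts hv.vv hj.vv
  have e5 := ne h' (e2 hj) (e2 hv) j0
  have e6 : ∀ {w}, h.J w → m.Fu (b * w) (b * s) → w * j⁻¹ ∈ zpowers d' := fun {w} hw e =>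
    h'.mem_of_ev (e2 hw) (e2 hj) ((h'.parity (hw.mul_mem hj)).resolve_right fun e' => by
      rw [mul_inv_rev, inv_inv, mul_assoc, inv_mul_cancel_left] at e'
      exact h.bsb (h.nf _ _ ((e.symm.trans (h'.fu_of_ev (e2 hw) (e2 hv) e').symm).trans v0)
        h.hbs.2 h.hb.2))
  generalize v * j⁻¹ = x at *
  have s0 : s ∈ zpowers x := sq_le x (e3 ▸ h'.s_mem)
  obtain ⟨k, hk⟩ := exists_ord (isPE_of_mem m.mx.pg (h.le h'.hc)) fun e =>
    h.s1 (by simpa [e3, e] using h'.s_mem)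
  set W := (zpowers d' ⊔ zpowers b) ⊔ zpowers j
  have w1 : zpowers d' ≤ W := le_sup_left.trans le_sup_left
  have w2 : j ∈ W := mem_sup_right (mem_zpowers j)
  have w3 : x ∉ W := fun e => by
    obtain ⟨u, hu, z, hz, e⟩ := H20.mem_sup_of_le_normalizer (zpowers_le.2 (H8.cC_le_nN _
      fun y hy => (comm_zp (h.hb.2 _ (h.le h'.hdN)) hy).symm))
      (h'.sup_inf (mem_sup_left (mem_zpowers _)) (sup_le (zpowers_le.2 h'.hdN)
        (zpowers_le.2 (h.cN h.hb))) hj.hv hj.nv hj.vv e h'.hc)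
    exact e5 ⟨u, hu, by rw [e, inv_mul_cancel_left]; exact zpowers_le.2 h.hb.2 hz⟩
  obtain ⟨m', hm⟩ := m.alp_loc (u := ⟨b, h.hb.1⟩) h.hb.2
  have w4 := hm W (fun a ha v hv => w1 (h'.comm_mem ha hv)) fun R t e e' v hv => by
    obtain ⟨a, y, e⟩ := h.act R t e
    refine sup_le (zpowers_le.2 (w1 h'.s_mem)) (zpowers_le.2 ?_) (e.com v hv)
    simpa using mul_mem (w1 (e6 (h.ad_cases e).1 (key e (mem_centralizer_singleton_iff.1 e')))) w2
  obtain ⟨L, _, _, π, hπ, hk', h1, h2⟩ := H8.exists_quot_central (p := 2) (z := selfC b)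
    (fun c => Subtype.ext (mem_centralizer_singleton_iff.1 c.2)) (isPE_coe.1 (m.isPE ⟨b, h.hb.1⟩))
  obtain ⟨b1, b2, -⟩ := H8.dominated hπ h1 (fun y _ => h2 y) m'.blk
  obtain ⟨m''⟩ := nonempty_mp b1 (b2 _ m'.dfc)
  have h3 := le_centralizer_singleton_iff.2 h.hb.2
  obtain ⟨x', rfl⟩ : ∃ x' : H8.c1 b, x'.1 = x := ⟨⟨x, h3 (h.le h'.hc)⟩, rfl⟩
  obtain ⟨j', rfl⟩ : ∃ j' : H8.c1 b, j'.1 = j := ⟨⟨j, h3 hj.hv⟩, rfl⟩
  have h4 : ∀ {y z : H8.c1 b}, y ∈ zpowers z ↔ y.1 ∈ zpowers z.1 := fun {y z} =>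
    exists_congr fun k => by simp [Subtype.ext_iff]
  have h5 := zpowers_le.2 h'.hc
  obtain ⟨χ, hχ, ψ, hψ, t1, t2, t3⟩ := m'.exists_twin hπ (hk' ▸ zpowers_le.2 h.hb.1) h2
    ((W.subgroupOf _).subgroupOf _) w4 (fun v e => show (v : H8.c1 b).1 ∈ W from mem_sup_left (mem_sup_right
      (h4.1 (hk'.le e)))) (u := ⟨x', h.le h'.hc⟩) w3
  have h6 : ∀ g ∈ N, ∃ u : H8.c1 b, u ∈ zpowers (selfC b) ∧ g * u ∈ zpowers x'.1 := fun g hg => by
    obtain ⟨i, z, hz, rfl⟩ := h'.gen' hg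
    have e7 := zpow_mem_zpowers x'.1 i
    rcases (h.cen z).1 ⟨(mul_mem_cancel_left (h.le (h5 e7))).1 (h.le hg), hz⟩ with
      e8 | e8 | e8 | e8 <;> rw [e8]
    · exact ⟨1, one_mem _, by simpa using e7⟩
    · exact ⟨1, one_mem _, by simpa using mul_mem e7 s0⟩
    · exact ⟨_, mem_zpowers _, by simpa [selfC, mul_assoc, h.bb] using e7⟩
    · refine ⟨_, mem_zpowers _, ?_⟩
      rw [show (selfC b).1 = b from rfl, mul_assoc, mul_assoc, h.hb.2 s h.hs.1, ← mul_assoc b, h.bb,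
        one_mul]
      exact mul_mem e7 s0
  obtain ⟨mc, dh⟩ := dih_quot (P := P.subgroupOf _) (x := x') (y := j') (k := k) hk'
    (Subtype.ext h.bb) (h.le h'.hc) hj.hv (by rwa [← orderOf_coe]) (mt h4.1 (h.b_notMem s0))
    (fun e => hj.nv (h5 (h4.1 e)))
    (fun e => hj.nv ((mul_mem_cancel_right (h.cN h.hb)).1 (h5 (h4.1 e))))
    (Subtype.ext hj.vv) (Subtype.ext e4) fun g hg => by
      by_cases e : g.1 ∈ N
      · exact (h6 g e).imp fun u e => ⟨e.1, .inl (h4.2 e.2)⟩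
      · exact (h6 _ (H9.mul_inv_mem_of_relIndex_two h.idx hg hj.hv e hj.nv)).imp fun u e =>
          ⟨e.1, .inr (h4.2 e.2)⟩
  obtain ⟨n, S, τ, D⟩ := dha (k + 1) _ _ _ m'' dh
  obtain ⟨z, g, tm⟩ := exists_tm mc
  rw [blockRank_quot hπ h1 (fun y _ => h2 y) (m.bu_sat _), D.rank]
  exact Nat.succ_le_succ (D.le_one_of_twin (tm.defect m'') hχ hψ t1 t2 t3)

theorem rank_eq {R₀ : Subgroup G} (a0 : m.A R₀ t) : blockRank 2 B + blockRank 2 (m.bu ⟨s, h.hs.1⟩) =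
    blockRank 2 (m.bu ⟨b, h.hb.1⟩) + blockRank 2 (m.bu ⟨_, h.hbs.1⟩) := by
  have := Fintype.ofFinite P
  obtain ⟨a, j, e0⟩ := h.act _ _ a0
  have hj := (h.ad_cases e0).1
  obtain ⟨W, w1, w2, w3, w4⟩ := h.exists_W hj
  have w5 : zpowers d ≤ W ⊔ zpowers j := (zpowers_le.2 w1).trans le_sup_left
  obtain ⟨l, l1, l2, l3⟩ := m.exists_stb ((W ⊔ zpowers j).subgroupOf P) (u := ⟨b, h.hb.1⟩)
    (fun v w e => show v.1⁻¹ * w.1 ∈ W ⊔ zpowers j from
      QuotientGroup.eq.1 (m.alp (fun y => (y : G ⧸ (W ⊔ zpowers j)))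
      (fun a ha v hv => (QuotientGroup.eq.2 (w5 (h.comm_mem ha hv))).symm) (fun R t e v hv => by
        obtain ⟨a, y, e⟩ := h.act R t e
        refine (QuotientGroup.eq.2 (sup_le (zpowers_le.2 (w5 h.s_mem)) (zpowers_le.2 ?_)
          (e.com v hv))).symm
        simpa using mul_mem_sup (w4 _ (h.ad_cases e).1) (mem_zpowers j)) e).symm)
    fun e => w3 (h.sup_inf w1 w2 hj.hv hj.nv hj.vv e (h.cN h.hb))
  have l4 : l ⟨b, h.hb.1⟩ = -1 := by
    have : l ⟨b, h.hb.1⟩ * l ⟨b, h.hb.1⟩ = 1 := by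
      rw [← map_mul, ← map_one l]; exact congrArg l (Subtype.ext h.bb)
    exact Units.ext ((mul_self_eq_one_iff.1 (congrArg Units.val this)).resolve_left
      fun e => l2 (Units.ext e))
  have l5 : l ⟨s, h.hs.1⟩ = 1 := l3 _ (w5 h.s_mem)
  let V : G → Prop := fun v => ∀ z ∈ P ⊓ cC P, ∃ z' ∈ cC P, m.Fu (z * v) z'
  have v1 : ∀ v ∈ P, v ∈ cC P → V v := fun v hv e z hz =>
    ⟨_, mul_mem hz.2 e, m.fu_refl (mul_mem hz.1 hv)⟩
  have v2 : ∀ z ∈ P ⊓ cC P, ∀ v, V v → V (z * v) := fun z hz v e y hy =>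
    mul_assoc y z v ▸ e _ (mul_mem hy hz)
  have v3 : ∀ u ∈ P, ∀ v ∈ P, V (u * v * u⁻¹) → V v := fun u hu v hv e z hz =>
    (e z hz).imp fun z' e => ⟨e.1, (m.fu_conj hu (mul_mem hz.1 hv) (by
      simp only [← mul_assoc, hz.2 u hu])).trans e.2⟩
  have v4 : ∀ R t, m.A R t → ∀ v ∈ R, V v := fun R t e v hv => by
    obtain ⟨a, y, e'⟩ := h.act R t e
    refine (e'.dec v hv).elim (v1 v (e.le hv)) fun e1 => ?_
    rw [← inv_mul_cancel_right v y]
    refine v2 _ ⟨P.mul_mem (e.le hv) (P.inv_mem e'.hy), e1⟩ _ fun z hz => ?_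
    have e2 : ∃ z' ∈ cC P, m.Fu (b * y) z' := (h.ad_cases e').2.elim (fun e => ⟨_, h.hbs.2, e.2⟩)
      fun e => ⟨_, h.hb.2, e.2⟩
    rcases (h.cen z).1 hz with e3 | e3 | e3 | e3 <;> rw [e3]
    · exact ⟨s, h.hs.2, by simpa using e'.f1⟩
    · exact ⟨s, h.hs.2, MP.Fu.trans (by
        simpa using (h.fu_d h.s_mem e'.hy e'.ny (one_mem _)).symm) e'.f1⟩
    · exact e2
    · exact e2.imp fun z e => ⟨e.1, (h.fu_s e'.hy e'.ny).symm.trans e.2⟩
  have v5 : ∀ v w : P, ¬ V v → m.FC v w → IsConj v w := fun v w hv e => by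
    have := m.alp (fun v => if V v then none else some {w | ∃ u ∈ P, u * v * u⁻¹ = w})
      (fun u hu v hv => by
        refine if_congr ⟨v3 u hu v hv, fun e => v3 _ (inv_mem hu) _ (mul_mem (mul_mem hu hv)
          (inv_mem hu)) (by simpa [mul_assoc] using e)⟩ rfl (congrArg some (Set.ext fun w => ?_))
        exact ⟨fun ⟨a, ha, e⟩ => ⟨a * u, mul_mem ha hu, by rw [← e]; group⟩,
          fun ⟨a, ha, e⟩ => ⟨a * u⁻¹, mul_mem ha (inv_mem hu), by rw [← e]; group⟩⟩)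
      (fun R t e v hv => by rw [if_pos (v4 R t e v hv), if_pos (v4 R t e _ (e.oa.mem hv))]) e
    rw [if_neg hv] at this
    split_ifs at this
    obtain ⟨u, hu, e⟩ := (Option.some.inj this).le (show w.1 ∈ _ from ⟨1, one_mem _, by simp⟩)
    exact isConj_iff.2 ⟨⟨u, hu⟩, Subtype.ext e⟩
  have e1 := m.sum_split h.hb.2 l1 l4 (V := fun v => V v) (fun v => ⟨fun e => by
    simpa [← mul_assoc, h.bb] using v2 b h.hb _ e, v2 b h.hb _⟩) v5 fun v hv =>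
    m.rank_bu_of_act (m.defect_bu_of fun w e => by
      rw [card_inf_c1, card_inf_c1, card_centralizer_eq_of_isConj (v5 v w hv e)])
      fun R t e _ e' => hv (v4 R t e v e')
  have e2 := m.sum_central (fun v w e a b => Subtype.ext (h.nf _ _ ⟨v.2, w.2, e⟩ a b))
    (F := fun v => l v * blockRank 2 (m.bu v)) fun v w e => by
      simp only [show (l v : ℂ) = l w from l1 v w e, e.rank_eq]
  have e3 : ∀ v : P, (∃ z : P, z.1 ∈ cC P ∧ m.FC z v) ↔ V v := fun v =>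
    ⟨fun ⟨z, z1, z2⟩ => by_contra fun e => e (v1 v v.2 (by
      obtain ⟨a, rfl⟩ := isConj_iff.1 (v5 v z e z2.symm).symm
      rwa [coe_mul, coe_mul, coe_inv, z1 a a.2, mul_inv_cancel_right])), fun e => by
      obtain ⟨z, z1, _, z2, z3⟩ := e 1 (one_mem _)
      exact ⟨⟨z, z2⟩, z1, by simpa using z3.symm⟩⟩
  simp only [e3, e1] at e2
  rw [← Finset.sum_filter, show Finset.univ.filter (fun z : P => z.1 ∈ cC P) =
    {1, ⟨s, h.hs.1⟩, ⟨b, h.hb.1⟩, ⟨b, h.hb.1⟩ * ⟨s, h.hs.1⟩} from Finset.ext fun z => by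
      simp only [Finset.mem_filter, Finset.mem_univ, true_and, Finset.mem_insert,
        Finset.mem_singleton, Subtype.ext_iff]
      exact (and_iff_right z.2).symm.trans (h.cen z), Finset.sum_insert, Finset.sum_insert, Finset.sum_pair,
    map_mul, l4, l5, map_one, m.rank_bu_one] at e2
  · apply Nat.cast_injective (R := ℂ)
    push_cast at e2 ⊢
    linear_combination -e2
  · simpa [Subtype.ext_iff] using h.s1
  · simpa [Subtype.ext_iff] using ⟨h.bs.symm, h.b1⟩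
  · simpa [Subtype.ext_iff] using ⟨h.s1.symm, h.b1.symm, h.bs1.symm⟩

theorem le_three {R₀ : Subgroup G} (a0 : m.A R₀ t) : blockRank 2 B ≤ 3 := by
  have key : ∀ {b} (h : HC4 m N s b c d), (∀ R t, m.A R t → ¬ Commute t b) →
      blockRank 2 B ≤ 3 := fun {b} h e => by
    have e1 := h.rank_eq a0
    have e2 := m.rank_bu_of_act (m.card_central (u := ⟨b, h.hb.1⟩) h.hb.2).2
      fun R t a e' => absurd (mem_centralizer_singleton_iff.1 e') (e R t a)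
    obtain ⟨a, y, e3⟩ := h.act _ _ a0
    obtain ⟨rfl, -⟩ := (h.ad_cases e3).2.resolve_left fun e' => e _ _ a0 (e'.1 ▸ e3.ca)
    have e4 := e3.rk h.hbs.1
    have e5 := blockRank_pos (p := 2) (m.bu_sat ⟨s, h.hs.1⟩) (block_nonempty (m.bu_blk _))
    omega
  by_contra hn
  obtain ⟨e1, e2⟩ := And.intro (mt (key h) hn) (mt (key h.swap) hn)
  push Not at e1 e2
  obtain ⟨R₁, t₁, a1, c1⟩ := e1
  obtain ⟨R₂, t₂, a2, c2⟩ := e2
  have e1 := h.rank_eq a0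
  have e2 := h.two a1 a2 c1 c2
  have e3 := h.swap.two a2 a1 c2 (h.bs_s.symm ▸ c1)
  have e5 := blockRank_pos (p := 2) (m.bu_sat ⟨s, h.hs.1⟩) (block_nonempty (m.bu_blk _))
  omega

end HC4

end H7
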