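import Cfsg.Agent.H7.Cy4c

/-! The configuration `HC4` from elementary abelian active subgroups (`MP.exists_hp`); blocks whose
defect group has a cyclic subgroup of index four (`MP.le_three_of_ea`, `MP.exists_le_three`). -/

open H5 Cfsg Subgroup
open H8 (cC nN c1)
open scoped Classical

namespace H7

variable {M : Ideal AlgInt} {G : Type*} [Group G] [Finite G] [PM 2 M] {B : Set (IrrCharacter G)}
  {P R : Subgroup G} {c t r a : G}

omit [Finite G] in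
theorem EA.ab (e : EA P R c t r a) {x y : G} (hx : x ∈ R) (hy : y ∈ R) : Commute x y := by
  have := e.exp _ (mul_mem hx hy)
  rw [Commute, SemiconjBy, eq_inv_of_mul_eq_one_left this, mul_inv_rev,
    inv_eq_of_mul_eq_one_left (e.exp x hx), inv_eq_of_mul_eq_one_left (e.exp y hy)]

omit [Finite G] in
theorem EA.hr (e : EA P R c t r a) : r ∈ R ⊓ zpowers c := e.inf ▸ mem_zpowers r

omit [Finite G] in
theorem EA.rz (e : EA P R c t r a) : r ∈ cC P := fun d hd => by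
  obtain ⟨q, hq, e'⟩ := e.dec d hd
  simpa using ((e.ab e.hr.1 hq).mul_right (zp_comm e.hr.2 e')).symm.eq

namespace MP
variable (m : MP 2 M B P)
include m

theorem exists_hp (hc : c ∈ P) (hi : (zpowers c).relIndex P ∣ 4)
    (hA : ∀ R t, m.A R t → ∃ r a, EA P R c t r a) (a0 : m.A R t) : ∃ N s b d, HC4 m N s b c d := by
  have nf : ∀ v w, m.Fu v w → v ∈ cC P → w ∈ cC P → v = w := fun v w ⟨hv, hw, e⟩ a b =>
    congrArg Subtype.val (m.eq_of_fc_central (fun t e => (hA _ _ e).elim fun r e =>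
      e.elim fun a e => e.nc hc) e a b)
  obtain ⟨r, b, e0⟩ := hA _ _ a0
  have bb := e0.exp b e0.ha
  have b0 := a0.le e0.ha
  have r0 := a0.le e0.hr.1
  have r1 : r ≠ 1 := fun e => e0.nr (e ▸ Commute.one_right t)
  obtain ⟨N, hN⟩ : ∃ N, zpowers c ⊔ zpowers b = N := ⟨_, rfl⟩
  have cN : c ∈ N := hN ▸ mem_sup_left (mem_zpowers c)
  have bN : b ∈ N := hN ▸ mem_sup_right (mem_zpowers b)
  have n0 : ∀ y ∈ N, ∃ u ∈ zpowers c, y = u ∨ y = u * b := fun y hy => by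
    obtain ⟨u, hu, z, hz, rfl⟩ := H20.mem_sup_of_le_normalizer' (zpowers_le.2 (H8.cC_le_nN _
      (H8.cC_anti (zpowers_le.2 hc) e0.za))) (hN.ge hy)
    exact ⟨u, hu, (H9.eq_one_or_eq_of_mem_zpowers bb hz).imp (by simp) (by simp)⟩
  have n1 : N ≤ P := hN ▸ sup_le (zpowers_le.2 hc) (zpowers_le.2 b0)
  have n2 : ∀ x ∈ N, ∀ y ∈ N, Commute x y := fun x hx y hy => by
    have : ∀ u ∈ zpowers c, Commute u y := fun u hu => by
      obtain ⟨v, hv, rfl | rfl⟩ := n0 y hy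
      exacts [zp_comm hu hv, (show Commute u v from zp_comm hu hv).mul_right
        (e0.za u (zpowers_le.2 hc hu))]
    obtain ⟨u, hu, rfl | rfl⟩ := n0 x hx
    exacts [this _ hu, (this u hu).mul_left (e0.za y (n1 hy)).symm]
  have c0 : c ∉ cC P := fun e => e0.nc (a0.cen ⟨hc, H8.cC_anti a0.le e⟩)
  have n3 : N.relIndex P = 2 := by
    have : ¬ P ≤ N := fun e => c0 fun y hy => n2 y (e hy) c cN
    rcases chain4 (zpowers_le.2 cN) n1 hi with e | e | e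
    · exact absurd (e bN) e0.na
    · obtain ⟨y, hy, y1⟩ := SetLike.not_le_iff_exists.1 this
      exact two_of_dvd e.2 hy y1
    · exact absurd e this
  have n4 : P ⊓ cC P ≤ N := fun z hz => by_contra fun e =>
    c0 (cent_out n3 n2 cN hz.1 e (hz.2 c hc))
  have om : ∀ v ∈ N, v * v = 1 → v = 1 ∨ v = r ∨ v = b ∨ v = b * r := fun v hv e => by
    have : ∀ u ∈ zpowers c, u * u = 1 → u = 1 ∨ u = r := fun u hu e =>
      H9.eq_one_or_eq_of_mem_zpowers (e0.exp r e0.hr.1)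
        (mem_zp_of_sq (isPE_of_mem m.mx.pg r0) r1 e0.hr.2 hu e)
    obtain ⟨u, hu, rfl | rfl⟩ := n0 v hv
    · exact (this _ hu e).imp_right .inl
    · have e1 := e0.za u (zpowers_le.2 hc hu)
      rw [mul_assoc, ← mul_assoc b, ← e1, mul_assoc, bb, mul_one] at e
      rcases this u hu e with e | e <;> simp [e, e ▸ e1]
  have om' : ∀ v ∈ N, v * v = 1 → v ∈ cC P := fun v hv e => by
    rcases om v hv e with e | e | e | e <;> rw [e]
    exacts [one_mem _, e0.rz, e0.za, mul_mem e0.za e0.rz]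
  have out : ∀ {R t r a v}, m.A R t → EA P R c t r a → v ∈ P ⊓ cC P → ¬ Commute t v →
      t * v * t⁻¹ ∉ N := fun {R t r a v} a0 e hv h1 h2 => by
    have h3 := a0.cen ⟨hv.1, H8.cC_anti a0.le hv.2⟩
    exact h1 (comm_iff.2 (nf _ _ (a0.fu h3) hv.2 (om' _ h2 (e.exp _ (a0.oa.mem h3)))).symm)
  obtain ⟨j, hj, j1⟩ := H9.exists_notMem_of_relIndex_two n3
  obtain ⟨x, xN, x1, x2⟩ : ∃ x ∈ N, ¬ Commute x j ∧ Commute (x * x) j := by
    by_contra! e
    obtain ⟨n, hn⟩ := isPE_of_mem m.mx.pg hc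
    have : ∀ k, ¬ Commute (c ^ 2 ^ k) j := fun k => by
      induction k with
      | zero => simpa using fun e => c0 (cent_out n3 n2 cN hj j1 e)
      | succ k ih => rw [pow_succ, pow_mul, sq]; exact e _ (pow_mem cN _) ih
    exact this n (by rw [← hn, pow_orderOf_eq_one]; exact Commute.one_left j)
  obtain ⟨s, hs⟩ : ∃ s, x * j * x⁻¹ * j⁻¹ = s := ⟨_, rfl⟩
  have x3 := H9.conj_mem_of_relIndex_two n3 n1 hj (inv_mem xN)
  have hs' : s = x * (j * x⁻¹ * j⁻¹) := by rw [← hs]; group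
  have sN : s ∈ N := hs' ▸ mul_mem xN x3
  have ss : s * s = 1 := by
    rw [hs', ← (n2 _ xN _ x3).mul_mul_mul_comm, conj_mul, ← mul_inv_rev, comm_iff.1 x2.symm.inv_right,
      mul_inv_cancel]
  have s1 : s ≠ 1 := fun e => x1 (by rwa [← hs, mul_inv_eq_one, ← comm_iff] at e)
  have s2 : s ∈ P ⊓ cC P := ⟨n1 sN, om' s sN ss⟩
  have s3 : ∀ y ∈ P, y ∉ N → x * y * x⁻¹ = s * y := fun y hy y1 =>
    hs ▸ conj_out n3 n1 n2 xN hj j1 hy y1
  have sa : ∀ {R t r a}, m.A R t → EA P R c t r a → a ≠ s := fun {R t r a} a0 e h => by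
    have e1 := a0.le (a0.oa.mem e.hr.1)
    have e2 := (a0.fu e.hr.1).trans (m.fu_conj (n1 xN) e1
      (s3 _ e1 (out a0 e ⟨a0.le e.hr.1, e.rz⟩ e.nr)))
    have e3 := a0.fu (mul_mem e.ha e.hr.1)
    rw [← conj_mul, comm_iff.1 e.ca, h] at e3
    exact s1 (mul_eq_right.1 (nf _ _ (e3.trans e2.symm) (mul_mem s2.2 e.rz) e.rz))
  have cen : ∀ v, v ∈ P ⊓ cC P ↔ v = 1 ∨ v = s ∨ v = b ∨ v = b * s := fun v => by
    refine ⟨fun hv => ?_, fun e => ?_⟩
    · have := om v (n4 hv) (e0.exp v (a0.cen ⟨hv.1, H8.cC_anti a0.le hv.2⟩))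
      rcases om s sN ss with e | e | e | e
      · exact absurd e s1
      · rwa [e]
      · exact absurd e.symm (sa a0 e0)
      · rw [e, ← mul_assoc, bb, one_mul]; tauto
    · rcases e with e | e | e | e <;> rw [e]
      exacts [one_mem _, s2, ⟨b0, e0.za⟩, mul_mem (show b ∈ P ⊓ cC P from ⟨b0, e0.za⟩) s2]
  refine ⟨N, s, b, _, n1, n3, n2, cen, ss, bb, s1, fun e => e0.na (e ▸ one_mem _), sa a0 e0, n4, cN,
    fun y hy => ?_, fun y => conj_out n3 n1 n2 cN hj j1, ⟨x, xN, s3⟩, nf, fun R t a0 => ?_⟩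
  · obtain ⟨_, ⟨i, rfl⟩, e | e⟩ := n0 y hy
    exacts [⟨i, by simp [e]⟩, ⟨i, by simpa [e] using e0.za⟩]
  obtain ⟨r, a, e⟩ := hA R t a0
  have za : a ∈ P ⊓ cC P := ⟨a0.le e.ha, e.za⟩
  have a1 : a ≠ 1 := fun h => e.na (h ▸ one_mem _)
  have cen' : ∀ v ∈ P ⊓ cC P, v = 1 ∨ v = s ∨ v = a ∨ v = a * s := fun v hv => by
    have := (cen v).1 hv
    rcases (cen a).1 za with h | h | h | h
    · exact absurd h a1
    · exact absurd h (sa a0 e)
    · rwa [h]
    · rw [h, mul_assoc, ss, mul_one]; tauto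
  have ns : ¬ Commute t s := fun h => e.nr (by
    rcases cen' r ⟨a0.le e.hr.1, e.rz⟩ with h' | h' | h' | h' <;> rw [h']
    exacts [Commute.one_right t, h, e.ca, e.ca.mul_right h])
  have sR := a0.cen ⟨s2.1, H8.cC_anti a0.le s2.2⟩
  have y0 := a0.oa.mem sR
  have y1 := out a0 e s2 ns
  have f1 := (a0.fu sR).symm
  have f2 := (a0.fu (mul_mem e.ha sR)).symm
  rw [← conj_mul, comm_iff.1 e.ca] at f2
  obtain ⟨y, hy⟩ : ∃ y, t * s * t⁻¹ = y := ⟨_, rfl⟩
  rw [hy] at y0 y1 f1 f2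
  have dec : ∀ v ∈ R, v ∈ cC P ∨ v * y⁻¹ ∈ cC P := fun v hv => by
    by_cases h : v ∈ N
    · exact .inl (om' v h (e.exp v hv))
    · exact .inr (om' _ (H9.mul_inv_mem_of_relIndex_two n3 (a0.le hv) (a0.le y0) h y1)
        (e.exp _ (mul_mem hv (inv_mem y0))))
  have u1 : s ∈ zpowers s ⊔ zpowers y := mem_sup_left (mem_zpowers s)
  have u2 : y ∈ zpowers s ⊔ zpowers y := mem_sup_right (mem_zpowers y)
  have u3 : ∀ v ∈ P ⊓ cC P, v⁻¹ * (t * v * t⁻¹) ∈ zpowers s ⊔ zpowers y := fun v hv => by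
    rcases cen' v hv with h | h | h | h <;> rw [h]
    · simp
    · rw [hy]; exact mul_mem (inv_mem u1) u2
    · simp [comm_iff.1 e.ca]
    · rw [← conj_mul, comm_iff.1 e.ca, hy, mul_inv_rev, mul_assoc, inv_mul_cancel_left]
      exact mul_mem (inv_mem u1) u2
  have u4 : t * y * t⁻¹ ∈ zpowers s ⊔ zpowers y := by
    have w0 := a0.oa.mem y0
    have w1 := (a0.fu y0).symm.trans f1
    generalize t * y * t⁻¹ = w at *
    have w2 : ¬ m.Fu (a * y) s := fun h =>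
      a1 (mul_eq_right.1 (nf _ _ (f2.symm.trans h) (mul_mem za.2 s2.2) s2.2))
    rcases dec w w0 with h | h
    · exact nf _ _ w1 h s2.2 ▸ u1
    rcases cen' _ ⟨a0.le (mul_mem w0 (inv_mem y0)), h⟩ with h | h | h | h <;>
      rw [mul_inv_eq_iff_eq_mul] at h <;> rw [h] at w1 ⊢
    · exact mul_mem (one_mem _) u2
    · exact mul_mem u1 u2
    · exact absurd w1 w2
    · refine absurd ((m.fu_conj (n1 xN) (mul_mem za.1 (a0.le y0)) ?_).trans w1) w2
      rw [mul_assoc a, ← s3 y (a0.le y0) y1, ← mul_assoc, za.2 x (n1 xN)]; group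
  refine ⟨a, y, za, a1, e.ca, ns, fun h => m.le_three_of_notMem hc hi e.za e.na, a0.le y0, y1,
    e.exp y y0, f1, f2, dec, fun v hv => (dec v hv).elim (fun h => u3 v ⟨a0.le hv, h⟩) fun h => ?_⟩
  have := mul_mem (mul_mem (inv_mem u2) (u3 _ ⟨a0.le (mul_mem hv (inv_mem y0)), h⟩)) u4
  convert this using 1
  group

theorem le_three_of_ea (hc : c ∈ P) (hi : (zpowers c).relIndex P ∣ 4)
    (hA : ∀ R t, m.A R t → Nat.card R ∣ 4 ∨ ∃ r a, EA P R c t r a) : blockRank 2 B ≤ 3 := by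
  by_contra hn
  have h : ¬ ∀ R t, ¬ m.A R t := fun h => hn (by rw [m.rank_one_of_act h]; norm_num)
  push Not at h
  obtain ⟨R, t, h⟩ := h
  obtain ⟨N, s, b, d, e⟩ := m.exists_hp hc hi (fun R t e => (hA R t e).resolve_left
    fun e' => hn (m.le_three_of_cen e.le e.cen e')) h
  exact hn (e.le_three h)

theorem exists_le_three (hc : c ∈ P) (hi : (zpowers c).relIndex P ∣ 4) :
    ∃ u : P, (u : G) ∈ cC P ∧ blockRank 2 (m.bu u) ≤ 3 := by
  by_cases h0 : (zpowers c).relIndex P ∣ 2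
  · exact ⟨1, one_mem _, m.rank_bu_one ▸ m.le_three_of_two hc h0⟩
  have h4 : (zpowers c).relIndex P = 4 := by
    have := Nat.le_of_dvd (by norm_num) hi
    generalize (zpowers c).relIndex P = a at *
    interval_cases a <;> first | rfl | simp at hi h0
  by_cases h5 : ¬ P ⊓ cC P ≤ zpowers c
  · obtain ⟨u, hu, u1⟩ := SetLike.not_le_iff_exists.1 h5
    exact ⟨⟨u, hu.1⟩, hu.2, m.le_three_of_notMem hc hi hu.2 u1⟩
  push Not at h5
  obtain ⟨n, hn⟩ := (le_zpowers_iff c _).1 h5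
  obtain ⟨z, hz⟩ : ∃ z, c ^ n = z := ⟨_, rfl⟩
  rw [hz] at hn
  have z0 : z ∈ P ⊓ cC P := hn ▸ mem_zpowers z
  have z1 : z ≠ 1 := fun e => H20.cIn_ne_bot m.mx.pg (fun e => h0 (by simp [e]))
    (eq_bot_iff.2 fun x hx => by simpa [e] using hn.le (H20.mem_cIn.1 hx))
  refine ⟨⟨z, z0.1⟩, z0.2, ?_⟩
  obtain ⟨L, _, _, π, hπ, hk, h1, h2⟩ := H8.exists_quot_central (p := 2) (z := selfC z)
    (fun c => Subtype.ext (mem_centralizer_singleton_iff.1 c.2)) (isPE_coe.1 (m.isPE ⟨z, z0.1⟩))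
  obtain ⟨b1, b2, -⟩ := H8.dominated hπ h1 (fun y _ => h2 y) (m.bu_blk ⟨z, z0.1⟩)
  obtain ⟨m'⟩ := nonempty_mp b1 (b2 _ (m.dfc_bu z0.2))
  have h3 := le_centralizer_singleton_iff.2 z0.2
  rw [blockRank_quot hπ h1 (fun y _ => h2 y) (m.bu_sat _)]
  obtain ⟨c', rfl⟩ : ∃ c' : c1 z, c'.1 = c := ⟨⟨c, h3 hc⟩, rfl⟩
  have h6 : ∀ {y w : c1 z}, y ∈ zpowers w ↔ y.1 ∈ zpowers w.1 := fun {y w} =>
    exists_congr fun k => by simp [Subtype.ext_iff]
  have h7 : (zpowers c').relIndex (P.subgroupOf (c1 z)) = 4 := by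
    rwa [← relIndex_map_map_of_injective _ _ (subtype_injective _), MonoidHom.map_zpowers,
      subgroupOf_map_subtype, inf_eq_left.2 h3]
  have h : CY (P.subgroupOf (c1 z)) c' (selfC z) :=
    ⟨m.mx.pg.comap_subtype, hc, h7, h6.2 (h5 z0), fun e => z1 (congrArg Subtype.val e),
      fun g => Subtype.ext (mem_centralizer_singleton_iff.1 g.2), fun g hg => h6.2 (hn.le
        ⟨hg.1, fun y hy => congrArg Subtype.val (hg.2 ⟨y, h3 hy⟩ hy)⟩)⟩
  refine m'.le_three_of_ea (mem_map_of_mem π h.hc) ?_ fun R t e => h.quot hπ hk e.le e.nor e.reg e.ne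
  rw [← relIndex_comap, ← MonoidHom.map_zpowers, comap_map_eq, hk, sup_eq_left.2 (zpowers_le.2 h.hz),
    h7]

end MP

end H7
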