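import Cfsg.Agent.H7.TW
import Cfsg.Agent.H8.KO
/-! The commutator bicharacter of a character triple (`exists_eps`): for an invariant irreducible
character `θ` of `N ⊴ G`, pairwise non-conjugate good elements of `K / N` are at most as many as
the irreducible characters of `K` over `θ`. -/
open H5 H8 Cfsg Finset
namespace H7
universe u
section central
variable {X : Type*} [Group X] {Z : Subgroup X}

open Classical in
/-- `ψ ⁅x, y⁆`. -/
noncomputable def cm (ψ : Z →* ℂˣ) (y x : X) : ℂˣ :=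
  if h : x * y * x⁻¹ * y⁻¹ ∈ Z then ψ ⟨_, h⟩ else 1

variable (ψ : Z →* ℂˣ) {x x' y y' : X}

theorem cm_eq (h : x * y * x⁻¹ * y⁻¹ ∈ Z) : cm ψ y x = ψ ⟨_, h⟩ := dif_pos h

theorem cm_congr (hZ : Z ≤ Subgroup.center X) (h : x⁻¹ * x' ∈ Z) (h' : y⁻¹ * y' ∈ Z) :
    cm ψ y' x' = cm ψ y x := by
  obtain ⟨a, ha, rfl⟩ : ∃ a ∈ Z, x' = x * a := ⟨_, h, by group⟩
  obtain ⟨b, hb, rfl⟩ : ∃ b ∈ Z, y' = y * b := ⟨_, h', by group⟩
  have e : x * a * (y * b) * (x * a)⁻¹ * (y * b)⁻¹ = x * y * x⁻¹ * y⁻¹ := by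
    have h1 := Subgroup.mem_center_iff.1 (hZ ha)
    have h2 := Subgroup.mem_center_iff.1 (hZ hb)
    calc _ = x * (a * (y * b)) * a⁻¹ * x⁻¹ * b⁻¹ * y⁻¹ := by group
      _ = x * y * (b * x⁻¹) * b⁻¹ * y⁻¹ := by rw [← h1]; group
      _ = _ := by rw [← h2]; group
  rw [cm, cm]
  generalize x * a * (y * b) * (x * a)⁻¹ * (y * b)⁻¹ = w at e
  rw [e]

theorem cm_mul (hZ : Z ≤ Subgroup.center X) (h : x * y * x⁻¹ * y⁻¹ ∈ Z)
    (h' : x' * y * x'⁻¹ * y⁻¹ ∈ Z) : cm ψ y (x * x') = cm ψ y x * cm ψ y x' := by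
  have e : x * x' * y * (x * x')⁻¹ * y⁻¹ = x * y * x⁻¹ * y⁻¹ * (x' * y * x'⁻¹ * y⁻¹) := by
    have := Subgroup.mem_center_iff.1 (hZ h')
    calc _ = x * (x' * y * x'⁻¹ * y⁻¹) * (y * x⁻¹ * y⁻¹) := by group
      _ = _ := by rw [this, this (x * y * x⁻¹ * y⁻¹)]; group
  rw [cm_eq ψ h, cm_eq ψ h', cm_eq ψ (e ▸ mul_mem h h'), ← map_mul]
  exact congrArg ψ (Subtype.ext e)

theorem cm_anti (h : x * y * x⁻¹ * y⁻¹ ∈ Z) : cm ψ y x * cm ψ x y = 1 := by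
  rw [cm_eq ψ h, cm_eq ψ (show y * x * y⁻¹ * x⁻¹ ∈ Z by simpa [mul_assoc] using inv_mem h),
    ← map_mul, ← map_one ψ]
  exact congrArg ψ (Subtype.ext (by simp only [MulMemClass.mk_mul_mk, OneMemClass.coe_one]; group))

theorem cm_self (x : X) : cm ψ x x = 1 := by
  rw [cm_eq ψ (by simp), ← map_one ψ]
  exact congrArg ψ (Subtype.ext (by simp))

end central

theorem exists_eps {G : Type u} [Group G] [Finite G] {N : Subgroup G} [hN : N.Normal] [Fintype N]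
    {θ : N → ℂ} (hθ : IsIrrCharacter N θ) (hi : ∀ g, H6.cj θ g = θ) :
    ∃ ε : G ⧸ N → G ⧸ N → ℂˣ,
      (∀ y g g', Commute g y → Commute g' y → ε y (g * g') = ε y g * ε y g') ∧
      (∀ y g, Commute g y → ε y g * ε g y = 1) ∧ (∀ g, ε g g = 1) ∧
      (∀ g g', Gd ε g → IsConj g g' → Gd ε g') ∧
      ∀ (K : Subgroup G) (hK : N ≤ K) {n : ℕ} (f : Fin n → G ⧸ N),
        (∀ i, f i ∈ K.map (QuotientGroup.mk' N)) →
        (∀ i, ∀ g ∈ K, Commute (g : G ⧸ N) (f i) → ε (f i) g = 1) →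
        (∀ i j, IsConj (f i) (f j) → i = j) →
        n ≤ Nat.card {χ : IrrCharacter K // classInner (fun n : N => χ.1 ⟨n, hK n.2⟩) θ ≠ 0} := by
  classical
  obtain ⟨R⟩ := H6.exists_repGroup hθ hi
  let ρ : R.Γ ⧸ R.N₀ →* G ⧸ N := QuotientGroup.map _ _ R.π R.N₀_le_comap
  have hρ : ∀ γ : R.Γ, ρ γ = R.π γ := fun _ => rfl
  have hs : Function.Surjective ρ := fun y => by
    obtain ⟨y, rfl⟩ := QuotientGroup.mk_surjective y
    obtain ⟨γ, rfl⟩ := R.surj y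
    exact ⟨γ, rfl⟩
  have hk : ∀ x ∈ ρ.ker, ∃ z : R.π.ker, ((z : R.Γ) : R.Γ ⧸ R.N₀) = x := fun x hx => by
    obtain ⟨γ, rfl⟩ := QuotientGroup.mk_surjective x
    exact exists_ker_mk ((QuotientGroup.eq_one_iff _).1 hx)
  have hZ : ρ.ker ≤ Subgroup.center _ := fun x hx => by
    obtain ⟨z, rfl⟩ := hk x hx
    exact mk_ker_central z
  let e : R.π.ker ≃* ρ.ker := MulEquiv.ofBijective
    (((QuotientGroup.mk' R.N₀).comp R.π.ker.subtype).codRestrict ρ.ker fun z => by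
      simp [MonoidHom.mem_ker, hρ, MonoidHom.mem_ker.1 z.2])
    ⟨(injective_iff_map_eq_one _).2 fun z hz => Subtype.ext (R.N₀_inf_ker.le
      ⟨(QuotientGroup.eq_one_iff _).1 (congrArg Subtype.val hz), z.2⟩), fun x => by
      obtain ⟨z, hz⟩ := hk x x.2
      exact ⟨z, Subtype.ext hz⟩⟩
  have he : ∀ z, (e z : R.Γ ⧸ R.N₀) = (z : R.Γ) := fun _ => rfl
  let ψ : ρ.ker →* ℂˣ := R.lam⁻¹.comp e.symm.toMonoidHom
  obtain ⟨ε, hε⟩ : ∃ ε : G ⧸ N → G ⧸ N → ℂˣ, ∀ y x, ε (ρ y) (ρ x) = cm ψ y x :=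
    ⟨fun y g => cm ψ (Function.surjInv hs y) (Function.surjInv hs g), fun y x =>
      cm_congr ψ hZ (by simp [MonoidHom.mem_ker, Function.surjInv_eq])
        (by simp [MonoidHom.mem_ker, Function.surjInv_eq])⟩
  have hc : ∀ {x y}, Commute (ρ x) (ρ y) ↔ x * y * x⁻¹ * y⁻¹ ∈ ρ.ker := fun {x y} => by
    simp [MonoidHom.mem_ker, commute_iff_eq, mul_inv_eq_iff_eq_mul]
  have hg : ∀ y, Gd ε (ρ y) ↔ Good ψ y := fun y => ⟨fun h x hx => by
    rw [← cm_eq ψ hx, ← hε, h _ (hc.2 hx)], fun h g hg => by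
    obtain ⟨x, rfl⟩ := hs g
    rw [hε, cm_eq ψ (hc.1 hg), h]⟩
  refine ⟨ε, fun y g g' h h' => ?_, fun y g h => ?_, fun g => ?_, fun g g' h h' => ?_,
    fun K hK n f h1 h2 h3 => ?_⟩
  · obtain ⟨y, rfl⟩ := hs y
    obtain ⟨g, rfl⟩ := hs g
    obtain ⟨g', rfl⟩ := hs g'
    rw [← map_mul, hε, hε, hε, cm_mul ψ hZ (hc.1 h) (hc.1 h')]
  · obtain ⟨y, rfl⟩ := hs y
    obtain ⟨g, rfl⟩ := hs g
    rw [hε, hε, cm_anti ψ (hc.1 h)]
  · obtain ⟨g, rfl⟩ := hs g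
    rw [hε, cm_self]
  · obtain ⟨g, rfl⟩ := hs g
    obtain ⟨g', rfl⟩ := hs g'
    obtain ⟨c, hc'⟩ := isConj_iff.1 h'
    obtain ⟨c, rfl⟩ := hs c
    refine (hg _).2 (((hg _).1 h).of_isConj hZ (isConj_iff.2 ⟨c, ?_⟩))
    rw [← QuotientGroup.mk_inv, ← QuotientGroup.mk_mul, ← QuotientGroup.mk_mul, QuotientGroup.eq]
    rw [MonoidHom.mem_ker, map_mul, map_inv, map_mul, map_mul, map_inv, hc', inv_mul_cancel]
  let Y := (K.map (QuotientGroup.mk' N)).comap ρ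
  have mY : ∀ γ : R.Γ, (γ : R.Γ ⧸ R.N₀) ∈ Y ↔ R.π γ ∈ K := fun γ => by
    change R.π γ ∈ (K.map (QuotientGroup.mk' N)).comap (QuotientGroup.mk' N) ↔ _
    rw [Subgroup.comap_map_eq_self (by simpa using hK)]
  let ψ' : ρ.ker.subgroupOf Y →* ℂˣ := ψ.comp (Subgroup.subgroupOfEquivOfLe
    (Subgroup.ker_le_comap ρ _)).toMonoidHom
  have hZ' : ρ.ker.subgroupOf Y ≤ Subgroup.center _ := fun z hz => Subgroup.mem_center_iff.2
    fun g => Subtype.ext (Subgroup.mem_center_iff.1 (hZ hz) g)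
  letI := Fintype.ofFinite (ρ.ker.subgroupOf Y)
  choose x hx using fun i => hs (f i)
  let x' : Fin n → Y := fun i => ⟨x i, Subgroup.mem_comap.2 (hx i ▸ h1 i)⟩
  have k1 : n ≤ Nat.card {C : ConjClasses (Y ⧸ ρ.ker.subgroupOf Y) //
      ∃ g : Y, ConjClasses.mk (g : Y ⧸ ρ.ker.subgroupOf Y) = C ∧ Good ψ' g} := by
    refine (Nat.card_fin n).ge.trans (Nat.card_le_card_of_injective
      (fun i => ⟨_, x' i, rfl, fun g hg => ?_⟩) fun i j e => h3 i j ?_)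
    · obtain ⟨g, k, hk, e⟩ := g
      have := h2 i k hk (by rw [← hx, show (k : G ⧸ N) = ρ g from e]; exact hc.2 hg)
      rwa [← hx, show (k : G ⧸ N) = ρ g from e, hε, cm_eq ψ hg] at this
    · have := (QuotientGroup.lift (ρ.ker.subgroupOf Y) (ρ.comp Y.subtype) fun _ h => h).map_isConj
        (ConjClasses.mk_eq_mk_iff_isConj.1 (congrArg Subtype.val e))
      rw [← hx, ← hx]
      exact this
  rw [← card_over_central hZ' ψ'] at k1
  refine k1.trans ?_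
  let q : K.comap R.π →* Y := ((QuotientGroup.mk' R.N₀).comp (K.comap R.π).subtype).codRestrict Y
    fun γ => (mY _).2 γ.2
  have hq : Function.Surjective q := fun ⟨y, hy⟩ => by
    obtain ⟨γ, rfl⟩ := QuotientGroup.mk_surjective y
    exact ⟨⟨γ, (mY _).1 hy⟩, rfl⟩
  have hN₀ : R.N₀ ≤ K.comap R.π := R.N₀_le_comap.trans (Subgroup.comap_mono hK)
  have key : ∀ β : {β : IrrCharacter Y //
      classInner (fun n : ρ.ker.subgroupOf Y => β.1 n) (fun n => (ψ' n : ℂ)) ≠ 0},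
      ∃ χ : {χ : IrrCharacter K // classInner (fun n : N => χ.1 ⟨n, hK n.2⟩) θ ≠ 0},
        ∀ γ : K.comap R.π, χ.1.1 ⟨R.π γ, γ.2⟩ = β.1.1 (q γ) * R.τ γ := fun ⟨β, hβ⟩ => by
    letI := Fintype.ofFinite Y
    letI := Fintype.ofFinite (K.comap R.π)
    letI := Fintype.ofFinite (R.N₀.subgroupOf (K.comap R.π))
    have e1 := H6.res_eq_smul_of_invariant β.2 (isIrrCharacter_hom ψ') (fun g => funext fun n => by
      rw [H6.cj_apply]
      congr 3
      rw [Subgroup.mem_center_iff.1 (hZ' n.2) g, mul_inv_cancel_right]) hβ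
    have e2 := congrFun e1 1
    simp only [OneMemClass.coe_one, Pi.smul_apply, map_one, Units.val_one, smul_eq_mul,
      mul_one] at e2
    rw [← e2] at e1
    have e3 := H6.gallagher_irr (N := R.N₀.subgroupOf (K.comap R.π))
      (R.irr.isCharacter.restrict (K.comap R.π))
      ((R.irr_N₀ hθ).comp_equiv (Subgroup.subgroupOfEquivOfLe hN₀)) (β.2.comp_surjective q hq)
      fun n => by rw [show q n = 1 from Subtype.ext ((QuotientGroup.eq_one_iff _).2 n.2), map_one]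
    obtain ⟨χ, e4, e5⟩ := H6.exists_descend_irr (R.π.subgroupComap K)
      (R.π.subgroupComap_surjective_of_surjective K R.surj) e3 fun z hz => e3.mem_charKer.2 (by
        have hz' : (z : R.Γ) ∈ R.π.ker := congrArg Subtype.val hz
        have e4 := R.τ_mul ⟨z, hz'⟩ 1
        have e5 := congrFun e1 ⟨q z, (e ⟨z, hz'⟩).2⟩
        rw [mul_one] at e4
        simp only [Pi.smul_apply, smul_eq_mul] at e5
        rw [show ψ' ⟨q z, (e ⟨z, hz'⟩).2⟩ = (R.lam ⟨z, hz'⟩)⁻¹ from congrArg R.lam⁻¹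
          (e.symm_apply_apply ⟨z, hz'⟩)] at e5
        simp only [Pi.mul_apply, map_one, OneMemClass.coe_one]
        rw [e5, e4, Units.val_inv_eq_inv_val, mul_assoc, inv_mul_cancel_left₀ (Units.ne_zero _)])
    refine ⟨⟨⟨χ, e4⟩, ?_⟩, e5⟩
    have : (fun n : N => χ ⟨n, hK n.2⟩) = β.1 1 • θ := funext fun n => by
      have := e5 ⟨R.s n, hN₀ ⟨n, rfl⟩⟩
      rw [Pi.mul_apply, show q ⟨R.s n, hN₀ ⟨n, rfl⟩⟩ = 1 from Subtype.ext (mk_s n), R.τ_s] at this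
      exact (congrArg χ (Subtype.ext (R.π_s n).symm)).trans this
    simp only [this, classInner_smul_left, hθ.classInner_self, mul_one]
    exact β.2.apply_one_ne_zero
  choose F hF using key
  refine Nat.card_le_card_of_injective F fun β β' e => Subtype.ext (Subtype.ext (funext fun y => ?_))
  obtain ⟨γ, h4, h5⟩ := exists_τ_ne_zero R hθ y
  rw [← show q ⟨γ, (mY _).1 (h4 ▸ y.2)⟩ = y from Subtype.ext h4]
  exact mul_right_cancel₀ h5 ((hF β _).symm.trans (e ▸ hF β' _))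

end H7
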