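import Cfsg.Agent.H7.Ab1
import Cfsg.Agent.H8.B1
import Cfsg.Agent.H6.Tri2
import Cfsg.Agent.H3.Tate
/-! The principal `3`-block with extraspecial Sylow subgroup of order `27` whose centre is central
in the normalizer: the integral matrix lemma `Nm`, the datum `X3`, and the fusion analysis. -/
open H5 Cfsg Finset Matrix
namespace H7
section num
variable {ι κ : Type*} [Fintype ι] [DecidableEq ι] [Fintype κ] [DecidableEq κ]

theorem cs_idem {N : Matrix ι ι ℤ} (hs : Nᵀ = N) {c : ℤ} (hc : 0 < c) (h : N * N = c • N)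
    (S : Finset ι) : c * (∑ i ∈ S, N i i) ^ 2 ≤ N.trace * ∑ i ∈ S, ∑ j ∈ S, N i j ^ 2 := by
  let D : Matrix ι ι ℤ := diagonal fun i => if i ∈ S then 1 else 0
  have h0 : ∀ X Y : Matrix ι ι ℤ, Yᵀ = Y → ∑ x : ι × ι, X x.1 x.2 * Y x.1 x.2 = (X * Y).trace :=
    fun X Y e => by
      simp only [trace, diag_apply, mul_apply, Fintype.sum_prod_type]
      exact sum_congr rfl fun i _ => sum_congr rfl fun j _ => by rw [← e, transpose_apply, e]
  have h1 : (N * D * N)ᵀ = N * D * N := by simp [transpose_mul, hs, D, Matrix.mul_assoc]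
  have h2 := sum_mul_sq_le_sq_mul_sq univ (fun x : ι × ι => N x.1 x.2) fun x => (N * D * N) x.1 x.2
  simp only [sq (N _ _), sq ((N * D * N) _ _), h0 _ _ hs, h0 _ _ h1] at h2
  have h3 : (N * D).trace = ∑ i ∈ S, N i i := by simp [trace, D]
  have h4 : (N * D * (N * D)).trace = ∑ i ∈ S, ∑ j ∈ S, N i j ^ 2 := by
    simp only [trace, diag_apply, mul_apply (M := N * D), D, mul_diagonal, mul_ite, mul_one, mul_zero,
      ite_mul, zero_mul]
    simp only [sum_ite_irrel, sum_const_zero, ← sum_filter, filter_mem_eq_inter, univ_inter]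
    exact sum_congr rfl fun i _ => sum_congr rfl fun j _ => by
      rw [sq, ← hs, transpose_apply, hs]
  rw [show N * (N * D * N) = N * N * D * N by simp [Matrix.mul_assoc], trace_mul_comm (N * N * D),
    show N * D * N * (N * D * N) = N * D * (N * N) * D * N by simp [Matrix.mul_assoc],
    trace_mul_comm (N * D * (N * N) * D), h] at h2
  simp only [Matrix.smul_mul, Matrix.mul_smul, ← Matrix.mul_assoc, h, trace_smul, smul_eq_mul,
    h3] at h2
  rw [Matrix.mul_assoc (N * D), h4] at h2
  exact le_of_mul_le_mul_left (by linarith) (pow_pos hc 3)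

/-- The integral data of the block. -/
structure Nm (T N : Matrix ι ι ℤ) (d : κ → ι → ℤ) (S : Finset ι) (i0 : ι) (g : ι → ℤ) (l : ℕ) :
    Prop where
  hN : ∀ i j, N i j = 3 * (T i j + T j i) + (if i = j then 9 else 0) - ∑ x, d x i * d x j
  sq : N * N = (27 : ℤ) • N
  tr : N.trace = 27 * l
  row : ∀ i, ∑ j, T i j ^ 2 + ∑ x, d x i ^ 2 = 9
  col : ∀ i, ∑ j, T j i ^ 2 + ∑ x, d x i ^ 2 = 9
  ne : ∀ i ∈ S, ∀ j, N i j ≠ 0
  dv : ∀ i ∉ S, ∀ j ∉ S, 9 ∣ N i j
  d3 : ∀ x i, 3 ∣ d x i ↔ i ∉ S
  dd : ∀ x y, ∑ i, d x i * d y i = if x = y then 9 else 0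
  d0 : ∀ x, d x i0 = 1
  g0 : g i0 = 1
  dg : ∀ x, ∑ i, d x i * g i = 0
  dN : ∀ x j, ∑ i, d x i * N i j = 0

theorem sum_ne_zero_of_odd {S : Finset ι} (hS : Odd #S) {f : ι → ℤ} (h : ∀ i ∈ S, Odd (f i)) :
    ∑ i ∈ S, f i ≠ 0 := fun e => by
  have := congrArg (Int.cast : ℤ → ZMod 2) e
  rw [Int.cast_sum, sum_congr rfl fun i hi => (ZMod.intCast_eq_one_iff_odd).2 (h i hi)] at this
  simp [(ZMod.natCast_eq_one_iff_odd).2 hS] at this

namespace Nm
variable {T N : Matrix ι ι ℤ} {d : κ → ι → ℤ} {S : Finset ι} {i0 : ι} {g : ι → ℤ} {l : ℕ}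
  (h : Nm T N d S i0 g l)
include h

theorem symm (i j : ι) : N i j = N j i := by
  rw [h.hN, h.hN, add_comm (T i j)]
  simp only [eq_comm (a := i), mul_comm (d _ i)]

theorem mem (x : κ) : i0 ∈ S := by
  by_contra e
  simpa [h.d0] using (h.d3 x i0).2 e

theorem sq_lt (x : κ) {i : ι} (e : i ≠ i0) : d x i ^ 2 < 9 := by
  have := h.dd x x
  rw [if_pos rfl] at this
  have h1 := sum_le_sum_of_subset_of_nonneg (f := fun i => d x i * d x i) (subset_univ {i, i0})
    fun _ _ _ => mul_self_nonneg _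
  rw [sum_pair e, h.d0] at h1
  linarith

theorem zero (x : κ) {i : ι} (e : i ∉ S) : d x i = 0 := by
  obtain ⟨a, ha⟩ := (h.d3 x i).2 e
  have := h.sq_lt x (i := i) (by rintro rfl; exact e (h.mem x))
  rw [ha] at this ⊢
  rw [show a = 0 by nlinarith]; rfl

theorem cases (x : κ) {i : ι} (e : i ∈ S) : d x i ^ 2 = 1 ∨ d x i ^ 2 = 4 := by
  by_cases e' : i = i0
  · simp [e', h.d0]
  have h1 := h.sq_lt x e'
  have h2 := (h.d3 x i).not.2 (not_not.2 e)
  have : -3 < d x i ∧ d x i < 3 := by constructor <;> nlinarith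
  obtain ⟨_, _⟩ := this
  interval_cases d x i <;> simp at h2 ⊢

theorem sum_S (x : κ) (f : ι → ℤ) : ∑ i, d x i * f i = ∑ i ∈ S, d x i * f i :=
  (sum_subset (subset_univ _) fun i _ e => by simp [h.zero x e]).symm

theorem card (x : κ) : #S + 3 * #{i ∈ S | d x i ^ 2 = 4} = 9 := by
  have := h.dd x x
  rw [if_pos rfl, h.sum_S, sum_congr rfl (g := fun i => 1 + 3 * if d x i ^ 2 = 4 then 1 else 0)
    fun i hi => by rcases h.cases x hi with e | e <;> simp [← pow_two, e], sum_add_distrib,
    ← mul_sum, sum_boole] at this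
  simp at this
  omega

theorem odd (h9 : #S = 9) (x : κ) {i : ι} (e : i ∈ S) : Odd (d x i) := by
  have := h.card x
  rw [← Int.odd_pow' two_ne_zero, (h.cases x e).resolve_right fun e' =>
    notMem_empty i (card_eq_zero.1 (show #{i ∈ S | d x i ^ 2 = 4} = 0 by omega) ▸ mem_filter.2 ⟨e, e'⟩)]
  exact odd_one

theorem diag (x : κ) {i : ι} (e : i ∉ S) : N i i = 9 := by
  have h1 := h.dv i e i e
  have h2 := h.ne i0 (h.mem x) i
  have h3 : i0 ≠ i := by rintro rfl; exact e (h.mem x)
  have h4 := h.row i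
  have h5 := h.col i
  have h6 := sum_le_sum_of_subset_of_nonneg (f := fun j => T i j ^ 2) (subset_univ {i0, i})
    fun _ _ _ => sq_nonneg _
  have h7 := sum_le_sum_of_subset_of_nonneg (f := fun j => T j i ^ 2) (subset_univ {i0, i})
    fun _ _ _ => sq_nonneg _
  rw [sum_pair h3] at h6 h7
  simp only [h.hN, h.zero _ e, if_true, h3, if_false, mul_zero, sum_const_zero, ne_eq,
    zero_pow two_ne_zero] at h1 h2 h4 h5 ⊢
  obtain ⟨a, ha⟩ : 3 ∣ T i i := by omega
  by_contra h8
  have : a ≠ 0 := by rintro rfl; omega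
  have : 9 ≤ T i i ^ 2 := by rw [ha]; nlinarith [Int.one_le_abs this, sq_abs a]
  rw [pow_eq_zero_iff two_ne_zero |>.1 (le_antisymm (by linarith) (sq_nonneg (T i i0))),
    pow_eq_zero_iff two_ne_zero |>.1 (le_antisymm (by linarith) (sq_nonneg (T i0 i)))] at h2
  simp at h2

theorem off (x : κ) {i : ι} (e : i ∉ S) : ∑ j ∈ Sᶜ, N i j ^ 2 ≤ if #S = 9 then 81 else 162 := by
  have h1 := congrFun (congrFun h.sq i) i
  simp only [mul_apply, Matrix.smul_apply, h.diag x e, h.symm _ i, ← pow_two] at h1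
  rw [← sum_add_sum_compl S] at h1
  obtain ⟨a, ha⟩ : 81 ∣ ∑ j ∈ Sᶜ, N i j ^ 2 := dvd_sum fun j hj =>
    pow_dvd_pow_of_dvd (h.dv i e j (mem_compl.1 hj)) 2
  have h2 : ∀ j ∈ S, N i j = 3 * (T i j + T j i) := fun j hj => by
    simp [h.hN, h.zero _ e, show i ≠ j by rintro rfl; exact e hj]
  have h3 : ∀ j ∈ S, 9 ≤ N i j ^ 2 := fun j hj => by
    have := h.symm i j ▸ h.ne j hj i
    rw [h2 j hj] at this ⊢
    nlinarith [Int.one_le_abs (right_ne_zero_of_mul this), sq_abs (T i j + T j i)]
  have h4 := card_nsmul_le_sum S _ _ h3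
  have h5 := card_pos.2 ⟨_, h.mem x⟩
  simp only [nsmul_eq_mul, smul_eq_mul] at h1 h4
  split_ifs with h9
  swap
  · omega
  rw [h9] at h4
  by_contra h6
  have h7 := (sum_eq_sum_iff_of_le h3).1 (by simp [h9]; omega)
  refine sum_ne_zero_of_odd (by rw [h9]; decide) (fun j hj => (h.odd h9 x hj).mul ?_)
    ((h.sum_S x _).symm.trans (h.dN x i))
  rw [h.symm, ← Int.odd_pow' two_ne_zero, ← h7 j hj]
  decide

theorem main [Nonempty κ] : (#S = 6 ∧ #Sᶜ + 2 * Fintype.card κ ≤ 12 ∧ #Sᶜ ≤ 2 * l) ∨
    (#S = 9 ∧ Fintype.card κ = 1 ∧ #Sᶜ ≤ l) := by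
  obtain ⟨x⟩ := ‹Nonempty κ›
  have h1 := cs_idem (ext fun i j => h.symm j i) (by norm_num) h.sq Sᶜ
  have h2 := sum_le_card_nsmul Sᶜ _ _ fun i hi => h.off x (mem_compl.1 hi)
  rw [sum_congr rfl fun i hi => h.diag x (mem_compl.1 hi), h.tr] at h1
  replace h1 := h1.trans (mul_le_mul_of_nonneg_left h2 (by positivity))
  simp only [sum_const, nsmul_eq_mul] at h1
  have h3 := h.card x
  have h4 := card_pos.2 ⟨_, h.mem x⟩
  rcases (show #S = 3 ∨ #S = 6 ∨ #S = 9 by omega) with e | e | e
  · have h5 : ∀ i ≠ i0, 2 ∣ d x i * g i := fun i hi => Dvd.dvd.mul_right (by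
      by_cases e' : i ∈ S
      · refine Int.prime_two.dvd_of_dvd_pow (n := 2) ?_
        rw [(h.cases x e').resolve_left fun e'' => ?_]
        · norm_num
        have := card_le_card (s := insert i (insert i0 {j ∈ S | d x j ^ 2 = 4})) (t := S)
          (by simp [insert_subset_iff, e', h.mem x])
        rw [card_insert_of_notMem (by simp [hi, e'']), card_insert_of_notMem (by simp [h.d0])] at this
        omega
      · simp [h.zero x e']) _
    have h6 := h.dg x
    rw [← add_sum_erase _ _ (mem_univ i0), h.d0, h.g0] at h6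
    have := dvd_sum fun i (hi : i ∈ univ.erase i0) => h5 i (ne_of_mem_erase hi)
    omega
  · refine .inl ⟨e, ?_, ?_⟩
    · obtain ⟨i, hi⟩ := card_pos.1 (show 0 < #{i ∈ S | d x i ^ 2 = 4} by omega)
      obtain ⟨hi, hi'⟩ := mem_filter.1 hi
      have h5 := card_nsmul_le_sum (univ.erase x) (fun y => d y i ^ 2) 1 fun y _ => by
        rcases h.cases y hi with e | e <;> omega
      have h6 := card_nsmul_le_sum Sᶜ (fun j => T i j ^ 2 + T j i ^ 2) 1 fun j hj => by
        by_contra h6
        refine h.ne i hi j ?_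
        rw [h.hN, if_neg (by rintro rfl; exact mem_compl.1 hj hi), pow_eq_zero_iff two_ne_zero |>.1
          (le_antisymm (by nlinarith [sq_nonneg (T j i)]) (sq_nonneg (T i j))), pow_eq_zero_iff
          two_ne_zero |>.1 (le_antisymm (by nlinarith [sq_nonneg (T i j)]) (sq_nonneg (T j i)))]
        simp [h.zero _ (mem_compl.1 hj)]
      replace h6 := h6.trans (sum_le_sum_of_subset_of_nonneg (subset_univ _) fun _ _ _ => by positivity)
      have h7 := h.row i
      have h8 := h.col i
      rw [← add_sum_erase _ _ (mem_univ x), hi'] at h7 h8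
      have := Fintype.card_pos (α := κ)
      simp only [sum_add_distrib, nsmul_eq_mul, card_erase_of_mem (mem_univ x), card_univ] at h5 h6
      omega
    · rw [if_neg (by omega)] at h1
      by_contra h5
      have : (2 * l + 1 : ℤ) ≤ #Sᶜ := by omega
      nlinarith
  · refine .inr ⟨e, Fintype.card_eq_one_iff.2 ⟨x, fun y => by_contra fun h5 => ?_⟩, ?_⟩
    · exact sum_ne_zero_of_odd (by rw [e]; decide) (fun j hj => (h.odd e y hj).mul (h.odd e x hj))
        ((h.sum_S y _).symm.trans ((h.dd y x).trans (if_neg h5)))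
    · rw [if_pos e] at h1
      by_contra h5
      have : (l + 1 : ℤ) ≤ #Sᶜ := by omega
      nlinarith

theorem cen (hT : ∀ i ∈ S, ∀ j ∈ S, T i j = 0) : #S ≤ l + Fintype.card κ := by
  have h1 := cs_idem (ext fun i j => h.symm j i) (by norm_num) h.sq S
  have h2 : ∀ i ∈ S, ∀ j ∈ S, N i j = (if i = j then 9 else 0) - ∑ x, d x i * d x j :=
    fun i hi j hj => by simp [h.hN, hT, hi, hj]
  have h3 : ∑ i ∈ S, ∑ x, d x i * d x i = 9 * Fintype.card κ := by
    rw [sum_comm]; simp [← h.sum_S, h.dd, mul_comm]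
  have h4 : ∑ i ∈ S, N i i = 9 * (#S - Fintype.card κ) := by
    rw [sum_congr rfl fun i hi => h2 i hi i hi]; simp [h3]; ring
  have h5 : ∑ i ∈ S, ∑ j ∈ S, N i j ^ 2 = 9 * ∑ i ∈ S, N i i := by
    rw [mul_sum]
    refine sum_congr rfl fun i hi => ?_
    rw [sum_congr rfl (g := fun j => (if i = j then 9 * N i j else 0) - ∑ x, d x i * (d x j * N j i))
      fun j hj => by
        rw [pow_two]; nth_rw 1 [h2 i hi j hj]
        simp [sub_mul, sum_mul, mul_assoc, h.symm i j], sum_sub_distrib, sum_comm]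
    simp [hi, ← mul_sum, ← h.sum_S, h.dN]
  rw [h5, h4, h.tr] at h1
  by_contra h6
  have : (l + 1 : ℤ) ≤ #S - Fintype.card κ := by omega
  nlinarith

end Nm
end num
section chr
open H8 (cC nN c1)
open scoped ComplexConjugate
variable {G : Type*} [Group G] {M : Ideal AlgInt} {p : ℕ} [hp : Fact p.Prime]

theorem isGen_hat [Finite G] {P : Subgroup G} (hP : SylIn p P ⊤) {η : G → ℂ}
    (hη : IsClassFunction G η) (h : IsGeneralizedCharacter P fun v => η v) :
    IsGeneralizedCharacter G fun g => η (pp p g) := by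
  obtain ⟨M, hM⟩ := exists_isPModular p
  haveI : PM p M := ⟨hM⟩
  obtain ⟨Q, rfl⟩ := hP.exists_sylow
  obtain ⟨m⟩ := nonempty_mp isPBlock_principalBlock
    ((isDefectGroup_sylow_iff isPBlock_principalBlock Q).2 (blockDefect_principal (M := M)).ge)
  convert (m.stb_res hη).isGen_star h (irrOne G).2.isGen using 1
  refine ext_blockPart (M := M) (p := p) (isClassFunction_of_isConj fun _ _ e =>
    hη.eq_of_isConj (isConj_pp e)) (m.isClassFunction_star _ _) fun u hu b hb y hy => ?_
  rw [m.blockPart_star (irrOne G).2.isClassFunction _ hb hy, blockPart_congr_c1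
    (isSat_of_isPBlock hb) hy (α' := fun x => η u * (irrOne G).1 x) fun g e => by simp [e],
    blockPart_const_mul]
  by_cases e : IndB M (c1 u).subtype b (principalBlock M G)
  · obtain ⟨x, hx⟩ := (m.exists_gd_iff' hu hb).2 e
    rw [(m.stb_res hη).et_eq hx (v := ⟨_, hx.mem⟩) rfl, hη]
  · rw [blockPart_res_of_mem isPBlock_principalBlock hb e irrOne_mem_principalBlock hy, mul_zero,
      mul_zero]

variable [Fintype G] {A : Set (IrrCharacter G)} {f f' : G → ℂ}

variable (p) in
/-- Functions constant on `p`-sections. -/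
def SC (f : G → ℂ) : Prop := ∀ g h, IsConj (pp p g) (pp p h) → f g = f h

open Classical in
variable (p) in
/-- The indicator function of a `p`-section. -/
noncomputable def sI (x g : G) : ℂ := if IsConj (pp p g) x then 1 else 0

theorem sI_pos {x g : G} (h : IsConj (pp p g) x) : sI p x g = 1 := if_pos h

theorem sI_neg {x g : G} (h : ¬ IsConj (pp p g) x) : sI p x g = 0 := if_neg h

open Classical in
theorem sc_sI (x : G) : SC p (sI p x) := fun _ _ e => if_congr ⟨e.symm.trans, e.trans⟩ rfl rfl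

theorem sI_sq (x : G) : (fun g => sI p x g * conj (sI p x g)) = sI p x := funext fun g => by
  unfold sI; split_ifs <;> simp

theorem sI_one : sI p (1 : G) = reg p fun _ => 1 := funext fun g => by
  simp [sI, reg, pp_eq_one_iff]

theorem SC.conj (h : SC p f) : SC p fun g => conj (f g) := fun _ _ e => congrArg _ (h _ _ e)

variable [PM p M]

theorem SC.sum_inner [Fintype A] (hA : IsSat M A) (hf : SC p f) (f' : G → ℂ) (χ : A) (ψ : G → ℂ) :
    ∑ ξ : A, classInner (f * χ.1.1) ξ.1.1 * conj (classInner (f' * ψ) ξ.1.1) =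
      classInner ((fun g => f g * conj (f' g)) * χ.1.1) ψ := by
  classical
  have h1 : blockPart A (f * χ.1.1) = f * χ.1.1 := funext fun u =>
    (blockPart_congr_section hA (θ' := fun x => f u * χ.1.1 x) fun g e => by simp [hf _ _ e]).trans
      (by rw [blockPart_const_mul, blockPart_irr_of_mem χ.2]; rfl)
  rw [show (fun g => f g * conj (f' g)) * χ.1.1 = f * χ.1.1 * fun g => conj (f' g) from
    funext fun g => by simp [mul_right_comm], classInner_mul_left, ((isClassFunction_of_isConj
    fun _ _ e => hf _ _ (isConj_pp e)).mul χ.1.2.isClassFunction).classInner_eq_sum,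
    ← Fintype.sum_subtype_add_sum_subtype (· ∈ A), sum_eq_zero (s := univ) (ι := {x // x ∉ A})
    fun ξ _ => by rw [← h1, classInner_blockPart, if_neg ξ.2, zero_mul], add_zero]
  simp only [RCLike.conj_conj, mul_comm ψ]
  convert rfl

omit hp [PM p M] in
theorem mu_eq_sub [Fintype A] (g h : G) : mu A g h = ∑ ξ : A, ξ.1.1 g * conj (ξ.1.1 h) := by
  classical
  rw [mu_eq, ← sum_filter, sum_subtype (p := (· ∈ A)) _ (by simp)]

theorem inner_sI {x : G} (hx : IsPE p x) (h : PNil p (c1 x)) (χ ψ : principalBlock M G) :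
    classInner (sI p x * χ.1.1) ψ.1.1 =
      χ.1.1 x * conj (ψ.1.1 x) / (p ^ (Nat.card (c1 x)).factorization p : ℕ) := by
  classical
  have h1 : ∀ χ ψ : principalBlock M G, classInner (sI p x * χ.1.1) ψ.1.1 =
      classInner (sI p x) (sI p x) * (χ.1.1 x * conj (ψ.1.1 x)) := fun χ ψ => by
    simp only [classInner, mul_assoc, sum_mul]
    refine congrArg _ (sum_congr rfl fun g _ => ?_)
    by_cases e : IsConj (pp p g) x
    · simp [sI_pos e, apply_section h χ.2 e, apply_section h ψ.2 e]
    · simp [sI_neg e]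
  let o : principalBlock M G := ⟨_, irrOne_mem_principalBlock⟩
  have h2 := (sc_sI (p := p) x).sum_inner (isSat_of_isPBlock isPBlock_principalBlock) (sI p x) o o.1.1
  have h3 := mu_principal_of_pnil (M := M) hx h
  have h4 := (classInner_self_eq_zero (sI p x)).not.2 fun e => by
    simpa [sI_pos (show IsConj (pp p x) x by rw [pp_of_isPE hx])] using congrFun e x
  rw [sI_sq, h1] at h2
  simp only [h1, h1 o, map_mul, classInner_conj_symm] at h2
  simp only [o, irrOne_apply, one_mul, RCLike.conj_conj, map_one, mul_one] at h2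
  rw [h1, ← h3, eq_div_iff (by rw [h3]; exact_mod_cast (pow_pos hp.out.pos _).ne'), mu_eq_sub,
    mul_right_comm, mul_left_eq_self₀.2 (.inl (mul_left_cancel₀ h4 ?_))]
  rw [mul_one, mul_sum, mul_sum]
  exact (sum_congr rfl fun _ _ => by ring).trans h2

omit [PM p M] hp in
/-- The character theoretic datum. -/
structure X3 (X : Finset G) (η : G → ℂ) : Prop where
  v : (Nat.card G).factorization 3 = 3
  x1 : ∀ x ∈ X, x ≠ 1
  x3 : ∀ x ∈ X, x ^ 3 = 1
  re : ∀ x ∈ X, IsConj x x⁻¹
  pn : ∀ x ∈ X, PNil 3 (c1 x)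
  v2 : ∀ x ∈ X, (Nat.card (c1 x)).factorization 3 = 2
  nc : ∀ x ∈ X, ∀ y ∈ X, IsConj x y → x = y
  gen : IsGeneralizedCharacter G η
  sc : SC 3 η
  h1 : ∀ g, η g * conj (η g) = 9 - 9 * ∑ x ∈ X, sI 3 x g
  h2 : ∀ g, η g + conj (η g) = 9 * sI 3 1 g - 3 + 3 * ∑ x ∈ X, sI 3 x g

omit [PM p M] hp in
theorem X3.nm [PM 3 M] {X : Finset G} {η : G → ℂ} (h : X3 X η) [Fintype (principalBlock M G)]
    [DecidableEq (principalBlock M G)] [DecidableEq X] :
    ∃ T N d g, Nm (κ := X) T N d {χ : principalBlock M G |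
      blockHeight 3 (principalBlock M G) χ.1.1 = 0} ⟨_, irrOne_mem_principalBlock⟩ g
      (blockRank 3 (principalBlock M G)) ∧ ∀ i j, classInner (η * i.1.1) j.1.1 = T i j := by
  classical
  have hB := isPBlock_principalBlock (M := M) (G := G)
  have hA := isSat_of_isPBlock hB
  have pe : ∀ x : X, IsPE 3 x.1 := fun x => isPE_of_pow (k := 1) (h.x3 x x.2)
  choose T hT using fun i j : principalBlock M G =>
    (h.gen.mul i.1.2.isGen).exists_classInner_int j.1.2.isGen
  choose d hd using fun (x : X) (i : principalBlock M G) => H6.exists_int_of_conj (g := x.1)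
    (by rw [show 6 = 3 * 2 from rfl, pow_mul, h.x3 x x.2, one_pow]) (h.re x x.2) i.1
  choose N hN using fun i j : principalBlock M G => exists_int_reg (p := 3) i.1.2.isGen j.1.2.isGen
  have hR : ∀ i j : principalBlock M G, classInner (sI 3 1 * i.1.1) j.1.1 = N i j / 27 := fun i j => by
    rw [← hN, h.v, sI_one, mul_comm _ i.1.1, ← reg_eq_mul]; norm_num
  have hs : ∀ i j, N i j = N j i := fun i j => Int.cast_injective (α := ℂ) (by
    rw [← hN, ← hN, classInner_reg_comm i.1.2.isCharacter j.1.2.isCharacter])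
  have hI : ∀ (x : X) (i j : principalBlock M G), classInner (sI 3 x.1 * i.1.1) j.1.1 =
      d x i * d x j / 9 := fun x i j => by
    rw [inner_sI (pe x) (h.pn x x.2), h.v2 x x.2, ← hd, ← hd]; norm_num
  have hT' : ∀ i j : principalBlock M G, classInner ((fun g => conj (η g)) * i.1.1) j.1.1 = T j i :=
    fun i j => by
      rw [mul_comm, classInner_mul_left, ← classInner_conj_symm, mul_comm]
      simp only [RCLike.conj_conj]
      rw [show (fun g => η g) = η from rfl, hT, map_intCast]
  have hc : ∀ (a b c : ℂ) (i j : principalBlock M G), classInner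
      ((fun g => a * sI 3 1 g + b + c * ∑ x ∈ X, sI 3 x g) * i.1.1) j.1.1 =
      a * (N i j / 27) + b * (if i = j then 1 else 0) + c * ∑ x, (d x i * d x j / 9 : ℂ) :=
    fun a b c i j => by
      rw [show (fun g => a * sI 3 1 g + b + c * ∑ x ∈ X, sI 3 x g) * i.1.1 = a • (sI 3 1 * i.1.1) +
        b • i.1.1 + c • ∑ x : X, sI 3 x.1 * i.1.1 from funext fun g => by
          simp [sum_attach X fun x => sI 3 x g, ← sum_mul]; ring]
      simp only [classInner_add_left, classInner_smul_left, classInner_sum_left, hR, hI,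
        classInner_irr, Subtype.val_inj]
  have hl : ∀ i j : principalBlock M G, red M ((N i j : ℂ) / charDegree j.1.1) ≠ 0 ↔
      blockHeight 3 (principalBlock M G) i.1.1 = 0 := fun i j => by
    rw [← lam_zr_ne_zero_iff hB i.2 j.2, lam_zr_ne_zero_iff_inner i.1.2.isCharacter j.1.2,
      classInner_smul_left, hN, j.1.2.coe_charDegree]
  have hm : ∀ x y : X, (∑ i, d x i * d y i : ℂ) = mu (principalBlock M G) x y := fun x y => by
    simp [mu_eq_sub, ← hd]
  refine ⟨T, N, d, fun i => charDegree i.1.1, ⟨fun i j => ?_, ext fun i j => ?_, ?_, fun i => ?_,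
    fun i => ?_, fun i hi j e => ?_, fun i hi j hj => ?_, fun x i => ?_, fun x y => ?_, fun x => ?_,
    ?_, fun x => ?_, fun x j => ?_⟩, hT⟩
  · have := hc 9 (-3) 3 i j
    rw [show (fun g => 9 * sI 3 1 g + -3 + 3 * ∑ x ∈ X, sI 3 x g) = η + fun g => conj (η g) from
      funext fun g => ((h.h2 g).trans (by rw [sub_eq_add_neg])).symm, add_mul, classInner_add_left, hT, hT', ← sum_div] at this
    refine Int.cast_injective (α := ℂ) ?_
    split_ifs at this ⊢ <;> push_cast <;> linear_combination -3 * this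
  · have := (sc_sI (p := 3) 1).sum_inner hA (sI 3 1) i j.1.1
    rw [sI_sq] at this
    simp only [hR, map_div₀, map_intCast, map_ofNat, div_mul_div_comm, ← sum_div, hs j] at this
    refine Int.cast_injective (α := ℂ) ?_
    change ((∑ k, N i k * N k j : ℤ) : ℂ) = (27 * N i j : ℤ)
    push_cast
    linear_combination 729 * this
  · have := card_mul_blockRank (p := 3) hA
    refine Int.cast_injective (α := ℂ) (mul_left_cancel₀ (card_ne_zero_complex (G := G)) ?_)
    change _ * ((∑ k, N k k : ℤ) : ℂ) = _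
    push_cast
    simp only [← hN, h.v]
    rw [mul_left_comm, this, ← mul_sum, mul_left_comm, mul_sum univ _ (Nat.card G : ℂ)]
    simp only [card_mul_classInner, mu_eq_sub]
    rw [sum_comm]
    norm_num
    exact sum_congr rfl fun g _ => by unfold reg; split_ifs <;> simp
  · have := h.sc.sum_inner hA η i i.1.1
    rw [funext fun g => (h.h1 g).trans (show _ = 0 * sI 3 1 g + 9 + -9 * ∑ x ∈ X, sI 3 x g by ring),
      hc, ← sum_div] at this
    simp only [hT, map_intCast, if_true] at this
    refine Int.cast_injective (α := ℂ) ?_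
    push_cast
    simp only [pow_two]
    linear_combination this
  · have := h.sc.conj.sum_inner hA (fun g => conj (η g)) i i.1.1
    simp only [RCLike.conj_conj, mul_comm (conj (η _))] at this
    rw [funext fun g => (h.h1 g).trans (show _ = 0 * sI 3 1 g + 9 + -9 * ∑ x ∈ X, sI 3 x g by ring),
      hc, ← sum_div] at this
    simp only [hT', map_intCast, if_true] at this
    refine Int.cast_injective (α := ℂ) ?_
    push_cast
    simp only [pow_two]
    linear_combination this
  · simpa [e] using (hl i j).2 (mem_filter.1 hi).2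
  · have h1 := (hl i j).not.2 (by simpa using hi)
    have h2 := inner_reg_div_mem_O (M := M) (p := 3) i.1.2.isCharacter j.1.2
    have h3 := charDegree_ne_zero j.1.2
    rw [classInner_smul_left, hN, ← j.1.2.coe_charDegree] at h2
    have h4 := pow_dvd_of_intCast_div_mem_O h3 h2
    have h5 := (Nat.prime_three.dvd_iff_one_le_factorization h3).1
      (not_not.1 ((H8.height_principal_iff j.2).not.1 (by simpa using hj)))
    rw [red_intCast_div_ne_zero_iff h3, not_and_or, not_not] at h1
    rcases eq_or_ne (N i j) 0 with e | e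
    · simp [e]
    · have := (padicValInt_dvd_iff _ _).1 h4
      exact_mod_cast (padicValInt_dvd_iff (p := 3) 2 _).2 (.inr (by omega))
  · have := red_char_eq_red_pr (M := M) (p := 3) i.1.2.isCharacter x.1
    rw [pr_of_isPE (pe x), ← hd, ← i.1.2.coe_charDegree, red_intCast, red_natCast] at this
    simp only [mem_filter, mem_univ, true_and, H8.height_principal_iff i.2, not_not]
    rw [← natCast_F_eq_zero_iff (M := M), ← this]
    exact (CharP.intCast_eq_zero_iff (F M) 3 _).symm
  · refine Int.cast_injective (α := ℂ) ?_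
    push_cast
    rw [hm]
    split_ifs with e
    · rw [e, mu_principal_of_pnil (pe y) (h.pn y y.2), h.v2 y y.2]; norm_num
    · exact mu_pe_eq_zero hA (pe x) (pe y) fun e' => e (Subtype.ext (h.nc x x.2 y y.2 e'))
  · exact Int.cast_injective (α := ℂ) (by simp [hd])
  · exact_mod_cast charDegree_eq (n := 1) (by simp)
  · have := mu_pe_eq_zero hA (pe x) isPE_one (by simpa using h.x1 x x.2)
    refine Int.cast_injective (α := ℂ) ?_
    push_cast
    rw [← this, mu_eq_sub]
    exact sum_congr rfl fun i _ => by rw [← hd, ← i.1.2.coe_charDegree, map_natCast]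
  · have := (sc_sI (p := 3) x.1).sum_inner hA (sI 3 1) ⟨_, irrOne_mem_principalBlock⟩ j.1.1
    rw [show (fun g => sI 3 x.1 g * conj (sI 3 1 g)) = 0 from funext fun g => by
      unfold sI; split_ifs with e e' <;> simp
      exact h.x1 x x.2 (isConj_one_left.1 (e.symm.trans e')), zero_mul, classInner_zero_left] at this
    simp only [hR, hI x ⟨_, irrOne_mem_principalBlock⟩, map_div₀, map_intCast, map_ofNat,
      div_mul_div_comm, ← sum_div, hs j, hd, irrOne_apply, one_mul] at this
    refine Int.cast_injective (α := ℂ) ?_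
    push_cast
    simp only [hd]
    linear_combination 243 * this

end chr
end H7
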