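import Cfsg.Agent.H7.Ext3
/-! Fusion for an extraspecial Sylow `3`-subgroup of order `27` with `N(P) ≤ C(Z(P))` (`EX`) and the
invariants of the principal `3`-block (`EX.main`, `EX.one`). -/
open H5 Cfsg Finset Subgroup
open H8 (cC nN c1)
open scoped ComplexConjugate
namespace H7
variable {G : Type*} [Group G] {M : Ideal AlgInt}

/-- The hypothesis. -/
structure EX (P : Subgroup G) (z : G) : Prop where
  syl : SylIn 3 P ⊤
  card : Nat.card P = 27
  exp : ∀ x ∈ P, x ^ 3 = 1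
  hz : z ∈ P
  z1 : z ≠ 1
  cen : ∀ y ∈ P, y ∈ cC P ↔ y ∈ zpowers z
  com : ∀ x ∈ P, ∀ y ∈ P, x * y * x⁻¹ * y⁻¹ ∈ zpowers z
  nor : nN P ≤ c1 z

/-- The stabilizer of the coset of `w`. -/
def eL (z w : G) : Subgroup G where
  carrier := {g | g ∈ nN (zpowers z) ∧ g * w * g⁻¹ * w⁻¹ ∈ zpowers z}
  one_mem' := ⟨one_mem _, by simp⟩
  mul_mem' := fun {a b} ha hb => ⟨mul_mem ha.1 hb.1, by
    convert mul_mem ((mem_normalizer_iff.1 ha.1 _).1 hb.2) ha.2 using 1; group⟩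
  inv_mem' := fun {a} ha => ⟨inv_mem ha.1, by
    convert inv_mem ((mem_normalizer_iff.1 (inv_mem ha.1) _).1 ha.2) using 1; group⟩

/-- The inertial index. -/
noncomputable abbrev eE (P : Subgroup G) : ℕ := (P ⊔ cC P).relIndex (nN P)

theorem c1_eq_cC (z : G) : c1 z = cC (zpowers z) := by
  rw [cC, zpowers_eq_closure, centralizer_closure]

theorem c1_le_nN (z : G) : c1 z ≤ nN (zpowers z) := (c1_eq_cC z).trans_le (centralizer_le_normalizer _)

theorem c1_comm {x y : G} (h : x ∈ c1 y) : y ∈ c1 x :=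
  mem_centralizer_singleton_iff.2 (mem_centralizer_singleton_iff.1 h).symm

namespace EX
variable {P : Subgroup G} {z x y u w g c : G} (h : EX P z)
include h

theorem ord : orderOf z = 3 := orderOf_eq_prime (h.exp z h.hz) h.z1

theorem zc : y ∈ zpowers z ↔ y = 1 ∨ y = z ∨ y = z⁻¹ := by
  refine ⟨fun ⟨k, e⟩ => ?_, by rintro (rfl | rfl | rfl) <;> simp⟩
  have h1 : z⁻¹ = z ^ (2 : ℤ) := inv_eq_of_mul_eq_one_right (by rw [← h.exp z h.hz]; group)
  simp only at e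
  rw [← e, ← zpow_mod_orderOf, h.ord, h1]
  rcases (show k % 3 = 0 ∨ k % 3 = 1 ∨ k % 3 = 2 by omega) with e | e | e <;> simp [e]

theorem zi : z⁻¹ ≠ z := fun e => h.z1 (by
  rw [← h.exp z h.hz, pow_three, ← mul_assoc]; nth_rw 2 [← e]; simp)

theorem Z_le : zpowers z ≤ P := zpowers_le.2 h.hz

theorem le_c1 (hc : c ∈ zpowers z) : P ≤ c1 c :=
  le_centralizer_singleton_iff.2 ((h.cen c (h.Z_le hc)).2 hc)

theorem z_mem (hx : x ∈ P) : z ∈ P ⊓ c1 x :=
  ⟨h.hz, c1_comm (h.le_c1 (mem_zpowers z) hx)⟩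

theorem cnj (hx : x ∈ P) (hx' : x ∉ zpowers z) (hc : c ∈ zpowers z) :
    ∃ y ∈ P, y * x * y⁻¹ = c * x := by
  obtain ⟨y, hy, e⟩ : ∃ y ∈ P, y * x * y⁻¹ * x⁻¹ ≠ 1 := by
    by_contra! h0
    exact hx' ((h.cen x hx).1 fun y hy => by
      have := h0 y hy; rwa [mul_inv_eq_one, mul_inv_eq_iff_eq_mul] at this)
  have h1 : ∀ c ∈ zpowers z, ∀ y ∈ P, y * x * y⁻¹ * x⁻¹ = c → y⁻¹ * x * y⁻¹⁻¹ = c⁻¹ * x :=
    fun c hc y hy e => by
      rw [← mem_c1'.1 (h.le_c1 (inv_mem hc) (inv_mem hy)), ← e]; group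
  rcases h.zc.1 hc with rfl | rfl | rfl
  · exact ⟨1, one_mem _, by simp⟩
  all_goals rcases (h.zc.1 (h.com y hy x hx)).resolve_left e with e | e
  · exact ⟨y, hy, by rw [← e]; group⟩
  · exact ⟨_, inv_mem hy, by simpa using h1 _ (by simp) y hy e⟩
  · exact ⟨_, inv_mem hy, h1 _ (by simp) y hy e⟩
  · exact ⟨y, hy, by rw [← e]; group⟩

theorem isConj (hx : x ∈ P) (hx' : x ∉ zpowers z) (hc : c ∈ zpowers z) : IsConj x (c * x) :=
  (h.cnj hx hx' hc).elim fun y e => isConj_iff.2 ⟨y, e.2⟩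

theorem le_eL (hw : w ∈ P) : P ⊔ cC P ≤ eL z w := sup_le
  (fun g hg => ⟨c1_le_nN z (h.le_c1 (mem_zpowers z) hg), h.com g hg w hw⟩)
  fun g hg => ⟨c1_le_nN z (mem_c1'.2 (mem_cC'.1 hg z h.hz)), by simp [mem_cC'.1 hg w hw]⟩

theorem sub : EX (P.subgroupOf (c1 z)) ⟨z, mem_c1'.2 (by simp)⟩ := by
  have h1 := h.le_c1 (mem_zpowers z)
  have h2 : ∀ y : c1 z, y ∈ zpowers (⟨z, mem_c1'.2 (by simp)⟩ : c1 z) ↔ y.1 ∈ zpowers z := fun y =>
    exists_congr fun k => by simp [Subtype.ext_iff]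
  refine ⟨?_, (Nat.card_congr (subgroupOfEquivOfLe h1).toEquiv).trans h.card, fun x hx =>
    Subtype.ext (h.exp _ hx), h.hz, fun e => h.z1 (congrArg Subtype.val e), fun y hy => ?_,
    fun x hx y hy => (h2 _).2 (h.com _ hx _ hy), fun g _ => mem_c1'.2 (Subtype.ext (mem_c1'.1 g.2))⟩
  · refine sylIn_of_maximal le_top (h.syl.isPGroup.comap_subtype) fun Q hQ h3 _ => le_antisymm ?_ h3
    rw [← h.syl.eq_of_le (hQ.map (c1 z).subtype) (fun x hx => ⟨⟨x, h1 hx⟩, h3 hx, rfl⟩) le_top]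
    exact fun x hx => ⟨x, hx, rfl⟩
  · rw [h2, ← h.cen y.1 hy]
    exact ⟨fun e x hx => congrArg Subtype.val (e ⟨x, h1 hx⟩ hx), fun e x hx => Subtype.ext (e _ hx)⟩

theorem eE_sub : eE (P.subgroupOf (c1 z)) = eE P := by
  have h1 := h.le_c1 (mem_zpowers z)
  rw [eE, ← relIndex_map_map_of_injective _ _ (subtype_injective _), map_nN_sub h1,
    inf_eq_right.2 h.nor, Subgroup.map_sup, subgroupOf_map_subtype, inf_eq_left.2 h1]
  congr 2
  exact le_antisymm (by rintro _ ⟨g, e, rfl⟩ x hx; exact congrArg Subtype.val (e ⟨x, h1 hx⟩ hx))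
    fun g e => ⟨⟨g, mem_c1'.2 (mem_cC'.1 e z h.hz)⟩, fun x hx => Subtype.ext (e _ hx), rfl⟩

variable [Finite G]

theorem exists_mem (hu : IsPE 3 u) : ∃ g, g * u * g⁻¹ ∈ P :=
  (h.syl.exists_cj_le hu.isPGroup_zpowers le_top).imp fun _ e =>
    cj_le_iff'.1 e.2 _ (mem_zpowers u)

theorem iso0 (e : g * z * g⁻¹ ∈ zpowers z) : g * z * g⁻¹ = z := by
  have h1 := h.syl.cj g
  rw [cj_eq_of_normal _ ⊤] at h1
  obtain ⟨c, hc, h2⟩ := (h.syl.of_le (h.le_c1 e) le_top).exists_cj_eq (h1.of_le (by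
    rw [← cj_c1]; exact cj_mono _ (h.le_c1 (mem_zpowers z))) le_top)
  rw [cj_cj] at h2
  rw [← mem_c1'.1 hc]
  simpa [mul_assoc] using mem_c1'.1 (h.nor (H8.mem_nN_iff.2 h2))

theorem iso (e : g * z * g⁻¹ ∈ P) : g * z * g⁻¹ = z := by
  refine h.iso0 (by_contra fun h0 => h.zi ?_)
  have h1 := h.syl.cj g
  rw [cj_eq_of_normal _ ⊤] at h1
  obtain ⟨c, hc, h2⟩ := (h1.of_le (K := c1 (g * z * g⁻¹)) (by
    rw [← cj_c1]; exact cj_mono _ (h.le_c1 (mem_zpowers z))) le_top).exists_cj_le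
    (isPE_of_mem h.syl.isPGroup h.hz).isPGroup_zpowers (zpowers_le.2 (h.z_mem e).2)
  have h3 := mem_cj.1 (cj_le_iff'.1 h2 _ (mem_zpowers z))
  have h4 : (c⁻¹ * g) * z * (c⁻¹ * g)⁻¹ = g * z * g⁻¹ := by
    rw [← mem_c1'.1 (inv_mem hc)]; group
  have h5 : (c⁻¹ * g)⁻¹ * z * (c⁻¹ * g)⁻¹⁻¹ = g⁻¹ * (c * z * c⁻¹) * g := by group
  generalize c⁻¹ * g = k at h4 h5
  rw [← h5] at h3
  rw [← h4] at e h0
  have h6 := h.isConj h3 (fun e => h0 (by
    nth_rw 2 [← h.iso0 e]; simp [mul_assoc])) (inv_mem (mem_zpowers z))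
  have h7 := h.isConj (inv_mem e) (mt inv_mem_iff.1 h0) (mem_zpowers z)
  obtain ⟨a, ha⟩ := isConj_iff.1 (((isConj_iff.2 ⟨k⁻¹, rfl⟩ : IsConj z _).trans h6).trans
    ((isConj_iff.2 ⟨k, by
      rw [← mem_centralizer_singleton_iff.1 (h.le_c1 (mem_zpowers z) (inv_mem e))]; group⟩ :
      IsConj _ (z * (k * z * k⁻¹)⁻¹)).trans (h7.symm.trans (isConj_iff.2 ⟨k⁻¹, by group⟩ : IsConj _ z⁻¹))))
  exact ha ▸ h.iso0 (ha ▸ inv_mem (mem_zpowers z))

theorem eq_of_conj (hc : c ∈ zpowers z) (hu : u ∈ P) (e : IsConj c u) : c = u := by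
  obtain ⟨g, rfl⟩ := isConj_iff.1 e
  rcases h.zc.1 hc with rfl | rfl | rfl
  · simp
  · exact (h.iso hu).symm
  · rw [← inv_inj, inv_inv, ← conj_inv, inv_inv]
    exact (h.iso (by simpa [mul_assoc] using inv_mem hu)).symm

theorem nine_le {W : Subgroup G} (hW : IsPGroup 3 W) (hz : z ∈ W) (hx : x ∈ W)
    (hx' : x ∉ zpowers z) : 9 ≤ Nat.card W := by
  obtain ⟨k, hk⟩ := IsPGroup.iff_card.1 hW
  have := card_le_of_le (zpowers_le.2 hz)
  have h1 : Nat.card (zpowers z) ≠ Nat.card W := fun e =>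
    hx' (eq_of_le_of_card_ge (zpowers_le.2 hz) e.ge ▸ hx)
  rw [Nat.card_zpowers, h.ord, hk] at this h1
  rw [hk]
  rcases k with _ | _ | k <;> first | omega | exact Nat.pow_le_pow_right (n := 3) (i := 2) (by omega) (by omega)

theorem le_nine {W : Subgroup G} (hW : IsPGroup 3 W) (hx : x ∈ P) (hx' : x ∉ zpowers z)
    (hle : W ≤ c1 x) : Nat.card W ≤ 9 := by
  obtain ⟨k, hk⟩ := IsPGroup.iff_card.1 hW
  obtain ⟨D, hD, h1⟩ := exists_sylIn_le ((isPE_of_mem h.syl.isPGroup hx).isPGroup_zpowers.to_sup_of_normal_left'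
    hW (hle.trans (c1_le_nN x))) (sup_le (zpowers_le.2 (mem_c1'.2 (by simp))) hle)
  obtain ⟨g, -, h2⟩ := h.syl.exists_cj_le hD.isPGroup le_top
  by_contra h3
  have h4 : 27 ≤ Nat.card W := by
    rw [hk] at h3 ⊢
    exact Nat.pow_le_pow_right (n := 3) (i := 3) (by omega) (by_contra fun e =>
      h3 (Nat.pow_le_pow_right (n := 3) (j := 2) (by omega) (by omega)))
  have h5 := eq_of_le_of_card_ge h2 (by
    rw [card_cj, h.card]; exact h4.trans (card_le_of_le (le_sup_right.trans h1)))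
  have h6 := (h.cen _ (cj_le_iff'.1 h2 x (h1 (mem_sup_left (mem_zpowers x))))).1 (by
    rw [← h5, conj_mem_centralizer_cj]; exact le_centralizer_singleton_iff.1 hD.le)
  exact hx' (h.eq_of_conj h6 hx (isConj_iff.2 ⟨g⁻¹, by group⟩) ▸ h6)

theorem sylV (hx : x ∈ P) (hx' : x ∉ zpowers z) :
    SylIn 3 (P ⊓ c1 x) (c1 x) ∧ Nat.card (P ⊓ c1 x :) = 9 := by
  have h1 := h.nine_le (h.syl.isPGroup.to_inf_left (K := c1 x)) (h.z_mem hx)
    ⟨hx, mem_c1'.2 (by simp)⟩ hx'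
  exact ⟨sylIn_of_maximal inf_le_right h.syl.isPGroup.to_inf_left fun Q hQ h2 h3 =>
    (eq_of_le_of_card_ge h2 ((h.le_nine hQ hx hx' h3).trans h1)).symm,
    le_antisymm (h.le_nine h.syl.isPGroup.to_inf_left hx hx' inf_le_right) h1⟩

theorem V_le (hx : x ∈ P) (hx' : x ∉ zpowers z) {W : Subgroup G} (hz : z ∈ W) (hW : x ∈ W) :
    P ⊓ c1 x ≤ W := inf_eq_left.1 (eq_of_le_of_card_ge inf_le_left ((h.sylV hx hx').2.trans_le
  (h.nine_le h.syl.isPGroup.to_inf_left.to_inf_left ⟨h.z_mem hx, hz⟩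
    ⟨⟨hx, mem_c1'.2 (by simp)⟩, hW⟩ hx')))

theorem pnil (hx : x ∈ P) (hx' : x ∉ zpowers z) : PNil 3 (c1 x) :=
  pnil_of_sylIn (h.sylV hx hx').1 fun n hn => le_centralizer_singleton_iff.1 (h.V_le hx hx'
    (c1_comm (mem_c1'.2 (h.iso (conj_mem_nN hn.2 (h.z_mem hx)).1))) (c1_comm hn.1))

theorem fus (hu : u ∈ P) (hu' : u ∉ zpowers z) (hw : w ∈ P) (e : IsConj u w) :
    ∃ n ∈ nN P, n * u * n⁻¹ = w := by
  have hw' : w ∉ zpowers z := fun e' => hu' (h.eq_of_conj e' hu e.symm ▸ e')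
  obtain ⟨g, rfl⟩ := isConj_iff.1 e
  obtain ⟨c, hc, h1⟩ := (h.sylV hw hw').1.exists_cj_le ((isPE_of_mem h.syl.isPGroup
    h.hz).conj g).isPGroup_zpowers (zpowers_le.2 (by
      rw [← cj_c1, conj_mem_cj]; exact (h.z_mem hu).2))
  have h2 := h.iso (g := c * g) (by simpa [mul_assoc] using (cj_le_iff'.1 h1 _ (mem_zpowers _)).1)
  have h3 : c * g * u * (c * g)⁻¹ = g * u * g⁻¹ := by rw [← mem_c1'.1 hc]; group
  generalize c * g = k at h2 h3
  generalize g * u * g⁻¹ = w at *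
  have h4 := h.syl.cj k
  rw [cj_eq_of_normal _ ⊤] at h4
  have h5 := c1_le_nN z (mem_c1'.2 h2)
  obtain ⟨a, ha, h6⟩ := (h.syl.of_le (le_sup_left.trans (h.le_eL hw)) le_top).exists_cj_eq
    (h4.of_le (by
      rintro _ ⟨y, hy, rfl⟩
      refine ⟨mul_mem (mul_mem h5 (c1_le_nN z (h.le_c1 (mem_zpowers z) hy))) (inv_mem h5), ?_⟩
      convert (mem_normalizer_iff.1 h5 _).1 (h.com y hy u hu) using 1
      simp [← h3, mul_assoc]) le_top)
  obtain ⟨y, hy, h7⟩ := h.cnj hw hw' ha.2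
  rw [cj_cj] at h6
  exact ⟨y⁻¹ * (a * k), mul_mem (inv_mem (le_normalizer hy)) (H8.mem_nN_iff.2 h6), by
    rw [show y⁻¹ * (a * k) * u * (y⁻¹ * (a * k))⁻¹ = y⁻¹ * (a * (k * u * k⁻¹) * a⁻¹ * w⁻¹ * w) * y by
      group, h3, ← h7]; group⟩

theorem stab (hx : x ∈ P) (hx' : x ∉ zpowers z) : nN P ⊓ eL z x ≤ P ⊔ cC P := fun t ht => by
  obtain ⟨y, hy, e⟩ := h.cnj hx hx' ht.2.2
  rw [← (P ⊔ cC P).mul_mem_cancel_left (mem_sup_left (inv_mem hy))]
  have h1 : y⁻¹ * t ∈ nN P := mul_mem (inv_mem (le_normalizer hy)) ht.1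
  have h2 : y⁻¹ * t ∈ c1 x := mem_c1'.2 (by
    rw [show y⁻¹ * t * x * (y⁻¹ * t)⁻¹ = y⁻¹ * (t * x * t⁻¹ * x⁻¹ * x) * y by group, ← e]; group)
  generalize y⁻¹ * t = n at h1 h2
  have h3 : n ^ 3 ∈ cC P := mem_cC'.2 fun a ha => by
    have h3 := conj_mem_nN h1 ha
    have h4 : a⁻¹ * (n * a * n⁻¹) ∈ P ⊓ c1 x := ⟨P.mul_mem (P.inv_mem ha) h3, mem_c1'.2 (by
      have h4 := mem_cC'.1 (c1_eq_cC z ▸ h.nor h1) _ (h.com a ha x hx)
      calc _ = a⁻¹ * (n * (a * (n⁻¹ * x * n⁻¹⁻¹) * a⁻¹ * x⁻¹) * n⁻¹) * (n * x * n⁻¹) * a := by group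
        _ = _ := by rw [mem_c1'.1 (inv_mem h2), h4, mem_c1'.1 h2]; group)⟩
    have h5 := mem_centralizer_singleton_iff.1 (h.V_le hx hx' (W := c1 n)
      (c1_comm (h.nor h1)) (c1_comm h2) h4)
    have h6 := h.exp _ h4.1
    obtain ⟨v, hv⟩ : ∃ v, a⁻¹ * (n * a * n⁻¹) = v := ⟨_, rfl⟩
    rw [hv] at h5 h6
    have h7 : n * a = a * v * n := by rw [← hv]; group
    have h8 : ∀ k : ℕ, n ^ k * a = a * v ^ k * n ^ k := fun k => by
      induction k with
      | zero => simp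
      | succ k ih =>
        rw [pow_succ', mul_assoc, ih, ← mul_assoc, ← mul_assoc, h7, mul_assoc _ n,
          ← (Commute.pow_left h5 k).eq, pow_succ']; group
    rw [h8, h6]; group
  rw [← pp_mul_pr (p := 3) n]
  refine mul_mem (mem_sup_left (mem_of_pe_normalizer h.syl (isPE_pp n) trivial (pp_mem h1)))
    (mem_sup_right (zpowers_le.2 ?_ (mem_zpowers_pow_iff.2
      ((Nat.Prime.coprime_iff_not_dvd Nat.prime_three).2 (not_dvd_orderOf_pr n)))))
  obtain ⟨k, hk⟩ := exists_pow_eq_pr (p := 3) n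
  rw [← hk, ← pow_mul, mul_comm, pow_mul]
  exact pow_mem h3 k

theorem ncard (hx : x ∈ P) (hx' : x ∉ zpowers z) :
    {y | ∃ n ∈ nN P, n * x * n⁻¹ = y}.ncard = 3 * eE P := by
  have h0 : P ⊔ cC P ≤ nN P := sup_le le_normalizer (centralizer_le_normalizer _)
  rw [ncard_cls, ← inf_relIndex_right, show c1 x ⊓ nN P = c1 x ⊓ (P ⊔ cC P) from le_antisymm
    (fun g e => ⟨e.1, h.stab hx hx' ⟨e.2, c1_le_nN z (h.nor e.2), by simp [mem_c1'.1 e.1]⟩⟩)
    (inf_le_inf_left _ h0), ← relIndex_mul_relIndex _ _ _ inf_le_right h0, inf_relIndex_right,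
    ← ncard_cls, show {y | ∃ n ∈ P ⊔ cC P, n * x * n⁻¹ = y} = (· * x) '' zpowers z from Set.ext
    fun y => ⟨fun ⟨n, hn, e⟩ => ⟨_, (h.le_eL hx hn).2, by simp [e]⟩, fun ⟨c, hc, e⟩ =>
      (h.cnj hx hx' hc).imp fun n e' => ⟨mem_sup_left e'.1, e'.2.trans e⟩⟩,
    Set.ncard_image_of_injective _ (mul_left_injective x), ← Nat.card_coe_set_eq, ← h.ord]
  exact congrArg (· * _) (Nat.card_zpowers z)

theorem real (he : 2 ∣ eE P) (hx : x ∈ P) (hx' : x ∉ zpowers z) : IsConj x x⁻¹ := by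
  have h0 : P ⊔ cC P ≤ nN P := sup_le le_normalizer (centralizer_le_normalizer _)
  haveI := (normal_subgroupOf_iff_le_normalizer h0).2
    (normalizer_le_normalizer_sup_of_normalizer_le_left (H8.nN_le_nN_cC P))
  obtain ⟨q, hq⟩ := exists_prime_orderOf_dvd_card' (G := nN P ⧸ (P ⊔ cC P).subgroupOf (nN P)) 2 he
  obtain ⟨⟨t, ht⟩, rfl⟩ := QuotientGroup.mk_surjective q
  have h1 : t ∉ P ⊔ cC P := fun e => by
    rw [(QuotientGroup.eq_one_iff (⟨t, ht⟩ : nN P)).2 e] at hq; simp at hq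
  have h2 : t ^ 2 ∈ P ⊔ cC P := by
    have := pow_orderOf_eq_one (QuotientGroup.mk ⟨t, ht⟩ : nN P ⧸ (P ⊔ cC P).subgroupOf (nN P))
    rwa [hq, ← QuotientGroup.mk_pow, QuotientGroup.eq_one_iff] at this
  have h3 := conj_mem_nN ht hx
  have h4 : x * (t * x * t⁻¹) ∈ zpowers z := by_contra fun e => h1 (h.stab (mul_mem hx h3) e
    ⟨ht, c1_le_nN z (h.nor ht), by
      convert mul_mem ((mem_normalizer_iff.1 (c1_le_nN z (h.le_c1 (mem_zpowers z) h3)) _).1
        (h.le_eL hx h2).2) (h.com _ h3 x hx) using 1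
      rw [pow_two]; group⟩)
  refine ((isConj_iff.2 ⟨t, ?_⟩ : IsConj x _).trans (h.isConj (inv_mem hx) (mt inv_mem_iff.1 hx') h4).symm)
  rw [← mem_centralizer_singleton_iff.1 (h.le_c1 h4 (inv_mem hx))]; group

theorem exists_X : ∃ X : Finset G, (∀ x ∈ X, x ∈ P ∧ x ∉ zpowers z) ∧
    (∀ x ∈ X, ∀ y ∈ X, IsConj x y → x = y) ∧ (∀ u, IsPE 3 u →
      IsConj u 1 ∨ IsConj u z ∨ IsConj u z⁻¹ ∨ ∃ x ∈ X, IsConj u x) ∧ #X * eE P = 8 := by
  classical
  cases nonempty_fintype G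
  let T : Finset G := {x | x ∈ P ∧ x ∉ zpowers z}
  obtain ⟨X, h1, h2, h3⟩ := exists_subset_injOn_image_eq_of_surjOn (f := ConjClasses.mk) T
    (T.image ConjClasses.mk) (by simp [Set.SurjOn])
  refine ⟨X, fun x hx => (mem_filter.1 (h1 hx)).2, fun x hx y hy e =>
    h2 hx hy (ConjClasses.mk_eq_mk_iff_isConj.2 e), fun u hu => ?_, ?_⟩
  · obtain ⟨g, hg⟩ := h.exists_mem hu
    have h4 : IsConj u _ := isConj_iff.2 ⟨g, rfl⟩
    by_cases e : g * u * g⁻¹ ∈ zpowers z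
    · rcases h.zc.1 e with e | e | e <;> simp only [e] at h4 <;> simp only [h4, true_or, or_true]
    obtain ⟨x, hx, e'⟩ := mem_image.1 (h3.ge (mem_image_of_mem _ (mem_filter.2 ⟨mem_univ _, hg, e⟩)))
    exact .inr (.inr (.inr ⟨x, hx, h4.trans (ConjClasses.mk_eq_mk_iff_isConj.1 e').symm⟩))
  have h4 := card_eq_sum_card_image ConjClasses.mk T
  rw [sum_congr rfl (g := fun _ => 3 * eE P) fun C hC => ?_, sum_const, ← h3,
    card_image_of_injOn h2, ← Set.ncard_coe_finset, show (T : Set G) = (P : Set G) \ (zpowers z : Set G) by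
      ext; simp [T], Set.ncard_diff h.Z_le, ← Nat.card_coe_set_eq, ← Nat.card_coe_set_eq] at h4
  · have h5 := h.card
    have h6 := (Nat.card_zpowers z).trans h.ord
    simp only [SetLike.coe_sort_coe, smul_eq_mul, h5, h6] at h4
    nlinarith
  obtain ⟨x, hx, rfl⟩ := mem_image.1 hC
  obtain ⟨-, hx, hx'⟩ := mem_filter.1 hx
  rw [← h.ncard hx hx', ← Set.ncard_coe_finset]
  refine congrArg _ (Set.ext fun y => ?_)
  simp only [coe_filter, T, mem_filter, mem_univ, true_and, ConjClasses.mk_eq_mk_iff_isConj,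
    Set.mem_setOf_eq]
  exact ⟨fun e => h.fus hx hx' e.1.1 e.2.symm, fun ⟨n, hn, e⟩ => ⟨⟨e ▸ conj_mem_nN hn hx, fun e' =>
    hx' (h.eq_of_conj e' hx (IsConj.symm (isConj_iff.2 ⟨n, e⟩)) ▸ e')⟩,
    IsConj.symm (isConj_iff.2 ⟨n, e⟩)⟩⟩

theorem pnil_one (he : eE P = 1) : PNil 3 G := by
  obtain ⟨Q, rfl⟩ := h.syl.exists_sylow
  obtain ⟨N, _, h1, h2⟩ := H3.hasNormalPComplement_iff_exists_normal.1
    (H3.hasNormalPComplement_of_no_fusion Q fun x hx g hg => by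
      by_cases e : x ∈ zpowers z
      · exact ⟨1, one_mem _, by simpa using h.eq_of_conj e hg (isConj_iff.2 ⟨g, rfl⟩)⟩
      obtain ⟨n, hn, e'⟩ := h.fus hx e hg (isConj_iff.2 ⟨g, rfl⟩)
      exact (h.cnj hx e (h.le_eL hx (relIndex_eq_one.1 he hn)).2).imp fun _ e => ⟨e.1, by simpa [← e'] using e.2⟩)
  exact (IsPGroup.iff_card.1 h2).elim fun k hk => pnil_of_normal h1 hk

theorem card_eq [PM 3 M] {X : Finset G} (h1 : ∀ x ∈ X, x ∈ P ∧ x ∉ zpowers z)
    (h2 : ∀ x ∈ X, ∀ y ∈ X, IsConj x y → x = y) (h3 : ∀ u, IsPE 3 u →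
      IsConj u 1 ∨ IsConj u z ∨ IsConj u z⁻¹ ∨ ∃ x ∈ X, IsConj u x) :
    Nat.card (principalBlock M G) = blockRank 3 (principalBlock M G) +
      2 * blockRank 3 (principalBlock M (c1 z)) + #X := by
  classical
  have hA := isSat_of_isPBlock (isPBlock_principalBlock (M := M) (G := G))
  have pe := fun x hx => isPE_of_mem (x := x) h.syl.isPGroup hx
  have h4 : ∀ x ∈ insert 1 (insert z (insert z⁻¹ X)), x ∈ zpowers z ∨ x ∈ X := by
    simp +contextual
  have h5 : ∀ x ∈ insert 1 (insert z (insert z⁻¹ X)), x ∈ P := fun x hx =>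
    (h4 x hx).elim (h.Z_le ·) fun e => (h1 x e).1
  rw [card_eq_sum_lr (p := 3) hA (insert 1 (insert z (insert z⁻¹ X))) (fun x hx => pe x (h5 x hx))
    (fun g hg _ => by simpa only [mem_insert, or_and_right, exists_or, exists_eq_left] using h3 g hg)
    fun x hx y hy e => (h4 x hx).elim (h.eq_of_conj · (h5 y hy) e) fun e1 => (h4 y hy).elim
      (fun e2 => (h.eq_of_conj e2 (h5 x hx) e.symm).symm) fun e2 => h2 x e1 y e2 e,
    sum_insert (by simpa [h.z1.symm, h.z1] using fun e => (h1 _ e).2 (one_mem _)),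
    sum_insert (by simpa [h.zi.symm] using fun e => (h1 _ e).2 (mem_zpowers _)),
    sum_insert fun e => (h1 _ e).2 (by simp), lr_one hA, lr_principal' (pe _ h.hz),
    lr_principal' (pe _ (inv_mem h.hz)), sum_congr rfl fun x hx =>
      lr_principal (pe x (h1 x hx).1) (h.pnil (h1 x hx).1 (h1 x hx).2),
    show centralizer {z⁻¹} = c1 z by rw [c1_eq_cC, ← zpowers_inv, ← c1_eq_cC]]
  simp; ring

theorem exists_theta : ∃ (θ : P → ℂ) (c : ℂ), IsCharacter P θ ∧ c * conj c = 1 ∧ c + conj c = -1 ∧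
    θ 1 = 3 ∧ (∀ v, θ (⟨z, h.hz⟩ * v) = c * θ v) ∧ ∀ v : P, v.1 ∉ zpowers z → θ v = 0 := by
  classical
  cases nonempty_fintype P
  obtain ⟨θ, hθ⟩ := not_forall.1 (mt (eq_one_of_forall_irr (g := (⟨z, h.hz⟩ : P)))
    fun e => h.z1 (congrArg Subtype.val e))
  obtain ⟨c, -, hc⟩ := mem_charCenter_def.1 (θ.2.center_le_charCenter (mem_center_iff.2 fun v =>
    Subtype.ext (mem_centralizer_singleton_iff.1 (h.le_c1 (mem_zpowers z) v.2)) :
      (⟨z, h.hz⟩ : P) ∈ center P))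
  have h0 : θ.1 1 ≠ 0 := by rw [← θ.2.coe_charDegree]; exact_mod_cast θ.2.charDegree_pos.ne'
  have h1 : θ.1 ⟨z, h.hz⟩ = c * θ.1 1 := by simpa using hc 1
  have h2 : c ≠ 1 := by rintro rfl; exact hθ (by simpa using h1)
  have h3 : conj (θ.1 1) = θ.1 1 := by rw [← θ.2.apply_inv, inv_one]
  have h4 : c * conj c = 1 := mul_right_cancel₀ h0 (by
    have := hc ⟨z, h.hz⟩⁻¹
    rw [θ.2.apply_inv, h1, map_mul, h3, mul_inv_cancel] at this
    linear_combination -this)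
  have h5 : conj c = c * c := mul_right_cancel₀ h0 (by
    have := hc ⟨z, h.hz⟩
    rw [show (⟨z, h.hz⟩ * ⟨z, h.hz⟩ : P) = ⟨z, h.hz⟩⁻¹ from eq_inv_of_mul_eq_one_right (Subtype.ext
      ((pow_three z).symm.trans (h.exp z h.hz))), θ.2.apply_inv, h1, map_mul, h3] at this
    linear_combination this)
  have h6 : ∀ v : P, v.1 ∉ zpowers z → θ.1 v = 0 := fun v hv => by
    obtain ⟨y, hy, e⟩ := h.cnj v.2 hv (mem_zpowers z)
    have := hc v
    rw [← show (⟨y, hy⟩ * v * ⟨y, hy⟩⁻¹ : P) = ⟨z, h.hz⟩ * v from Subtype.ext e, θ.2.isClassFunction] at this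
    exact (mul_left_eq_self₀.1 this.symm).resolve_left h2
  refine ⟨θ, c, θ.2.isCharacter, h4, mul_left_cancel₀ (sub_ne_zero.2 h2) (by
    rw [h5] at h4 ⊢; linear_combination h4), ?_, hc, h6⟩
  have h7 := card_mul_classInner θ.1 θ.1
  rw [θ.2.classInner_self, h.card, ← sum_subset (subset_univ {1, ⟨z, h.hz⟩, ⟨z, h.hz⟩⁻¹})
    fun v _ hv => by rw [h6 v fun e => hv (by
      rcases h.zc.1 e with e | e | e <;> simp only [mem_insert, mem_singleton, Subtype.ext_iff] <;>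
        simp [e]), zero_mul],
    sum_insert (by simp [Subtype.ext_iff, h.z1.symm, h.z1]), sum_pair (by
      simp [Subtype.ext_iff, h.zi.symm]), θ.2.apply_inv, h1, map_mul, h3, map_mul,
    RCLike.conj_conj, h3, ← θ.2.coe_charDegree] at h7
  have h8 : (charDegree θ.1 : ℂ) ^ 2 = 3 ^ 2 := by
    linear_combination (-1 / 3) * h7 - 2 / 3 * (charDegree θ.1 : ℂ) ^ 2 * h4
  rw [← θ.2.coe_charDegree]
  exact_mod_cast Nat.pow_left_injective two_ne_zero (by exact_mod_cast h8)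

end EX

theorem blockRank_top [Finite G] {p : ℕ} [Fact p.Prime] [PM p M] {K : Subgroup G} (h : K = ⊤) :
    blockRank p (principalBlock M K) = blockRank p (principalBlock M G) := by
  have : Function.Surjective K.subtype := fun g => ⟨⟨g, h ▸ trivial⟩, rfl⟩
  rw [principal_odd (p := p) this (by simp [(Fact.out : p.Prime).ne_one]), blockRank_icomp]

namespace EX
variable [Finite G] [PM 3 M] {P : Subgroup G} {z : G} (h : EX P z)
include h

theorem key (he : 2 ∣ eE P) : ∃ n a b, n * eE P = 8 ∧ Nat.card {χ // χ ∈ principalBlock M G ∧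
      blockHeight 3 (principalBlock M G) χ.1 = 0} = a ∧ Nat.card (principalBlock M G) = a + b ∧
    a + b = blockRank 3 (principalBlock M G) + 2 * blockRank 3 (principalBlock M (c1 z)) + n ∧
    ((a = 6 ∧ b + 2 * n ≤ 12 ∧ b ≤ 2 * blockRank 3 (principalBlock M G)) ∨
      (a = 9 ∧ n = 1 ∧ b ≤ blockRank 3 (principalBlock M G))) ∧
    (c1 z = ⊤ → a ≤ blockRank 3 (principalBlock M G) + n) := by
  classical
  cases nonempty_fintype G
  obtain ⟨X, h1, h2, h3, h4⟩ := h.exists_X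
  obtain ⟨θ, c, t1, t2, t3, t4, t5, t6⟩ := h.exists_theta
  have z0 : ∀ {a b g : G}, a ∈ zpowers z → b ∈ P → a ≠ b → IsConj (pp 3 g) b → sI 3 a g = 0 :=
    fun ha hb e e' => sI_neg fun e'' => e (h.eq_of_conj ha hb (e''.symm.trans e'))
  have z1 : ∀ {a g : G}, a ∈ zpowers z → IsConj (pp 3 g) a → ∑ x ∈ X, sI 3 x g = 0 :=
    fun ha e => sum_eq_zero fun x hx => sI_neg fun e' =>
      (h1 x hx).2 (h.eq_of_conj ha (h1 x hx).1 (e.symm.trans e') ▸ ha)
  let η : G → ℂ := fun g => 3 * sI 3 1 g + 3 * c * sI 3 z g + 3 * conj c * sI 3 z⁻¹ g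
  have e1 : ∀ {g}, IsConj (pp 3 g) 1 → η g = 3 := fun e => by
    simp [η, sI_pos e, z0 (mem_zpowers z) P.one_mem h.z1 e,
      z0 (inv_mem (mem_zpowers z)) P.one_mem (inv_ne_one.2 h.z1) e]
  have e2 : ∀ {g}, IsConj (pp 3 g) z → η g = 3 * c := fun e => by
    simp [η, sI_pos e, z0 (one_mem _) h.hz h.z1.symm e, z0 (inv_mem (mem_zpowers z)) h.hz h.zi e]
  have e3 : ∀ {g}, IsConj (pp 3 g) z⁻¹ → η g = 3 * conj c := fun e => by
    simp [η, sI_pos e, z0 (one_mem _) (inv_mem h.hz) (inv_ne_one.2 h.z1).symm e,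
      z0 (mem_zpowers z) (inv_mem h.hz) h.zi.symm e]
  have e4 : ∀ {g x}, x ∈ P → x ∉ zpowers z → IsConj (pp 3 g) x → η g = 0 := fun hx hx' e => by
    have := fun a (ha : a ∈ zpowers z) => z0 ha hx (fun e' => hx' (e' ▸ ha)) e
    simp [η, this]
  have e5 : ∀ {g x}, x ∈ X → IsConj (pp 3 g) x → ∑ x ∈ X, sI 3 x g = 1 := fun hx e => by
    rw [sum_eq_single_of_mem _ hx fun y hy e' => sI_neg fun e'' => e' (h2 _ hy _ hx (e''.symm.trans e)),
      sI_pos e]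
  have sc : SC 3 η := fun g g' e => by simp only [η, sc_sI _ g g' e]
  clear_value η
  have pe := fun x hx => isPE_of_mem (x := x) h.syl.isPGroup hx
  have tz : θ ⟨z, h.hz⟩ = 3 * c := by simpa [t4, mul_comm] using t5 1
  have e6 : ∀ v : P, η v = θ v := fun ⟨v, hv⟩ => by
    have := IsConj.refl v
    nth_rw 1 [← pp_of_isPE (pe _ hv)] at this
    by_cases e : v ∈ zpowers z
    · rcases h.zc.1 e with rfl | rfl | rfl
      · exact (e1 this).trans t4.symm
      · exact (e2 this).trans tz.symm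
      · exact (e3 this).trans (by
          rw [show (⟨z⁻¹, hv⟩ : P) = ⟨z, h.hz⟩⁻¹ from rfl, t1.apply_inv, tz, map_mul, map_ofNat])
    · exact (e4 hv e this).trans (t6 _ e).symm
  have hX : X3 X η := ⟨Nat.pow_right_injective (a := 3) (by omega) (by
      have := h.syl.card; rw [card_top, h.card] at this; exact this.symm), fun x hx e => (h1 x hx).2 (e ▸ one_mem _),
    fun x hx => h.exp x (h1 x hx).1, fun x hx => h.real he (h1 x hx).1 (h1 x hx).2,
    fun x hx => h.pnil (h1 x hx).1 (h1 x hx).2, fun x hx => Nat.pow_right_injective (a := 3) (a₂ := 2)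
      (by omega) ((h.sylV (h1 x hx).1 (h1 x hx).2).1.card.symm.trans
      (h.sylV (h1 x hx).1 (h1 x hx).2).2), h2, by
      convert isGen_hat h.syl (isClassFunction_of_isConj fun _ _ e => sc _ _ (isConj_pp e))
        (funext e6 ▸ t1.isGen) using 2 with g
      exact sc _ _ (by rw [pp_of_isPE (isPE_pp g)]), sc, fun g => by
      rcases h3 _ (isPE_pp g) with e | e | e | ⟨x, hx, e⟩
      · rw [e1 e, z1 (one_mem _) e, map_ofNat]; norm_num
      · rw [e2 e, z1 (mem_zpowers z) e, map_mul, map_ofNat]; linear_combination 9 * t2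
      · rw [e3 e, z1 (inv_mem (mem_zpowers z)) e, map_mul, map_ofNat, RCLike.conj_conj]
        linear_combination 9 * t2
      · rw [e4 (h1 x hx).1 (h1 x hx).2 e, e5 hx e]; norm_num, fun g => by
      rcases h3 _ (isPE_pp g) with e | e | e | ⟨x, hx, e⟩
      · rw [e1 e, z1 (one_mem _) e, map_ofNat, sI_pos e]; norm_num
      · rw [e2 e, z1 (mem_zpowers z) e, map_mul, map_ofNat, z0 (one_mem _) h.hz h.z1.symm e]
        linear_combination 3 * t3
      · rw [e3 e, z1 (inv_mem (mem_zpowers z)) e, map_mul, map_ofNat, RCLike.conj_conj,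
          z0 (one_mem _) (inv_mem h.hz) (inv_ne_one.2 h.z1).symm e]
        linear_combination 3 * t3
      · rw [e4 (h1 x hx).1 (h1 x hx).2 e, e5 hx e, z0 (one_mem _) (h1 x hx).1
          (fun e' => (h1 x hx).2 (e' ▸ one_mem _)) e]; norm_num⟩
  obtain ⟨T, N, d, g, hn, hT⟩ := hX.nm (M := M)
  obtain ⟨x, hx⟩ := card_pos.1 (show 0 < #X from Nat.pos_of_ne_zero fun e => by simp [e] at h4)
  haveI : Nonempty X := ⟨⟨x, hx⟩⟩
  have h5 := (card_add_card_compl ({χ : principalBlock M G |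
    blockHeight 3 (principalBlock M G) χ.1.1 = 0} : Finset _)).trans Fintype.card_eq_nat_card
  refine ⟨#X, _, _, h4, ?_, h5.symm, h5.trans (h.card_eq h1 h2 h3), by simpa using hn.main,
    fun hz => (hn.cen fun i hi j hj => ?_).trans_eq (by simp)⟩
  · rw [← Fintype.card_subtype, Fintype.card_eq_nat_card]
    exact Nat.card_congr (Equiv.subtypeSubtypeEquivSubtypeInter _ _).symm
  have hc : ∀ g, z * g = g * z := fun g => (mem_centralizer_singleton_iff.1 (hz.ge (mem_top g))).symm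
  have h6 : ∀ i : principalBlock M G, blockHeight 3 (principalBlock M G) i.1.1 = 0 →
      ∀ g, i.1.1 (z * g) = i.1.1 g := fun i hi g => by
    obtain ⟨a, -, ha⟩ := mem_charCenter_def.1 (i.1.2.center_le_charCenter
      (mem_center_iff.2 fun v => (hc v).symm))
    have h7 := ha x
    rw [← i.1.2.isClassFunction.eq_of_isConj (h.isConj (h1 x hx).1 (h1 x hx).2 (mem_zpowers z))] at h7
    rw [ha, (mul_left_eq_self₀.1 h7.symm).resolve_right fun e => ?_, one_mul]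
    have := red_char_eq_red_pr (M := M) (p := 3) i.1.2.isCharacter x
    rw [pr_of_isPE (pe x (h1 x hx).1), e, red_zero, ← i.1.2.coe_charDegree, red_natCast, eq_comm,
      natCast_F_eq_zero_iff] at this
    exact (H8.height_principal_iff i.2).1 hi this
  have h7 : ∀ g, η (z * g) = c * η g := fun g => by
    obtain ⟨k, hk⟩ := h.exists_mem (isPE_pp (p := 3) g)
    have e : IsConj (pp 3 g) (pp 3 (k * pp 3 g * k⁻¹)) := by
      rw [pp_of_isPE (pe _ hk)]; exact isConj_iff.2 ⟨k, rfl⟩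
    rw [sc _ _ e, sc _ (z * (k * pp 3 g * k⁻¹)) (by
      rw [pp_mul_left (pe _ h.hz) (hc _), pp_of_isPE (pe _ (mul_mem h.hz hk))]
      exact isConj_iff.2 ⟨k, by rw [← mul_assoc, ← hc k]; group⟩)]
    exact (e6 (⟨z, h.hz⟩ * ⟨_, hk⟩)).trans ((t5 _).trans (congrArg _ (e6 ⟨_, hk⟩).symm))
  have h8 := card_mul_classInner (η * i.1.1) j.1.1
  have h9 := h8
  rw [← Equiv.sum_comp (Equiv.mulLeft z)] at h9
  simp only [Equiv.coe_mulLeft, Pi.mul_apply, h7, h6 i (mem_filter.1 hi).2, h6 j (mem_filter.1 hj).2,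
    mul_assoc, ← mul_sum] at h8 h9
  rw [← h8, hT] at h9
  refine Int.cast_eq_zero.1 ((mul_eq_zero.1 ((mul_left_eq_self₀.1 h9.symm).resolve_left ?_)).resolve_left
    card_ne_zero_complex)
  rintro rfl
  norm_num at t3

theorem main (he : 2 ∣ eE P) : ∃ n, n * eE P = 8 ∧ Nat.card {χ // χ ∈ principalBlock M G ∧
      blockHeight 3 (principalBlock M G) χ.1 = 0} = 6 ∧ Nat.card (principalBlock M G) + 2 * n = 18 ∧
    blockRank 3 (principalBlock M G) + n = 6 := by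
  obtain ⟨n, a, b, h1, h2, h3, h4, h5, -⟩ := h.key (M := M) he
  obtain ⟨n', a', b', h1', -, -, h4', h5', h6'⟩ := h.sub.key (M := M) (h.eE_sub ▸ he)
  have e : c1 (⟨z, mem_c1'.2 (by simp)⟩ : c1 z) = ⊤ :=
    eq_top_iff.2 fun g _ => mem_c1'.2 (Subtype.ext (mem_c1'.1 g.2))
  rw [blockRank_top e] at h4'
  have := h6' e
  rw [h.eE_sub, ← h1] at h1'
  obtain rfl := Nat.eq_of_mul_eq_mul_right (Nat.pos_of_ne_zero fun e => by simp [e] at h1) h1'
  exact ⟨n', h1, by omega, by omega, by omega⟩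

theorem one (he : eE P = 1) : Nat.card (principalBlock M G) = 11 ∧ Nat.card {χ //
    χ ∈ principalBlock M G ∧ blockHeight 3 (principalBlock M G) χ.1 = 0} = 9 ∧
    blockRank 3 (principalBlock M G) = 1 := by
  classical
  cases nonempty_fintype G
  obtain ⟨X, h1, h2, h3, h4⟩ := h.exists_X
  have h5 := h.pnil_one he
  have h6 := h.card_eq (M := M) h1 h2 h3
  rw [h5.blockRank, (h.sub.pnil_one (h.eE_sub.trans he)).blockRank] at h6
  refine ⟨by rw [he] at h4; omega, ?_, h5.blockRank⟩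
  let S : Finset (principalBlock M G) := {χ | blockHeight 3 (principalBlock M G) χ.1.1 = 0}
  have h7 := (card_add_card_compl S).trans Fintype.card_eq_nat_card
  rw [← Nat.card_congr (Equiv.subtypeSubtypeEquivSubtypeInter _ _), Nat.card_eq_fintype_card,
    Fintype.card_subtype]
  have h8 := h5.mu_one (M := M)
  rw [← card_top, ← h.syl.card, h.card, mu_eq_sub] at h8
  simp only [← IsIrrCharacter.coe_charDegree (Subtype.property _), map_natCast] at h8
  norm_cast at h8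
  rw [← sum_add_sum_compl S, sum_congr rfl (g := fun _ => 1) fun i hi => ?_] at h8
  · have h9 : ∀ i ∈ Sᶜ, 9 ∣ charDegree i.1.1 * charDegree i.1.1 := fun i hi => by
      have := not_not.1 ((H8.height_principal_iff i.2).not.1 (by simpa [S] using hi))
      exact Nat.mul_dvd_mul this this
    have := dvd_sum h9
    have := card_nsmul_le_sum _ _ _ fun i hi => Nat.le_of_dvd
      (mul_pos i.1.2.charDegree_pos i.1.2.charDegree_pos) (h9 i hi)
    simp only [sum_const, smul_eq_mul, he, mul_one] at h8 h4 this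
    change #S = 9
    omega
  have h9 := i.1.2.charDegree_dvd_index_charCenter.trans ((index_dvd_of_le fun g hg =>
    charKer_le_charCenter (i.1.2.isCharacter.mem_charKer.2 ((h5.principal (M := M)).le i.2 g hg))).trans
    h5.index.dvd)
  rw [((Nat.Prime.coprime_iff_not_dvd Nat.prime_three).2 ((H8.height_principal_iff i.2).1
    (mem_filter.1 hi).2)).symm.pow_right _ |>.eq_one_of_dvd h9]

end EX
end H7
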