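import Cfsg.Agent.S4446
/-! Flavell's theorem on fixed points of coprime action, via the Glauberman correspondence:
`H7.fix_cop` (`C_{[G,s]}(s)` is generated by the `C_{[g,s]}(s)` when `s` has odd order prime to
`|G|`); `H7.exists_conj_mul_cent` (every element of the coset `K t` is `K`-conjugate into
`C_K(t) t`). -/
open H5 Cfsg Subgroup
namespace H7
variable {Γ : Type*} [Group Γ]

theorem exists_conj_mul_cent [Finite Γ] {K : Subgroup Γ} {t : Γ}
    (ht : t ∈ normalizer (K : Set Γ)) (hcop : (orderOf t).Coprime (Nat.card K)) {k : Γ}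
    (hk : k ∈ K) : ∃ u ∈ K, ∃ c ∈ K, c * t = t * c ∧ u * (k * t) * u⁻¹ = c * t := by
  have hn : zpowers t ≤ normalizer (K : Set Γ) := by simpa using ht
  have hcj : ∀ a ∈ zpowers t, ∀ y ∈ K, a * y * a⁻¹ ∈ K := fun a ha y hy =>
    (mem_normalizer_iff.1 (hn ha) y).1 hy
  obtain ⟨u, hu, h⟩ := H8.Glaub.exists_conj_mem_centralizer (G := K) (S := zpowers t) hn
    (by rwa [Nat.card_zpowers]) (Or.inl inferInstance) (x := k * t) (by
      intro a ha
      obtain ⟨i, rfl⟩ := mem_powers_iff_mem_zpowers.2 ha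
      dsimp only
      induction i with
      | zero => exact ⟨1, K.one_mem, by simp⟩
      | succ i ih =>
        obtain ⟨v, hv, e⟩ := ih (pow_mem (mem_zpowers t) i)
        refine ⟨t * v * t⁻¹ * k⁻¹, K.mul_mem (hcj t (mem_zpowers t) v hv) (K.inv_mem hk), ?_⟩
        rw [pow_succ']
        calc _ = t * (v * (k * t) * v⁻¹) * t⁻¹ := by group
          _ = _ := by rw [e]; group)
  refine ⟨u, hu, u * (k * t) * u⁻¹ * t⁻¹, ?_, ?_, by group⟩
  · have : u * (k * t) * u⁻¹ * t⁻¹ = u * k * (t * u⁻¹ * t⁻¹) := by group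
    rw [this]
    exact K.mul_mem (K.mul_mem hu hk) (hcj t (mem_zpowers t) _ (K.inv_mem hu))
  · have := (mem_centralizer_iff.1 h) t (mem_zpowers t)
    calc _ = u * (k * t) * u⁻¹ := by group
      _ = t * (u * (k * t) * u⁻¹) * t⁻¹ := by rw [this]; group
      _ = _ := by group

/-- the subgroup `[g, s]` -/
def cmS (s g : Γ) : Subgroup Γ := closure {c | ∃ i : ℕ, c = g⁻¹ * (s ^ i * g * (s ^ i)⁻¹)}

theorem mem_normalizer_cmS [Finite Γ] (s g : Γ) : s ∈ normalizer (cmS s g : Set Γ) := by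
  refine H1.mem_normalizer_of_conj_mem fun y hy => ?_
  have : cmS s g ≤ (cmS s g).comap (MulAut.conj s).toMonoidHom := by
    refine (closure_le _).2 ?_
    rintro _ ⟨i, rfl⟩
    have h1 : g⁻¹ * (s ^ 1 * g * (s ^ 1)⁻¹) ∈ cmS s g := subset_closure ⟨1, rfl⟩
    have h2 : g⁻¹ * (s ^ (i + 1) * g * (s ^ (i + 1))⁻¹) ∈ cmS s g := subset_closure ⟨i + 1, rfl⟩
    have := (cmS s g).mul_mem ((cmS s g).inv_mem h1) h2
    change s * _ * s⁻¹ ∈ cmS s g
    convert this using 1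
    rw [pow_succ']; group
  exact this hy

theorem cmS_le {G : Subgroup Γ} [hG : G.Normal] (s : Γ) {g : Γ} (hg : g ∈ G) : cmS s g ≤ G := by
  refine (closure_le _).2 ?_
  rintro _ ⟨i, rfl⟩
  exact G.mul_mem (G.inv_mem hg) (hG.conj_mem g hg _)

theorem fix_cop [Finite Γ] (G : Subgroup Γ) [hG : G.Normal] (s : Γ) (hodd : Odd (orderOf s))
    (hcop : (Nat.card G).Coprime (orderOf s)) (htop : G ⊔ zpowers s = ⊤) :
    (⨆ g ∈ G, cmS s g) ⊓ centralizer {s} ≤ ⨆ g ∈ G, cmS s g ⊓ centralizer {s} := by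
  classical
  letI := Fintype.ofFinite Γ
  set D : Subgroup Γ := ⨆ g ∈ G, cmS s g ⊓ centralizer {s} with hD
  set C : Subgroup Γ := G ⊓ centralizer (zpowers s : Set Γ) with hC
  have hC0 : C = G ⊓ centralizer {s} := by rw [hC, zpowers_eq_closure, centralizer_closure]
  have hDn : ∀ c ∈ C, ∀ d ∈ D, c * d * c⁻¹ ∈ D := by
    intro c hc
    rw [hC0] at hc
    have hcs : ∀ i : ℕ, s ^ i * c = c * s ^ i := fun i =>
      (Commute.pow_left (mem_centralizer_iff.1 hc.2 s rfl) i)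
    have : D ≤ D.comap (MulAut.conj c).toMonoidHom := by
      refine iSup₂_le fun g hg => ?_
      intro y hy
      have h1 : cmS s g ≤ (cmS s (c * g * c⁻¹)).comap (MulAut.conj c).toMonoidHom := by
        refine (closure_le _).2 ?_
        rintro _ ⟨i, rfl⟩
        change c * _ * c⁻¹ ∈ cmS s _
        refine subset_closure ⟨i, ?_⟩
        calc _ = c * g⁻¹ * c⁻¹ * (c * s ^ i) * g * (c * s ^ i)⁻¹ := by group
          _ = _ := by rw [← hcs]; group
      refine (le_iSup₂_of_le (f := fun g (_ : g ∈ G) => cmS s g ⊓ centralizer {s})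
        (c * g * c⁻¹) (hG.conj_mem g hg c) le_rfl) ⟨h1 hy.1, ?_⟩
      exact (centralizer {s}).mul_mem ((centralizer {s}).mul_mem hc.2 hy.2)
        ((centralizer {s}).inv_mem hc.2)
    exact fun d hd => this hd
  intro c0 hc0
  have hKG : (⨆ g ∈ G, cmS s g) ≤ G := iSup₂_le fun g hg => cmS_le s hg
  have hc0C : c0 ∈ C := hC0 ▸ ⟨hKG hc0.1, hc0.2⟩
  by_contra hne
  haveI : (D.subgroupOf C).Normal := ⟨fun d hd c => hDn c c.2 d hd⟩
  obtain ⟨β, hβ, hDβ, hcβ⟩ := exists_irr_le_charKer_not_mem (D.subgroupOf C) (g := ⟨c0, hc0C⟩) hne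
  obtain ⟨χ, χh, ε, -, -, -, hε, hv⟩ := (Cfsg.Agent.S4446.result G (zpowers s)
    (fun a _ g hg => hG.conj_mem g hg a) (by rwa [Nat.card_zpowers]) htop inferInstance C hC
    inf_le_left).2.2 ⟨β, hβ⟩
  have hs2 : zpowers (s ^ 2) = zpowers s := by
    refine le_antisymm (by simp) ?_
    obtain ⟨m, hm⟩ := hodd
    rw [zpowers_le]
    refine ⟨(m + 1 : ℕ), ?_⟩
    dsimp only
    rw [zpow_natCast, ← pow_mul, show 2 * (m + 1) = orderOf s + 1 by omega, pow_succ,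
      pow_orderOf_eq_one, one_mul]
  have hχ := χh.2
  have h1 : χh.1 s = ε * β 1 := by simpa using hv 1 s rfl
  have h2 : ∀ y : Γ, χh.1 (y * s * y⁻¹ * s) = ε * β 1 := by
    intro y
    obtain ⟨g, hg, a, ha, rfl⟩ : ∃ g ∈ G, ∃ a ∈ zpowers s, g * a = y := by
      have : y ∈ ((G ⊔ zpowers s : Subgroup Γ) : Set Γ) := htop ▸ mem_top y
      rw [normal_mul] at this
      exact this
    obtain ⟨i, rfl⟩ := mem_zpowers_iff.1 ha
    have hk : g⁻¹⁻¹ * (s ^ 1 * g⁻¹ * (s ^ 1)⁻¹) ∈ cmS s g⁻¹ := subset_closure ⟨1, rfl⟩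
    have hle := cmS_le s (G.inv_mem hg)
    obtain ⟨u, -, c, hc, hcs, e⟩ := exists_conj_mul_cent (K := cmS s g⁻¹) (t := s ^ 2)
      (pow_mem (mem_normalizer_cmS s g⁻¹) 2)
      (((hcop.symm.coprime_dvd_left (orderOf_pow_dvd 2))).coprime_dvd_right
        (card_dvd_of_le hle)) hk
    have hcC : c ∈ C := ⟨hle hc, by
      rw [← hs2, zpowers_eq_closure, centralizer_closure]
      exact mem_centralizer_iff.2 (by rintro _ rfl; exact hcs.symm)⟩
    have hcD : c ∈ D := (le_iSup₂_of_le (f := fun g (_ : g ∈ G) => cmS s g ⊓ centralizer {s})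
        g⁻¹ (G.inv_mem hg) le_rfl) ⟨hc, (hC0 ▸ hcC : c ∈ G ⊓ centralizer {s}).2⟩
    have e2 : g * s ^ i * s * (g * s ^ i)⁻¹ * s = g⁻¹⁻¹ * (s ^ 1 * g⁻¹ * (s ^ 1)⁻¹) * s ^ 2 := by
      group
    rw [e2, hχ.isClassFunction.eq_of_isConj (isConj_iff.2 ⟨u, e⟩), hv ⟨c, hcC⟩ _ hs2]
    exact congrArg _ (apply_eq_of_mem_charKer
      (hDβ (show (⟨c, hcC⟩ : C) ∈ D.subgroupOf C from hcD)))
  have h3 := hχ.sum_conj_mul s s
  simp only [h2, Finset.sum_const, Finset.card_univ, nsmul_eq_mul, h1,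
    ← Nat.card_eq_fintype_card] at h3
  have hε2 : (ε : ℂ) * ε = 1 := by rcases hε with rfl | rfl <;> simp
  have hb0 := hβ.apply_one_ne_zero
  have hx0 := hχ.apply_one_ne_zero
  have hc0' : (Nat.card Γ : ℂ) ≠ 0 := card_ne_zero_complex
  have hε0 : (ε : ℂ) ≠ 0 := fun e => by simp [e] at hε2
  have h4 : χh.1 1 = χh.1 s := by
    rw [h1]
    field_simp at h3
    exact h3
  have hsk : s ∈ charKer χh.1 := hχ.mem_charKer.2 h4.symm
  haveI := hχ.isCharacter.normal_charKer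
  have hK : (⨆ g ∈ G, cmS s g) ≤ charKer χh.1 := iSup₂_le fun g _ => (closure_le _).2 (by
    rintro _ ⟨i, rfl⟩
    have := this.conj_mem _ (pow_mem hsk i) g⁻¹
    have h := mul_mem this (inv_mem (pow_mem hsk i))
    change _ ∈ charKer χh.1
    convert h using 1
    group)
  apply hcβ
  rw [hβ.mem_charKer]
  have h5 := hv ⟨c0, hc0C⟩ s rfl
  rw [show χh.1 ((⟨c0, hc0C⟩ : C) * s) = χh.1 s from hK hc0.1 s, h1] at h5
  exact (mul_left_cancel₀ hε0 h5).symm

end H7
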