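import Cfsg.Agent.H11.Gm0
import Cfsg.Agent.H5.Central

/-! Minimal degree of `G₂(q)`, the piece `H11.Gm.PS`: an irreducible `SL₃(q)`-constituent for `q ≡ 1 (mod 3)`. -/
set_option autoImplicit false
namespace H7.GmS
open H24 Module Matrix H11 H11.Gm

section
variable {H M : Type*} [Group H] [Finite H] [AddCommGroup M] [Module ℂ M] (σ : Representation ℂ H M)

theorem rel_compl {U W : Submodule ℂ M} (hU : ∀ g, ∀ v ∈ U, σ g v ∈ U) (hW : ∀ g, ∀ v ∈ W, σ g v ∈ W) (l : U ≤ W) :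
    ∃ U' ≤ W, (∀ g, ∀ v ∈ U', σ g v ∈ U') ∧ (∀ v ∈ U, v ∈ U' → v = 0) ∧ ∀ y ∈ W, ∃ a ∈ U, ∃ b ∈ U', a + b = y := by
  haveI : NeZero (Nat.card H : ℂ) := ⟨by exact_mod_cast Nat.card_pos.ne'⟩
  obtain ⟨b, hb⟩ := exists_isCompl (⟨U, fun g v => hU g v⟩ : Subrepresentation σ)
  have h1 : U ⊓ b.toSubmodule = ⊥ := congrArg Subrepresentation.toSubmodule hb.inf_eq_bot
  have h2 : U ⊔ b.toSubmodule = ⊤ := congrArg Subrepresentation.toSubmodule hb.sup_eq_top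
  refine ⟨b.toSubmodule ⊓ W, inf_le_right, fun g v hv => ⟨b.apply_mem_toSubmodule g hv.1, hW g v hv.2⟩,
    fun v h k => (Submodule.mem_bot ℂ).1 (h1.le ⟨h, k.1⟩), fun y hy => ?_⟩
  obtain ⟨a, ha, c, hc, rfl⟩ := Submodule.mem_sup.1 (h2.ge (Submodule.mem_top : y ∈ ⊤))
  exact ⟨a, ha, c, ⟨hc, by simpa using W.sub_mem hy (l ha)⟩, rfl⟩

theorem dvd_of_min [FiniteDimensional ℂ M] {U : Submodule ℂ M} (hU : ∀ g, ∀ v ∈ U, σ g v ∈ U) (h0 : U ≠ ⊥)
    (hm : ∀ W ≤ U, (∀ g, ∀ v ∈ W, σ g v ∈ W) → W = ⊥ ∨ W = U) : finrank ℂ U ∣ Nat.card H := by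
  let τ := (⟨U, fun g v => hU g v⟩ : Subrepresentation σ).toRepresentation
  haveI : τ.IsIrreducible :=
    { exists_pair_ne := ⟨⊥, ⊤, fun e => by
        haveI := Submodule.nontrivial_iff_ne_bot.2 h0
        exact bot_ne_top (congrArg Subrepresentation.toSubmodule e : (⊥ : Submodule ℂ U) = ⊤)⟩
      eq_bot_or_eq_top := fun a => by
        rcases hm (a.toSubmodule.map U.subtype) (Submodule.map_subtype_le _ _) (by
          rintro g _ ⟨v, hv, rfl⟩; exact ⟨_, a.apply_mem_toSubmodule g hv, rfl⟩) with e | e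
        · exact Or.inl (Subrepresentation.toSubmodule_injective
            (Submodule.map_injective_of_injective U.injective_subtype (e.trans (Submodule.map_bot _).symm)))
        · exact Or.inr (Subrepresentation.toSubmodule_injective
            (Submodule.map_injective_of_injective U.injective_subtype (e.trans (Submodule.map_subtype_top U).symm))) }
  exact H5.Cfsg.IsIrrCharacter.degree_dvd_card (H5.isIrrCharacter_character τ) τ.char_one

end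

variable {F G M : Type*} [Field F] [Group G] [AddCommGroup M] [Module ℂ M] {S : Sy F G} {ρ : G →* End ℂ M}
  {ψ : AddChar F ℂ}

/-- invariance under `SL₃` -/
def Iv (S : Sy F G) (ρ : G →* End ℂ M) (U : Submodule ℂ M) : Prop := ∀ g, ∀ v ∈ U, ρ (S.θ g) v ∈ U

variable {U U' : Submodule ℂ M}

theorem Iv.x10 (h : Iv S ρ U) (t : F) : ∀ v ∈ U, ρ (S.x 10 t) v ∈ U := S.θ01 t ▸ h _
theorem Iv.x6 (h : Iv S ρ U) (t : F) : ∀ v ∈ U, ρ (S.x 6 t) v ∈ U := S.θ12 t ▸ h _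
theorem Iv.x11 (h : Iv S ρ U) (t : F) : ∀ v ∈ U, ρ (S.x 11 t) v ∈ U := by
  have := h (trv 0 2 (-t))
  rwa [S.θ02, neg_neg] at this

theorem split {r : ℕ} {m : F} (h : ∀ t, ∀ v ∈ U, ρ (S.x r t) v ∈ U) (h' : ∀ t, ∀ v ∈ U', ρ (S.x r t) v ∈ U')
    (d : ∀ v ∈ U, v ∈ U' → v = 0) {a b : M} (ha : a ∈ U) (hb : b ∈ U') (k : a + b ∈ J S ρ ψ r m) :
    a ∈ J S ρ ψ r m ∧ b ∈ J S ρ ψ r m := by
  have : a ∈ J S ρ ψ r m := mem_J.2 fun t => sub_eq_zero.1 (d _ (U.sub_mem (h t a ha) (U.smul_mem _ ha)) (by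
    have := mem_J.1 k t
    rw [map_add, smul_add] at this
    rw [show ρ (S.x r t) a - ψ (t * m) • a = ψ (t * m) • b - ρ (S.x r t) b by linear_combination (norm := module) this]
    exact U'.sub_mem (U'.smul_mem _ hb) (h' t b hb)))
  exact ⟨this, by simpa using (J S ρ ψ r m).sub_mem k this⟩

theorem inv6 (h : Iv S ρ U) (u : F) (y : M) (hy : y ∈ U ⊓ J S ρ ψ 10 1 ⊓ J S ρ ψ 11 0) :
    ρ (S.x 6 u) y ∈ U ⊓ J S ρ ψ 10 1 ⊓ J S ρ ψ 11 0 :=
  ⟨⟨h.x6 u y hy.1.1, mem_J.2 fun t => by rw [← app, S.c6A, app, app, mem_J0.1 hy.2, mem_J.1 hy.1.2, map_smul]⟩,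
    J_comm (fun t => (S.cm (6, 11) (by simp) u t).symm) hy.2⟩

variable [Fintype F] [FiniteDimensional ℂ M]

theorem big (hψ : ψ ≠ 1) (hq : 4 < Fintype.card F) (h : Iv S ρ U) {y : M} (y0 : y ≠ 0) (hy : y ∈ U)
    (hJ : y ∈ J S ρ ψ 10 1) : Fintype.card F ^ 2 + Fintype.card F ≤ finrank ℂ U := by
  classical
  have := SL_min_degree (F := F) (n := 3) le_rfl (by simp only [ne_eq, Prod.mk.injEq]; omega)
    (⟨U, fun g v => h g v⟩ : Subrepresentation (ρ.comp S.θ)).toRepresentation (by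
      by_contra k
      push Not at k
      refine one_ne_zero (eq_zero_of_forall_addChar_mul hψ (a := (1 : F)) fun t => ?_)
      have e : ρ (S.θ (trv 0 1 t)) y = y := congrArg Subtype.val (LinearMap.congr_fun (k (trv 0 1 t)) ⟨y, hy⟩)
      rw [S.θ01, mem_J.1 hJ] at e
      exact smul_left_injective ℂ y0 (e.trans (one_smul ℂ y).symm))
  simp only [geo, Finset.sum_range_succ, Finset.range_zero, Finset.sum_empty, pow_zero, pow_one] at this
  omega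

universe u v w

theorem pS (hB : PB.{u, v, w}) (hC : PC.{u, v, w}) : PS.{u, v, w} := by
  intro F G M _ _ _ _ _ _ S ρ q1 q4 nt hM
  classical
  obtain ⟨ψ, hψ⟩ : ∃ ψ : AddChar F ℂ, ψ ≠ 1 := by
    obtain ⟨ψ, h⟩ := AddChar.exists_apply_ne_zero.2 (one_ne_zero : (1 : F) ≠ 0)
    exact ⟨ψ, fun e => h (by rw [e]; rfl)⟩
  have h3 : (3 : F) ≠ 0 := fun e => by
    have := FiniteField.cast_card_eq_zero F
    rw [← Nat.div_add_mod (Fintype.card F) 3, q1] at this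
    push_cast at this
    rw [e] at this
    simp at this
  obtain ⟨dV, d9, v, v0, v10, v11, v9, v8, v6⟩ := hC S ρ ψ hψ h3 (by omega) (by omega) nt hM
  obtain ⟨ω, hω⟩ := exists_prime_orderOf_dvd_card (G := Fˣ) 3 (hp := ⟨Nat.prime_three⟩)
    (by rw [Fintype.card_units]; omega)
  have ω3 : ω ^ 3 = 1 := hω ▸ pow_orderOf_eq_one ω
  have o3 : (ω : F) ^ 3 = 1 := by simpa using congrArg Units.val ω3
  have o1 : (ω : F) ≠ 1 := fun e => by rw [Units.ext e (v := 1)] at hω; simp at hω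
  have o2 : (ω : F) ^ 2 + ω + 1 = 0 := mul_left_cancel₀ (sub_ne_zero.2 o1) (by linear_combination o3)
  have tz : ∀ r ∈ [6, 7, 8, 9, 10, 11], ∀ t, S.h 9 ω * S.x r t * (S.h 9 ω)⁻¹ = S.x r ((ω ^ pr 9 r : Fˣ) * t) :=
    fun r hr => S.tor 9 (by simp) r hr ω
  have zE : ∀ g y, ρ (S.h 9 ω) (ρ (S.θ g) y) = ρ (S.θ g) (ρ (S.h 9 ω) y) := fun g y => by
    rw [← app, (S.zc ω ω3 g).eq, app]
  obtain ⟨ζ, hζ⟩ : ∃ ζ : ℂ, ζ • v = ρ (S.h 9 ω) v := by
    obtain ⟨ζ, h⟩ := (finrank_eq_one_iff_of_nonzero' (⟨v, ⟨v10, v11⟩, v9⟩ : ↥(J S ρ ψ 10 1 ⊓ J S ρ ψ 11 0 ⊓ J S ρ ψ 9 0))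
      (fun e => v0 (congrArg Subtype.val e))).1 d9 ⟨ρ (S.h 9 ω) v,
        ⟨J_comm (fun t => S.θ01 t ▸ (S.zc ω ω3 _).symm) v10, J_comm (fun t => by
          have := (S.zc ω ω3 (trv 0 2 (-t))).symm
          rwa [S.θ02, neg_neg] at this) v11⟩, by simpa using J_conj (Units.ne_zero _) (tz 9 (by simp)) v9⟩
    exact ⟨ζ, congrArg Subtype.val h⟩
  have ζ0 : ζ ≠ 0 := fun e => v0 (inj (ρ := ρ) (S.h 9 ω) (by rw [← hζ, e, zero_smul, map_zero]))
  let e : F → M := fun u => ρ (S.x 7 u) v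
  have e10 : ∀ u, e u ∈ J S ρ ψ 10 1 := fun u => J_comm (fun t => (S.cm (7, 10) (by simp) u t).symm) v10
  have e11 : ∀ u, e u ∈ J S ρ ψ 11 0 := fun u => J_comm (fun t => (S.cm (7, 11) (by simp) u t).symm) v11
  have e9 : ∀ u, e u ∈ J S ρ ψ 9 (-(3 * u)) := fun u => mem_J.2 fun t => by
    rw [← app, S.c79, app, app, mem_J.1 v10, map_smul, map_smul, mem_J0.1 v9]
    congr 2; ring
  have e6 : ∀ u, e u ∈ J S ρ ψ 6 (-u ^ 3) := fun u => mem_J.2 fun t => by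
    rw [← app, S.c76, app, app, app, app, app, mem_J0.1 v11, mem_J.1 v10, map_smul, map_smul, map_smul, map_smul,
      mem_J0.1 v9, mem_J0.1 v8, mem_J0.1 v6]
    congr 2; ring
  have ez : ∀ u, ρ (S.h 9 ω) (e u) = ζ • e (ω * u) := fun u => by
    have := tz 7 (by simp) u
    rw [show pr 9 7 = 1 by decide, zpow_one, mul_inv_eq_iff_eq_mul] at this
    rw [← app, this, app, ← hζ, map_smul]
  have e0 : ∀ u, e u ≠ 0 := fun u k => v0 (inj (ρ := ρ) (S.x 7 u) (k.trans (map_zero _).symm))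
  have li : LinearIndependent ℂ e := Fintype.linearIndependent_iff.2 fun c hc u => by
    have k : ∀ t, ∑ w, (ψ (t * (3 * u)) * ψ (t * -(3 * w))) • c w • e w = 0 := fun t => by
      have := congrArg (fun y => ψ (t * (3 * u)) • ρ (S.x 9 t) y) hc
      simp only [map_sum, map_smul, mem_J.1 (e9 _), map_zero, smul_zero, Finset.smul_sum] at this
      rw [← this]
      exact Finset.sum_congr rfl fun w _ => by module
    have k2 := Finset.sum_eq_zero fun t (_ : t ∈ Finset.univ) => k t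
    rw [Finset.sum_comm] at k2
    simp only [← Finset.sum_smul, ← AddChar.map_add_eq_mul, ← mul_add,
      AddChar.sum_mulShift _ (AddChar.IsPrimitive.of_ne_one hψ)] at k2
    rw [Finset.sum_eq_single u (fun w _ n => by
      rw [if_neg fun z => n (mul_left_cancel₀ h3 (add_neg_eq_zero.1 z)).symm]; simp) (by simp), if_pos (by simp)] at k2
    exact (smul_eq_zero.1 ((smul_eq_zero.1 k2).resolve_left (by simp))).resolve_right (e0 u)
  have sp : ∀ y ∈ J S ρ ψ 10 1 ⊓ J S ρ ψ 11 0, ∃ c : F → ℂ, ∑ w, c w • e w = y := fun y hy => by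
    rw [← Submodule.mem_span_range_iff_exists_fun, Submodule.eq_of_le_of_finrank_eq (S₂ := J S ρ ψ 10 1 ⊓ J S ρ ψ 11 0)
      (Submodule.span_le.2 (by rintro _ ⟨u, rfl⟩; exact ⟨e10 u, e11 u⟩)) (by rw [finrank_span_eq_card li, dV])]
    exact hy
  let E := End.eigenspace (ρ (S.h 9 ω)) ζ
  have iE : Iv S ρ E := fun g y hy => End.mem_eigenspace_iff.2 (by rw [zE, End.mem_eigenspace_iff.1 hy, map_smul])
  have c6 : ∀ (c : F → ℂ) β, ∑ w, c w • e w ∈ J S ρ ψ 6 β → ∀ w, c w ≠ 0 → -w ^ 3 = β := fun c β h w n => by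
    refine sub_eq_zero.1 (eq_zero_of_forall_addChar_mul hψ fun t => ?_)
    have k := mem_J.1 h t
    simp only [map_sum, map_smul, mem_J.1 (e6 _), Finset.smul_sum] at k
    have := Fintype.linearIndependent_iff.1 li (fun w => c w * (ψ (t * -w ^ 3) - ψ (t * β))) (by
      rw [← sub_eq_zero, ← Finset.sum_sub_distrib] at k
      rw [← k]
      exact Finset.sum_congr rfl fun w _ => by module) w
    rw [mul_sub, sub_eq_add_neg, AddChar.map_add_eq_mul, sub_eq_zero.1 ((mul_eq_zero.1 this).resolve_left n),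
      ← AddChar.map_add_eq_mul, add_neg_cancel, AddChar.map_zero_eq_one]
  have cE : ∀ c : F → ℂ, ∑ w, c w • e w ∈ E → ∀ w, c (ω * w) = c w := fun c h w => by
    have k := End.mem_eigenspace_iff.1 h
    conv_rhs at k => rw [← Equiv.sum_comp (Equiv.mulLeft₀ (ω : F) ω.ne_zero)]
    simp only [map_sum, map_smul, ez, Finset.smul_sum, Equiv.mulLeft₀_apply] at k
    have := Fintype.linearIndependent_iff.1 (li.comp _ (mul_right_injective₀ ω.ne_zero))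
      (fun w => ζ * (c (ω * w) - c w)) (by
      rw [eq_comm, ← sub_eq_zero, ← Finset.sum_sub_distrib] at k
      rw [← k]
      exact Finset.sum_congr rfl fun w _ => by simp only [Function.comp]; module) w
    exact sub_eq_zero.1 ((mul_eq_zero.1 this).resolve_left ζ0)
  have cube : ∀ u w : F, -w ^ 3 = -u ^ 3 ↔ w = u ∨ w = ω * u ∨ w = ω * (ω * u) := fun u w => by
    constructor
    · intro h
      have : (w - u) * ((w - ω * u) * (w - ω * (ω * u))) = 0 := by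
        linear_combination -h + (-u * w ^ 2 + (ω : F) * u ^ 2 * w) * o2 + (- u ^ 3) * o3
      simpa only [mul_eq_zero, sub_eq_zero] using this
    · rintro (rfl | rfl | rfl)
      · rfl
      · rw [mul_pow, o3, one_mul]
      · rw [mul_pow, mul_pow, o3, one_mul, one_mul]
  have g0 : ∀ β, ∀ y ∈ E ⊓ J S ρ ψ 10 1 ⊓ J S ρ ψ 11 0 ⊓ J S ρ ψ 6 β, y ≠ 0 → ∃ u, -u ^ 3 = β := fun β y hy n => by
    obtain ⟨c, rfl⟩ := sp y ⟨hy.1.1.2, hy.1.2⟩
    by_contra k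
    exact n (Finset.sum_eq_zero fun w _ => by
      rw [show c w = 0 from by_contra fun z => k ⟨w, c6 c β hy.2 w z⟩, zero_smul])
  have g1 : ∀ u : F, finrank ℂ ↥(E ⊓ J S ρ ψ 10 1 ⊓ J S ρ ψ 11 0 ⊓ J S ρ ψ 6 (-u ^ 3)) = 1 := fun u => by
    have s0 : e u + e (ω * u) + e (ω * (ω * u)) ≠ 0 := fun k => by
      have := Fintype.linearIndependent_iff.1 li (fun w => (if w = u then 1 else 0) + (if w = ω * u then 1 else 0) +
        if w = ω * (ω * u) then 1 else 0) (by simpa [add_smul, Finset.sum_add_distrib, ite_smul] using k) u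
      split_ifs at this <;> first | contradiction | norm_num at this
    have m6 : ∀ w, -w ^ 3 = -u ^ 3 → e w ∈ J S ρ ψ 6 (-u ^ 3) := fun w h => h ▸ e6 w
    have mE : e u + e (ω * u) + e (ω * (ω * u)) ∈ E := End.mem_eigenspace_iff.2 (by
      rw [map_add, map_add, ez, ez, ez, show (ω : F) * (ω * (ω * u)) = u by linear_combination u * o3]; module)
    refine (finrank_eq_one_iff_of_nonzero' ⟨e u + e (ω * u) + e (ω * (ω * u)), ⟨⟨mE,
      add_mem (add_mem (e10 _) (e10 _)) (e10 _)⟩, add_mem (add_mem (e11 _) (e11 _)) (e11 _)⟩,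
      add_mem (add_mem (m6 _ rfl) (m6 _ ((cube _ _).2 (by simp)))) (m6 _ ((cube _ _).2 (by simp)))⟩
      (fun k => s0 (congrArg Subtype.val k))).2 fun ⟨y, hy⟩ => ?_
    · obtain ⟨c, rfl⟩ := sp y ⟨hy.1.1.2, hy.1.2⟩
      have k1 := cE c hy.1.1.1
      have k2 := fun w n => (cube u w).1 (c6 c _ hy.2 w n)
      by_cases u0 : u = 0
      · subst u0
        refine ⟨c 0 / 3, Subtype.ext ?_⟩
        change (c 0 / 3) • (e 0 + e (ω * 0) + e (ω * (ω * 0))) = ∑ w, c w • e w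
        rw [Finset.sum_eq_single 0 (fun w _ n => by
          rw [show c w = 0 from by_contra fun z => n (by simpa using k2 w z), zero_smul]) (by simp)]
        simp only [mul_zero]; module
      · refine ⟨c u, Subtype.ext ?_⟩
        change c u • (e u + e (ω * u) + e (ω * (ω * u))) = ∑ w, c w • e w
        have n1 : ∀ w : F, w ≠ 0 → w ≠ ω * w := fun w h z => o1 (mul_right_cancel₀ h (z.symm.trans (one_mul w).symm))
        have n2 : u ≠ ω * (ω * u) := fun z => n1 u u0 (by linear_combination (ω : F) * z + u * o3 - 2 * ω * z - 2 * u * o3)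
        rw [← Finset.sum_subset (Finset.subset_univ {u, ω * u, ω * (ω * u)}) (fun w _ n => by
          rw [show c w = 0 from by_contra fun z => n (by simpa using k2 w z), zero_smul]),
          Finset.sum_insert (by simp [n1 u u0, n2]), Finset.sum_pair (n1 _ (mul_ne_zero ω.ne_zero u0)), k1 (ω * u), k1 u]
        module
  have kE : 3 * finrank ℂ ↥(E ⊓ J S ρ ψ 10 1 ⊓ J S ρ ψ 11 0) = Fintype.card F + 2 := by
    rw [← sum_fr hψ (inv6 iE), Finset.mul_sum, ← Finset.card_univ,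
      Finset.card_eq_sum_card_fiberwise (f := fun u : F => -u ^ 3) (t := Finset.univ) (by simp),
      show 2 = ∑ β : F, if β = 0 then 2 else 0 by simp, ← Finset.sum_add_distrib]
    refine Finset.sum_congr rfl fun β _ => ?_
    by_cases k : ∃ u, -u ^ 3 = β
    · obtain ⟨u, rfl⟩ := k
      rw [g1, show Finset.univ.filter (fun w : F => -w ^ 3 = -u ^ 3) = {u, ω * u, ω * (ω * u)} by
        ext w; simp only [Finset.mem_filter, Finset.mem_univ, true_and, cube, Finset.mem_insert, Finset.mem_singleton]]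
      by_cases u0 : u = 0
      · simp [u0]
      · have n1 : ∀ w : F, w ≠ 0 → w ≠ ω * w := fun w h z => o1 (mul_right_cancel₀ h (z.symm.trans (one_mul w).symm))
        have n2 : u ≠ ω * (ω * u) := fun z => n1 u u0 (by linear_combination (ω : F) * z + u * o3 - 2 * ω * z - 2 * u * o3)
        rw [Finset.card_insert_of_notMem (by simp [n1 u u0, n2]), Finset.card_pair (n1 _ (mul_ne_zero ω.ne_zero u0)),
          if_neg (by simpa using u0)]
        rfl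
    · rw [if_neg (fun z => k ⟨0, by simp [z]⟩), Finset.filter_eq_empty_iff.2 (fun u _ z => k ⟨u, z⟩),
        Submodule.finrank_eq_zero.2 ((Submodule.eq_bot_iff _).2 fun y hy => by_contra fun n => k (g0 β y hy n))]
      simp
  have wq : ∀ U : Submodule ℂ M, finrank ℂ ↥(U ⊓ J S ρ ψ 10 0 ⊓ J S ρ ψ 11 0) ≤ Fintype.card F := fun U => by
    have k := (hB S ρ ψ hψ ⊤ fun _ _ _ => trivial).1
    rw [top_inf_eq, top_inf_eq, dV, finrank_top] at k
    refine (Submodule.finrank_mono (inf_le_inf_right _ inf_le_right)).trans ?_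
    have : Fintype.card F ^ 3 = Fintype.card F + (Fintype.card F ^ 2 - 1) * Fintype.card F := by
      have : 1 ≤ Fintype.card F ^ 2 := Nat.one_le_pow _ _ (by omega)
      zify [this]; ring
    omega
  have two : ∀ U ≤ E, Iv S ρ U → U ⊓ J S ρ ψ 10 1 ⊓ J S ρ ψ 11 0 ≠ ⊥ → ∀ u : F, u ≠ 0 →
      ∃ y ∈ U ⊓ J S ρ ψ 10 1 ⊓ J S ρ ψ 11 0 ⊓ J S ρ ψ 6 (-u ^ 3), y ≠ 0 := fun U l iU n u u0 => by
    obtain ⟨y, hy, y0⟩ := (Submodule.ne_bot_iff _).1 n
    obtain ⟨b1, -, b3⟩ := hB S ρ ψ hψ U iU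
    have b2 := big hψ q4 iU y0 hy.1.1 hy.1.2
    have b4 := wq U
    have mono : ∀ β, U ⊓ J S ρ ψ 10 1 ⊓ J S ρ ψ 11 0 ⊓ J S ρ ψ 6 β ≤ E ⊓ J S ρ ψ 10 1 ⊓ J S ρ ψ 11 0 ⊓ J S ρ ψ 6 β :=
      fun β => inf_le_inf_right _ (inf_le_inf_right _ (inf_le_inf_right _ l))
    by_contra k
    have z : ∀ β ≠ 0, finrank ℂ ↥(U ⊓ J S ρ ψ 10 1 ⊓ J S ρ ψ 11 0 ⊓ J S ρ ψ 6 β) = 0 := fun β hβ => by
      by_contra z
      obtain ⟨a, ha, a0⟩ := (Submodule.ne_bot_iff _).1 (mt Submodule.finrank_eq_zero.2 z)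
      obtain ⟨w, rfl⟩ := g0 β a (mono β ha) a0
      have w0 : w ≠ 0 := fun e => hβ (by simp [e])
      rw [b3 _ (u / w) (div_ne_zero u0 w0), show (u / w) ^ 3 * -w ^ 3 = -u ^ 3 by field_simp] at z
      exact k ((Submodule.ne_bot_iff _).1 (mt Submodule.finrank_eq_zero.2 z))
    have s := sum_fr hψ (inv6 (ψ := ψ) iU)
    rw [Finset.sum_eq_single 0 (fun β _ n => z β n) (by simp)] at s
    have s1 := Submodule.finrank_mono (mono 0)
    have s2 := g1 0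
    rw [show -(0 : F) ^ 3 = 0 by simp] at s2
    have := Nat.mul_le_mul_left (Fintype.card F ^ 2 - 1) (s.ge.trans (s1.trans s2.le))
    have : 1 ≤ Fintype.card F ^ 2 := Nat.one_le_pow _ _ (by omega)
    omega
  have vE : v ∈ E := End.mem_eigenspace_iff.2 hζ.symm
  obtain ⟨π, ⟨πE, iπ, π0⟩, hm⟩ := exists_minimal_of_wellFoundedLT
    (fun U : Submodule ℂ M => U ≤ E ∧ Iv S ρ U ∧ U ⊓ J S ρ ψ 10 1 ⊓ J S ρ ψ 11 0 ≠ ⊥)
    ⟨E, le_rfl, iE, (Submodule.ne_bot_iff _).2 ⟨v, ⟨⟨vE, v10⟩, v11⟩, v0⟩⟩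
  have spl : ∀ {A B : Submodule ℂ M}, Iv S ρ A → Iv S ρ B → (∀ v ∈ A, v ∈ B → v = 0) → ∀ a ∈ A, ∀ b ∈ B,
      a + b ∈ J S ρ ψ 10 1 → a + b ∈ J S ρ ψ 11 0 →
      a ∈ A ⊓ J S ρ ψ 10 1 ⊓ J S ρ ψ 11 0 ∧ b ∈ B ⊓ J S ρ ψ 10 1 ⊓ J S ρ ψ 11 0 := fun iA iB d a ha b hb k1 k2 =>
    ⟨⟨⟨ha, (split iA.x10 iB.x10 d ha hb k1).1⟩, (split iA.x11 iB.x11 d ha hb k2).1⟩,
      ⟨hb, (split iA.x10 iB.x10 d ha hb k1).2⟩, (split iA.x11 iB.x11 d ha hb k2).2⟩
  have dv : finrank ℂ π ∣ Nat.card (SpecialLinearGroup (Fin 3) F) := by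
    refine dvd_of_min (ρ.comp S.θ) iπ (fun e => π0 (by simp [e])) fun W l iW => ?_
    obtain ⟨W', l', iW', d, s⟩ := rel_compl (ρ.comp S.θ) iW iπ l
    by_cases k : W ⊓ J S ρ ψ 10 1 ⊓ J S ρ ψ 11 0 = ⊥
    · obtain ⟨y, hy, y0⟩ := (Submodule.ne_bot_iff _).1 π0
      obtain ⟨a, ha, b, hb, rfl⟩ := s y hy.1.1
      obtain ⟨k1, k2⟩ := spl iW iW' d a ha b hb hy.1.2 hy.2
      obtain rfl : a = 0 := (Submodule.mem_bot ℂ).1 (k.le k1)
      have := hm ⟨l'.trans πE, iW', (Submodule.ne_bot_iff _).2 ⟨b, k2, by simpa using y0⟩⟩ l'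
      exact Or.inl ((Submodule.eq_bot_iff _).2 fun x hx => d x hx (this (l hx)))
    · exact Or.inr (le_antisymm l (hm ⟨l.trans πE, iW, k⟩ l))
  obtain ⟨π', l', i', d, s⟩ := rel_compl (ρ.comp S.θ) iπ iE πE
  have z' : π' ⊓ J S ρ ψ 10 1 ⊓ J S ρ ψ 11 0 = ⊥ := by
    by_contra k
    obtain ⟨a, ha, a0⟩ := two π πE iπ π0 1 one_ne_zero
    obtain ⟨b, hb, b0⟩ := two π' l' i' k 1 one_ne_zero
    obtain ⟨c, hc⟩ := (finrank_eq_one_iff_of_nonzero' (⟨a, ⟨⟨πE ha.1.1.1, ha.1.1.2⟩, ha.1.2⟩, ha.2⟩ :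
      ↥(E ⊓ J S ρ ψ 10 1 ⊓ J S ρ ψ 11 0 ⊓ J S ρ ψ 6 (-1 ^ 3))) (fun e => a0 (congrArg Subtype.val e))).1 (g1 1)
      ⟨b, ⟨⟨l' hb.1.1.1, hb.1.1.2⟩, hb.1.2⟩, hb.2⟩
    have hc' : c • a = b := congrArg Subtype.val hc
    exact b0 (d b (hc' ▸ π.smul_mem c ha.1.1.1) hb.1.1.1)
  have eq : π ⊓ J S ρ ψ 10 1 ⊓ J S ρ ψ 11 0 = E ⊓ J S ρ ψ 10 1 ⊓ J S ρ ψ 11 0 :=
    le_antisymm (inf_le_inf_right _ (inf_le_inf_right _ πE)) fun y hy => by
      obtain ⟨a, ha, b, hb, rfl⟩ := s y hy.1.1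
      obtain ⟨k1, k2⟩ := spl iπ i' d a ha b hb hy.1.2 hy.2
      obtain rfl : b = 0 := (Submodule.mem_bot ℂ).1 (z'.le k2)
      rwa [add_zero]
  obtain ⟨b1, b2, -⟩ := hB S ρ ψ hψ π iπ
  have s2 := g1 0
  rw [show -(0 : F) ^ 3 = 0 by simp] at s2
  rw [eq, s2, mul_one] at b2
  exact ⟨_, _, dv, b2, wq π, by rw [b1, eq, ← kE]; ring⟩

end H7.GmS
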