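import Cfsg.Agent.H5.Lie1

/-! Lie rings graded by `Fin k → ZMod p` whose components act nilpotently are nilpotent of bounded class (`lie_main`):
Fitting's theorem `nil_iSup`, the Khukhro-Shumyatsky form of Kreknin's theorem `kreknin2`, and `nil_of_solv`. -/

set_option autoImplicit false

namespace H7.KS
open H5.Lie

universe u
variable {M : Type u} [AddCommGroup M] {b : M →+ M →+ M} {H U V W X X' Y T : AddSubgroup M}

/-- iterated right bracket with `X` -/
def adn (b : M →+ M →+ M) (X : AddSubgroup M) (n : ℕ) (U : AddSubgroup M) : AddSubgroup M := (fun V => br b V X)^[n] U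

theorem adn_succ (n : ℕ) : adn b X (n + 1) U = adn b X n (br b U X) := rfl
theorem adn_succ' (n : ℕ) : adn b X (n + 1) U = br b (adn b X n U) X := Function.iterate_succ_apply' _ _ _
theorem adn_add (n m : ℕ) : adn b X (n + m) U = adn b X n (adn b X m U) := Function.iterate_add_apply _ _ _ _
theorem adn_mono (h1 : X ≤ Y) (h2 : U ≤ V) (n : ℕ) : adn b X n U ≤ adn b Y n V := by
  induction n with
  | zero => exact h2
  | succ n ih => rw [adn_succ', adn_succ']; exact br_mono ih h1
theorem br_sup_l : br b (U ⊔ V) X ≤ br b U X ⊔ br b V X :=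
  br_le_l.2 (sup_le (br_le_l.1 le_sup_left) (br_le_l.1 le_sup_right))
theorem br_sup_r : br b U (X ⊔ Y) ≤ br b U X ⊔ br b U Y :=
  br_le_r.2 (sup_le (br_le_r.1 le_sup_left) (br_le_r.1 le_sup_right))
theorem br_comm (hL : IsLie b) : br b U V ≤ br b V U := br_le.2 fun x hx y hy => by
  rw [hL.anti']; exact neg_mem (mem_br hy hx)
theorem adn_sup (n : ℕ) : adn b X n (U ⊔ V) ≤ adn b X n U ⊔ adn b X n V := by
  induction n with
  | zero => exact le_rfl
  | succ n ih => rw [adn_succ', adn_succ', adn_succ']; exact (br_mono ih le_rfl).trans br_sup_l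
theorem adn_iSup {ι : Sort*} (f : ι → AddSubgroup M) (n : ℕ) : adn b X n (⨆ i, f i) ≤ ⨆ i, adn b X n (f i) := by
  induction n with
  | zero => exact le_rfl
  | succ n ih =>
    rw [adn_succ']
    exact (br_mono ih le_rfl).trans (br_le_l.2 (iSup_le fun i => br_le_l.1 (le_iSup_of_le i (adn_succ' n).ge)))
theorem adn_bot (n : ℕ) : adn b X n ⊥ = ⊥ := by
  induction n with
  | zero => rfl
  | succ n ih => rw [adn_succ', ih, br_bot_l]
theorem adn_inv (hL : IsLie b) (hX : br b X Y ≤ X) (hU : br b U Y ≤ U) (n : ℕ) : br b (adn b X n U) Y ≤ adn b X n U := by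
  induction n with
  | zero => exact hU
  | succ n ih => rw [adn_succ']; exact br_br_le hL ih hX
theorem adn_le (hU : br b U X ≤ U) (n : ℕ) : adn b X n U ≤ U := by
  induction n with
  | zero => exact le_rfl
  | succ n ih => rw [adn_succ']; exact (br_mono ih le_rfl).trans hU

theorem binom (hL : IsLie b) (h1 : X ≤ Y) (h2 : X' ≤ Y) (h1' : br b X Y ≤ X) (h2' : br b X' Y ≤ X') (n : ℕ) :
    ∀ (a c : ℕ) (U V : AddSubgroup M), a + c = n → br b U Y ≤ U → br b V Y ≤ V → adn b X a U = ⊥ → adn b X' c V = ⊥ →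
      adn b (X ⊔ X') n (U ⊓ V) = ⊥ := by
  induction n with
  | zero =>
    intro a c U V e _ _ h _
    obtain rfl : a = 0 := by omega
    obtain rfl : U = ⊥ := h
    rw [bot_inf_eq, adn_bot]
  | succ n ih =>
    intro a c U V e hU hV ha hc
    rcases a with _ | a
    · obtain rfl : U = ⊥ := ha
      rw [bot_inf_eq, adn_bot]
    rcases c with _ | c
    · obtain rfl : V = ⊥ := hc
      rw [inf_bot_eq, adn_bot]
    have i1 := ih a (c + 1) _ V (by omega) (br_br_le hL hU h1') hV ha hc
    have i2 := ih (a + 1) c U _ (by omega) hU (br_br_le hL hV h2') ha hc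
    rw [adn_succ]
    refine le_bot_iff.1 ((adn_mono le_rfl (br_sup_r.trans (sup_le_sup ?_ ?_)) n).trans ((adn_sup n).trans (sup_le i1.le i2.le)))
    · exact le_inf (br_mono inf_le_left le_rfl) ((br_mono inf_le_right h1).trans hV)
    · exact le_inf ((br_mono inf_le_left h2).trans hU) (br_mono inf_le_right le_rfl)

theorem nil_sup (hL : IsLie b) {ι : Type*} {m : ℕ} (X : ι → AddSubgroup M) (h1 : ∀ i, X i ≤ Y) (h2 : ∀ i, br b (X i) Y ≤ X i)
    (hV : br b V Y ≤ V) (h3 : ∀ i, adn b (X i) m V = ⊥) (s : Finset ι) : adn b (s.sup X) (s.card * m + 1) V = ⊥ := by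
  classical
  induction s using Finset.induction_on with
  | empty => simp [adn_succ, br_bot_r, adn]
  | insert i s hi ih =>
    rw [Finset.sup_insert, Finset.card_insert_of_notMem hi]
    have := binom hL (h1 i) (Finset.sup_le fun j _ => h1 j) (h2 i)
      (br_le_l.2 (Finset.sup_le fun j hj => br_le_l.1 ((h2 j).trans (Finset.le_sup hj)))) _ m _ V V rfl hV hV (h3 i) ih
    rw [inf_idem] at this
    rw [← this]; congr 1; ring

theorem nil_iSup (hL : IsLie b) {ι : Type*} [Fintype ι] {m : ℕ} (X : ι → AddSubgroup M) (h1 : ∀ i, X i ≤ Y)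
    (h2 : ∀ i, br b (X i) Y ≤ X i) (hV : br b V Y ≤ V) (h3 : ∀ i, adn b (X i) m V = ⊥) :
    adn b (⨆ i, X i) (Fintype.card ι * m + 1) V = ⊥ := by
  rw [← Finset.sup_univ_eq_iSup]; exact nil_sup hL X h1 h2 hV h3 _

section kreknin
variable {p : ℕ} {E N : ZMod p → AddSubgroup M}

/-- the graded subring generated by the components of index `≥ k` -/
def gm (b : M →+ M →+ M) (k : ℕ) (E : ZMod p → AddSubgroup M) : ZMod p → AddSubgroup M :=
  fun u => ⨅ C : {C : ZMod p → AddSubgroup M // Gr b C ∧ ∀ t : ZMod p, k ≤ t.val → E t ≤ C t}, C.1 u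

theorem gm_le {k : ℕ} (h1 : Gr b N) (h2 : ∀ t : ZMod p, k ≤ t.val → E t ≤ N t) (u : ZMod p) : gm b k E u ≤ N u :=
  iInf_le_of_le ⟨N, h1, h2⟩ le_rfl
theorem le_gm {k : ℕ} {t : ZMod p} (h : k ≤ t.val) : E t ≤ gm b k E t := le_iInf fun C => C.2.2 t h
theorem gr_gm {k : ℕ} : Gr b (gm b k E) := fun s t => le_iInf fun C =>
  (br_mono (iInf_le _ C) (iInf_le _ C)).trans (C.2.1 s t)

theorem br_gm_le (hL : IsLie b) (h : Gr b E) (k : ℕ) (s t : ZMod p) :
    br b (E s) (gm b k E t) ≤ ⨆ r : {r : ZMod p // k ≤ r.val}, br b (E (s + t - r)) (E r) := by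
  set W : ZMod p → AddSubgroup M := fun u => ⨆ r : {r : ZMod p // k ≤ r.val}, br b (E (u - r)) (E r) with hW
  have key : ∀ t, gm b k E t ≤ E t ⊓ ⨅ s, rq b (E s) (W (s + t)) := by
    refine gm_le (N := fun t => E t ⊓ ⨅ s, rq b (E s) (W (s + t))) (fun t u => br_le.2 fun y hy z hz => ?_)
      (fun t ht => le_inf le_rfl (le_iInf fun s => br_le_r.1 (le_iSup_of_le ⟨t, ht⟩ (by simp))))
    refine ⟨h _ _ (mem_br hy.1 hz.1), AddSubgroup.mem_iInf.2 fun s => mem_rq.2 fun x hx => ?_⟩
    have h1 := mem_rq.1 (AddSubgroup.mem_iInf.1 hz.2 (s + t)) _ (h _ _ (mem_br hx hy.1))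
    have h2 := mem_rq.1 (AddSubgroup.mem_iInf.1 hy.2 (s + u)) _ (h _ _ (mem_br hx hz.1))
    rw [hL.leib]
    refine sub_mem (by rwa [← add_assoc]) (by rwa [add_comm t, ← add_assoc])
  exact br_le_r.2 ((key t).trans (inf_le_right.trans (iInf_le _ s)))

theorem gm_norm (hL : IsLie b) (h : Gr b E) (k : ℕ) (t : ZMod p) : br b (gm b k E t) (E 0) ≤ gm b k E t := by
  refine br_le_l.2 ((gm_le (N := fun t => gm b k E t ⊓ lq b (E 0) (gm b k E t)) (fun t u => br_le.2 fun y hy z hz => ?_)
    (fun t ht => le_inf (le_gm ht) (br_le_l.1 ((h t 0).trans (by rw [add_zero]; exact le_gm ht)))) t).trans inf_le_right)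
  refine ⟨gr_gm _ _ (mem_br hy.1 hz.1), mem_lq.2 fun w hw => ?_⟩
  have : b (b y z) w = b y (b z w) + b (b y w) z := by rw [hL.leib]; abel
  rw [this]
  exact add_mem (gr_gm _ _ (mem_br hy.1 (mem_lq.1 hz.2 w hw))) (gr_gm _ _ (mem_br (mem_lq.1 hy.2 w hw) hz.1))

/-- the derived length bound -/
def kf (m : ℕ) : ℕ → ℕ
  | 0 => 0
  | k + 1 => kf m k + (kf m k + 1) * m

theorem kre2 [NeZero p] (hL : IsLie b) (m k : ℕ) : ∀ E : ZMod p → AddSubgroup M, Gr b E →
    (∀ t, adn b (E 0) m (E t) = ⊥) → ∀ t, (dr b)^[kf m k] E t ≤ gm b k E t := by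
  induction k with
  | zero => exact fun E _ _ t => le_gm (Nat.zero_le _)
  | succ k ih =>
    intro E h h0 t
    have inh : ∀ n t, adn b ((dr b)^[n] E 0) m ((dr b)^[n] E t) = ⊥ := fun n t =>
      le_bot_iff.1 ((adn_mono ((h.iter n).2 0) ((h.iter n).2 t) m).trans (h0 t).le)
    have key : ∀ t : ZMod p, k = t.val → ∀ j, (dr b)^[(kf m k + 1) * j] E t ≤ gm b (k + 1) E t ⊔ adn b (E 0) j (E t) := by
      intro t ht j
      induction j with
      | zero => exact le_sup_right
      | succ j ij =>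
        have hN := h.iter ((kf m k + 1) * j)
        rw [mul_add_one, add_comm (_ * j), Function.iterate_add_apply, Function.iterate_succ_apply']
        have i1 := ih _ hN.1 (inh _)
        generalize (dr b)^[(kf m k + 1) * j] E = N at *
        refine iSup_le fun s => (br_mono ((hN.1.iter _).2 _) (i1 s)).trans ((br_gm_le hL hN.1 k _ _).trans (iSup_le ?_))
        rintro ⟨r, hr⟩
        rw [sub_add_cancel]
        rcases hr.lt_or_eq with hr' | hr'
        · have : k + 1 ≤ (t - r).val := by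
            have h1 := ZMod.val_add (t - r) r
            have h2 := ZMod.val_lt r
            have h3 := ZMod.val_lt (t - r)
            rw [sub_add_cancel, ← ht] at h1
            rcases lt_or_ge ((t - r).val + r.val) p with h4 | h4
            · rw [Nat.mod_eq_of_lt h4] at h1; omega
            · rw [Nat.mod_eq_sub_mod h4, Nat.mod_eq_of_lt (by omega)] at h1; omega
          exact le_sup_of_le_left ((br_mono ((hN.2 _).trans (le_gm this)) ((hN.2 _).trans (le_gm hr'))).trans
            ((gr_gm _ _).trans (by rw [sub_add_cancel])))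
        · obtain rfl : t = r := ZMod.val_injective _ (ht.symm.trans hr')
          rw [sub_self, adn_succ']
          exact (br_comm hL).trans ((br_mono ij (hN.2 0)).trans (br_sup_l.trans (sup_le_sup_right (gm_norm hL h _ _) _)))
    rw [kf, Function.iterate_add_apply]
    have hM := h.iter ((kf m k + 1) * m)
    refine (ih _ hM.1 (inh _) t).trans (gm_le gr_gm (fun t ht => ?_) t)
    rcases ht.lt_or_eq with ht | ht
    · exact (hM.2 t).trans (le_gm ht)
    · exact (key t ht m).trans (by rw [h0, sup_bot_eq])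

theorem kreknin2 [NeZero p] (hL : IsLie b) (h : Gr b E) {m : ℕ} (h0 : ∀ t, adn b (E 0) m (E t) = ⊥) :
    (fun A => br b A A)^[kf m p] (⨆ t, E t) = ⊥ :=
  le_bot_iff.1 ((der_le_dr _).trans (iSup_le fun t => (kre2 hL m p E h h0 t).trans (gm_le (N := fun _ => ⊥)
    (fun _ _ => br_bot_l.le) (fun t ht => by have := ZMod.val_lt t; omega) t)))

end kreknin

/-- the nilpotency index bound -/
def ng (n m : ℕ) : ℕ → ℕ
  | 0 => 1
  | s + 1 => n * (m * ng n m s) + 1

theorem nil_of_solv {Λ : Type*} [AddCommGroup Λ] [Fintype Λ] {E : Λ → AddSubgroup M} {m : ℕ} (hL : IsLie b)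
    (hE : ∀ s t, br b (E s) (E t) ≤ E (s + t)) (h : ∀ l, adn b (E l) m (⨆ l, E l) = ⊥) (s : ℕ) :
    ∀ H : AddSubgroup M, H ≤ ⨆ l, H ⊓ E l → br b H H ≤ H → (fun A => br b A A)^[s] H = ⊥ →
      adn b H (ng (Fintype.card Λ) m s) (⨆ l, E l) = ⊥ := by
  have hT : br b (⨆ l, E l) (⨆ l, E l) ≤ ⨆ l, E l := br_iSup_le fun s t => le_iSup_of_le (s + t) (hE s t)
  induction s with
  | zero =>
    intro H _ _ h0
    obtain rfl : H = ⊥ := h0
    exact br_bot_r
  | succ s ih =>
    intro H hH hc hd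
    have hHT : H ≤ ⨆ l, E l := hH.trans (iSup_mono fun l => inf_le_right)
    have i1 := ih (br b H H) ((br_mono hH hH).trans (br_iSup_le fun s t => le_iSup_of_le (s + t)
      (le_inf (br_mono inf_le_left inf_le_left) ((br_mono inf_le_right inf_le_right).trans (hE s t)))))
      (br_mono hc hc) hd
    have hTH : br b (⨆ l, E l) H ≤ ⨆ l, E l := (br_mono le_rfl hHT).trans hT
    have hi : br b (br b H H) H ≤ br b H H := br_mono hc le_rfl
    generalize (⨆ l, E l) = T at *
    have hX : ∀ l, H ⊓ E l ⊔ br b H H ≤ H := fun l => sup_le inf_le_left hc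
    refine le_bot_iff.1 ((adn_mono (hH.trans (iSup_mono fun l => le_sup_left)) le_rfl _).trans
      (nil_iSup hL (fun l => H ⊓ E l ⊔ br b H H) hX (fun l => le_sup_of_le_right (br_mono (hX l) le_rfl)) hTH fun l => ?_).le)
    have key : ∀ j, adn b (H ⊓ E l ⊔ br b H H) (m * j) T ≤ adn b (br b H H) j T := by
      intro j
      induction j with
      | zero => exact le_rfl
      | succ j ij =>
        rw [mul_add_one, add_comm, adn_add, adn_succ']
        refine (adn_mono le_rfl ij m).trans ?_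
        have hV := adn_inv hL hi hTH j
        have hVT : adn b (br b H H) j T ≤ T := adn_le ((br_mono le_rfl hc).trans hTH) j
        generalize adn b (br b H H) j T = V at *
        have k2 : ∀ i, adn b (H ⊓ E l ⊔ br b H H) i V ≤ adn b (E l) i T ⊓ V ⊔ br b V (br b H H) := by
          intro i
          induction i with
          | zero => exact le_sup_of_le_left (le_inf hVT le_rfl)
          | succ i ii =>
            rw [adn_succ', adn_succ']
            refine (br_mono ii le_rfl).trans (br_sup_l.trans (sup_le (br_sup_r.trans (sup_le_sup ?_ ?_)) ?_))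
            · exact le_inf (br_mono inf_le_left inf_le_right) ((br_mono inf_le_right inf_le_left).trans hV)
            · exact br_mono inf_le_right le_rfl
            · exact le_sup_of_le_right ((br_mono le_rfl (hX l)).trans (br_br_le hL hV hi))
        exact (k2 m).trans (by rw [h l, bot_inf_eq, bot_sup_eq])
    exact le_bot_iff.1 ((key _).trans i1.le)

/-- the class bound -/
def mf (p n m : ℕ) : ℕ → ℕ
  | 0 => m
  | j + 1 => ng n m (kf (mf p n m j) p)

theorem lie_main {p k m : ℕ} [NeZero p] {E : (Fin k → ZMod p) → AddSubgroup M} (hL : IsLie b)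
    (hE : ∀ s t, br b (E s) (E t) ≤ E (s + t)) (h : ∀ l, adn b (E l) m (⨆ l, E l) = ⊥) :
    adn b (⨆ l, E l) (mf p (p ^ k) m k) (⨆ l, E l) = ⊥ := by
  have key : ∀ j, j ≤ k → adn b (⨆ l : {l : Fin k → ZMod p // ∀ i : Fin k, j ≤ i.val → l i = 0}, E l)
      (mf p (p ^ k) m j) (⨆ l, E l) = ⊥ := by
    intro j
    induction j with
    | zero =>
      refine fun _ => le_bot_iff.1 ((adn_mono (iSup_le fun l => ?_) le_rfl _).trans (h 0).le)
      rw [show l.1 = 0 from funext fun i => l.2 i (Nat.zero_le _)]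
    | succ j ih =>
      intro hj
      let F : ZMod p → AddSubgroup M := fun t =>
        ⨆ l : {l : Fin k → ZMod p // (∀ i : Fin k, j + 1 ≤ i.val → l i = 0) ∧ l ⟨j, hj⟩ = t}, E l
      have hF : Gr b F := fun s t => br_iSup_le fun l r => le_iSup_of_le ⟨l.1 + r.1, fun i hi => by
        simp [l.2.1 i hi, r.2.1 i hi], by simp [l.2.2, r.2.2]⟩ (hE _ _)
      have f0 : F 0 ≤ ⨆ l : {l : Fin k → ZMod p // ∀ i : Fin k, j ≤ i.val → l i = 0}, E l := by
        refine iSup_le fun l => le_iSup_of_le ⟨l.1, fun i hi => ?_⟩ le_rfl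
        rcases hi.lt_or_eq with hi | hi
        · exact l.2.1 i hi
        · obtain rfl : i = ⟨j, hj⟩ := Fin.ext hi.symm
          exact l.2.2
      have f1 : ∀ t, F t ≤ ⨆ l, E l := fun t => iSup_le fun l => le_iSup E l.1
      have f2 : (⨆ t, F t) ≤ ⨆ l, (⨆ t, F t) ⊓ E l := iSup_le fun t => iSup_le fun l => le_iSup_of_le l.1
          (le_inf (le_iSup_of_le t (le_iSup_of_le l le_rfl)) le_rfl)
      have f3 : (⨆ l : {l : Fin k → ZMod p // ∀ i : Fin k, j + 1 ≤ i.val → l i = 0}, E l) ≤ ⨆ t, F t :=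
        iSup_le fun l => le_iSup_of_le (l.1 ⟨j, hj⟩) (le_iSup_of_le ⟨l.1, l.2, rfl⟩ le_rfl)
      have h1 := kreknin2 hL hF (m := mf p (p ^ k) m j) fun t =>
        le_bot_iff.1 ((adn_mono f0 (f1 t) _).trans (ih (by omega)).le)
      have h2 := nil_of_solv hL hE h _ _ f2 (br_iSup_le fun s t => le_iSup_of_le (s + t) (hF s t)) h1
      rw [show Fintype.card (Fin k → ZMod p) = p ^ k by simp] at h2
      rw [mf]
      exact le_bot_iff.1 ((adn_mono f3 le_rfl _).trans h2.le)
  have f4 : (⨆ l, E l) ≤ ⨆ l : {l : Fin k → ZMod p // ∀ i : Fin k, k ≤ i.val → l i = 0}, E l :=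
    iSup_le fun l => le_iSup_of_le ⟨l, fun i hi => absurd i.2 (by omega)⟩ le_rfl
  exact le_bot_iff.1 ((adn_mono f4 le_rfl _).trans (key k le_rfl).le)

end H7.KS
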