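import Cfsg.Agent.H7.KS1
import Cfsg.Agent.H5.Lie2
import Cfsg.Agent.H1.BGCop

/-! The Lie ring of a `p'`-group with a coprime action of `Fin k → ZMod p`: bracket `bb`, scalars `WW`, action `TT`,
projections `pr`, weight spaces `EE`, the subrings `oS` attached to subgroups. -/

set_option autoImplicit false

namespace H7.KS
open H5.Lie H18 H1 Subgroup
open scoped commutatorElement

universe u
variable {Γ : Type u} [Group Γ] {p : ℕ} [Fact p.Prime] {H X Y : Subgroup Γ}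

local notation "γ" => Subgroup.lowerCentralSeries H

/-- the bracket -/
noncomputable def bb (p : ℕ) [Fact p.Prime] (H : Subgroup Γ) : LL p H →+ LL p H →+ LL p H := exists_br.choose
theorem bb_o {k l : ZMod p} {i j : ℕ} {g u : Γ} (hg : g ∈ γ i) (hu : u ∈ γ j) :
    bb p H (o H k i g) (o H l j u) = o H (k + l) (i + j + 1) ⁅g, u⁆ := exists_br.choose_spec k i g l j u hg hu

theorem isLie_bb : IsLie (bb p H) := by
  set b := bb p H
  have hb : ∀ {k l : ZMod p} {i j : ℕ} {g u : Γ}, g ∈ γ i → u ∈ γ j →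
    b (o H k i g) (o H l j u) = o H (k + l) (i + j + 1) ⁅g, u⁆ := bb_o
  refine ⟨fun x y => o_ind (fun x => b x y + b y x) (fun _ _ => by simp only [map_add, AddMonoidHom.add_apply]; abel)
    (fun k i g hg => o_ind (fun y => b (o H k i g) y + b y (o H k i g))
      (fun _ _ => by simp only [map_add, AddMonoidHom.add_apply]; abel) (fun l j u hu => ?_) y) x, fun x y z => ?_⟩
  · rw [hb hg hu, hb hu hg, o_anti hg hu, add_comm k, neg_add_cancel]
  refine o_ind (fun x => b (b x y) z + b (b y z) x + b (b z x) y)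
    (fun _ _ => by simp only [map_add, AddMonoidHom.add_apply]; abel) (fun k i g hg => ?_) x
  refine o_ind (fun y => b (b (o H k i g) y) z + b (b y z) (o H k i g) + b (b z (o H k i g)) y)
    (fun _ _ => by simp only [map_add, AddMonoidHom.add_apply]; abel) (fun l j h hh => ?_) y
  refine o_ind (fun z => b (b (o H k i g) (o H l j h)) z + b (b (o H l j h) z) (o H k i g) + b (b z (o H k i g)) (o H l j h))
    (fun _ _ => by simp only [map_add, AddMonoidHom.add_apply]; abel) (fun m n u hu => ?_) z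
  rw [hb hg hh, hb hh hu, hb hu hg, hb (cm hg hh le_rfl) hu,
    hb (cm hh hu le_rfl) hg, hb (cm hu hg le_rfl) hh, ← o_jac (k := k + l + m) hg hh hu]
  congr 1
  · congr 2
    · omega
    · ring
    · omega
  · congr 1
    · ring
    · omega

theorem exists_W (s : ZMod p) : ∃ W : LL p H →+ LL p H, ∀ k i g, g ∈ γ i → W (o H k i g) = o H (s + k) i g :=
  o_lift _ (fun k i g h hg hh => o_mul hg hh) (fun k i g hg => o_zero hg) (fun i g hg => by
    rw [← o_sum (p := p) hg]; exact Fintype.sum_equiv (Equiv.addLeft s) _ _ fun _ => rfl)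
/-- multiplication by powers of the root of unity -/
noncomputable def WW (H : Subgroup Γ) (s : ZMod p) : LL p H →+ LL p H := (exists_W s).choose
theorem WW_o {s k : ZMod p} {i : ℕ} {g : Γ} (hg : g ∈ γ i) : WW H s (o H k i g) = o H (s + k) i g :=
  (exists_W s).choose_spec k i g hg

theorem cjl {x g : Γ} {i : ℕ} (hx : x ∈ N(H)) (hg : g ∈ γ i) : x * g * x⁻¹ ∈ γ i :=
  conj_mem_N (H3.norm_lcs (K := N(H)) le_rfl i hx) hg
theorem exists_T (x : Γ) : ∃ T : LL p H →+ LL p H, x ∈ N(H) → ∀ k i g, g ∈ γ i → T (o H k i g) = o H k i (x * g * x⁻¹) := by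
  by_cases hx : x ∈ N(H)
  · obtain ⟨T, hT⟩ := o_lift (H := H) (fun (k : ZMod p) i g => o H k i (x * g * x⁻¹))
      (fun k i g h hg hh => by rw [← o_mul (cjl hx hg) (cjl hx hh)]; congr 1; group) (fun k i g hg => o_zero (cjl hx hg))
      (fun i g hg => o_sum (cjl hx hg))
    exact ⟨T, fun _ => hT⟩
  · exact ⟨0, fun h => absurd h hx⟩
/-- conjugation -/
noncomputable def TT (p : ℕ) [Fact p.Prime] (H : Subgroup Γ) (x : Γ) : LL p H →+ LL p H := (exists_T x).choose
theorem TT_o {x : Γ} (hx : x ∈ N(H)) {k : ZMod p} {i : ℕ} {g : Γ} (hg : g ∈ γ i) :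
    TT p H x (o H k i g) = o H k i (x * g * x⁻¹) := (exists_T x).choose_spec hx k i g hg

theorem sb (f f' : LL p H → LL p H) (h1 : ∀ x y, f (x + y) = f x + f y) (h2 : ∀ x y, f' (x + y) = f' x + f' y)
    (h3 : ∀ k i g, g ∈ γ i → f (o H k i g) = f' (o H k i g)) (x : LL p H) : f x = f' x :=
  DFunLike.congr_fun (o_ext (φ := AddMonoidHom.mk' f h1) (ψ := AddMonoidHom.mk' f' h2) h3) x

theorem WW_zero (x : LL p H) : WW H 0 x = x := sb _ id (by simp) (by simp) (fun k i g hg => by rw [WW_o hg, zero_add]; rfl) x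
theorem WW_add (s t : ZMod p) (x : LL p H) : WW H (s + t) x = WW H s (WW H t x) :=
  sb _ (fun x => WW H s (WW H t x)) (by simp) (by simp) (fun k i g hg => by rw [WW_o hg, WW_o hg, WW_o hg, add_assoc]) x
theorem WW_sum (x : LL p H) : ∑ s, WW H s x = 0 := o_ind (fun x => ∑ s, WW H s x) (by simp [Finset.sum_add_distrib])
  (fun k i g hg => by rw [← o_sum (p := p) hg]; exact Fintype.sum_equiv (Equiv.addRight k) _ _ fun s => WW_o hg) x
theorem TT_one (x : LL p H) : TT p H 1 x = x :=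
  sb _ id (by simp) (by simp) (fun k i g hg => by rw [TT_o (one_mem _) hg]; simp) x
theorem TT_mul {y z : Γ} (hy : y ∈ N(H)) (hz : z ∈ N(H)) (x : LL p H) : TT p H (y * z) x = TT p H y (TT p H z x) :=
  sb _ (fun x => TT p H y (TT p H z x)) (by simp) (by simp) (fun k i g hg => by
    rw [TT_o (mul_mem hy hz) hg, TT_o hz hg, TT_o hy (cjl hz hg)]; congr 1; group) x
theorem TT_WW {y : Γ} (hy : y ∈ N(H)) (t : ZMod p) (x : LL p H) : TT p H y (WW H t x) = WW H t (TT p H y x) :=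
  sb (fun x => TT p H y (WW H t x)) (fun x => WW H t (TT p H y x)) (by simp) (by simp) (fun k i g hg => by
    rw [TT_o hy hg, WW_o hg, TT_o hy hg, WW_o (cjl hy hg)]) x
theorem bb_WW (s t : ZMod p) (x y : LL p H) : bb p H (WW H s x) (WW H t y) = WW H (s + t) (bb p H x y) :=
  sb (fun x => bb p H (WW H s x) (WW H t y)) (fun x => WW H (s + t) (bb p H x y)) (by simp) (by simp) (fun k i g hg =>
    sb (fun y => bb p H (WW H s (o H k i g)) (WW H t y)) (fun y => WW H (s + t) (bb p H (o H k i g) y)) (by simp) (by simp)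
      (fun l j u hu => by
        rw [WW_o hg, WW_o hu, bb_o hg hu, bb_o hg hu, WW_o (cm hg hu le_rfl)]
        congr 1; ring) y) x
theorem bb_TT {z : Γ} (hz : z ∈ N(H)) (x y : LL p H) : bb p H (TT p H z x) (TT p H z y) = TT p H z (bb p H x y) :=
  sb (fun x => bb p H (TT p H z x) (TT p H z y)) (fun x => TT p H z (bb p H x y)) (by simp) (by simp) (fun k i g hg =>
    sb (fun y => bb p H (TT p H z (o H k i g)) (TT p H z y)) (fun y => TT p H z (bb p H (o H k i g) y)) (by simp) (by simp)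
      (fun l j u hu => by
        rw [TT_o hz hg, TT_o hz hu, bb_o hg hu, bb_o (cjl hz hg) (cjl hz hu), TT_o hz (cm hg hu le_rfl)]
        congr 1; simp only [commutatorElement_def]; group) y) x

theorem mem_of_nsmul (hH : PiGrp {p}ᶜ H) {S : AddSubgroup (LL p H)} {n : ℕ} {x : LL p H} (h : p ^ n • x ∈ S) : x ∈ S := by
  have h0 : Nat.card H • x = 0 := o_ind (fun x => Nat.card H • x) (by simp) (fun k i g hg => by
    rw [← o_pow hg, pow_card_eq_one_of_mem (H3.lcs_le i hg), o_one]) x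
  have hc : (p ^ n).Coprime (Nat.card H) := ((piNat_compl_iff_coprime Fact.out).1 hH).symm.pow_left n
  have e := Nat.gcd_eq_gcd_ab (p ^ n) (Nat.card H)
  rw [hc.gcd_eq_one] at e
  have : x = (p ^ n).gcdA (Nat.card H) • (p ^ n • x) + (p ^ n).gcdB (Nat.card H) • (Nat.card H • x) := by
    rw [← natCast_zsmul, ← natCast_zsmul, smul_smul, smul_smul, ← add_smul, mul_comm, mul_comm _ (Nat.card H : ℤ), ← e]
    simp
  rw [this, h0, smul_zero, add_zero]; exact zsmul_mem h _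

theorem fixW (hH : PiGrp {p}ᶜ H) {s : ZMod p} (hs : s ≠ 0) {y : LL p H} (h : WW H s y = y) : y = 0 := by
  have h1 : ∀ n : ℕ, WW H ((n : ZMod p) * s) y = y := by
    intro n
    induction n with
    | zero => simp [WW_zero]
    | succ n ih => rw [Nat.cast_succ, add_one_mul, WW_add, h, ih]
  have h2 : ∀ t, WW H t y = y := fun t => by
    have := h1 (t * s⁻¹).val
    rwa [ZMod.natCast_zmod_val, inv_mul_cancel_right₀ hs] at this
  have h3 := WW_sum y
  simp only [h2, Finset.sum_const, Finset.card_univ, ZMod.card] at h3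
  exact mem_of_nsmul (S := ⊥) (n := 1) hH (by rw [pow_one, h3]; exact zero_mem _)

/-- the subring attached to a subgroup -/
def oS (p : ℕ) [Fact p.Prime] (H X : Subgroup Γ) : AddSubgroup (LL p H) :=
  AddSubgroup.closure {z | ∃ k i g, g ∈ H.lowerCentralSeries i ∧ g ∈ X ∧ z = o H k i g}
theorem mem_oS {k : ZMod p} {i : ℕ} {g : Γ} (hg : g ∈ γ i) (hX : g ∈ X) : o H k i g ∈ oS p H X :=
  AddSubgroup.subset_closure ⟨k, i, g, hg, hX, rfl⟩
theorem oS_le {S : AddSubgroup (LL p H)} (h : ∀ k i g, g ∈ γ i → g ∈ X → o H k i g ∈ S) : oS p H X ≤ S :=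
  (AddSubgroup.closure_le _).2 (by rintro _ ⟨k, i, g, h1, h2, rfl⟩; exact h k i g h1 h2)
theorem oS_mono (h : X ≤ Y) : oS p H X ≤ oS p H Y := oS_le fun _ _ _ h1 h2 => mem_oS h1 (h h2)
theorem oS_bot : oS p H ⊥ = ⊥ := le_bot_iff.1 (oS_le fun k i g _ h => by rw [mem_bot.1 h, o_one]; exact zero_mem _)
theorem br_oS : br (bb p H) (oS p H X) (oS p H Y) ≤ oS p H ⁅X, Y⁆ :=
  br_le_l.2 (oS_le fun k i g hg h1 => mem_lq.2 fun y hy =>
    oS_le (S := (oS p H ⁅X, Y⁆).comap (bb p H (o H k i g))) (fun l j u hu h2 => by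
      rw [AddSubgroup.mem_comap, bb_o hg hu]; exact mem_oS (cm hg hu le_rfl) (commutator_mem_commutator h1 h2)) hy)
theorem adn_oS (n : ℕ) : adn (bb p H) (oS p H X) n (oS p H Y) ≤ oS p H ((fun U => ⁅U, X⁆)^[n] Y) := by
  induction n with
  | zero => exact le_rfl
  | succ n ih => rw [adn_succ', Function.iterate_succ_apply']; exact (br_mono ih le_rfl).trans br_oS
theorem top_le_of {S : AddSubgroup (LL p H)} (h : ∀ k i g, g ∈ γ i → o H k i g ∈ S) (x : LL p H) : x ∈ S :=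
  (QuotientAddGroup.eq_zero_iff _).1 (o_ind (fun x => (x : LL p H ⧸ S)) (fun _ _ => rfl)
    (fun k i g hg => (QuotientAddGroup.eq_zero_iff _).2 (h k i g hg)) x)

/-- the elements of `γ i` whose symbol lies in `S` -/
def oP (S : AddSubgroup (LL p H)) (k : ZMod p) (i : ℕ) : Subgroup Γ where
  carrier := {g | g ∈ γ i ∧ o H k i g ∈ S}
  one_mem' := ⟨one_mem _, by rw [o_one]; exact zero_mem _⟩
  mul_mem' := fun h1 h2 => ⟨mul_mem h1.1 h2.1, by rw [o_mul h1.1 h2.1]; exact add_mem h1.2 h2.2⟩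
  inv_mem' := fun h => ⟨inv_mem h.1, by rw [o_inv h.1]; exact neg_mem h.2⟩

theorem lcs_le_oP {S : ℕ → AddSubgroup (LL p H)} (h0 : ∀ k, H ≤ oP (S 0) k 0) (h1 : ∀ i, br (bb p H) (S i) (S 0) ≤ S (i + 1))
    (i : ℕ) : ∀ k, γ i ≤ oP (S i) k i := by
  induction i with
  | zero => exact h0
  | succ i ih =>
    refine fun k => commutator_le.2 fun g hg u hu => ⟨commutator_mem_commutator hg hu, ?_⟩
    have := h1 i (mem_br (ih k hg).2 (h0 0 hu).2)
    rwa [bb_o hg hu, add_zero] at this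

section act
variable {k : ℕ} (c : Multiplicative (Fin k → ZMod p) →* Γ)

/-- the element of the acting group with coordinates `a` -/
def ce (a : Fin k → ZMod p) : Γ := c (Multiplicative.ofAdd a)
theorem ce_add (a a' : Fin k → ZMod p) : ce c (a + a') = ce c a * ce c a' := by rw [ce, ofAdd_add, map_mul]; rfl
theorem ce_zero : ce c 0 = 1 := map_one c
theorem ce_neg (a : Fin k → ZMod p) : ce c (-a) = (ce c a)⁻¹ := by rw [ce, ofAdd_neg, map_inv]; rfl
/-- the kernel of the weight `l` -/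
def kerS (l : Fin k → ZMod p) : Subgroup Γ where
  carrier := {x | ∃ a, l ⬝ᵥ a = 0 ∧ ce c a = x}
  one_mem' := ⟨0, by simp, ce_zero c⟩
  mul_mem' := by
    rintro _ _ ⟨a, h1, rfl⟩ ⟨a', h2, rfl⟩
    exact ⟨a + a', by rw [dotProduct_add, h1, h2, add_zero], ce_add c a a'⟩
  inv_mem' := by
    rintro _ ⟨a, h1, rfl⟩
    exact ⟨-a, by rw [dotProduct_neg, h1, neg_zero], ce_neg c a⟩
variable {c} {l n a : Fin k → ZMod p}
theorem ce_mem (h : l ⬝ᵥ a = 0) : ce c a ∈ kerS c l := ⟨a, h, rfl⟩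
theorem ce_mem0 (a : Fin k → ZMod p) : ce c a ∈ kerS c 0 := ce_mem (by simp)
theorem kerS_le : kerS c l ≤ kerS c 0 := by rintro _ ⟨a, -, rfl⟩; exact ce_mem0 a
theorem elem_kerS : Elem p (kerS c l) := by
  refine ⟨cent_iff.2 ?_, ?_⟩
  · rintro _ ⟨a, -, rfl⟩ _ ⟨a', -, rfl⟩
    rw [← ce_add, add_comm, ce_add]
  · rintro _ ⟨a, -, rfl⟩
    rw [ce, ← map_pow, ← ofAdd_nsmul, show p • a = 0 from funext fun i => by simp, ofAdd_zero, map_one]
theorem norm_C_kerS : kerS c 0 ≤ N(C(kerS c l)) := norm_C (cent_norm (cent_mono elem_kerS.abel le_rfl kerS_le))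
theorem cop_kerS [Finite Γ] (hX : kerS c 0 ≤ N(X)) (hp : PiGrp {p}ᶜ X) : Cop (kerS c l) X :=
  cop_of_pi (kerS_le.trans hX) (elem_kerS.pi' Fact.out) hp (Or.inl elem_kerS.abel.solv)

/-- the projection (times `p ^ k`) on the weight space of weight `l` -/
noncomputable def pr (c : Multiplicative (Fin k → ZMod p) →* Γ) (H : Subgroup Γ) (l : Fin k → ZMod p) : LL p H →+ LL p H :=
  ∑ a, (WW H (-(l ⬝ᵥ a))).comp (TT p H (ce c a))
theorem pr_apply (x : LL p H) : pr c H l x = ∑ a, WW H (-(l ⬝ᵥ a)) (TT p H (ce c a) x) := by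
  rw [pr, AddMonoidHom.finsetSum_apply]; rfl
/-- the weight space of weight `l` -/
noncomputable def EE (c : Multiplicative (Fin k → ZMod p) →* Γ) (H : Subgroup Γ) (l : Fin k → ZMod p) :
    AddSubgroup (LL p H) := ⨅ a, (TT p H (ce c a) - WW H (l ⬝ᵥ a)).ker
theorem mem_EE {x : LL p H} : x ∈ EE c H l ↔ ∀ a, TT p H (ce c a) x = WW H (l ⬝ᵥ a) x := by
  simp [EE, AddSubgroup.mem_iInf, sub_eq_zero]

variable (hn : kerS c 0 ≤ N(H))
include hn

theorem br_EE (l n : Fin k → ZMod p) : br (bb p H) (EE c H l) (EE c H n) ≤ EE c H (l + n) :=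
  br_le.2 fun x hx y hy => mem_EE.2 fun a => by
    rw [← bb_TT (hn (ce_mem0 a)), mem_EE.1 hx, mem_EE.1 hy, bb_WW, add_dotProduct]
theorem pr_TT (x : LL p H) : pr c H l (TT p H (ce c a) x) = WW H (l ⬝ᵥ a) (pr c H l x) := by
  rw [pr_apply, pr_apply, map_sum]
  refine Fintype.sum_equiv (Equiv.addRight a) _ _ fun s => ?_
  rw [← TT_mul (hn (ce_mem0 _)) (hn (ce_mem0 _)), ← ce_add, ← WW_add, Equiv.coe_addRight, dotProduct_add]
  congr 2; ring
theorem pr_mem (x : LL p H) : pr c H l x ∈ EE c H l := mem_EE.2 fun a => by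
  rw [← pr_TT hn, pr_apply, pr_apply, map_sum]
  refine Finset.sum_congr rfl fun s _ => ?_
  rw [TT_WW (hn (ce_mem0 _)), ← TT_mul (hn (ce_mem0 _)) (hn (ce_mem0 _)), ← TT_mul (hn (ce_mem0 _)) (hn (ce_mem0 _)),
    ← ce_add, ← ce_add, add_comm]
omit hn in
theorem pr_EE {x : LL p H} (hx : x ∈ EE c H l) : pr c H l x = p ^ k • x := by
  rw [pr_apply]
  simp only [mem_EE.1 hx, ← WW_add, neg_add_cancel, WW_zero]
  simp
omit hn in
theorem sum_pr (hH : PiGrp {p}ᶜ H) (x : LL p H) : ∑ l, pr c H l x = p ^ k • x := by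
  simp only [pr_apply]
  rw [Finset.sum_comm, Finset.sum_eq_single 0]
  · simp [WW_zero, ce_zero, TT_one]
  · intro a _ ha
    obtain ⟨i, hi⟩ := Function.ne_iff.1 ha
    refine fixW hH (neg_ne_zero.2 hi) ?_
    rw [map_sum]
    refine Fintype.sum_equiv (Equiv.addRight (Pi.single i 1)) _ _ fun s => ?_
    rw [← WW_add, Equiv.coe_addRight, add_dotProduct, single_one_dotProduct]
    congr 2; simp
  · simp
theorem iSup_EE (hH : PiGrp {p}ᶜ H) (x : LL p H) : x ∈ ⨆ l, EE c H l :=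
  mem_of_nsmul (n := k) hH (by
    rw [← sum_pr (c := c) hH]; exact sum_mem fun l _ => le_iSup (EE c H) l (pr_mem hn x))

theorem pr_oS [Finite Γ] (hH : PiGrp {p}ᶜ H) (hX : kerS c 0 ≤ N(X)) {x : LL p H} (hx : x ∈ oS p H X) :
    pr c H l x ∈ oS p H (X ⊓ C(kerS c l)) := by
  refine oS_le (S := (oS p H (X ⊓ C(kerS c l))).comap (pr c H l)) (fun s i g hg h1 => ?_) hx
  have hY : kerS c 0 ≤ N(γ i ⊓ X) := norm_inf (H3.norm_lcs hn i) hX
  have hc : Cop (kerS c l) (γ i ⊓ X) := cop_kerS hY (hH.of_le (inf_le_left.trans (H3.lcs_le i)))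
  obtain ⟨y, hy, z, hz, rfl⟩ := hc.exists_mul (x := g) ⟨hg, h1⟩
  have hy' : y ∈ oP (pr c H l).ker s i := by
    refine (commutator_le.2 ?_ : _ ≤ oP (pr c H l).ker s i) hy
    rintro u hu _ ⟨a, ha, rfl⟩
    have e : ⁅u, ce c a⁆ = u * (ce c a * u * (ce c a)⁻¹)⁻¹ := by rw [commutatorElement_def]; group
    have h2 := cjl (hn (ce_mem0 a)) hu.1
    rw [e]
    refine ⟨mul_mem hu.1 (inv_mem h2), ?_⟩
    rw [AddMonoidHom.mem_ker, o_mul hu.1 (inv_mem h2), o_inv h2, ← TT_o (hn (ce_mem0 a)) hu.1, map_add, map_neg,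
      pr_TT hn, ha, WW_zero, add_neg_cancel]
  rw [AddSubgroup.mem_comap, o_mul hy'.1 hz.1.1, map_add, AddMonoidHom.mem_ker.1 hy'.2, zero_add, pr_apply]
  refine sum_mem fun a _ => ?_
  have h2 := cjl (hn (ce_mem0 a)) hz.1.1
  rw [TT_o (hn (ce_mem0 a)) hz.1.1, WW_o h2]
  exact mem_oS h2 (conj_mem (norm_inf hX norm_C_kerS) (ce_mem0 a) ⟨hz.1.2, hz.2⟩)

theorem pr_oS_zero (hH : PiGrp {p}ᶜ H) (ha : l ⬝ᵥ a ≠ 0) (hX : X ≤ C1(ce c a)) {x : LL p H} (hx : x ∈ oS p H X) :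
    pr c H l x = 0 := by
  refine fixW hH ha ?_
  rw [← pr_TT hn]
  congr 1
  refine sub_eq_zero.1 (oS_le (S := (TT p H (ce c a) - AddMonoidHom.id _).ker) (fun s i g hg h1 => ?_) hx)
  rw [AddMonoidHom.mem_ker, AddMonoidHom.sub_apply, TT_o (hn (ce_mem0 a)) hg, ← mem_C1.1 (hX h1)]
  simp

theorem oS_le_iSup [Finite Γ] (hH : PiGrp {p}ᶜ H) (hX : kerS c 0 ≤ N(X)) : oS p H X ≤ ⨆ l, oS p H (X ⊓ C(kerS c l)) :=
  fun x hx => mem_of_nsmul (n := k) hH (by
    rw [← sum_pr (c := c) hH]; exact sum_mem fun l _ => le_iSup (fun l => oS p H (X ⊓ C(kerS c l))) l (pr_oS hn hH hX hx))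

end act

end H7.KS
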