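import Cfsg.Agent.H7.KS2
import Cfsg.Agent.H5.Lie3
import Cfsg.Agent.H17.Gen

/-! Families of `A`-special subgroups for a coprime action of `A = Fin k → ZMod p`: the subgroup they generate is nilpotent
of bounded class (`Fam.lcs_eq_bot`). -/

set_option autoImplicit false

namespace H7.KS
open H5.Lie H18 H1 Subgroup
open scoped commutatorElement

universe u
variable {Γ : Type u} [Group Γ] {G H J K U V W X Y D : Subgroup Γ}

/-- iterated commutator with `X` -/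
abbrev cit (X : Subgroup Γ) (n : ℕ) (U : Subgroup Γ) : Subgroup Γ := (fun U => ⁅U, X⁆)^[n] U
theorem cit_succ' (n : ℕ) : cit X (n + 1) U = ⁅cit X n U, X⁆ := Function.iterate_succ_apply' _ _ _
theorem cit_mono (h1 : X ≤ Y) (h2 : U ≤ V) (n : ℕ) : cit X n U ≤ cit Y n V := by
  induction n with
  | zero => exact h2
  | succ n ih => rw [cit_succ', cit_succ']; exact comm_mono ih h1
theorem lcs_add (n m : ℕ) : X.lowerCentralSeries (n + m) = cit X m (X.lowerCentralSeries n) := by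
  induction m with
  | zero => rfl
  | succ m ih => rw [cit_succ', ← ih]; rfl

/-- the elements normalizing `K` whose commutators with `H` lie in `K` -/
def cq (K H : Subgroup Γ) : Subgroup Γ where
  carrier := {x | x ∈ N(K) ∧ ∀ h ∈ H, ⁅x, h⁆ ∈ K}
  mul_mem' := fun {a b} ha hb => ⟨mul_mem ha.1 hb.1, fun h hh => by
    rw [commutatorElement_mul_left_eq_conj_mul]
    exact mul_mem (conj_mem_N ha.1 (hb.2 h hh)) (ha.2 h hh)⟩
  one_mem' := ⟨one_mem _, fun h _ => by simp⟩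
  inv_mem' := fun {a} ha => ⟨inv_mem ha.1, fun h hh => by
    rw [commutatorElement_inv_left, ← commutatorElement_inv]
    exact conj_mem_N' ha.1 (inv_mem (ha.2 h hh))⟩
theorem le_cq : X ≤ cq K H ↔ X ≤ N(K) ∧ ⁅X, H⁆ ≤ K :=
  ⟨fun h => ⟨fun _ hx => (h hx).1, commutator_le.2 fun _ hx => (h hx).2⟩,
    fun h x hx => ⟨h.1 hx, commutator_le.1 h.2 x hx⟩⟩
theorem comm_sSup_le {S : Set (Subgroup Γ)} (h1 : ∀ X ∈ S, X ≤ N(K)) (h2 : ∀ X ∈ S, ⁅X, H⁆ ≤ K) : ⁅sSup S, H⁆ ≤ K :=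
  (le_cq.1 (sSup_le fun X hX => le_cq.2 ⟨h1 X hX, h2 X hX⟩)).2
theorem norm_sSup_of {S : Set (Subgroup Γ)} (h : ∀ X ∈ S, ⁅X, J⁆ ≤ sSup S) : J ≤ N(sSup S) :=
  norm_iff_comm_le'.2 (comm_sSup_le (fun _ hX => le_norm (le_sSup hX)) h)

theorem nil_step {m : ℕ} (hW : W ≤ V) (hD : ⁅V, D⁆ ≤ W) (hVD : V ≤ D) (hJW : J ≤ N(W)) (hJV : J ≤ N(V))
    (gen : ∀ Y, (∀ U ≤ V, cit J m U = ⊥ → U ≤ Y) → V ≤ Y) : cit (J ⊔ D) m V ≤ W := by
  let Z : ℕ → Subgroup Γ := fun j => Nat.rec W (fun _ Z => V ⊓ cq Z J) j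
  have hn : ∀ X, W ≤ X → X ≤ V → D ≤ N(X) := fun X h1 h2 => norm_iff_comm_le'.2 ((comm_mono h2 le_rfl).trans (hD.trans h1))
  have k1 : ∀ j, W ≤ Z j ∧ Z j ≤ V ∧ ⁅Z j, J⁆ ≤ Z j := by
    intro j
    induction j with
    | zero => exact ⟨le_rfl, hW, comm_le_left hJW⟩
    | succ j ih =>
      have : Z j ≤ Z (j + 1) := le_inf ih.2.1 (le_cq.2 ⟨le_N, ih.2.2⟩)
      exact ⟨ih.1.trans this, inf_le_left, (le_cq.1 inf_le_right).2.trans this⟩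
  have k2 : ∀ j, ∀ U ≤ V, cit J j U ≤ W → U ≤ Z j := by
    intro j
    induction j with
    | zero => exact fun U _ h => h
    | succ j ih =>
      exact fun U hU h => le_inf hU (le_cq.2 ⟨hU.trans (hVD.trans (hn _ (k1 j).1 (k1 j).2.1)),
        ih _ ((comm_mono hU le_rfl).trans (comm_le_left hJV)) h⟩)
  have k3 : ∀ j, cit (J ⊔ D) j (Z j) ≤ W := by
    intro j
    induction j with
    | zero => exact le_rfl
    | succ j ih =>
      refine (cit_mono le_rfl ?_ j).trans ih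
      exact comm_sup_le' (le_cq.1 inf_le_right).2 ((comm_mono inf_le_left le_rfl).trans (hD.trans (k1 j).1))
        (norm_iff_comm_le'.2 (k1 j).2.2) (hn _ (k1 j).1 (k1 j).2.1)
  exact (cit_mono le_rfl (gen _ fun U hU h => k2 m U hU (h.le.trans bot_le)) m).trans (k3 m)

theorem solv_of_dser {n : ℕ} (h : dser n X = ⊥) : Solv X := by
  refine ⟨n, ?_⟩
  rw [← dser_top, ← map_eq_bot_iff_of_injective _ X.subtype_injective, map_dser, ← MonoidHom.range_eq_map, range_subtype, h]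

variable [Finite Γ] {p k m : ℕ} [Fact p.Prime] {c : Multiplicative (Fin k → ZMod p) →* Γ}
  {Nn : (Fin k → ZMod p) → Subgroup Γ} {𝒜 ℬ 𝒥 : Set (Subgroup Γ)}

theorem gen (hi : Function.Injective (ce c)) (hX : kerS c 0 ≤ N(X)) (hp : PiGrp {p}ᶜ X)
    (h : ∀ l, X ⊓ C(kerS c l) ≤ Y) : X ≤ Y := by
  by_cases h0 : kerS c 0 = ⊥
  · simpa [h0] using h 0
  refine H17.le_of_hyp Fact.out elem_kerS h0 (cop_kerS hX hp) fun B hB => ?_
  let B' : AddSubgroup (Fin k → ZMod p) :=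
    { carrier := {a | ce c a ∈ B}
      zero_mem' := by show ce c 0 ∈ B; rw [ce_zero]; exact one_mem _
      add_mem' := fun {a a'} h1 h2 => by show ce c _ ∈ B; rw [ce_add]; exact mul_mem h1 h2
      neg_mem' := fun {a} h1 => by show ce c _ ∈ B; rw [ce_neg]; exact inv_mem h1 }
  obtain ⟨f, f0, hf⟩ := (AddSubgroup.toZModSubmodule p B').exists_le_ker_of_lt_top (lt_top_iff_ne_top.2 fun e =>
    (hB.lt Fact.out).not_ge (by
      rintro _ ⟨a, -, rfl⟩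
      exact show a ∈ AddSubgroup.toZModSubmodule p B' from e ▸ trivial))
  have e : ∀ a, (fun i => f fun j => if i = j then 1 else 0) ⬝ᵥ a = f a := fun a => by
    rw [f.pi_apply_eq_sum_univ a, dotProduct_comm]; rfl
  refine (inf_le_inf_left _ (C_anti ?_)).trans (h fun i => f fun j => if i = j then 1 else 0)
  by_contra hc
  have h1 := hB.sup_eq Fact.out kerS_le hc
  rw [sup_eq_right.2] at h1
  · refine f0 (LinearMap.ext fun a => ?_)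
    obtain ⟨a', h2, h3⟩ := h1 ▸ ce_mem0 (c := c) a
    rw [← hi h3, ← e, h2]; rfl
  · intro x hx
    obtain ⟨a, -, rfl⟩ := hB.le hx
    exact ce_mem ((e a).trans (hf (show a ∈ AddSubgroup.toZModSubmodule p B' from hx)))

/-- the hypotheses on the action -/
structure Base (c : Multiplicative (Fin k → ZMod p) →* Γ) (G : Subgroup Γ) : Prop where
  inj : Function.Injective (ce c)
  norm : kerS c 0 ≤ N(G)
  pi : PiGrp {p}ᶜ G
/-- the subgroups `Nn a` act nilpotently on the centralizers -/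
def NilC (c : Multiplicative (Fin k → ZMod p) →* Γ) (G : Subgroup Γ) (m : ℕ) (Nn : (Fin k → ZMod p) → Subgroup Γ) : Prop :=
  ∀ a, a ≠ 0 → Nn a ⊴ G ⊓ C1(ce c a) ∧ cit (Nn a) m (G ⊓ C1(ce c a)) = ⊥
/-- invariant subgroups of `G` -/
def Inv (c : Multiplicative (Fin k → ZMod p) →* Γ) (G : Subgroup Γ) (𝒥 : Set (Subgroup Γ)) : Prop :=
  ∀ J ∈ 𝒥, J ≤ G ∧ kerS c 0 ≤ N(J)
/-- domination of families -/
def Dom (𝒜 ℬ : Set (Subgroup Γ)) : Prop := ∀ X ∈ 𝒜, ∃ J ∈ ℬ, X ≤ J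
/-- the commutator of two families -/
def step (c : Multiplicative (Fin k → ZMod p) →* Γ) (𝒜 ℬ : Set (Subgroup Γ)) : Set (Subgroup Γ) :=
  {X | ∃ J₁ ∈ 𝒜, ∃ J₂ ∈ ℬ, ∃ l, X = ⁅J₁, J₂⁆ ⊓ C(kerS c l)}
/-- special families -/
structure Fam (c : Multiplicative (Fin k → ZMod p) →* Γ) (G : Subgroup Γ) (Nn : (Fin k → ZMod p) → Subgroup Γ)
    (𝒥 : Set (Subgroup Γ)) : Prop where
  inv : Inv c G 𝒥
  cl : Dom (step c 𝒥 𝒥) 𝒥
  mu : ∀ J ∈ 𝒥, ∀ l n, (∃ a, l ⬝ᵥ a ≠ 0 ∧ J ≤ C1(ce c a)) ∨ ∃ a, a ≠ 0 ∧ l ⬝ᵥ a = 0 ∧ n ⬝ᵥ a = 0 ∧ J ≤ Nn a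

omit [Finite Γ] in
theorem Inv.step (h1 : Inv c G 𝒜) (h2 : Inv c G ℬ) : Inv c G (step c 𝒜 ℬ) := by
  rintro _ ⟨J₁, m1, J₂, m2, l, rfl⟩
  exact ⟨inf_le_left.trans (comm_le_of_le (h1 _ m1).1 (h2 _ m2).1), norm_inf (norm_comm (h1 _ m1).2 (h2 _ m2).2) norm_C_kerS⟩
omit [Finite Γ] in
theorem Inv.le (h : Inv c G 𝒜) : sSup 𝒜 ≤ G := sSup_le fun J hJ => (h J hJ).1
omit [Finite Γ] in
theorem Inv.norm (h : Inv c G 𝒜) : kerS c 0 ≤ N(sSup 𝒜) := norm_sSup fun J hJ => (h J hJ).2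
omit [Finite Γ] in
theorem Dom.step {𝒜' ℬ' : Set (Subgroup Γ)} (h1 : Dom 𝒜 𝒜') (h2 : Dom ℬ ℬ') : Dom (step c 𝒜 ℬ) (step c 𝒜' ℬ') := by
  rintro _ ⟨J₁, m1, J₂, m2, l, rfl⟩
  obtain ⟨J₁', m1', e1⟩ := h1 _ m1
  obtain ⟨J₂', m2', e2⟩ := h2 _ m2
  exact ⟨_, ⟨J₁', m1', J₂', m2', l, rfl⟩, inf_le_inf_right _ (comm_mono e1 e2)⟩
omit [Finite Γ] in
theorem Dom.trans (h1 : Dom 𝒜 ℬ) (h2 : Dom ℬ 𝒥) : Dom 𝒜 𝒥 := fun X hX => by
  obtain ⟨J, m1, e1⟩ := h1 X hX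
  obtain ⟨J', m2, e2⟩ := h2 J m1
  exact ⟨J', m2, e1.trans e2⟩

theorem sSup_step (hB : Base c G) (h1 : Inv c G 𝒜) (h2 : Inv c G ℬ) (d1 : Dom (step c 𝒜 ℬ) 𝒜) (d2 : Dom (step c 𝒜 ℬ) ℬ) :
    sSup (step c 𝒜 ℬ) = ⁅sSup 𝒜, sSup ℬ⁆ := by
  have k1 : ∀ J₁ ∈ 𝒜, ∀ J₂ ∈ ℬ, ⁅J₁, J₂⁆ ≤ sSup (step c 𝒜 ℬ) := fun J₁ m1 J₂ m2 =>
    gen hB.inj (norm_comm (h1 _ m1).2 (h2 _ m2).2) (hB.pi.of_le (comm_le_of_le (h1 _ m1).1 (h2 _ m2).1))
      fun l => le_sSup ⟨J₁, m1, J₂, m2, l, rfl⟩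
  refine le_antisymm (sSup_le ?_) (comm_sSup_le (fun J hJ => norm_sSup_of fun X hX => ?_) fun J hJ => ?_)
  · rintro _ ⟨J₁, m1, J₂, m2, l, rfl⟩
    exact inf_le_left.trans (comm_mono (le_sSup m1) (le_sSup m2))
  · obtain ⟨J', m, e⟩ := d2 X hX
    exact comm_comm.le.trans ((comm_mono le_rfl e).trans (k1 J hJ J' m))
  · rw [comm_comm]
    refine comm_sSup_le (fun J hJ => norm_sSup_of fun X hX => ?_) fun J' hJ' => comm_comm.le.trans (k1 J hJ J' hJ')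
    obtain ⟨J', m, e⟩ := d1 X hX
    exact (comm_mono e le_rfl).trans (k1 J' m J hJ)

omit [Finite Γ] in
theorem Fam.step (h : Fam c G Nn 𝒥) : Fam c G Nn (step c 𝒥 𝒥) :=
  ⟨h.inv.step h.inv, (h.cl.step h.cl), fun X hX l n => by
    obtain ⟨J, m, e⟩ := h.cl X hX
    exact (h.mu J m l n).imp (fun ⟨a, h1, h2⟩ => ⟨a, h1, e.trans h2⟩) fun ⟨a, h1, h2, h3, h4⟩ => ⟨a, h1, h2, h3, e.trans h4⟩⟩

theorem Fam.nil (hB : Base c G) (hN : NilC c G m Nn) (hs : Solv G) (n : ℕ) :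
    ∀ 𝒥, Fam c G Nn 𝒥 → Nat.card ↥(sSup 𝒥) = n → Nil (sSup 𝒥) := by
  induction n using Nat.strong_induction_on with
  | _ n ih =>
  intro 𝒥 h hn
  by_cases h0 : sSup 𝒥 = ⊥
  · rw [h0]; exact nil_bot
  have e := sSup_step hB h.inv h.inv h.cl h.cl
  have h1 := ih _ (by rw [e, ← hn]; exact card_lt ((hs.of_le h.inv.le).der_lt h0)) _ h.step rfl
  rw [e] at h1
  have hA := h.inv.norm
  have hG := h.inv.le
  refine fit_nil.of_le (sSup_le fun J hJ => ?_ : sSup 𝒥 ≤ F(sSup 𝒥))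
  have hJD : J ≤ sSup 𝒥 := le_sSup hJ
  generalize sSup 𝒥 = D at *
  have hD' : ⁅D, D⁆ ≤ D := comm_le_of_le le_rfl le_rfl
  have hL : J ⊔ ⁅D, D⁆ ≤ D := sup_le hJD hD'
  refine le_sup_left.trans (le_fit ⟨hL, norm_of_comm_le (le_sup_of_le_right (comm_mono le_rfl hL))⟩ ?_)
  have key : ∀ i, (J ⊔ ⁅D, D⁆).lowerCentralSeries (1 + m * i) ≤ ⁅D, D⁆.lowerCentralSeries i := by
    intro i
    induction i with
    | zero => exact comm_mono hL hL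
    | succ i ii =>
      rw [mul_add_one, ← add_assoc, lcs_add]
      have hJ' : J ≤ N(⁅D, D⁆) := norm_comm (le_norm hJD) (le_norm hJD)
      refine (cit_mono le_rfl ii m).trans (nil_step (Subgroup.lowerCentralSeries_antitone _ i.le_succ) le_rfl (H3.lcs_le i)
        (H3.norm_lcs hJ' _) (H3.norm_lcs hJ' _) fun Y hY => ?_)
      have hV : ⁅D, D⁆.lowerCentralSeries i ≤ G := (H3.lcs_le i).trans (hD'.trans hG)
      refine gen hB.inj (H3.norm_lcs (norm_comm hA hA) i) (hB.pi.of_le hV) fun l => hY _ inf_le_left ?_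
      rcases h.mu J hJ 0 l with ⟨a, h2, -⟩ | ⟨a, a0, -, h2, h3⟩
      · simp at h2
      · exact le_bot_iff.1 ((cit_mono h3 (inf_le_inf hV (C_le_C1 (ce_mem h2))) m).trans (hN a a0).2.le)
  obtain ⟨i, hi⟩ := nil_iff_lcs.1 h1
  exact nil_iff_lcs.2 ⟨_, le_bot_iff.1 ((key i).trans hi.le)⟩

theorem Fam.lcs_le (hB : Base c G) (hN : NilC c G m Nn) (h : Fam c G Nn 𝒥) :
    (sSup 𝒥).lowerCentralSeries (mf p (p ^ k) (p ^ k * m + 1) k) ≤
      (sSup 𝒥).lowerCentralSeries (mf p (p ^ k) (p ^ k * m + 1) k + 1) := by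
  classical
  have hn := h.inv.norm
  have hG := h.inv.le
  have hH : PiGrp {p}ᶜ (sSup 𝒥) := hB.pi.of_le hG
  have h0 : ∀ (S : AddSubgroup (LL p (sSup 𝒥))) s, (∀ J ∈ 𝒥, oS p (sSup 𝒥) J ≤ S) → sSup 𝒥 ≤ oP S s 0 :=
    fun S s hS => sSup_le fun J hJ g hg => ⟨le_sSup hJ hg, hS J hJ (mem_oS (le_sSup hJ hg) hg)⟩
  generalize sSup 𝒥 = H at *
  have hS : ∀ x, x ∈ ⨆ J : 𝒥, oS p H J := by
    refine top_le_of fun s i g hg => (lcs_le_oP (S := fun _ => ⨆ J : 𝒥, oS p H J)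
      (fun s => h0 _ s fun J hJ => le_iSup_of_le ⟨J, hJ⟩ le_rfl) (fun _ => br_iSup_le fun J₁ J₂ => ?_) i s hg).2
    refine br_oS.trans ((oS_le_iSup hn hH (norm_comm (h.inv _ J₁.2).2 (h.inv _ J₂.2).2)).trans (iSup_le fun l => ?_))
    obtain ⟨J, hJ, e⟩ := h.cl _ ⟨_, J₁.2, _, J₂.2, l, rfl⟩
    exact le_iSup_of_le ⟨J, hJ⟩ (oS_mono e)
  have hT : (⨆ l, EE c H l) = ⊤ := eq_top_iff.2 fun x _ => iSup_EE hn hH x
  have main := lie_main (m := p ^ k * m + 1) isLie_bb (br_EE hn) fun l => le_bot_iff.1 ((adn_iSup _ _).trans (iSup_le fun n => ?_))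
  · rw [hT] at main
    intro g hg
    have := (lcs_le_oP (S := fun i => adn (bb p H) ⊤ i ⊤) (fun s g hg => ⟨hg, trivial⟩) (fun i => (adn_succ' i).ge) _ 0 hg).2
    rw [main] at this
    exact mem_of_o (p := p) hg this
  let ι := {a : Fin k → ZMod p // a ≠ 0 ∧ l ⬝ᵥ a = 0 ∧ n ⬝ᵥ a = 0}
  let K : Subgroup Γ := G ⊓ ⨅ a : ι, C1(ce c a)
  have hK : ∀ a : ι, K ≤ G ⊓ C1(ce c a) := fun a => inf_le_inf_left _ (iInf_le _ a)
  have h1 := nil_iSup isLie_bb (m := m) (Y := oS p H K) (V := oS p H K) (fun a : ι => oS p H (Nn a ⊓ K))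
    (fun a => oS_mono inf_le_right)
    (fun a => br_oS.trans (oS_mono (comm_le_left (norm_inf ((hK a).trans (hN a a.2.1).1.norm) le_N))))
    (br_oS.trans (oS_mono (comm_le_left le_N)))
    (fun a => le_bot_iff.1 ((adn_oS m).trans ((oS_mono ((cit_mono inf_le_left (hK a) m).trans (hN a a.2.1).2.le)).trans
      oS_bot.le)))
  have h2 : Fintype.card ι ≤ p ^ k := (Fintype.card_subtype_le _).trans (by simp)
  obtain ⟨d, hd⟩ := Nat.exists_eq_add_of_le h2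
  have e : p ^ k * m + 1 = d * m + (Fintype.card ι * m + 1) := by rw [hd]; ring
  rw [e]
  refine (adn_mono (fun x hx => ?_) (fun x hx => ?_) _).trans (by rw [adn_add, h1, adn_bot])
  · refine mem_of_nsmul (n := k) hH ?_
    rw [← pr_EE hx]
    refine (iSup_le fun J y hy => ?_ : _ ≤ AddSubgroup.comap (pr c H l) (⨆ a : ι, oS p H (Nn a ⊓ K))) (hS x)
    rcases h.mu J J.2 l n with ⟨a, h2, h3⟩ | ⟨a, h2, h3, h4, h5⟩
    · rw [AddSubgroup.mem_comap, pr_oS_zero hn hH h2 h3 hy]; exact zero_mem _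
    · refine le_iSup (fun a : ι => oS p H (Nn a ⊓ K)) ⟨a, h2, h3, h4⟩ (oS_mono ?_ (pr_oS hn hH (h.inv _ J.2).2 hy))
      exact le_inf (inf_le_left.trans h5) (inf_le_inf (h.inv _ J.2).1 (le_iInf fun a' => C_le_C1 (ce_mem a'.2.2.1)))
  · refine mem_of_nsmul (n := k) hH ?_
    rw [← pr_EE hx]
    refine oS_mono (inf_le_inf hG (le_iInf fun a' => C_le_C1 (ce_mem a'.2.2.2))) (pr_oS hn hH hn ?_)
    exact top_le_of (fun s i g hg => mem_oS hg (H3.lcs_le i hg)) x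

theorem Fam.lcs_eq_bot (hB : Base c G) (hN : NilC c G m Nn) (hs : Solv G) (h : Fam c G Nn 𝒥) :
    (sSup 𝒥).lowerCentralSeries (mf p (p ^ k) (p ^ k * m + 1) k) = ⊥ := by
  have h1 := h.lcs_le hB hN
  obtain ⟨n, hn⟩ := nil_iff_lcs.1 (Fam.nil hB hN hs _ _ h rfl)
  generalize mf p (p ^ k) (p ^ k * m + 1) k = B at *
  have : ∀ d, (sSup 𝒥).lowerCentralSeries (B + d) ≤ (sSup 𝒥).lowerCentralSeries (B + d + 1) := fun d => by
    induction d with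
    | zero => exact h1
    | succ d ih => exact comm_mono ih le_rfl
  have h2 : ∀ d, (sSup 𝒥).lowerCentralSeries B ≤ (sSup 𝒥).lowerCentralSeries (B + d) := fun d => by
    induction d with
    | zero => exact le_rfl
    | succ d ih => exact ih.trans (this d)
  exact le_bot_iff.1 ((h2 n).trans ((Subgroup.lowerCentralSeries_antitone _ (by omega)).trans hn.le))

end H7.KS
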