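import Cfsg.Agent.H7.KS3
import Cfsg.Agent.H17.SFC
import Cfsg.Agent.H1.Hol

/-! The Acciarri-Shumyatsky theorems on coprime elementary abelian operator groups: `main_der`, `main_lcs`,
and the transfer `exists_base` from a subgroup of `MulAut G`. -/

set_option autoImplicit false

namespace H7.KS
open H5.Lie H18 H1 Subgroup
open scoped commutatorElement

universe u
variable {Γ : Type u} [Group Γ] [Finite Γ] {G : Subgroup Γ} {p k m : ℕ} [Fact p.Prime]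
  {c : Multiplicative (Fin k → ZMod p) →* Γ} {𝒥 : Set (Subgroup Γ)}

theorem exists_ker (s : Finset (Fin k → ZMod p)) (h : s.card < k) : ∃ a, a ≠ 0 ∧ ∀ l ∈ s, l ⬝ᵥ a = 0 := by
  classical
  obtain ⟨x, y, h1, h2⟩ := Fintype.exists_ne_map_eq_of_card_lt (fun (a : Fin k → ZMod p) (l : s) => l.1 ⬝ᵥ a) (by
    simpa using Nat.pow_lt_pow_right (Fact.out : p.Prime).one_lt h)
  exact ⟨x - y, sub_ne_zero.2 h1, fun l hl => by rw [dotProduct_sub, sub_eq_zero]; exact congrFun h2 ⟨l, hl⟩⟩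

/-- members of the family lie in `F` of centralizers of large subgroups -/
def Sm (c : Multiplicative (Fin k → ZMod p) →* Γ) (G : Subgroup Γ) (F : Subgroup Γ → Subgroup Γ) (n : ℕ)
    (𝒥 : Set (Subgroup Γ)) : Prop :=
  ∀ J ∈ 𝒥, ∃ s : Finset (Fin k → ZMod p), s.card ≤ n ∧ ∀ a, (∀ l ∈ s, l ⬝ᵥ a = 0) → J ≤ F (G ⊓ C1(ce c a))

omit [Finite Γ] in
theorem Sm.fam {F : Subgroup Γ → Subgroup Γ} {n : ℕ} (h : Sm c G F n 𝒥) (hF : ∀ X, F X ≤ X) (hn : n + 2 ≤ k)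
    (h1 : Inv c G 𝒥) (h2 : Dom (step c 𝒥 𝒥) 𝒥) : Fam c G (fun a => F (G ⊓ C1(ce c a))) 𝒥 := by
  classical
  refine ⟨h1, h2, fun J hJ l n' => ?_⟩
  obtain ⟨s, s1, s2⟩ := h J hJ
  by_cases e : ∀ a, (∀ l ∈ s, l ⬝ᵥ a = 0) → l ⬝ᵥ a = 0
  · obtain ⟨a, a0, ha⟩ := exists_ker (insert n' s) (by have := Finset.card_insert_le n' s; omega)
    have ha' := fun l hl => ha l (Finset.mem_insert_of_mem hl)
    exact Or.inr ⟨a, a0, e a ha', ha _ (Finset.mem_insert_self _ _), s2 a ha'⟩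
  · push Not at e
    obtain ⟨a, a1, a2⟩ := e
    exact Or.inl ⟨a, a2, (s2 a a1).trans ((hF _).trans inf_le_right)⟩

omit [Finite Γ] in
theorem Sm.step {F F' : Subgroup Γ → Subgroup Γ} {n n' : ℕ} {𝒜 ℬ : Set (Subgroup Γ)} (h : Sm c G F n 𝒜)
    (h' : Sm c G F' n' ℬ) : Sm c G (fun X => ⁅F X, F' X⁆) (n + n') (step c 𝒜 ℬ) := by
  classical
  rintro _ ⟨J₁, m1, J₂, m2, l, rfl⟩
  obtain ⟨s, s1, s2⟩ := h _ m1
  obtain ⟨t, t1, t2⟩ := h' _ m2
  exact ⟨s ∪ t, (Finset.card_union_le _ _).trans (by omega), fun a ha => inf_le_left.trans (comm_mono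
    (s2 a fun l hl => ha l (Finset.mem_union_left _ hl)) (t2 a fun l hl => ha l (Finset.mem_union_right _ hl)))⟩

/-- the centralizers of the hyperplanes -/
def sp0 (c : Multiplicative (Fin k → ZMod p) →* Γ) (G : Subgroup Γ) : Set (Subgroup Γ) :=
  Set.range fun l => G ⊓ C(kerS c l)
omit [Finite Γ] in
theorem sp0_inv (hB : Base c G) : Inv c G (sp0 c G) := by
  rintro _ ⟨l, rfl⟩; exact ⟨inf_le_left, norm_inf hB.norm norm_C_kerS⟩
theorem sp0_sup (hB : Base c G) : sSup (sp0 c G) = G :=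
  le_antisymm (sp0_inv hB).le (gen hB.inj hB.norm hB.pi fun l => le_sSup ⟨l, rfl⟩)
omit [Finite Γ] in
theorem sp0_sm : Sm c G id 1 (sp0 c G) := by
  rintro _ ⟨l, rfl⟩
  exact ⟨{l}, by simp, fun a ha => inf_le_inf_left _ (C_le_C1 (ce_mem (ha l (Finset.mem_singleton_self l))))⟩
omit [Finite Γ] in
theorem dom_sp0 {𝒜 ℬ : Set (Subgroup Γ)} (h1 : Inv c G 𝒜) (h2 : Inv c G ℬ) : Dom (step c 𝒜 ℬ) (sp0 c G) := by
  rintro _ ⟨J₁, m1, J₂, m2, l, rfl⟩
  exact ⟨_, ⟨l, rfl⟩, inf_le_inf_right _ (comm_le_of_le (h1 _ m1).1 (h2 _ m2).1)⟩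

theorem exists_spD (hB : Base c G) (d : ℕ) : ∃ 𝒥, Inv c G 𝒥 ∧ Dom (step c 𝒥 𝒥) 𝒥 ∧ Sm c G (dser d) (2 ^ d) 𝒥 ∧
    sSup 𝒥 = dser d G := by
  induction d with
  | zero => exact ⟨_, sp0_inv hB, dom_sp0 (sp0_inv hB) (sp0_inv hB), sp0_sm, sp0_sup hB⟩
  | succ d ih =>
    obtain ⟨𝒥, h1, h2, h3, h4⟩ := ih
    refine ⟨step c 𝒥 𝒥, h1.step h1, h2.step h2, ?_, by rw [sSup_step hB h1 h1 h2 h2, h4, dser_succ]⟩
    have := h3.step h3
    simp only [← dser_succ] at this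
    rwa [pow_succ, mul_two]

theorem exists_spG (hB : Base c G) (i : ℕ) : ∃ 𝒥, Inv c G 𝒥 ∧ Dom (step c 𝒥 (sp0 c G)) 𝒥 ∧ Dom 𝒥 (sp0 c G) ∧
    Sm c G (fun X => X.lowerCentralSeries i) (i + 1) 𝒥 ∧ sSup 𝒥 = G.lowerCentralSeries i := by
  have h0 := sp0_inv hB
  have r : ∀ 𝒜 : Set (Subgroup Γ), Dom 𝒜 𝒜 := fun _ X hX => ⟨X, hX, le_rfl⟩
  induction i with
  | zero => exact ⟨_, h0, dom_sp0 h0 h0, r _, sp0_sm, sp0_sup hB⟩
  | succ i ih =>
    obtain ⟨𝒥, h1, h2, h3, h4, h5⟩ := ih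
    exact ⟨step c 𝒥 (sp0 c G), h1.step h0, h2.step (r _), dom_sp0 h1 h0, h4.step sp0_sm,
      by rw [sSup_step hB h1 h0 h2 (dom_sp0 h1 h0), h5, sp0_sup hB]; rfl⟩

theorem Base.solv (hB : Base c G) (hk : 3 ≤ k) (h : ∀ a, a ≠ 0 → Solv (G ⊓ C1(ce c a))) : Solv G := by
  have hp : p.Prime := Fact.out
  have hc : Nat.card (kerS c 0) = p ^ k := by
    rw [← Nat.card_congr (Equiv.ofBijective (fun a : Fin k → ZMod p => (⟨ce c a, ce_mem0 a⟩ : kerS c 0))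
      ⟨fun a a' e => hB.inj (congrArg Subtype.val e), by rintro ⟨_, a, -, rfl⟩; exact ⟨a, rfl⟩⟩)]
    simp
  have sf : H17.SF p (kerS c 0) fun x => G ⊓ C1(x) := ⟨hp, elem_kerS, fun _ _ _ => inf_le_right,
    fun _ _ _ => hB.pi.of_le inf_le_left,
    fun x hx _ => norm_inf hB.norm (norm_C1 (elem_kerS.abel.trans (C_le_C1 hx))),
    by rintro _ ⟨a, -, rfl⟩ h1; exact h a (by rintro rfl; exact h1 (ce_zero c)),
    fun _ _ _ _ _ _ => inf_le_inf_right _ inf_le_left⟩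
  refine (sf.mem_WB (hc ▸ Nat.pow_le_pow_right hp.pos hk)).solv.of_le (H17.le_of_elt' hp elem_kerS
    (by rw [hc]; exact Nat.pow_le_pow_right hp.pos (by omega)) (cop_kerS hB.norm hB.pi) fun a ha h1 => ?_)
  exact H17.le_WB (θ := fun x => G ⊓ C1(x)) ha h1

omit [Finite Γ] in
theorem nilC_of {F : Subgroup Γ → Subgroup Γ} (hF : ∀ X, F X ⊴ X)
    (h : ∀ a, a ≠ 0 → (F (G ⊓ C1(ce c a))).lowerCentralSeries m = ⊥) : NilC c G (m + 1) fun a => F (G ⊓ C1(ce c a)) :=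
  fun a ha => ⟨hF _, le_bot_iff.1 ((cit_mono le_rfl (comm_le_right (hF _).norm) m).trans (by
    rw [← h a ha, ← zero_add m, lcs_add, zero_add]; exact le_rfl))⟩

theorem main_der {d : ℕ} (hB : Base c G) (hk : 3 ≤ k) (hd : 2 ^ d + 2 ≤ k)
    (h : ∀ a, a ≠ 0 → (dser d (G ⊓ C1(ce c a))).lowerCentralSeries m = ⊥) :
    (dser d G).lowerCentralSeries (mf p (p ^ k) (p ^ k * (m + 1) + 1) k) = ⊥ := by
  obtain ⟨𝒥, h1, h2, h3, h4⟩ := exists_spD hB d
  rw [← h4]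
  exact (h3.fam (fun _ => dser_le) hd h1 h2).lcs_eq_bot hB (nilC_of (fun _ => ⟨dser_le, norm_dser le_N⟩) h)
    (hB.solv hk fun a ha => solv_of_dser (n := m + d) (by
      rw [dser_add]; exact le_bot_iff.1 (dser_le_lcs.trans (h a ha).le)))

theorem main_lcs (hB : Base c G) (hk : 3 ≤ k)
    (h : ∀ a, a ≠ 0 → ((G ⊓ C1(ce c a)).lowerCentralSeries (k - 3)).lowerCentralSeries m = ⊥) :
    (G.lowerCentralSeries (k - 3)).lowerCentralSeries (mf p (p ^ k) (p ^ k * (m + 1) + 1) k) = ⊥ := by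
  obtain ⟨𝒥, h1, h2, h3, h4, h5⟩ := exists_spG hB (k - 3)
  rw [← h5]
  exact (h4.fam (fun _ => H3.lcs_le _) (by omega) h1 ((Dom.step (fun X hX => ⟨X, hX, le_rfl⟩) h3).trans h2)).lcs_eq_bot hB
    (nilC_of (F := fun X => X.lowerCentralSeries (k - 3)) (fun _ => H3.lcs_nml _) h)
    (hB.solv hk fun a ha => solv_of_dser (n := m + (k - 3)) (by
      rw [dser_add]; exact le_bot_iff.1 (((dser_mono dser_le_lcs).trans dser_le_lcs).trans (h a ha).le)))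

theorem exists_coord' {V : Type u} [AddCommGroup V] [Finite V] [Module (ZMod p) V] (hc : Nat.card V = p ^ k) :
    Nonempty ((Fin k → ZMod p) ≃+ V) := by
  have hr : Module.finrank (ZMod p) V = k := by
    have := Module.natCard_eq_pow_finrank (K := ZMod p) (V := V)
    rw [Nat.card_zmod, hc] at this
    exact (Nat.pow_right_injective (Fact.out : p.Prime).two_le this).symm
  exact ⟨(Module.finBasisOfFinrankEq (ZMod p) V hr).equivFun.symm.toAddEquiv⟩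
theorem exists_coord {V : Type u} [CommGroup V] [Finite V] (h : ∀ x : V, x ^ p = 1) (hc : Nat.card V = p ^ k) :
    Nonempty ((Fin k → ZMod p) ≃+ Additive V) :=
  @exists_coord' p k _ (Additive V) _ _ (AddCommGroup.zmodModule fun x => congrArg Additive.ofMul (h x.toMul)) hc

theorem exists_base {G : Type u} [Group G] [Finite G] (hG : (Nat.card G).Coprime p) {A : Subgroup (MulAut G)}
    (hA : Cfsg.IsElementaryAbelian p A) (hc : Nat.card A = p ^ k) :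
    ∃ c : Multiplicative (Fin k → ZMod p) →* G ⋊[MonoidHom.id _] MulAut G, Base c (hl (MonoidHom.id _) ⊤) ∧
      ∀ a, a ≠ 0 → ∃ x ∈ A, x ≠ 1 ∧ hl (MonoidHom.id _) ⊤ ⊓ C1(ce c a) =
        ((⊤ : Subgroup (x.toMonoidHom.eqLocus (MonoidHom.id G))).map (Subgroup.subtype _)).map SemidirectProduct.inl := by
  have hp : p.Prime := Fact.out
  haveI := hA.1
  letI : CommGroup A := { (inferInstance : Group A) with mul_comm := mul_comm' }
  obtain ⟨e⟩ := exists_coord (V := A) (fun x => Subtype.ext (hA.2 _ x.2)) hc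
  let c0 : Multiplicative (Fin k → ZMod p) →* A := AddMonoidHom.toMultiplicativeLeft e.toAddMonoidHom
  refine ⟨SemidirectProduct.inr.comp (A.subtype.comp c0), ⟨fun a a' h => ?_, ?_, ?_⟩, fun a ha =>
    ⟨(e a).toMul, (e a).toMul.2, fun h => ha (e.injective ?_), ?_⟩⟩
  · exact e.injective (congrArg Additive.ofMul (Subtype.ext (SemidirectProduct.inr_injective h)))
  · rintro _ ⟨a, -, rfl⟩
    exact hr_norm_top (B := ⊤) (inr_mem_hr.2 trivial)
  · exact piGrp_hl.2 ((piNat_compl_iff_coprime hp).2 (by simpa using hG))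
  · rw [map_zero]; exact congrArg Additive.ofMul (Subtype.ext h)
  · refine (hl_inf_C1 (a := ((e a).toMul : MulAut G))).trans ?_
    rw [hl, ← MonoidHom.range_eq_map, range_subtype, top_inf_eq]
    congr 1
    ext x
    exact mem_fixS_zpowers

end H7.KS
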