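import Cfsg.Agent.H13.Km0

/-! Frobenius groups of automorphisms: the module lemma `H13.Km.PM`. -/
set_option autoImplicit false
namespace H7.KmM
open Cfsg H18 H1 Subgroup H13.Km
open scoped IsMulCommutative
universe u

section
variable {G : Type*} [Group G] [Fintype G] (V : Subgroup G) [IsMulCommutative V]

open Classical in
/-- conjugation on `V` -/
noncomputable def a (g : G) : V →* V := if h : g ∈ N(V) then (V.normalizerMonoidHom ⟨g, h⟩).toMonoidHom else 1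

open Classical in
/-- the elements of a subgroup -/
noncomputable def S (X : Subgroup G) : Finset G := Finset.univ.filter (· ∈ X)

/-- the norm map -/
noncomputable def Nm (X : Subgroup G) : V →* V := ∏ x ∈ S X, a V x

variable {V} {g k : G} {X T : Subgroup G} {w : V}

theorem mem_S : g ∈ S X ↔ g ∈ X := by simp [S]
theorem card_S : (S X).card = Nat.card X := (Nat.subtype_card _ fun _ => mem_S).symm

omit [Fintype G] [IsMulCommutative V] in
theorem a_val (h : g ∈ N(V)) (w : V) : (a V g w : G) = g * w * g⁻¹ := by rw [a, dif_pos h]; rfl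
omit [Fintype G] [IsMulCommutative V] in
theorem a_mul (h : g ∈ N(V)) (h' : k ∈ N(V)) (w : V) : a V (g * k) w = a V g (a V k w) := Subtype.ext (by
  rw [a_val h, a_val h', a_val (mul_mem h h')]; group)
omit [Fintype G] [IsMulCommutative V] in
theorem a_fix (h : g ∈ N(V)) : a V g w = w ↔ g * w = w * g := by
  rw [Subtype.ext_iff, a_val h, mul_inv_eq_iff_eq_mul]
theorem Nm_apply (w : V) : Nm V X w = ∏ x ∈ S X, a V x w := MonoidHom.finset_prod_apply _ _ _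

theorem Nm_fix (h : X ≤ N(V)) (w : V) : (Nm V X w).1 ∈ C(X) := mem_C.2 fun x hx => (a_fix (h hx)).1 (by
  rw [Nm_apply, map_prod]
  refine Finset.prod_nbij' (fun y => x * y) (fun y => x⁻¹ * y) (fun y hy => mem_S.2 (mul_mem hx (mem_S.1 hy)))
    (fun y hy => mem_S.2 (mul_mem (inv_mem hx) (mem_S.1 hy))) (by simp) (by simp)
    fun y hy => (a_mul (h hx) (h (mem_S.1 hy)) w).symm)

theorem Nm_of_fix (h : X ≤ N(V)) (hw : w.1 ∈ C(X)) : Nm V X w = w ^ Nat.card X := by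
  rw [Nm_apply, Finset.prod_congr rfl fun x hx => (a_fix (h (mem_S.1 hx))).2 (mem_C.1 hw x (mem_S.1 hx)),
    Finset.prod_const, card_S]

theorem Nm_cent (h : X ≤ N(V)) (hT : T ≤ N(V)) (c : T ≤ C(X)) (hw : w.1 ∈ C(T)) : (Nm V X w).1 ∈ C(T) :=
  mem_C.2 fun t ht => (a_fix (hT ht)).1 (by
    rw [Nm_apply, map_prod]
    refine Finset.prod_congr rfl fun x hx => ?_
    have hx := mem_S.1 hx
    rw [← a_mul (hT ht) (h hx), ← mem_C.1 (c ht) x hx, a_mul (h hx) (hT ht), (a_fix (hT ht)).2 (mem_C.1 hw t ht)])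

theorem Nm_Nm (h : X ≤ N(V)) (hT : T ≤ N(V)) (hw : w.1 ∈ C(T)) (z : ∀ x ∈ X, x ∉ N(T) → Nm V T (a V x w) = 1) :
    Nm V T (Nm V X w) = Nm V (X ⊓ N(T)) w ^ Nat.card T := by
  classical
  rw [Nm_apply (X := X), map_prod, Nm_apply (X := X ⊓ N(T)), ← Finset.prod_pow,
    show S (X ⊓ N(T)) = (S X).filter (· ∈ N(T)) by ext; simp [mem_S], Finset.prod_filter]
  refine Finset.prod_congr rfl fun x hx => ?_
  split_ifs with k
  · exact Nm_of_fix hT (by rw [a_val (h (mem_S.1 hx))]; exact conj_mem_N (N_le_N_C k) hw)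
  · exact z x (mem_S.1 hx) k

theorem PI {F H : Subgroup G} (hF : F ≤ N(V)) (hH : H ≤ N(V)) (hn : H ≤ N(F)) (sr : Semireg F H) (x : V)
    (z : ∀ h ∈ H, Nm V F (a V h x) = 1) : x ^ Nat.card F = ∏ f ∈ S F, a V f (Nm V H (a V f⁻¹ x)) := by
  classical
  simp only [Nm_apply, map_prod]
  rw [Finset.prod_comm, Finset.prod_eq_single 1 ?_ (fun k => absurd (mem_S.2 H.one_mem) k), ← card_S,
    ← Finset.prod_const]
  · refine Finset.prod_congr rfl fun f hf => Subtype.ext ?_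
    have := hF (mem_S.1 hf)
    rw [a_val this, a_val (one_mem _), a_val (inv_mem this)]; group
  · intro h hh h1
    have hh := mem_S.1 hh
    rw [← z h hh, Nm_apply]
    have mp : Set.MapsTo (fun f => f * (h * f⁻¹ * h⁻¹)) (S F) (S F) := fun f hf =>
      mem_S.2 (mul_mem (mem_S.1 hf) (conj_mem hn hh (inv_mem (mem_S.1 hf))))
    have inj : Set.InjOn (fun f => f * (h * f⁻¹ * h⁻¹)) (S F) := fun f hf f' hf' e => by
      have : f'⁻¹ * f ∈ F ⊓ C1(h) := ⟨F.mul_mem (F.inv_mem (mem_S.1 hf')) (mem_S.1 hf), mem_C1.2 (by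
        have e : f * (h * f⁻¹ * h⁻¹) = f' * (h * f'⁻¹ * h⁻¹) := e
        calc f'⁻¹ * f * h = f'⁻¹ * (f * (h * f⁻¹ * h⁻¹)) * h * f := by group
          _ = h * (f'⁻¹ * f) := by rw [e]; group)⟩
      rw [sr h hh h1, mem_bot, inv_mul_eq_one] at this
      exact this.symm
    refine Finset.prod_nbij _ mp inj (Finset.surjOn_of_injOn_of_card_le _ mp inj le_rfl) fun f hf => Subtype.ext ?_
    have := hF (mem_S.1 hf)
    rw [a_val this, a_val (hH hh), a_val (inv_mem this), a_val (hF (mem_S.1 (mp hf))), a_val (hH hh)]; group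

end

variable {G : Type*} [Group G] [Finite G] {V F H : Subgroup G} {p : ℕ}

theorem fixD (c : Cf V F H) (hV : PiGrp {p} V) : V ⊓ C(O[{p}ᶜ](F)) = ⊥ := by
  by_contra k
  refine (pcore_pi (π := {p}) (H := F)).meet_cent (hV.of_le inf_le_left)
    (pcore_le.trans (norm_inf c.nF (norm_C pcore_nml.norm))) k (le_bot_iff.1 (c.cf ▸ ?_))
  conv_rhs => rw [← c.nil.pcore_sup (π := {p}), C_sup]
  exact fun x hx => ⟨hx.1.1, hx.2, hx.1.2⟩

omit [Finite G] in
theorem mem_pow {T : Subgroup G} {x : G} {n : ℕ} (h : n.Coprime (orderOf x)) (k : x ^ n ∈ T) : x ∈ T := by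
  obtain ⟨m, hm⟩ := exists_pow_eq_self_of_coprime h
  exact hm ▸ pow_mem k m

theorem pM : PM.{u} := by
  intro G _ _ V Q F H p q hp hq ne cV cQ aV aQ pV pQ nQ hc h0
  classical
  haveI := Fintype.ofFinite G
  haveI := aV.comm
  haveI := aQ.comm
  by_contra V0
  have cop : ∀ {r : ℕ} {U X : Subgroup G}, PiGrp {r} U → PiGrp {r}ᶜ X → ∀ x ∈ U, (Nat.card X).Coprime (orderOf x) :=
    fun hU hX x hx => (hU.coprime hX).symm.coprime_dvd_right (orderOf_dvd_natCard _ hx)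
  have e1 : ∀ {X : Subgroup G}, PiGrp {p}ᶜ X → ∀ x : V, x ^ Nat.card X = 1 → x = 1 := fun hX x k =>
    Subtype.ext (mem_bot.1 (mem_pow (cop pV hX x x.2) (mem_bot.2 (congrArg Subtype.val k))))
  have key : ∀ T ≤ Q, V ⊓ C(T) ≠ ⊥ → (∀ T' ≤ Q, V ⊓ C(T') ≠ ⊥ → Nat.card T' ≤ Nat.card T) → Q ⊓ C(H) ≤ T := by
    intro T l n mx
    have nT := l.trans nQ
    have pT : PiGrp {p}ᶜ T := (pQ.of_le l).p'_of_ne ne.symm
    have up : ∀ T' ≤ Q, ∀ y : V, y.1 ∈ C(T) → y.1 ∈ C(T') → y ≠ 1 → T' ≤ T := fun T' l' y y1 y2 y0 =>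
      le_sup_right.trans (eq_of_le_of_card_ge le_sup_left (mx _ (sup_le l l') fun e => y0 (Subtype.ext (mem_bot.1
        (e.le ⟨y.2, by rw [C_sup]; exact ⟨y1, y2⟩⟩))))).ge
    have kill : ∀ x ∈ N(V), x ∈ N(Q) → ∀ w : V, w.1 ∈ C(T) → x ∉ N(T) → Nm V T (a V x w) = 1 := fun x x1 x2 w hw k => by
      by_contra z
      have l' := cj_le_of_mem_N l x2
      exact k (mem_N_iff_cj.2 (eq_of_le_of_card_ge (up _ l' _ (Nm_fix nT _) (Nm_cent nT (l'.trans nQ)
        (cent_mono aQ l' l) (by rw [a_val x1, ← cj_C]; exact conj_mem_cj hw)) z) card_cj.ge))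
    have dF : O[{p}ᶜ](F) ≤ F := pcore_le
    have z : ∀ w : V, w.1 ∈ C(T) → Nm V (O[{p}ᶜ](F) ⊓ N(T)) w = 1 := fun w hw => e1 pT _ (by
      rw [← Nm_Nm (dF.trans cV.nF) nT hw fun x hx => kill x (cV.nF (dF hx)) (cQ.nF (dF hx)) w hw,
        show Nm V O[{p}ᶜ](F) w = 1 from Subtype.ext (mem_bot.1 ((fixD cV pV).le
          ⟨(Nm V _ w).2, Nm_fix (dF.trans cV.nF) w⟩)), map_one])
    obtain ⟨w, hw, w0⟩ : ∃ w : V, w.1 ∈ C(T) ∧ Nm V (H ⊓ N(T)) w ≠ 1 := by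
      by_contra k
      push Not at k
      obtain ⟨⟨x, hx⟩, x0⟩ := ne_bot_iff_exists_ne_one.1 n
      have := PI (V := V) (F := O[{p}ᶜ](F) ⊓ N(T)) (H := H ⊓ N(T)) (inf_le_left.trans (dF.trans cV.nF))
        (inf_le_left.trans cV.nH) (norm_inf (inf_le_left.trans (norm_pcore cV.hn)) (norm_N inf_le_right))
        (cV.sr.mono (inf_le_left.trans dF) inf_le_left) ⟨x, hx.1⟩ fun h hh => z _ (by
          rw [a_val (cV.nH hh.1)]; exact conj_mem_N (N_le_N_C hh.2) hx.2)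
      rw [Finset.prod_eq_one fun f hf => by
        rw [k _ (by
          rw [a_val (inv_mem (cV.nF (dF (mem_S.1 hf).1)))]
          exact conj_mem_N (N_le_N_C (inv_mem (mem_S.1 hf).2)) hx.2), map_one]] at this
      exact x0 (Subtype.ext (congrArg (Subtype.val : V → G) (e1 (pcore_pi.of_le inf_le_left) _ this)))
    refine up _ inf_le_left (Nm V T (Nm V H w)) (Nm_fix nT _) (Nm_cent nT (inf_le_left.trans nQ)
      (cent_mono aQ inf_le_left l) (cent_symm hc ⟨(Nm V H w).2, Nm_fix cV.nH w⟩)) fun k => w0 (e1 pT _ ?_)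
    rw [← Nm_Nm cV.nH nT hw fun x hx => kill x (cV.nH hx) (cQ.nH hx) w hw, k]
  obtain ⟨T, ⟨l, n⟩, mx⟩ := Set.exists_max_image {T : Subgroup G | T ≤ Q ∧ V ⊓ C(T) ≠ ⊥} (fun T => Nat.card T)
    (Set.toFinite _) ⟨⊥, bot_le, by simpa using V0⟩
  have dF : O[{q}ᶜ](F) ≤ F := pcore_le
  have kf : ∀ f ∈ F, ∀ c ∈ Q ⊓ C(H), f * c * f⁻¹ ∈ T := fun f hf c hc => by
    have := key (cj f⁻¹ T) (cj_le_of_mem_N l (inv_mem (cQ.nF hf))) (by
      rwa [← cj_C, ← cj_eq_self (inv_mem (cV.nF hf)), ← cj_inf, Ne, cj_eq_bot])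
      (fun T' l' n' => (mx T' ⟨l', n'⟩).trans card_cj.ge) hc
    simpa using mem_cj.1 this
  refine n (le_bot_iff.1 (h0 ▸ inf_le_inf_left _ (C_anti fun x hx => mem_pow (cop pQ (pcore_pi (H := F)) x hx) ?_)))
  have := PI (V := Q) (dF.trans cQ.nF) cQ.nH (norm_pcore cQ.hn) (cQ.sr.mono dF le_rfl) ⟨x, hx⟩ fun h _ =>
    Subtype.ext (mem_bot.1 ((fixD cQ pQ).le ⟨(Nm Q _ _).2, Nm_fix (dF.trans cQ.nF) _⟩))
  have m : (⟨x, hx⟩ : Q) ^ Nat.card O[{q}ᶜ](F) ∈ T.subgroupOf Q := by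
    rw [this]
    refine prod_mem fun f hf => mem_subgroupOf.2 ?_
    rw [a_val (cQ.nF (dF (mem_S.1 hf)))]
    exact kf f (dF (mem_S.1 hf)) _ ⟨(Nm Q H _).2, Nm_fix cQ.nH _⟩
  exact m

end H7.KmM
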