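import Cfsg.Agent.H7.Eps
import Cfsg.Agent.H7.Wat
/-! A block with a normal abelian defect group `A` and at most three characters has `#A ≤ 3`
(`card_le_three`). -/
open H5 Cfsg Finset
open H8 (cC nN c1)
namespace H7
universe u
variable {M : Ideal AlgInt} {p : ℕ} [hp : Fact p.Prime] [PM p M]

theorem eq_of_rank_one {G : Type*} [Group G] [Finite G] {B : Set (IrrCharacter G)}
    (hB : IsPBlock M B) (h1 : blockRank p B = 1) {A : Subgroup G} [hn : A.Normal]
    (hA : IsDefectGroup p M B A) {χ ψ : IrrCharacter G} (hχ : χ ∈ B ∩ kerSet A)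
    (hψ : ψ ∈ B ∩ kerSet A) : χ = ψ := by
  classical
  letI := Fintype.ofFinite G
  have hs := isSat_of_isPBlock hB
  obtain ⟨j, hj⟩ := hs.exists_IB h1
  have e1 : ∀ ξ ∈ B, ∀ y, ¬ p ∣ orderOf y → ((ξ : IrrCharacter G) : G → ℂ) y =
      dec (ξ : G → ℂ) j * bch p j y := fun ξ hξ y hy => by
    rw [apply_eq_sum_bch (M := M) ξ.2.isCharacter hy, sum_eq_single j (fun i _ hi => by
      rw [hs.dec_eq_zero hξ (by simpa [hj] using hi), Nat.cast_zero, zero_mul]) (by simp)]
  have e2 : ∀ ξ ∈ B ∩ kerSet A, ∀ g, ((ξ : IrrCharacter G) : G → ℂ) g =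
      dec (ξ : G → ℂ) j * if pp p g ∈ A then bch p j (pr p g) else 0 := fun ξ hξ g => by
    split_ifs with h
    · rw [← e1 ξ hξ.1 _ (not_dvd_orderOf_pr g), ← apply_mul_of_mem_kerSet hξ.2 h (pr p g), pp_mul_pr]
    · by_contra h0
      obtain ⟨x, hx⟩ := exists_conj_pp_mem hB hξ.1 (by simpa using h0) hA
      exact h (by simpa [mul_assoc] using hn.conj_mem _ hx x⁻¹)
  by_contra h
  have e3 : (dec (ψ : G → ℂ) j : ℂ) • (χ : G → ℂ) = (dec (χ : G → ℂ) j : ℂ) • (ψ : G → ℂ) :=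
    funext fun g => by simp only [Pi.smul_apply, smul_eq_mul, e2 χ hχ g, e2 ψ hψ g]; ring
  have e4 := congrArg (classInner · (χ : G → ℂ)) e3
  simp only [classInner_smul_left, classInner_irr, if_true, if_neg (Ne.symm h), mul_one,
    mul_zero] at e4
  exact ψ.2.apply_one_ne_zero (by rw [e2 ψ hψ, e4, zero_mul])

theorem card_le_three_aux (n : ℕ) : ∀ {G : Type u} [Group G] [Finite G] {B : Set (IrrCharacter G)}
    {A : Subgroup G} [A.Normal], Nat.card G = n → IsPBlock M B → IsDefectGroup p M B A →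
    A ≤ cC A → Nat.card B ≤ 3 → Nat.card A ≤ 3 := by
  induction n using Nat.strong_induction_on with
  | _ n ih =>
  intro G _ _ B A hn hG hB hA hab hk
  classical
  letI := Fintype.ofFinite G
  letI := Fintype.ofFinite (cC A)
  have hP := IsDefectGroup.isPGroup hA
  have hs := isSat_of_isPBlock hB
  have hnA : ∀ K : Subgroup G, K ≤ nN A := fun K => by
    rw [nN, Subgroup.normalizer_eq_top]; exact le_top
  have L := locSet_subtype hP hab le_rfl (hnA _)
  obtain ⟨b, hb⟩ := (L.exists_indB_iff hB hA).2 (cle.refl A)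
  have hd : IsDefectGroup p M b (A.subgroupOf (cC A)) := L.isDefectGroup_comap hb hA
  obtain ⟨θ, hθ, -⟩ := PC.exists_theta ⟨hb.1, hd, inferInstance, fun y _ x hx =>
    Subtype.ext (y.2 x hx)⟩
  have hθ' : θ ∈ b ∩ kerSet (A.subgroupOf (cC A)) := hθ.ge rfl
  have hT : ∀ g, g ∈ H6.inertia θ.1 ↔ ∀ ξ ∈ b, ieq ((ne_subtype (cC A)).cjA g) ξ ∈ b := fun g =>
    ⟨fun h => (ne_subtype _).stab_of_mem hb.1 hθ'.1 (by
      rw [show ieq ((ne_subtype (cC A)).cjA g) θ = θ from Subtype.ext ((coe_ieq_cjA g θ).trans h)]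
      exact hθ'.1),
    fun h => (coe_ieq_cjA g θ).symm.trans (congrArg Subtype.val (hθ.le ⟨h θ hθ'.1, fun a ha => by
      rw [coe_ieq_cjA, H6.cj_apply, H6.cj_apply, hθ'.2 _ (hn.conj_mem _ ha g)]
      exact congrArg θ.1 (Subtype.ext (by simp))⟩))⟩
  have hC : cC A ≤ H6.inertia θ.1 := H6.le_inertia θ.2.isClassFunction
  have hI : ∀ (K : Subgroup G) (h : cC A ≤ K) (c : Set (IrrCharacter K)), K ≤ H6.inertia θ.1 →
      IndB M (Subgroup.inclusion h) b c → covSet (Subgroup.inclusion h) b = c := fun K h c hK hc => by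
    rw [← (locSet_inclusion hP h hab le_rfl (hnA _)).covSet_orb (ne_incl h) hc]
    congr 1
    refine ((ne_incl h).subset_orb b).antisymm fun ξ ⟨g, hg⟩ => ?_
    exact (NE.Invt.iff (h := ne_incl h) (fun g => cjA_incl h g ▸ (hT g).1 (hK g.2)) g ξ).1 hg
  by_cases ht : H6.inertia θ.1 = ⊤
  swap
  · obtain ⟨c, hc⟩ := (locSet_inclusion hP hC hab le_rfl (hnA _)).exists_indB hb.1
    have h1 : IndB M (H6.inertia θ.1).subtype c B := hc.of_comp hb
    have h2 := (hI _ hC c le_rfl hc).ge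
    have h3 := h1.unique (fr_block hb.1 hT hC hc.2.1 h2)
    rw [← Nat.card_congr (Subgroup.subgroupOfEquivOfLe (hab.trans hC)).toEquiv]
    refine ih _ (hG ▸ lt_of_le_of_ne (Subgroup.card_le_card_group _) fun e =>
      ht (Subgroup.eq_top_of_card_eq _ e)) rfl hc.2.1
      ((locSet_subtype hP (hab.trans hC) hC (hnA _)).isDefectGroup_comap h1 hA)
      (fun x hx y hy => Subtype.ext (hab hx y hy)) (le_trans ?_ hk)
    exact Nat.card_le_card_of_injective (fun ψ : c => (⟨⟨_, (fr_irr hb.1 hT hC (h2 ψ.2)).1⟩,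
      h3.ge ⟨ψ, ψ.2, rfl⟩⟩ : B)) fun ψ ψ' e => Subtype.ext (fr_inj hb.1 hT hC (h2 ψ.2) (h2 ψ'.2)
        (congrArg (·.1.1) e))
  by_cases h1 : blockRank p B = 1
  · exact (nil_of_card hB h1 (by omega) hA).2.2 ▸ hk
  replace h1 : 2 ≤ blockRank p B := by
    have := blockRank_pos (p := p) hs (block_nonempty hB)
    omega
  have hi : ∀ g, H6.cj θ.1 g = θ.1 := fun g => (ht.ge trivial : g ∈ H6.inertia θ.1)
  have hb' : (ne_subtype (cC A)).Invt b := fun g => (hT g).1 (hi g)
  have hE : ¬ p ∣ Nat.card (G ⧸ cC A) := fun h => by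
    have e1 := L.defect_eq_of_invt (ne_subtype _) hb hb'
    have e2 := IsDefectGroup.card hb.1 hd
    rw [Nat.card_congr (Subgroup.subgroupOfEquivOfLe hab).toEquiv, IsDefectGroup.card hB hA,
      Nat.pow_right_inj hp.out.one_lt] at e2
    rw [Subgroup.range_subtype, e2, left_eq_add] at e1
    exact (hp.out.factorization_pos_of_dvd Nat.card_pos.ne' h).ne' e1
  have hker : ∀ (K : Subgroup G) (h : cC A ≤ K) (χ : IrrCharacter K),
      classInner (fun n : cC A => χ.1 ⟨n, h n.2⟩) θ.1 ≠ 0 → χ ∈ kerSet (A.subgroupOf K) :=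
    fun K h χ e a ha => by
      letI := Fintype.ofFinite ((cC A).subgroupOf K)
      have := H6.res_eq_smul_of_invariant (N := (cC A).subgroupOf K) χ.2 (H6.isIrr_sOf h θ.2)
        (fun g => by rw [H6.cj_sOf, hi]) (by rwa [H6.inner_res_sOf h])
      exact (congrFun this ⟨a, hab ha⟩).trans ((congrArg (_ * ·) (hθ'.2 ⟨a, hab ha⟩ ha)).trans
        (congrFun this 1).symm)
  obtain ⟨m⟩ := nonempty_mp hB hA
  letI := Fintype.ofFinite A
  letI := Fintype.ofFinite (Quotient m.fs)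
  have h2 : ∑ c : Quotient m.fs, blockRank p (m.bu c.out) ≤ 3 := by
    have := m.card_eq
    rw [m.sum_cl fun _ _ e => by rw [e.rank_eq]] at this
    exact (by exact_mod_cast this.symm : _ = Nat.card B).le.trans hk
  have h3 : ∀ v : A, blockRank p (m.bu (Quotient.mk m.fs v).out) = blockRank p (m.bu v) :=
    fun v => MP.FC.rank_eq (Quotient.mk_out (s := m.fs) v)
  have h4 : ∀ v : A, 0 < blockRank p (m.bu v) := fun v =>
    blockRank_pos (m.bu_sat v) (block_nonempty (m.bu_blk v))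
  have h5 : ∀ v : A, v ≠ 1 → Quotient.mk m.fs 1 ≠ Quotient.mk m.fs v := fun v hv e =>
    hv (m.fc_one_iff.1 (Quotient.exact e))
  have h6 : ∀ v : A, v ≠ 1 → blockRank p (m.bu v) = 1 := fun v hv => by
    have := (sum_le_sum_of_subset (subset_univ {Quotient.mk m.fs 1, Quotient.mk m.fs v})).trans h2
    rw [sum_pair (h5 v hv), h3, h3, m.rank_bu_one] at this
    have := h4 v
    omega
  have h7 : ∀ v w : A, v ≠ 1 → w ≠ 1 → m.FC v w := fun v w hv hw => by
    by_contra e
    have := (sum_le_sum_of_subset (subset_univ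
      {Quotient.mk m.fs 1, Quotient.mk m.fs v, Quotient.mk m.fs w})).trans h2
    rw [sum_insert (by simp [h5 v hv, h5 w hw]), sum_pair fun e' => e (Quotient.exact e'), h3, h3,
      h3, m.rank_bu_one, h6 v hv, h6 w hw] at this
    omega
  obtain ⟨ε, e1, e2, e3, e4, e5⟩ := exists_eps θ.2 hi
  let a : G ⧸ cC A →* MulAut A := QuotientGroup.lift _ MulAut.conjNormal fun g hg =>
    MulEquiv.ext fun u => Subtype.ext (by simp [← hg u u.2])
  have ha : ∀ (g : G) (u : A), (a g u : G) = g * u * g⁻¹ := fun _ _ => rfl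
  letI : CommGroup A := ⟨fun x y => Subtype.ext (hab y.2 x x.2)⟩
  by_cases hA1 : A = ⊥
  · simp [hA1]
  refine TW.card_le M (a := a) (ε := ε) ⟨(injective_iff_map_eq_one _).2 fun g hg => ?_, e1, e2, e3,
    fun u v hu hv => ?_, fun u hu y hy h => ?_, fun g g' hg hg' h => ⟨fun h' => ?_, e4 g g' h⟩⟩ hE hP
  · obtain ⟨g, rfl⟩ := QuotientGroup.mk_surjective g
    refine (QuotientGroup.eq_one_iff g).2 fun u hu => ?_
    have := ha g ⟨u, hu⟩
    rw [hg] at this
    exact eq_mul_inv_iff_mul_eq.1 this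
  · obtain ⟨g, hg⟩ := isConj_iff.1 (h7 u v hu hv).isConj
    exact ⟨g, Subtype.ext hg⟩
  · by_contra! h0
    obtain ⟨y, rfl⟩ := QuotientGroup.mk_surjective y
    have hK : cC A ≤ c1 (u : G) := fun g hg =>
      Subgroup.mem_centralizer_singleton_iff.2 (hg u u.2).symm
    have mK : ∀ g : G, a g u = u ↔ g ∈ c1 (u : G) := fun g => by
      rw [Subtype.ext_iff, ha, mul_inv_eq_iff_eq_mul, Subgroup.mem_centralizer_singleton_iff]
    have := e5 (c1 (u : G)) hK ![1, y] (fun i => by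
      fin_cases i
      exacts [one_mem _, ⟨y, (mK y).1 h, rfl⟩]) (fun i g hg hc => by
      fin_cases i
      · simpa [show ε g 1 = 1 by simpa using e1 g 1 1] using e2 1 g hc
      · exact h0 g ((mK g).2 hg) hc) fun i j e => by
      fin_cases i <;> fin_cases j
      exacts [rfl, absurd (isConj_one_right.1 e) hy, absurd (isConj_one_left.1 e) hy, rfl]
    have hd' := m.dfc_bu (hab u.2)
    have L' := locSet_inclusion hP hK hab le_rfl (hnA _)
    obtain ⟨b', hb''⟩ := (L'.exists_indB_iff (m.bu_blk u) hd').2 (cle.refl _)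
    obtain rfl : b' = b := by
      have h8 := hb''.trans (m.indB_bu u)
      rw [Subgroup.subtype_comp_inclusion] at h8
      obtain ⟨ξ, hξ⟩ := block_nonempty hb''.1
      obtain ⟨χ, hχ⟩ := block_nonempty hB
      obtain ⟨g, hg⟩ := (ne_subtype _).exists_conj_of_cov hb.1 hθ'.1 (hb.2.2 θ hθ'.1 χ hχ).cov
        (h8.2.2 ξ hξ χ hχ).cov
      exact block_eq_of_mem hb''.1 hb.1 hξ ((hb'.iff g ξ).1 hg)
    have h8 := hI _ hK _ (ht.ge.trans' le_top) hb''
    refine absurd this (not_le.2 (Nat.lt_succ_iff.2 (Finite.card_le_one_iff_subsingleton.2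
      ⟨fun χ ψ => Subtype.ext (eq_of_rank_one (m.bu_blk u) (h6 u hu) hd'
        ⟨h8.le ⟨θ, hθ'.1, χ.2⟩, hker _ hK _ χ.2⟩ ⟨h8.le ⟨θ, hθ'.1, ψ.2⟩, hker _ hK _ ψ.2⟩)⟩)))
  · by_contra h0
    have := e5 ⊤ le_top ![1, g, g'] (fun i => by
      rw [← MonoidHom.range_eq_map, QuotientGroup.range_mk']; trivial) (fun i x _ hc => by
      fin_cases i
      · simpa [show ε x 1 = 1 by simpa using e1 x 1 1] using e2 1 x hc
      · exact h x hc
      · exact h' x hc) fun i j e => by
      fin_cases i <;> fin_cases j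
      exacts [rfl, absurd (isConj_one_right.1 e) hg, absurd (isConj_one_right.1 e) hg',
        absurd (isConj_one_left.1 e) hg, rfl, absurd e h0, absurd (isConj_one_left.1 e) hg',
        absurd e.symm h0, rfl]
    obtain ⟨χ₀, h8, h9⟩ : ∃ χ ∈ B, χ ∉ kerSet A := by
      by_contra! e
      exact hA1 (eq_bot_iff.2 fun x hx => (isPE_of_mem hP hx).eq_one
        (not_dvd_of_forall_eq hs (block_nonempty hB) fun χ hχ => e χ hχ x hx))
    have h10 := L.covSet_orb (ne_subtype _) hb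
    have := Nat.card_le_card_of_injective (fun o : Option {χ : IrrCharacter (⊤ : Subgroup G) //
      classInner (fun n : cC A => χ.1 ⟨n, trivial⟩) θ.1 ≠ 0} => (o.elim ⟨χ₀, h8⟩ fun χ =>
        ⟨⟨_, χ.1.2.comp_equiv Subgroup.topEquiv.symm⟩,
          h10.le ⟨θ, (ne_subtype _).subset_orb b hθ'.1, χ.2⟩⟩ : B)) (by
      have e : ∀ χ : {χ : IrrCharacter (⊤ : Subgroup G) //
          classInner (fun n : cC A => χ.1 ⟨n, trivial⟩) θ.1 ≠ 0},
          χ₀ ≠ ⟨_, χ.1.2.comp_equiv Subgroup.topEquiv.symm⟩ := fun χ e =>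
        h9 (e ▸ fun x hx => hker ⊤ le_top χ.1 χ.2 ⟨x, trivial⟩ hx)
      rintro (_ | χ) (_ | ψ) e'
      · rfl
      · exact absurd (congrArg Subtype.val e') (e ψ)
      · exact absurd (congrArg Subtype.val e').symm (e χ)
      · exact congrArg some (Subtype.ext (Subtype.ext (funext fun x =>
          congrFun (congrArg (·.1.1) e') x.1))))
    rw [Finite.card_option] at this
    omega

theorem card_le_three {G : Type*} [Group G] [Finite G] {B : Set (IrrCharacter G)} {A : Subgroup G}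
    [A.Normal] (hB : IsPBlock M B) (hA : IsDefectGroup p M B A) (hab : A ≤ cC A)
    (hk : Nat.card B ≤ 3) : Nat.card A ≤ 3 := card_le_three_aux _ rfl hB hA hab hk

end H7
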