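import Cfsg.Agent.H7.OT
import Cfsg.Agent.H8.PDeg
import Cfsg.Agent.H8.Ito
import Cfsg.Agent.H8.Avg2

/-! Blocks with a normal defect group `D`: nilpotency is detected on the maximal pair
(`MP.nil_of_normal`) and on any dominated block of `G/D'` (`MP.nil_of_quot`). -/

open H5 Cfsg MonoidAlgebra Subgroup
open H8
open scoped commutatorElement

namespace H7

variable {M : Ideal AlgInt} {G K : Type*} [Group G] [Finite G] [Group K] [Finite K] {p : ℕ}
  [hp : Fact p.Prime] [PM p M] {B : Set (IrrCharacter G)} {D Q : Subgroup G}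

theorem pair_sp_of_normal [D.Normal] (hD : IsPGroup p D) {f : (F M)[G]} (h : Pair p ⊤ Q f) :
    f ∈ Sp (F M) (cC D) := mem_Sp_iff.2 fun y hy => by
  have h1 := (mem_of_Sp h.blk.mem.1 hy).2
  have h2 := not_dvd_of_idem h.blk.mem h.blk.idem hy
  rw [← Br_eq_self_of_normal h.blk.mem h.blk.idem (Q := D ⊓ cC Q) (hD.to_le inf_le_left)
    (inf_le_inf_right _ le_top) (le_nN_inf (inf_le_left.trans (normalizer_eq_top D).ge)
      (inf_le_right.trans (le_nN_self _)))] at hy
  exact zpowers_le.1 (H1.thompson_PxQ p Q (zpowers y) D h.pg (by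
    rw [Nat.card_zpowers]; exact (hp.out.coprime_iff_not_dvd.2 h2).symm) hD
    (le_cC_comm.1 (zpowers_le.2 h1)) le_normalizer_of_normal le_normalizer_of_normal
    (le_cC_comm.1 (zpowers_le.2 (coeff_ne_zero_of_Br hy).1)))

theorem MP.nil_of_normal [D.Normal] (m : MP p M B D)
    (h : ∀ t ∈ St m.e, ¬ p ∣ orderOf t → t ∈ cC D) : IsNilpotentBlock p M B := by
  have key : ∀ {Q} {f e : (F M)[G]}, Le p ⊤ Q f D e → Pair p ⊤ D e → f * e = e := fun {_ _ e} l he =>
    l.induction (Pr := fun _ g => g * e = e) he.blk.idem fun R g R' g' n l' e => by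
      have := n.br
      rw [Br_eq_self (Sp_mono (cC_anti l'.le) (pair_sp_of_normal m.mx.pg n.lo))] at this
      rw [← e, ← mul_assoc, this]
  have hD : ∀ x : G, cj x D = D := fun x => mem_nN_iff.1 (le_normalizer_of_normal (mem_top x))
  refine (H8.nil_iff m.blk).2 (m.mx.nilB_iff_le.2 fun Q f l x hx h1 => ?_)
  have l' := l.cA (x := x) (le_nN_top ⊤ trivial)
  rw [hD, mem_nN_iff.1 hx.1.2, show cA x f = f from hx.2] at l'
  have h2 := l.lo m.mx.pair
  have h3 : ⊤ ⊓ cC D ≤ ⊤ ⊓ cC Q := inf_le_inf_left _ (cC_anti l.le)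
  have h4 : ⊤ ⊓ cC Q ≤ nN (⊤ ⊓ cC D) := by
    rw [top_inf_eq (cC D)]; exact le_normalizer_of_normal
  obtain ⟨c, hc, e⟩ := exists_cA_eq le_rfl h3 h4 h4 (h2.blk.of_le (ZI_mono h3 le_rfl)
    ⟨(top_inf_eq (cC D)).symm ▸ pair_sp_of_normal m.mx.pg h2, h2.blk.mem.2⟩) (l'.hi h2).blk
    m.mx.pair.blk (by rw [key l' (l'.hi h2)]; exact (l'.hi h2).blk.ne)
    (by rw [key l m.mx.pair]; exact m.mx.pair.blk.ne)
  rw [cA_cA] at e
  obtain ⟨n, hn⟩ := exists_pow_mem_of_reg h e
  refine mem_of_pow_mem (n := n) h1 ?_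
  have : ∀ j : ℕ, (c * x) ^ j * (x ^ j)⁻¹ ∈ cC Q := fun j => by
    induction j with
    | zero => simp
    | succ j ih =>
      rw [show (c * x) ^ (j + 1) * (x ^ (j + 1))⁻¹ = c * (x * ((c * x) ^ j * (x ^ j)⁻¹) * x⁻¹) by
        rw [pow_succ', pow_succ']; group]
      exact mul_mem hc.2 ((conj_mem_of_nN (nN_le_nN_cC Q hx.1.2)).2 ih)
  simpa using mul_mem (inv_mem (this (p ^ n))) (cC_anti l.le hn)

theorem MP.nil_of_quot [D.Normal] (m : MP p M B D) {π : G →* K} (hπ : Function.Surjective π)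
    (hk : π.ker ≤ ⁅D, D⁆) {b : Set (IrrCharacter K)} (hb : b ⊆ icomp π hπ ⁻¹' B)
    (hn : IsNilpotentBlock p M b) : IsNilpotentBlock p M B := by
  have hD := m.mx.pg
  have hk' : π.ker ≤ D := hk.trans (commutator_le_left _ _)
  have c0 : ∀ y, ¬ p ∣ orderOf y → π y ∈ cC (D.map π) → y ∈ cC D := fun y h1 h2 =>
    zpowers_le.1 (H1.le_centralizer_of_frattini le_normalizer_of_normal (by
      obtain ⟨n, hn⟩ := (hD.to_subgroup (frattini D)).exists_card_eq
      rw [Nat.card_zpowers, hn]; exact (hp.out.coprime_iff_not_dvd.2 h1).symm.pow_right _)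
      ((commutator_le.2 fun d hd a ha => hk (by
        rw [MonoidHom.mem_ker, map_commutatorElement, commutatorElement_eq_one_iff_mul_comm]
        exact (zpowers_le (H := (cC (D.map π)).comap π)).2 h2 ha _ ⟨d, hd, rfl⟩)).trans
        (H3.commutator_le_map_subtype_frattini hD)))
  refine m.nil_of_normal fun t ht h1 => c0 t h1 ?_
  have : (D.map π).Normal := Normal.map inferInstance π hπ
  have : ((cC D).map π).Normal := Normal.map inferInstance π hπ
  obtain ⟨e, he, e1⟩ := m.mx.pair.exists_io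
  have s := π.subgroupMap_surjective (cC D)
  have b1 := (dominated s ((hD.comap_of_injective _ (cC D).subtype_injective).to_le fun a ha =>
    hk' (congrArg Subtype.val ha)) (fun y _ a ha => Subtype.ext
      (y.2 _ (hk' (congrArg Subtype.val ha)))) he).1
  have e2 : io M _ (icomp _ s ⁻¹' e) = mp π m.e := by
    rw [← e1, io, io, ← mapDomain_fB s (isSat_of_isPBlock he), ← mp_apply, mp_mp, mp_mp]; rfl
  have b2 := e2 ▸ blk_io' b1
  have l1 : (cC D).map π ≤ cC (D.map π) := by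
    rintro _ ⟨c, hc, rfl⟩ _ ⟨d, hd, rfl⟩
    rw [← map_mul, hc d hd, map_mul]
  obtain ⟨f, f1, f2⟩ := exists_prim_above le_rfl l1 b2
  have f3 := (blk_iff_of_reg l1 fun g hg h => by
    obtain ⟨y, h2, rfl⟩ := exists_pRegular_lift hπ h
    exact ⟨y, c0 y h2 hg, rfl⟩).2 f1
  have f4 : cA (π t) f = f := by
    have h2 := f1.cA (x := π t) (le_normalizer_of_normal (mem_top _))
      (le_normalizer_of_normal (mem_top _))
    have h3 : cA (π t) f * mp π m.e = mp π m.e := by
      conv_rhs => rw [← show cA t m.e = m.e from ht, mp_cA, ← f2, map_mul, ← mp_cA,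
        show cA t m.e = m.e from ht]
    exact h2.eq_of_mul_ne_zero (comm_ZI l1) f1 fun h => b2.ne (by
      rw [← h3, ← f2, ← mul_assoc, h, zero_mul])
  have hb' := isSat_of_isPBlock hn.1
  have g1 := blk_fB_of_isPBlock hn.1
  have g2 := blk_fB_of_isPBlock m.blk
  have g3 : fB M b * mp π m.e ≠ 0 := by
    have h2 : fB M b * mp π (fB M B) = fB M b := by
      rw [mp_apply, mapDomain_fB hπ (isSat_of_isPBlock m.blk),
        hb'.fB_mul ((isSat_of_isPBlock m.blk).preimage_icomp hπ), Set.inter_eq_left.2 hb]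
    have h3 := sum_prims (comm_blk (k := F M) (⊤ ⊓ cC D))
    have h4 := g1.ne
    rw [← h2, ← mul_one (fB M B), ← h3, Finset.mul_sum, map_sum, Finset.mul_sum] at h4
    obtain ⟨e', h5, h6⟩ := Finset.exists_ne_zero_of_sum_ne_zero h4
    rw [mem_prims] at h5
    have h7 := Br_eq_self_of_normal g2.mem g2.idem hD le_top le_normalizer_of_normal
    have h8 : fB M B * e' = e' := h5.mul_eq (h7 ▸ Br_mem_blk g2.mem inf_le_left) g2.idem
      fun h => h6 (by rw [h, map_zero, mul_zero])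
    obtain ⟨x, -, h9⟩ := BP.exists_cA_eq tw_tt g2 m.mx.df m.mx.bp ⟨le_top, ⟨hD, h5⟩, h7.symm ▸ h8⟩
    intro h
    rw [h8, ← h9, mp_cA, ← cA_of_Inv g1.mem.2 (mem_top (π x)), ← map_mul, h, map_zero] at h6
    exact h6 rfl
  have g4 := Br_eq_self_of_normal g1.mem g1.idem (hD.map π) le_top le_normalizer_of_normal
  rw [← top_inf_eq (cC (D.map π))] at f3
  refine (H8.nil_iff hn.1).1 hn _ f ⟨le_top, ⟨hD.map π, f3⟩, f3.mul_eq (Br_mem_blk g1.mem inf_le_left)
    (g4.symm ▸ g1.idem) fun h => g3 ?_⟩ _ ⟨⟨trivial, le_normalizer_of_normal (mem_top _)⟩, f4⟩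
    fun h => h1 (h.trans (orderOf_map_dvd π t))
  rw [← f2, ← mul_assoc, ← g4, h, zero_mul]

end H7
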