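import Cfsg.Agent.H18.KpX
import Cfsg.Agent.S4931

set_option autoImplicit false
open H5 Cfsg

namespace H7.OdC
variable {G : Type*} [Group G] [Finite G]

theorem res_irr {H K : Subgroup G} [K.Normal] (hs : K ⊔ H = ⊤) {χ : G → ℂ}
    (hχ : IsIrrCharacter G χ) (hk : K ≤ charKer χ) : IsIrrCharacter H fun x : H => χ x := by
  obtain ⟨χ', h1, h2⟩ := hχ.exists_deflate K hk
  have := h1.comp_surjective ((QuotientGroup.mk' K).comp H.subtype) (fun y => by
    obtain ⟨g, rfl⟩ := QuotientGroup.mk_surjective y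
    have hg : g ∈ ((H ⊔ K : Subgroup G) : Set G) := by rw [sup_comm, hs]; trivial
    rw [Subgroup.mul_normal] at hg
    obtain ⟨h, hh, k, hk, rfl⟩ := hg
    exact ⟨⟨h, hh⟩, by simp [(QuotientGroup.eq_one_iff k).2 hk]⟩)
  convert this using 2 with x
  exact (h2 x).symm

theorem pC (p : ℕ) (H K : Subgroup G) [K.Normal] (hs : K ⊔ H = ⊤)
    (hK : ∀ χ, IsIrrCharacter G χ → ¬ p ∣ charDegree χ → K ≤ charKer χ) :
    ∑ᶠ χ : {χ : IrrCharacter G // ¬ p ∣ charDegree χ.1}, charDegree χ.1.1 ^ 2 ≤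
      ∑ᶠ η : {η : IrrCharacter H // ¬ p ∣ charDegree η.1}, charDegree η.1.1 ^ 2 := by
  classical
  haveI := Fintype.ofFinite G
  haveI := Fintype.ofFinite {χ : IrrCharacter G // ¬ p ∣ charDegree χ.1}
  haveI := Fintype.ofFinite {η : IrrCharacter H // ¬ p ∣ charDegree η.1}
  rw [finsum_eq_sum_of_fintype, finsum_eq_sum_of_fintype]
  let f : {χ : IrrCharacter G // ¬ p ∣ charDegree χ.1} → {η : IrrCharacter H // ¬ p ∣ charDegree η.1} :=
    fun χ => ⟨⟨fun x : H => χ.1.1 x, res_irr hs χ.1.2 (hK _ χ.1.2 χ.2)⟩, χ.2⟩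
  have hf : Function.Injective f := fun a b e => Subtype.ext (Subtype.ext (funext fun g => by
    have hg : g ∈ ((K ⊔ H : Subgroup G) : Set G) := by rw [hs]; trivial
    rw [Subgroup.normal_mul] at hg
    obtain ⟨k, hk, h, hh, rfl⟩ := hg
    have e' : a.1.1 h = b.1.1 h := congrFun (congrArg (fun z => z.1.1) e) ⟨h, hh⟩
    change a.1.1 (k * h) = b.1.1 (k * h)
    rw [hK _ a.1.2 a.2 hk h, hK _ b.1.2 b.2 hk h, e']))
  calc ∑ χ : {χ : IrrCharacter G // ¬ p ∣ charDegree χ.1}, charDegree χ.1.1 ^ 2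
      = ∑ η ∈ Finset.univ.map ⟨f, hf⟩, charDegree η.1.1 ^ 2 := by
        rw [Finset.sum_map]; rfl
    _ ≤ _ := Finset.sum_le_sum_of_subset (Finset.subset_univ _)

theorem asm (p : ℕ) [Fact p.Prime] (P : Sylow p G) (c A B : ℕ) (hc : 0 < c)
    (hA : A = ∑ᶠ η : {η : IrrCharacter (Subgroup.normalizer ((P : Subgroup G) : Set G)) //
      ¬ p ∣ charDegree η.1}, charDegree η.1.1 ^ 2)
    (hB : B = ∑ᶠ χ : {χ : IrrCharacter G // ¬ p ∣ charDegree χ.1}, charDegree χ.1.1 ^ 2)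
    (hD : Nat.card (Subgroup.normalizer ((P : Subgroup G) : Set G)) = c * A)
    (hI : A ≤ B ∧ (A = B → ∀ θ : IrrCharacter (Subgroup.normalizer ((P : Subgroup G) : Set G)),
      ¬ p ∣ charDegree θ.1 → ∃ χ : IrrCharacter G,
        ∀ x : Subgroup.normalizer ((P : Subgroup G) : Set G), χ.1 x = θ.1 x)) :
    Nat.card (Subgroup.normalizer ((P : Subgroup G) : Set G)) ≤ c * B ∧
    (Nat.card (Subgroup.normalizer ((P : Subgroup G) : Set G)) = c * B ↔
      ∃ K : Subgroup G, K.Normal ∧ K ⊓ Subgroup.normalizer ((P : Subgroup G) : Set G) = ⊥ ∧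
        K ⊔ Subgroup.normalizer ((P : Subgroup G) : Set G) = ⊤) := by
  rw [hD]
  refine ⟨Nat.mul_le_mul_left _ hI.1, fun h => ?_, fun ⟨K, h1, h2, h3⟩ => ?_⟩
  · obtain ⟨K, h1, h2, h3⟩ := (Cfsg.Agent.S4931.result p P).1 (hI.2 (Nat.eq_of_mul_eq_mul_left hc h))
    exact ⟨K, h1, h3, h2⟩
  · refine congrArg _ (le_antisymm hI.1 ?_)
    rw [hA, hB]
    exact pC p _ K h3 fun χ hχ hd => H118.KpX.le_ker p P K (eq_bot_iff.2 (h2 ▸ inf_le_inf_left _
      (Subgroup.centralizer_le_normalizer _))) χ hχ hd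

theorem card_comm (P : Subgroup G) :
    Nat.card (commutator (P.subgroupOf (Subgroup.normalizer (P : Set G)))) = Nat.card (commutator P) := by
  have e := Subgroup.subgroupOfEquivOfLe (Subgroup.le_normalizer (H := P))
  have : (commutator _).map e.toMonoidHom = commutator P := by
    rw [map_commutator_eq, MonoidHom.range_eq_top.2 e.surjective]; rfl
  rw [← this, Subgroup.card_map_of_injective e.injective]

end H7.OdC
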