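import Cfsg.Agent.H7.OT

/-! Linear algebra for symmetric local algebras with three generators: locally dependent maps
(`loc_dep`), three-dimensional spaces of singular maps (`exists_sing`), twisted characters of
three-dimensional algebras (`tw_char`) and the trace form lemma `trace_three`. -/

open Module

namespace H7

variable {k : Type*} [Field k] {X V W : Type*} [AddCommGroup X] [Module k X] [AddCommGroup V]
  [Module k V] [AddCommGroup W] [Module k W]

theorem loc_dep (f g : X →ₗ[k] W)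
    (h : ∀ x, ∃ a b : k, (a ≠ 0 ∨ b ≠ 0) ∧ a • f x + b • g x = 0) :
    (∃ a b : k, (a ≠ 0 ∨ b ≠ 0) ∧ ∀ x, a • f x + b • g x = 0) ∨
      ∃ y, ∀ x, f x ∈ k ∙ y ∧ g x ∈ k ∙ y := by
  by_cases hf : ∀ x, f x = 0
  · exact .inl ⟨1, 0, .inl one_ne_zero, fun x => by simp [hf]⟩
  push Not at hf
  obtain ⟨x0, h0⟩ := hf
  obtain ⟨a, b, hab, e⟩ := h x0
  have hb : b ≠ 0 := fun hb => by simp_all
  obtain ⟨l, hl⟩ : ∃ l : k, g x0 = l • f x0 := ⟨-(a / b), smul_right_injective _ hb (by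
    simp only [smul_smul, mul_neg, mul_div_cancel₀ _ hb]
    linear_combination (norm := module) e)⟩
  by_cases hg : ∀ x, g x - l • f x = 0
  · exact .inl ⟨-l, 1, .inr one_ne_zero, fun x => by linear_combination (norm := module) hg x⟩
  push Not at hg
  obtain ⟨x1, h1⟩ := hg
  have k1 : ∀ x, g x - l • f x ≠ 0 → ∃ c : k, f x = c • (g x - l • f x) := fun x hx => by
    obtain ⟨a, b, hab, e⟩ := h x
    have : a + b * l ≠ 0 := fun h2 => by
      have h3 : b • (g x - l • f x) = 0 := by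
        rw [show a = -(b * l) by linear_combination h2] at e
        linear_combination (norm := module) e
      have h4 := (smul_eq_zero.1 h3).resolve_right hx
      simp_all
    exact ⟨-(b / (a + b * l)), smul_right_injective _ this (by
      simp only [smul_smul, mul_neg, mul_div_cancel₀ _ this]
      linear_combination (norm := module) e)⟩
  have k2 : ∀ x, g x - l • f x ≠ 0 → f x ∈ k ∙ f x0 ∧ g x - l • f x ∈ k ∙ f x0 := fun x hx => by
    have e1 : g (x + x0) - l • f (x + x0) = g x - l • f x := by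
      rw [map_add, map_add, hl]; module
    obtain ⟨c, hc⟩ := k1 x hx
    obtain ⟨c', hc'⟩ := k1 (x + x0) (e1 ▸ hx)
    rw [e1, map_add] at hc'
    have e2 : f x0 = (c' - c) • (g x - l • f x) := by linear_combination (norm := module) hc' - hc
    have e3 : c' - c ≠ 0 := fun e => h0 (by rw [e2, e, zero_smul])
    have e4 : g x - l • f x ∈ k ∙ f x0 := Submodule.mem_span_singleton.2 ⟨(c' - c)⁻¹, by
      rw [e2, smul_smul, inv_mul_cancel₀ e3, one_smul]⟩
    exact ⟨hc ▸ Submodule.smul_mem _ _ e4, e4⟩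
  refine .inr ⟨f x0, fun x => ?_⟩
  have k3 : f x ∈ k ∙ f x0 ∧ g x - l • f x ∈ k ∙ f x0 := by
    by_cases hx : g x - l • f x = 0
    · have := (k2 (x + x1) (by
        rwa [map_add, map_add, smul_add, ← sub_add_sub_comm, hx, zero_add])).1
      rw [map_add] at this
      exact ⟨by simpa using sub_mem this (k2 x1 h1).1, hx ▸ zero_mem _⟩
    · exact k2 x hx
  exact ⟨k3.1, by simpa using add_mem k3.2 (Submodule.smul_mem _ l k3.1)⟩

variable (k) in
/-- Functions that are polynomial along lines. -/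
def Pl (f : X → k) : Prop := ∀ x v, ∃ P : Polynomial k, ∀ s : k, f (x + s • v) = P.eval s

theorem Pl.lin (f : X →ₗ[k] k) : Pl k f := fun x v =>
  ⟨.C (f x) + .X * .C (f v), fun s => by simp; exact mul_comm _ _⟩

theorem Pl.sub {f g : X → k} (hf : Pl k f) (hg : Pl k g) : Pl k fun x => f x - g x := fun x v =>
  let ⟨P, h1⟩ := hf x v
  let ⟨Q, h2⟩ := hg x v
  ⟨P - Q, fun s => by simp [h1, h2]⟩

theorem Pl.add {f g : X → k} (hf : Pl k f) (hg : Pl k g) : Pl k fun x => f x + g x := fun x v =>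
  let ⟨P, h1⟩ := hf x v
  let ⟨Q, h2⟩ := hg x v
  ⟨P + Q, fun s => by simp [h1, h2]⟩

theorem Pl.mul {f g : X → k} (hf : Pl k f) (hg : Pl k g) : Pl k fun x => f x * g x := fun x v =>
  let ⟨P, h1⟩ := hf x v
  let ⟨Q, h2⟩ := hg x v
  ⟨P * Q, fun s => by simp [h1, h2]⟩

theorem Pl.cancel [Infinite k] {f g : X → k} (hf : Pl k f) (hg : Pl k g) (h : ∀ x, f x * g x = 0)
    {x : X} (hx : f x ≠ 0) (y : X) : g y = 0 := by
  obtain ⟨P, h1⟩ := hf x (y - x)
  obtain ⟨Q, h2⟩ := hg x (y - x)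
  have : P * Q = 0 := Polynomial.funext fun s => by simp [← h1, ← h2, h]
  rcases mul_eq_zero.1 this with rfl | rfl
  · simpa [hx] using h1 0
  · simpa using h2 1

theorem exists_sing_mat [Infinite k] (A : X →ₗ[k] Matrix (Fin 3) (Fin 3) k) (h : ∀ x, (A x).det = 0)
    {x1 : X} (h1 : A x1 = !![1, 0, 0; 0, 1, 0; 0, 0, 0]) :
    (∀ x i, A x i 2 = 0) ∨ (∀ x j, A x 2 j = 0) ∨
      ∃ θ : X →ₗ[k] Fin 3 → k, θ ≠ 0 ∧ ∀ x, (A x).mulVec (θ x) = 0 := by
  classical
  let a : Fin 3 → Fin 3 → X →ₗ[k] k := fun i j => Matrix.entryLinearMap k k i j ∘ₗ A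
  have pl : ∀ i j, Pl k fun x => A x i j := fun i j => Pl.lin (a i j)
  have h2 : ∀ x, A x 2 2 = 0 ∧ A x 2 0 * A x 0 2 + A x 2 1 * A x 1 2 = 0 := fun x => by
    obtain ⟨s, hs⟩ := Infinite.exists_notMem_finset ({0, 1} : Finset k)
    simp only [Finset.mem_insert, Finset.mem_singleton, not_or] at hs
    have e0 := h x
    have e1 := h (x + x1)
    have e2 := h (x + s • x1)
    simp [h1, Matrix.det_fin_three] at e0 e1 e2
    have : A x 2 2 = 0 := by
      have : s * (s - 1) * A x 2 2 = 0 := by linear_combination e2 - s * e1 + (s - 1) * e0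
      simpa [hs.1, sub_eq_zero, hs.2] using this
    exact ⟨this, by rw [this] at e0 e1; linear_combination e0 - e1⟩
  by_contra! hc
  obtain ⟨⟨xb, i, hb⟩, ⟨xc, j, hc⟩, hθ⟩ := hc
  have h3 : ∀ x, A x 0 2 * (A x 1 0 * A x 0 2 + A x 1 1 * A x 1 2) -
      A x 1 2 * (A x 0 0 * A x 0 2 + A x 0 1 * A x 1 2) = 0 := by
    refine (pl 2 j).cancel (((pl 0 2).mul (((pl 1 0).mul (pl 0 2)).add ((pl 1 1).mul (pl 1 2)))).sub
      ((pl 1 2).mul (((pl 0 0).mul (pl 0 2)).add ((pl 0 1).mul (pl 1 2))))) (fun x => ?_) hc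
    have e0 := h x
    obtain ⟨e1, e2⟩ := h2 x
    simp [Matrix.det_fin_three, e1] at e0
    fin_cases j
    · simp only [Fin.zero_eta]
      linear_combination (-A x 1 2) * e0 + (A x 1 0 * A x 0 2 - A x 0 0 * A x 1 2) * e2
    · simp only [Fin.mk_one]
      linear_combination (A x 0 2) * e0 + (A x 1 1 * A x 0 2 - A x 0 1 * A x 1 2) * e2
    · simp [e1]
  suffices ∃ μ : X →ₗ[k] k, ∀ x, A x 0 0 * A x 0 2 + A x 0 1 * A x 1 2 = μ x * A x 0 2 ∧
      A x 1 0 * A x 0 2 + A x 1 1 * A x 1 2 = μ x * A x 1 2 by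
    obtain ⟨μ, hμ⟩ := this
    obtain ⟨x, hx⟩ := hθ (LinearMap.pi ![a 0 2, a 1 2, -μ]) fun e => by
      have e0 := congrFun (LinearMap.congr_fun e xb) 0
      have e1 := congrFun (LinearMap.congr_fun e xb) 1
      fin_cases i
      exacts [hb e0, hb e1, hb (h2 xb).1]
    refine hx (funext fun i => ?_)
    fin_cases i <;> simp [Matrix.mulVec, dotProduct, Fin.sum_univ_three, a]
    · linear_combination (hμ x).1
    · linear_combination (hμ x).2
    · linear_combination (h2 x).2 - μ x * (h2 x).1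
  by_cases b1 : ∀ x, A x 0 2 = 0
  · have b2 : A xb 1 2 ≠ 0 := by
      fin_cases i
      exacts [absurd (b1 _) hb, hb, absurd (h2 _).1 hb]
    have := ((pl 1 2).mul (pl 1 2)).cancel (pl 0 1) (fun x => by
      have := h3 x
      rw [b1] at this
      linear_combination -this) (mul_ne_zero b2 b2)
    exact ⟨a 1 1, fun x => by simp [a, b1, this]⟩
  push Not at b1
  obtain ⟨x0, h0⟩ := b1
  have prop : ∀ l : X →ₗ[k] k, (∀ x, A x 0 2 = 0 → l x = 0) → ∃ c, ∀ x, l x = c * A x 0 2 :=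
    fun l hl => ⟨l x0 / A x0 0 2, fun x => by
      have := hl (A x0 0 2 • x - A x 0 2 • x0) (by simp [mul_comm])
      simp only [map_sub, map_smul, smul_eq_mul] at this
      field_simp
      linear_combination this⟩
  by_cases b2 : ∀ x, A x 0 2 = 0 → A x 1 2 = 0
  · obtain ⟨c, hc⟩ := prop (a 1 2) b2
    replace hc : ∀ x, A x 1 2 = c * A x 0 2 := hc
    have := ((pl 0 2).mul (pl 0 2)).cancel (Pl.lin (a 1 0 + c • a 1 1 - c • (a 0 0 + c • a 0 1)))
      (fun x => by
        have := h3 x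
        simp only [hc] at this
        simp only [a, LinearMap.add_apply, LinearMap.smul_apply, LinearMap.comp_apply,
          LinearMap.sub_apply, Matrix.entryLinearMap_apply, smul_eq_mul]
        linear_combination this) (mul_ne_zero h0 h0)
    refine ⟨a 0 0 + c • a 0 1, fun x => ?_⟩
    have := this x
    simp [a, hc] at this ⊢
    exact ⟨by ring, by linear_combination A x 0 2 * this⟩
  push Not at b2
  obtain ⟨x2, b2, b3⟩ := b2
  have k1 : ∀ x, A x 0 2 = 0 → A x 1 2 ≠ 0 → A x 0 1 = 0 := fun x e1 e2 => by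
    have := h3 x
    simpa [e1, e2] using this
  obtain ⟨c, hc⟩ := prop (a 0 1) fun x hx => by
    by_cases e : A x 1 2 = 0
    · have := k1 (x + x2) (by simp [hx, b2]) (by simp [e, b3])
      simpa [k1 x2 b2 b3, a] using this
    · exact k1 x hx e
  replace hc : ∀ x, A x 0 1 = c * A x 0 2 := hc
  have := (pl 0 2).cancel ((((pl 1 0).mul (pl 0 2)).add ((pl 1 1).mul (pl 1 2))).sub
    ((Pl.lin (a 0 0 + c • a 1 2)).mul (pl 1 2))) (fun x => by
      have := h3 x
      rw [hc] at this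
      simp only [a, LinearMap.add_apply, LinearMap.smul_apply, LinearMap.comp_apply,
        Matrix.entryLinearMap_apply, smul_eq_mul]
      linear_combination this) h0
  exact ⟨a 0 0 + c • a 1 2, fun x => ⟨by simp [a, hc]; ring, sub_eq_zero.1 (this x)⟩⟩

theorem exists_sing [Infinite k] [FiniteDimensional k V] [FiniteDimensional k W]
    (hV : finrank k V = 3) (hW : finrank k W = 3) (L : V →ₗ[k] V →ₗ[k] W)
    (h1 : ∀ x, ∃ y ≠ 0, L x y = 0) (h2 : ∀ y, (∀ x, L x y = 0) → y = 0)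
    (h3 : ∀ η : Dual k W, (∀ x y, η (L x y) = 0) → η = 0) :
    (∃ y₁ y₂ ω, LinearIndependent k ![y₁, y₂] ∧ ∀ x, L x y₁ ∈ k ∙ ω ∧ L x y₂ ∈ k ∙ ω) ∨
      ∃ θ : V →ₗ[k] V, Function.Injective θ ∧ ∀ x, L x (θ x) = 0 := by
  by_cases hr : ∀ x u v, ¬ LinearIndependent k ![L x u, L x v]
  · have : Nontrivial V := nontrivial_of_finrank_pos (R := k) (by omega)
    obtain ⟨u, hu⟩ := exists_ne (0 : V)
    obtain ⟨v, h⟩ := exists_linearIndependent_pair_of_one_lt_finrank (R := k) (by omega) hu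
    rcases loc_dep (L.flip u) (L.flip v) fun x => by
      simpa [LinearIndependent.pair_iff, imp_iff_not_or, and_comm] using hr x u v with
      ⟨a, b, hab, e⟩ | ⟨ω, e⟩
    · have := LinearIndependent.pair_iff.1 h a b (h2 _ fun x => by simpa using e x)
      simp [this] at hab
    · exact .inl ⟨u, v, ω, h, e⟩
  push Not at hr
  obtain ⟨x1, u, v, huv⟩ := hr
  obtain ⟨y, y0, hy⟩ := h1 x1
  obtain ⟨ω, hω⟩ := exists_linearIndependent_snoc_of_lt_finrank huv (by omega)
  have i1 : LinearIndependent k ![u, v, y] := Fintype.linearIndependent_iff.2 fun g hg i => by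
    simp only [Fin.sum_univ_three, Matrix.cons_val] at hg
    have := LinearIndependent.pair_iff.1 huv (g 0) (g 1) (by simpa [hy] using congrArg (L x1) hg)
    fin_cases i
    exacts [this.1, this.2, by simpa [this, y0] using hg]
  let bV := basisOfLinearIndependentOfCardEqFinrank i1 (by simp [hV])
  let bW := basisOfLinearIndependentOfCardEqFinrank hω (by simp [hW])
  have w0 : bW 0 = L x1 u := by simp [bW]
  have w1 : bW 1 = L x1 v := by simp [bW]
  rcases exists_sing_mat ((LinearMap.toMatrix bV bW).toLinearMap ∘ₗ L) (fun x => by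
      obtain ⟨z, z0, hz⟩ := h1 x
      refine Matrix.exists_mulVec_eq_zero_iff.1 ⟨bV.repr z, by simpa using z0, ?_⟩
      simp [LinearMap.toMatrix_mulVec_repr, hz]) (x1 := x1) (by
      ext i j
      fin_cases j <;> simp [LinearMap.toMatrix_apply, bV, ← w0, ← w1, hy] <;> fin_cases i <;> simp)
    with h | h | ⟨θ, θ0, h⟩
  · exact absurd (h2 y fun x => bW.ext_elem fun i => by
      simpa [LinearMap.toMatrix_apply, bV] using h x i) y0
  · have := h3 (bW.coord 2) fun x => LinearMap.congr_fun (g := 0) (f := bW.coord 2 ∘ₗ L x)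
      (bV.ext fun j => by simpa [LinearMap.toMatrix_apply] using h x j)
    simpa using LinearMap.congr_fun this (bW 2)
  let ϑ := bV.equivFun.symm.toLinearMap ∘ₗ θ
  have t1 : ∀ x, L x (ϑ x) = 0 := fun x => bW.repr.injective (by
    ext i
    have := h x
    rw [show θ x = bV.repr (ϑ x) from (bV.equivFun.apply_symm_apply _).symm] at this
    simpa [LinearMap.toMatrix_mulVec_repr] using congrFun this i)
  have t2 : ∀ x x', L x (ϑ x') = - L x' (ϑ x) := fun x x' => by
    have := t1 (x + x')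
    simp only [map_add, LinearMap.add_apply, t1] at this
    linear_combination (norm := module) this
  by_cases hi : Function.Injective ϑ
  · exact .inr ⟨ϑ, hi, t1⟩
  obtain ⟨a, ha⟩ : ∃ a, ϑ a ≠ 0 := not_forall.1 fun e => θ0 (LinearMap.ext fun x =>
    bV.equivFun.symm.injective ((e x).trans (map_zero _).symm))
  obtain ⟨b, hb⟩ : ∃ b, ϑ b ∉ k ∙ ϑ a := not_forall.1 fun e => ha (h2 _ fun x => by
    obtain ⟨c, hc⟩ := Submodule.mem_span_singleton.1 (e x)
    rw [t2, ← hc, map_smul, t1, smul_zero, neg_zero])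
  have i2 : LinearIndependent k ![ϑ b, ϑ a] := linearIndependent_fin_cons.2 ⟨by simpa, by simpa⟩
  have e : Submodule.span k (Set.range ![ϑ b, ϑ a]) = LinearMap.range ϑ :=
    Submodule.eq_of_le_of_finrank_le (Submodule.span_le.2 (by
      rintro _ ⟨i, rfl⟩; fin_cases i <;> simp)) (by
      have := ϑ.finrank_range_add_finrank_ker
      have := Submodule.one_le_finrank_iff.2 (mt LinearMap.ker_eq_bot.1 hi)
      rw [finrank_span_eq_card i2, Fintype.card_fin]
      omega)
  refine .inl ⟨_, _, L a (ϑ b), i2, fun x => ?_⟩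
  obtain ⟨c, hc⟩ := (Submodule.mem_span_range_iff_exists_fun k).1 (e.ge ⟨x, rfl⟩)
  simp only [Fin.sum_univ_two, Matrix.cons_val] at hc
  rw [t2 x, t2 x, ← hc]
  simp only [map_add, map_smul, t1, t2 b a, Submodule.mem_span_singleton]
  exact ⟨⟨c 1, by module⟩, -c 0, by module⟩

theorem tw_char [IsAlgClosed k] [FiniteDimensional k V] (hV : finrank k V = 3)
    (μ : V →ₗ[k] V →ₗ[k] V) {x : V} (hx : ∀ v, μ x v = v) (hσ : Function.Injective (μ.flip x))
    (ha : ∀ u v w, μ (μ u v) w = μ (μ u x) (μ v w))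
    (h2 : ∀ φ : Dual k V, (∀ u v, φ (μ u v) = φ (μ v u)) → φ = 0)
    (h3 : ∀ φ : Dual k V, (∀ u y, φ (μ (μ u x) y) = φ (μ y u)) → φ = 0) : False := by
  let σ := LinearEquiv.ofInjectiveEndo _ hσ
  have hs : ∀ u, μ u x = σ u := fun _ => rfl
  have sx : σ x = x := hx x
  let Ch : Dual k V → Prop := fun l => l x = 1 ∧ ∀ u v, l (μ u v) = l (σ u) * l v
  have c1 : ∀ l, Ch l → Ch (l ∘ₗ σ.toLinearMap) := fun l h => ⟨by simpa [sx] using h.1, fun u v => by
    simp only [LinearMap.comp_apply, LinearEquiv.coe_coe, ← h.2]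
    rw [← hs, ha, hs, hs]⟩
  have ind : ∀ {n} (l : Fin n → Dual k V), (∀ i, Ch (l i)) → Function.Injective l →
      LinearIndependent k l := fun l h hi => by
    letI : MulOneClass V :=
      { mul := fun u v => μ (σ.symm u) v, one := x
        one_mul := fun v => (congrArg (μ · v) (σ.symm_apply_eq.2 sx.symm)).trans (hx v)
        mul_one := fun v => σ.apply_symm_apply v }
    let f : _ → V →* k := fun i => ⟨⟨l i, (h i).1⟩, fun u v =>
      ((h i).2 _ _).trans (by rw [σ.apply_symm_apply])⟩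
    exact .of_comp (LinearMap.ltoFun k V k k) ((linearIndependent_monoidHom V k).comp f
      fun i j e => hi (LinearMap.ext fun v => DFunLike.congr_fun e v))
  have x0 : x ≠ 0 := fun e => by
    have : Subsingleton V := ⟨fun a b => by rw [← hx a, ← hx b, e]; simp⟩
    simp [finrank_zero_of_subsingleton] at hV
  obtain ⟨l, hl⟩ : ∃ l, Ch l := by
    have : Nontrivial V := ⟨x, 0, x0⟩
    obtain ⟨a, h⟩ := exists_linearIndependent_pair_of_one_lt_finrank (R := k) (by omega) x0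
    obtain ⟨c, hc⟩ := Module.End.exists_eigenvalue (μ a)
    obtain ⟨v, hv⟩ := hc.exists_hasEigenvector
    have a0 : a - c • x ≠ 0 := fun e => by
      simpa using (LinearIndependent.pair_iff.1 h (-c) 1 (by linear_combination (norm := module) e)).2
    have a1 : μ (a - c • x) v = 0 := by simp [hv.apply_eq_smul, hx]
    generalize a - c • x = a at *
    let I := LinearMap.range (μ.flip a)
    have i1 : ∀ u, ∀ y ∈ I, μ u y ∈ I := by
      rintro u _ ⟨w, rfl⟩
      exact ⟨μ (σ.symm u) w, by simp [ha, hs]⟩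
    have i2 : a ∈ I := ⟨x, hx a⟩
    have i3 : I ≠ ⊤ := fun e => by
      obtain ⟨u, hu⟩ := e.ge (Submodule.mem_top (x := x))
      have := ha u a v
      rw [show μ u a = x from hu, hx, a1, map_zero] at this
      exact hv.2 this
    have i4 := Submodule.finrank_lt i3
    have i5 := Submodule.one_le_finrank_iff.2 fun e : I = ⊥ => a0 (e.le i2)
    have key : ∀ (η : Dual k V) v0, η v0 = 1 → (∀ u w, η (μ u (μ w v0)) = η (μ u v0) * η (μ w v0)) →
        ∃ l, Ch l := fun η v0 e1 e2 => ⟨η ∘ₗ μ.flip v0, by simp [hx, e1], fun u w => by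
          simp [ha, hs, e2]⟩
    by_cases h1 : finrank k I = 1
    · obtain ⟨η, hη⟩ := (show ∃ η : Dual k V, η a = 1 by
        obtain ⟨η, h⟩ := not_forall.1 (mt (forall_dual_apply_eq_zero_iff k a).1 a0)
        exact ⟨(η a)⁻¹ • η, inv_mul_cancel₀ h⟩)
      refine key η a hη fun u w => ?_
      obtain ⟨c, hc⟩ := Submodule.mem_span_singleton.1 ((Submodule.eq_of_le_of_finrank_le
        ((Submodule.span_singleton_le_iff_mem _ _).2 i2) (by rw [finrank_span_singleton a0, h1])).ge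
        (i1 w a i2))
      simp [← hc, hη, mul_comm]
    · obtain ⟨η, η0, hη⟩ := Submodule.exists_le_ker_of_lt_top I i3.lt_top
      obtain ⟨v0, h0⟩ := LinearMap.surjective η0 1
      have e : I = LinearMap.ker η := Submodule.eq_of_le_of_finrank_le hη (by
        have := Submodule.finrank_lt (mt LinearMap.ker_eq_top.1 η0)
        omega)
      refine key η v0 h0 fun u w => ?_
      have := e.le (i1 u _ (e.ge (show μ w v0 - η (μ w v0) • v0 ∈ _ by simp [h0])))
      simpa [sub_eq_zero, mul_comm] using this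
  set l1 := l ∘ₗ σ.toLinearMap with e1
  set l2 := l1 ∘ₗ σ.toLinearMap with e2
  set l3 := l2 ∘ₗ σ.toLinearMap with e3
  have p1 : Ch l1 := c1 _ hl
  have p2 : Ch l2 := c1 _ p1
  have p3 : Ch l3 := c1 _ p2
  have cn : ∀ {a b : Dual k V}, a ∘ₗ σ.toLinearMap = b ∘ₗ σ.toLinearMap → a = b := fun e =>
    (LinearMap.cancel_right σ.surjective).1 e
  have s1 : ∀ u, l (σ u) = l1 u := fun _ => rfl
  have s2 : ∀ u, l1 (σ u) = l2 u := fun _ => rfl
  have s3 : ∀ u, l2 (σ u) = l3 u := fun _ => rfl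
  have n1 : l1 ≠ l := fun e => by
    simpa [hl.1] using LinearMap.congr_fun (h2 l fun u v => by
      rw [hl.2, hl.2, s1, s1, e, mul_comm]) x
  have n2 : l2 ≠ l := fun e => by
    have := Fintype.linearIndependent_iff.1 (ind ![l, l1] (by simp [Fin.forall_fin_two, hl, p1])
      (by simp [Function.Injective, Fin.forall_fin_two, n1, n1.symm])) 1 (by
        simpa using h2 (l + l1) fun u v => by
          simp only [LinearMap.add_apply, hl.2, p1.2, s1, s2, e]; ring) 0
    simp at this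
  have n3 : l2 ≠ l1 := mt cn n1
  have n4 : l3 ≠ l := fun e => by
    have e' : ∀ u, l3 (σ u) = l1 u := fun u => by rw [e, s1]
    have := Fintype.linearIndependent_iff.1 (ind ![l, l1, l2] (by simp [Fin.forall_fin_succ, hl, p1, p2])
      (by simp [Function.Injective, Fin.forall_fin_succ, n1, n1.symm, n2, n2.symm, n3, n3.symm])) 1 (by
        simpa [Fin.sum_univ_three] using h3 (l + l1 + l2) fun u v => by
          simp only [LinearMap.add_apply, hs, hl.2, p1.2, p2.2, s1, s2, s3, e]; ring) 0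
    simp at this
  have n5 : l3 ≠ l1 := mt cn n2
  have n6 : l3 ≠ l2 := mt cn n3
  have := (ind ![l, l1, l2, l3] (by simp [Fin.forall_fin_succ, hl, p1, p2, p3])
    (by simp [Function.Injective, Fin.forall_fin_succ, n1, n1.symm, n2, n2.symm, n3, n3.symm,
      n4, n4.symm, n5, n5.symm, n6, n6.symm])).fintype_card_le_finrank
  simp [hV] at this

variable {R : Type*} [Ring R] [Algebra k R]

theorem alt_four [FiniteDimensional k V] (hV : finrank k V = 3) (p₁ p₂ p₃ p₄ : V →ₗ[k] R)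
    (s : R →ₗ[k] k) (h1 : ∀ a c d, s (p₁ a * p₂ a * p₃ c * p₄ d) = 0)
    (h2 : ∀ a b d, s (p₁ a * p₂ b * p₃ b * p₄ d) = 0)
    (h3 : ∀ a b c, s (p₁ a * p₂ b * p₃ c * p₄ c) = 0) (a b c d : V) :
    s (p₁ a * p₂ b * p₃ c * p₄ d) = 0 := by
  have s1 : ∀ a b c d, s (p₁ a * p₂ b * p₃ c * p₄ d) = -s (p₁ b * p₂ a * p₃ c * p₄ d) :=
    fun a b c d => by
      have := h1 (a + b) c d
      simp only [map_add, add_mul, mul_add, h1] at this
      linear_combination this
  have s2 : ∀ a b c d, s (p₁ a * p₂ b * p₃ c * p₄ d) = -s (p₁ a * p₂ c * p₃ b * p₄ d) :=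
    fun a b c d => by
      have := h2 a (b + c) d
      simp only [map_add, add_mul, mul_add, h2] at this
      linear_combination this
  let e := finBasisOfFinrankEq k V hV
  have key : ∀ i j m n, s (p₁ (e i) * p₂ (e j) * p₃ (e m) * p₄ (e n)) = 0 := fun i j m n => by
    rcases (by decide : ∀ i j m n : Fin 3, i = j ∨ j = m ∨ m = n ∨ i = m ∨ j = n ∨ i = n) i j m n with
      rfl | rfl | rfl | rfl | rfl | rfl
    exacts [h1 .., h2 .., h3 .., by rw [s1, h2, neg_zero], by rw [s2, h3, neg_zero],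
      by rw [s1, s2, h3, neg_zero, neg_zero]]
  rw [← e.sum_repr a, ← e.sum_repr b, ← e.sum_repr c, ← e.sum_repr d]
  simp only [map_sum, map_smul, Finset.sum_mul, Finset.mul_sum, smul_mul_assoc, mul_smul_comm, key,
    smul_zero, Finset.sum_const_zero]

theorem tri_abs [Infinite k] [FiniteDimensional k V] [FiniteDimensional k W] (hV : finrank k V = 3)
    (w3 : finrank k W ≤ 3) (μ : V →ₗ[k] V →ₗ[k] W) (Λ : W →ₗ[k] X →ₗ[k] Dual k V)
    (Γ : X → V →ₗ[k] Dual k W) (l2 : ∀ u v w c, Γ w u (μ v c) = Λ (μ u v) w c)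
    (l3 : ∀ ω, Λ ω = 0 → ω = 0) (l4 : ∀ u v, μ u v = 0 ↔ ∀ a w, Λ (μ a u) w v = 0)
    (l5 : ∀ y, (∀ x, μ x y = 0) ↔ ∀ x, μ y x = 0)
    (sym0 : ∀ η : Dual k W, (∀ u v, η (μ u v) = η (μ v u)) → η = 0)
    (h1 : ∃ a b w c, Λ (μ a b) w c ≠ 0) :
    finrank k W = 3 ∧ (∀ y, (∀ x, μ x y = 0) → y = 0) ∧ ((∀ x, ∃ y ≠ 0, μ x y = 0) →
      ∃ θ : V →ₗ[k] V, Function.Injective θ ∧ ∀ x, μ x (θ x) = 0) := by
  have P1 : ¬ finrank k W ≤ 1 := fun h => by
    obtain ⟨ω, hω⟩ := finrank_le_one_iff.1 h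
    obtain ⟨a, b, w, c, hc⟩ := h1
    have ω0 : ω ≠ 0 := by
      rintro rfl
      obtain ⟨x, hx⟩ := hω (μ a b)
      simp [← hx] at hc
    obtain ⟨η, hη⟩ := Projective.exists_dual_eq_one k ω0
    have e : ∀ u v, μ u v = η (μ u v) • ω := fun u v => by
      obtain ⟨c, hc⟩ := hω (μ u v)
      simp [← hc, hη]
    have e1 : ∀ a b c, η (μ b c) * Γ w a ω = η (μ a b) * Λ ω w c := fun a b c => by
      have := l2 a b w c
      rw [e b c, e a b] at this
      simpa using this
    rw [e a b] at hc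
    simp only [map_smul, LinearMap.smul_apply, smul_eq_mul] at hc
    have g0 := right_ne_zero_of_mul hc
    have f0 := right_ne_zero_of_mul (e1 a b c ▸ hc)
    have n0 := left_ne_zero_of_mul (e1 a b c ▸ hc)
    have e3 : ∀ v z, η (μ v z) * Λ ω w c = η (μ v c) * Λ ω w z := fun v z =>
      mul_left_cancel₀ f0 (by linear_combination Λ ω w c * e1 a v z - Λ ω w z * e1 a v c)
    have := sym0 η fun u v => mul_left_cancel₀ (mul_ne_zero n0 g0) (by
      linear_combination η (μ b c) * (e3 u v - e3 v u) + η (μ v c) * (e1 b u c + e3 b u) -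
        η (μ u c) * (e1 b v c + e3 b v))
    simp [this] at hη
  have nd : ∀ y, (∀ x, μ x y = 0) → y = 0 := fun y hy => by_contra fun y0 => P1 (by
    obtain ⟨u, h⟩ := exists_linearIndependent_pair_of_one_lt_finrank (R := k) (by omega) y0
    obtain ⟨v, h⟩ := exists_linearIndependent_snoc_of_lt_finrank h (by omega)
    let b := basisOfLinearIndependentOfCardEqFinrank h (by simp [hV])
    have b0 : b 0 = y := by simp [b]
    have : Function.Injective (Dual.eval k _ (μ (b 1) (b 2) - μ (b 2) (b 1))) :=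
      (injective_iff_map_eq_zero _).2 fun η e => sym0 η fun u v =>
        LinearMap.congr_fun₂ (show μ.compr₂ η = μ.flip.compr₂ η from b.ext fun i => b.ext fun j => by
          rw [Dual.eval_apply, map_sub, sub_eq_zero] at e
          fin_cases i <;> fin_cases j <;> simp [b0, hy, (l5 y).1 hy, e]) u v
    simpa using LinearMap.finrank_le_finrank_of_injective this)
  have P2 : finrank k W ≠ 2 := fun h => by
    let b := finBasisOfFinrankEq k W h
    have hb : ∀ ω, ∃ α β : k, ω = α • b 0 + β • b 1 := fun ω =>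
      ⟨_, _, (b.sum_repr ω).symm.trans (Fin.sum_univ_two _)⟩
    rcases loc_dep (Λ (b 0)) (Λ (b 1)) fun w => by
      obtain ⟨a, ha, a0⟩ := Submodule.exists_mem_ne_zero_of_ne_bot
        (LinearMap.ker_ne_bot_of_finrank_lt (f := Γ w) (by simp [hV, h]))
      obtain ⟨c, hc⟩ := not_forall.1 (mt (fun e => nd a ((l5 a).2 e)) a0)
      have : Λ (μ a c) w = 0 := LinearMap.ext fun c => by rw [← l2, ha]; rfl
      obtain ⟨α, β, e⟩ := hb (μ a c)
      rw [e] at this hc
      exact ⟨α, β, by_contra fun e => hc (by simp [not_or, not_not] at e; simp [e]), by simpa using this⟩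
      with ⟨α, β, hab, e⟩ | ⟨y, e⟩
    · have := Fintype.linearIndependent_iff.1 b.linearIndependent ![α, β] (l3 _
        (LinearMap.ext fun x => by simpa using e x))
      simpa [show α = 0 from this 0, show β = 0 from this 1] using hab
    · obtain ⟨c, hc, c0⟩ := Submodule.exists_mem_ne_zero_of_ne_bot
        (LinearMap.ker_ne_bot_of_finrank_lt (f := y) (by simp [hV]))
      refine c0 (nd c fun x => (l4 _ _).2 fun a w => ?_)
      obtain ⟨α, hα⟩ := Submodule.mem_span_singleton.1 (e w).1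
      obtain ⟨β, hβ⟩ := Submodule.mem_span_singleton.1 (e w).2
      obtain ⟨α', β', e⟩ := hb (μ a x)
      simp [e, ← hα, ← hβ, show y c = 0 from hc]
  have P3 : finrank k W = 3 := by omega
  refine ⟨P3, nd, fun hs => (exists_sing hV P3 μ hs nd
    fun η h => sym0 η fun u v => by rw [h, h]).resolve_left ?_⟩
  rintro ⟨y₁, y₂, ω, hy, h⟩
  let Y := Fintype.linearCombination k ![y₁, y₂]
  have Y0 : ∀ s, Y s = 0 → s = 0 := fun s e => funext (Fintype.linearIndependent_iff.1 hy s e)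
  have Y1 : ∀ x s, ∃ c : k, c • ω = μ x (Y s) := fun x s => Submodule.mem_span_singleton.1 (by
    simpa [Y, Fintype.linearCombination_apply] using
      add_mem (Submodule.smul_mem _ (s 0) (h x).1) (Submodule.smul_mem _ (s 1) (h x).2))
  have Y2 : ∀ f : (Fin 2 → k) →ₗ[k] W, (∀ s, ∃ c : k, c • ω = f s) → ∃ s ≠ 0, f s = 0 := fun f hf => by
    obtain ⟨s, h1, h2⟩ := Submodule.exists_mem_ne_zero_of_ne_bot (LinearMap.ker_ne_bot_of_finrank_lt
      (f := f.codRestrict (k ∙ ω) fun s => Submodule.mem_span_singleton.2 (hf s))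
      ((finrank_span_le_card _).trans_lt (by simp)))
    exact ⟨s, h2, congrArg Subtype.val h1⟩
  have Y3 : ∀ s s', μ (Y s) (Y s') = 0 := fun s s' => by
    obtain ⟨r, r0, hr⟩ := Y2 (μ.flip (Y s') ∘ₗ Y) fun r => Y1 _ _
    obtain ⟨x, hx⟩ := not_forall.1 (mt (nd _) (mt (Y0 r) r0))
    obtain ⟨c, hc⟩ := Y1 x r
    refine (l4 _ _).2 fun a w => ?_
    obtain ⟨c', hc'⟩ := Y1 a s
    have := (l4 _ _).1 hr x w
    rw [← hc] at this hx
    simp only [map_smul, LinearMap.smul_apply, smul_eq_zero, not_or] at this hx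
    simp [← hc', this.resolve_left hx.1]
  obtain ⟨x, hx⟩ := exists_linearIndependent_snoc_of_lt_finrank hy (by omega)
  let b := basisOfLinearIndependentOfCardEqFinrank hx (by simp [hV])
  obtain ⟨s, s0, hs⟩ := Y2 (μ x ∘ₗ Y) (Y1 x)
  refine s0 (Y0 s (nd _ fun u => LinearMap.congr_fun (show μ.flip (Y s) = 0 from b.ext fun i => ?_) u))
  fin_cases i
  · simpa [b, Y] using Y3 (Pi.single 0 1) s
  · simpa [b, Y] using Y3 (Pi.single 1 1) s
  · simpa [b] using hs

theorem exists_fac [FiniteDimensional k V] (f : V →ₗ[k] W) : ∃ d, ∃ j : (Fin d → k) →ₗ[k] W,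
    ∃ j' : W →ₗ[k] Fin d → k, (∀ x, j' (j x) = x) ∧ (∀ γ, j (j' (f γ)) = f γ) ∧
      Function.Surjective (j' ∘ₗ f) := by
  let e := (finBasis k (LinearMap.range f)).equivFun
  obtain ⟨j', h⟩ := ((LinearMap.range f).subtype ∘ₗ e.symm.toLinearMap).exists_leftInverse_of_injective
    (LinearMap.ker_eq_bot.2 (Subtype.val_injective.comp e.symm.injective))
  have h1 := LinearMap.congr_fun h
  refine ⟨_, _, j', h1, fun γ => ?_, fun x => ?_⟩
  · have := h1 (e ⟨_, γ, rfl⟩)
    simp only [LinearMap.comp_apply, LinearEquiv.coe_coe, LinearEquiv.symm_apply_apply,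
      Submodule.subtype_apply, LinearMap.id_apply] at this ⊢
    rw [this, LinearEquiv.symm_apply_apply]
  · obtain ⟨γ, hγ⟩ := (e.symm x).2
    exact ⟨γ, (congrArg j' hγ).trans (h1 x)⟩

/-- The trace pairing with a subspace. -/
def tp (t : R →ₗ[k] k) (N : Submodule k R) : R →ₗ[k] Dual k N :=
  ((LinearMap.mul k R).compr₂ t).domRestrict₂ N

theorem tp_eq_zero {t : R →ₗ[k] k} {N : Submodule k R} {a : R} :
    tp t N a = 0 ↔ ∀ w ∈ N, t (a * w) = 0 :=
  ⟨fun h w hw => LinearMap.congr_fun h ⟨w, hw⟩, fun h => LinearMap.ext fun w => h w w.2⟩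

section trace

variable {t : R →ₗ[k] k} (sym : ∀ a b, t (a * b) = t (b * a)) {ι : V →ₗ[k] R} {j n : ℕ} {a w : R}

theorem pw_ml (u : V) (h : w ∈ LinearMap.range ι ^ j) : ι u * w ∈ LinearMap.range ι ^ (j + 1) :=
  pow_succ' (LinearMap.range ι) j ▸ Submodule.mul_mem_mul ⟨u, rfl⟩ h

theorem pw_mr (u : V) (h : w ∈ LinearMap.range ι ^ j) : w * ι u ∈ LinearMap.range ι ^ (j + 1) :=
  pow_succ (LinearMap.range ι) j ▸ Submodule.mul_mem_mul h ⟨u, rfl⟩

theorem tp_r : tp t (LinearMap.range ι ^ (j + 1)) a = 0 ↔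
    ∀ u, tp t (LinearMap.range ι ^ j) (a * ι u) = 0 := by
  simp only [tp_eq_zero]
  refine ⟨fun h u w hw => by rw [mul_assoc, h _ (pw_ml u hw)], fun h w hw => ?_⟩
  rw [pow_succ'] at hw
  refine Submodule.mul_induction_on hw (fun x hx y hy => ?_) fun x y h1 h2 => by
    rw [mul_add, map_add, h1, h2, add_zero]
  obtain ⟨u, rfl⟩ := hx
  rw [← mul_assoc, h u y hy]

include sym

theorem tp_l : tp t (LinearMap.range ι ^ (j + 1)) a = 0 ↔
    ∀ u, tp t (LinearMap.range ι ^ j) (ι u * a) = 0 := by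
  simp only [tp_eq_zero]
  refine ⟨fun h u w hw => by rw [mul_assoc, sym, mul_assoc, h _ (pw_mr u hw)], fun h w hw => ?_⟩
  rw [pow_succ] at hw
  refine Submodule.mul_induction_on hw (fun x hx y hy => ?_) fun x y h1 h2 => by
    rw [mul_add, map_add, h1, h2, add_zero]
  obtain ⟨u, rfl⟩ := hy
  rw [← mul_assoc, sym, ← mul_assoc, h u x hx]

theorem trace_bij [IsAlgClosed k] [FiniteDimensional k V] (hV : finrank k V = 3) {x : V}
    (ν : V →ₗ[k] V →ₗ[k] V) (hx : ∀ v, ν x v = v)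
    (hν : ∀ u v, tp t (LinearMap.range ι ^ (n + 2)) (ι u * ι v - ι x * ι (ν u v)) = 0)
    (nd : ∀ y, tp t (LinearMap.range ι ^ (n + 3)) (ι y) = 0 → y = 0)
    (h2 : ∀ φ : Dual k V, (∀ u v, φ (ν u v) = φ (ν v u)) → φ = 0)
    (h3 : ∀ u v w, ∃ c ∈ Submodule.span k {c | ∃ u v w, ι u * (ι v * ι w) - ι v * ι w * ι u = c},
      tp t (LinearMap.range ι ^ (n + 1)) (ι u * ι v * ι w - c) = 0) : False := by
  have xp : ∀ j, ι x ^ j ∈ LinearMap.range ι ^ j := fun j => Submodule.pow_mem_pow _ (LinearMap.mem_range_self ι x) j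
  have pw : ∀ j i, i + j = n + 2 → ∀ w ∈ LinearMap.range ι ^ (j + 1), ∃ u,
      tp t (LinearMap.range ι ^ (i + 1)) (w - ι x ^ j * ι u) = 0 := fun j => by
    induction j with
    | zero =>
      rintro i - w hw
      obtain ⟨u, rfl⟩ := (pow_one (LinearMap.range ι)).le hw
      exact ⟨u, by simp⟩
    | succ j ih =>
      intro i hi w hw
      rw [pow_succ] at hw
      refine Submodule.mul_induction_on hw (fun y hy z hz => ?_) fun y z ⟨u, h1⟩ ⟨v, h2⟩ =>
        ⟨u + v, by rw [map_add, mul_add, add_sub_add_comm, map_add, h1, h2, add_zero]⟩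
      obtain ⟨v, rfl⟩ := hz
      obtain ⟨u, hu⟩ := ih (i + 1) (by omega) y hy
      refine ⟨ν u v, tp_eq_zero.2 fun w hw => ?_⟩
      have e1 := tp_eq_zero.1 (tp_r.1 hu v) w hw
      have e2 := tp_eq_zero.1 (hν u v) (w * ι x ^ j) (by
        rw [show n + 2 = i + 1 + j by omega, pow_add]; exact Submodule.mul_mem_mul hw (xp j))
      rw [← mul_assoc, sym] at e2
      simp only [sub_mul, mul_sub, map_sub, mul_assoc, pow_succ] at e1 e2 ⊢
      linear_combination e1 + e2
  let B : V →ₗ[k] V →ₗ[k] k := ((LinearMap.mul k R).compl₁₂ ι ι).compr₂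
    (t ∘ₗ LinearMap.mulLeft k (ι x ^ (n + 2)))
  have hB : ∀ u v, B u v = t (ι x ^ (n + 2) * (ι u * ι v)) := fun _ _ => rfl
  have b1 : Function.Injective B.flip := (injective_iff_map_eq_zero _).2 fun v hv =>
    nd v (tp_eq_zero.2 fun w hw => by
      obtain ⟨u, hu⟩ := pw (n + 2) 0 (by omega) w hw
      have e1 := tp_eq_zero.1 hu (ι v) (by simp)
      have e2 := LinearMap.congr_fun hv u
      rw [sub_mul, map_sub, mul_assoc, ← hB, show B u v = 0 from e2, sub_zero] at e1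
      rw [sym, e1])
  have b2 : Function.Injective B := (LinearMap.injective_iff_surjective_of_finrank_eq_finrank
    Subspace.dual_finrank_eq.symm).2 (LinearMap.flip_injective_iff₁.1 b1)
  let f := tp t (LinearMap.range ι ^ (n + 1)) ∘ₗ LinearMap.mulLeft k (ι x * ι x) ∘ₗ ι
  have f1 : Function.Injective f := (injective_iff_map_eq_zero _).2 fun v hv =>
    (injective_iff_map_eq_zero _).1 b2 v (LinearMap.ext fun u => by
      have := tp_eq_zero.1 hv _ (pw_ml u (xp n))
      rw [← mul_assoc, sym] at this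
      simpa [hB, pow_succ, mul_assoc] using this)
  have f2 : ∀ u v w, tp t (LinearMap.range ι ^ (n + 1)) (ι u * ι v * ι w) = f (ν (ν u v) w) :=
    fun u v w => by
      have e1 := tp_r.1 (hν u v) w
      have e2 := (tp_l sym).1 (hν (ν u v) w) x
      simp only [sub_mul, mul_sub, map_sub, mul_assoc, sub_eq_zero] at e1 e2 ⊢
      simpa [f, mul_assoc] using e1.trans e2
  have f3 : ∀ u v w, ν (ν u v) w = ν (ν u x) (ν v w) := fun u v w => f1 (by
    have e1 := (tp_l sym).1 (hν v w) u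
    rw [← f2, ← f2]
    simpa only [mul_sub, map_sub, mul_assoc, sub_eq_zero] using e1)
  refine tw_char hV ν hx ((injective_iff_map_eq_zero _).2 fun u hu =>
    (injective_iff_map_eq_zero _).1 b1 u (LinearMap.ext fun v => ?_)) f3 h2 fun φ hφ => ?_
  · have := tp_eq_zero.1 (hν u x) _ (pw_mr v (xp (n + 1)))
    rw [show ν u x = 0 from hu, map_zero, mul_zero, sub_zero, mul_assoc, sym] at this
    simpa [hB, pow_succ' (ι x) (n + 1), mul_assoc] using this
  obtain ⟨g, hg⟩ := f.exists_leftInverse_of_injective (LinearMap.ker_eq_bot.2 f1)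
  replace hg : ∀ v, g (f v) = v := LinearMap.congr_fun hg
  refine LinearMap.ext fun w => ?_
  obtain ⟨c, h1, h2⟩ := h3 x x w
  have := (Submodule.span_le (p := LinearMap.ker (φ ∘ₗ g ∘ₗ tp t (LinearMap.range ι ^ (n + 1))))).2 (by
    rintro _ ⟨u, v, w, rfl⟩
    simp [← mul_assoc, f2, hg, f3 u v w, hφ]) h1
  rw [map_sub, sub_eq_zero, f2, hx, hx] at h2
  simpa [← h2, hg] using this

theorem trace_three [IsAlgClosed k] [FiniteDimensional k V] (hV : finrank k V = 3) (κ : V →ₗ[k] R)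
    (hκ : ∀ γ, κ γ ∈ Submodule.span k {c | ∃ u v, ι u * ι v - ι v * ι u = c})
    (H2 : ∀ u v, ∃ γ, tp t (LinearMap.range ι ^ (n + 2)) (ι u * ι v - κ γ) = 0)
    (H3 : ∀ u v w, ∃ γ, ∃ c ∈ Submodule.span k {c | ∃ u v w, ι u * (ι v * ι w) - ι v * ι w * ι u = c},
      tp t (LinearMap.range ι ^ (n + 2)) (κ γ) = 0 ∧
      tp t (LinearMap.range ι ^ (n + 1)) (ι u * ι v * ι w - κ γ - c) = 0) :
    ∀ w ∈ LinearMap.range ι ^ (n + 4), t w = 0 := by
  by_contra h0
  replace h0 : tp t (LinearMap.range ι ^ (n + 4)) 1 ≠ 0 := fun e => h0 fun w hw => by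
    simpa using tp_eq_zero.1 e w hw
  obtain ⟨d, j, j', j1, j2, j3⟩ := exists_fac (tp t (LinearMap.range ι ^ (n + 2)) ∘ₗ κ)
  have hj : Function.Injective j := Function.LeftInverse.injective j1
  obtain ⟨μ, hμ⟩ : ∃ μ : V →ₗ[k] V →ₗ[k] Fin d → k, ∀ u v, j (μ u v) = tp t _ (ι u * ι v) :=
    ⟨((LinearMap.mul k R).compl₁₂ ι ι).compr₂ (j' ∘ₗ tp t _), fun u v => by
      obtain ⟨γ, h⟩ := H2 u v
      rw [map_sub, sub_eq_zero] at h
      simpa [h] using j2 γ⟩
  have μ0 : ∀ {u v}, μ u v = 0 ↔ tp t (LinearMap.range ι ^ (n + 2)) (ι u * ι v) = 0 := by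
    simp [← hμ, map_eq_zero_iff j hj]
  have sym0 : ∀ η : Dual k (Fin d → k), (∀ u v, η (μ u v) = η (μ v u)) → η = 0 := fun η h => by
    refine LinearMap.ext fun ω => ?_
    obtain ⟨γ, rfl⟩ := j3 ω
    exact (Submodule.span_le (p := LinearMap.ker (η ∘ₗ j' ∘ₗ tp t _))).2 (by
      rintro _ ⟨u, v, rfl⟩
      simp [← hμ, j1, h u]) (hκ γ)
  let Λ : (Fin d → k) →ₗ[k] (LinearMap.range ι ^ (n + 1) : Submodule k R) →ₗ[k] Dual k V :=
    LinearMap.mk₂ k
    (fun ω w => j ω ∘ₗ (LinearMap.mulRight k w.1 ∘ₗ ι).codRestrict _ fun u => pw_ml u w.2)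
    (fun _ _ _ => by ext; simp) (fun _ _ _ => by ext; simp) (fun ω a b => LinearMap.ext fun u =>
      (congrArg (j ω) (Subtype.ext (mul_add _ _ _))).trans (map_add _ _ _)) fun c ω a =>
      LinearMap.ext fun u => (congrArg (j ω) (Subtype.ext (mul_smul_comm _ _ _))).trans (map_smul _ c _)
  have l1 : ∀ u v w c, Λ (μ u v) w c = t (ι u * ι v * ι c * w) := fun u v w c =>
    (LinearMap.congr_fun (hμ u v) _).trans (congrArg t (mul_assoc _ _ _).symm)
  have l4 : ∀ u v, μ u v = 0 ↔ ∀ a w, Λ (μ a u) w v = 0 := fun u v => by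
    rw [μ0, tp_l sym]
    simp only [l1, tp_eq_zero, mul_assoc, Subtype.forall]
  obtain ⟨d3, nd, hs⟩ := tri_abs hV (hV ▸ LinearMap.finrank_le_finrank_of_surjective j3) μ Λ
    (fun w => j.flip ∘ₗ (LinearMap.mulLeft k w.1 ∘ₗ ι).codRestrict _ fun u => pw_mr u w.2)
    (fun u v w c => (LinearMap.congr_fun (hμ v c) _).trans (by
      rw [l1, mul_assoc (ι u), mul_assoc (ι u), sym (ι u), mul_assoc _ w.1]; rfl))
    (fun ω h => hj (LinearMap.ext fun ⟨w, hw⟩ => by
      have : ∀ w, w ∈ LinearMap.range ι * LinearMap.range ι ^ (n + 1) →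
          ∃ h : w ∈ LinearMap.range ι ^ (n + 2), j ω ⟨w, h⟩ = 0 := fun w hw =>
        Submodule.mul_induction_on hw (fun x hx y hy => by
          obtain ⟨u, rfl⟩ := hx
          exact ⟨pw_ml u hy, LinearMap.congr_fun₂ h ⟨y, hy⟩ u⟩) fun x y ⟨h1, e1⟩ ⟨h2, e2⟩ =>
          ⟨add_mem h1 h2, (map_add (j ω) ⟨x, h1⟩ ⟨y, h2⟩).trans (by rw [e1, e2, add_zero])⟩
      simpa using (this w (pow_succ' (LinearMap.range ι) _ ▸ hw)).2)) l4
    (fun y => by simp only [μ0, ← tp_l sym, ← tp_r]) sym0 (by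
      by_contra! e
      exact h0 (tp_r.2 fun a => tp_r.2 fun b => by rw [one_mul, ← μ0, l4]; exact fun _ _ => e ..))
  by_cases hx : ∀ x, ∃ y ≠ 0, μ x y = 0
  · obtain ⟨θ, θ1, θ2⟩ := hs hx
    have θ3 := LinearMap.surjective_of_injective θ1
    refine h0 (tp_r.2 fun a => tp_r.2 fun b => tp_r.2 fun c => tp_r.2 fun d =>
      tp_eq_zero.2 fun w hw => ?_)
    obtain ⟨b, rfl⟩ := θ3 b
    obtain ⟨c, rfl⟩ := (θ3.comp θ3) c
    obtain ⟨d, rfl⟩ := (θ3.comp (θ3.comp θ3)) d
    rw [one_mul]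
    refine alt_four hV ι (ι ∘ₗ θ) (ι ∘ₗ θ ∘ₗ θ) (ι ∘ₗ θ ∘ₗ θ ∘ₗ θ) (t ∘ₗ LinearMap.mulRight k w)
      (fun a c d => ?_) (fun a b d => ?_) (fun a b c => ?_) a b c d
    · exact tp_eq_zero.1 (tp_r.1 (tp_r.1 (μ0.1 (θ2 a)) _) _) w hw
    · simpa [mul_assoc] using
        tp_eq_zero.1 (tp_r.1 ((tp_l sym).1 (μ0.1 (θ2 (θ b))) a) (θ (θ (θ d)))) w hw
    · simpa [mul_assoc] using
        tp_eq_zero.1 ((tp_l sym).1 ((tp_l sym).1 (μ0.1 (θ2 (θ (θ c)))) (θ b)) a) w hw
  push Not at hx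
  obtain ⟨x, hx⟩ := hx
  let e := LinearMap.linearEquivOfInjective (μ x) ((injective_iff_map_eq_zero _).2 fun y h =>
    by_contra fun y0 => hx y y0 h) (hV.trans d3.symm)
  have j4 := (LinearMap.injective_iff_surjective_of_finrank_eq_finrank (hV.trans d3.symm)).2 j3
  refine trace_bij sym (n := n) hV (μ.compr₂ e.symm.toLinearMap) (fun v => e.symm_apply_apply v)
    (fun u v => ?_) (fun y h => nd y fun u => μ0.2 ((tp_l sym).1 h u)) (fun φ h => ?_) fun u v w => ?_
  · rw [map_sub, ← hμ, ← hμ, sub_eq_zero]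
    exact congrArg j (e.apply_symm_apply _).symm
  · exact (LinearMap.cancel_right e.symm.surjective).1 ((sym0 (φ ∘ₗ e.symm.toLinearMap) h).trans
      (LinearMap.zero_comp _).symm)
  · obtain ⟨γ, c, h1, h2, h3⟩ := H3 u v w
    obtain rfl := (injective_iff_map_eq_zero _).1 j4 γ (by simp [h2])
    exact ⟨c, h1, by simpa using h3⟩

end trace

end H7
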