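import Cfsg.Agent.H7.SL5

/-! Symmetric local algebras with five-dimensional centre have dimension at most nine
(`SL.le_nine`, after Chlebowitz and Külshammer); `IsSat.cart_le_nine` for blocks with one simple
module and five characters. -/

open Module

namespace H7

variable {k R : Type*} [Field k] [Ring R] [Algebra k R]

theorem pw_mul {J : Submodule k R} {p q n : ℕ} {a b : R} (ha : a ∈ J ^ p) (hb : b ∈ J ^ q)
    (h : p + q = n := by omega) : a * b ∈ J ^ n :=
  h ▸ pow_add J p q ▸ Submodule.mul_mem_mul ha hb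

theorem pw_one {J : Submodule k R} {a : R} (ha : a ∈ J) : a ∈ J ^ 1 := (pow_one J).ge ha

theorem pw_ind {J N : Submodule k R} {n : ℕ} (h : ∀ a ∈ J, ∀ b ∈ J ^ n, a * b ∈ N) : J ^ (n + 1) ≤ N :=
  (pow_succ' J n).le.trans (Submodule.mul_le.2 h)

theorem pw_ind' {J N : Submodule k R} {n : ℕ} (h : ∀ a ∈ J ^ n, ∀ b ∈ J, a * b ∈ N) : J ^ (n + 1) ≤ N :=
  (pow_succ J n).le.trans (Submodule.mul_le.2 h)

theorem mem_line_sup {N : Submodule k R} {a y : R} : a ∈ (k ∙ y) ⊔ N ↔ ∃ c : k, a - c • y ∈ N := by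
  simp only [Submodule.mem_sup, Submodule.mem_span_singleton]
  exact ⟨by rintro ⟨_, ⟨c, rfl⟩, z, hz, rfl⟩; exact ⟨c, by simpa⟩,
    fun ⟨c, h⟩ => ⟨_, ⟨c, rfl⟩, _, h, by abel⟩⟩

theorem finrank_lt_sup [FiniteDimensional k R] {N : Submodule k R} {x : R} (h : x ∉ N) :
    finrank k N < finrank k ((k ∙ x) ⊔ N : Submodule k R) :=
  Submodule.finrank_lt_finrank_of_lt (right_lt_sup.2 (mt (Submodule.span_singleton_le_iff_mem x N).1 h))

theorem finrank_sup_le [FiniteDimensional k R] (N : Submodule k R) (x : R) :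
    finrank k ((k ∙ x) ⊔ N : Submodule k R) ≤ finrank k N + 1 := by
  have := Submodule.finrank_add_le_finrank_add_finrank (k ∙ x) N
  have : finrank k (k ∙ x) ≤ 1 := (finrank_span_le_card _).trans (by simp)
  omega

/-- The `n`-th Loewy layer has dimension at most one. -/
def Lay (J : Submodule k R) (n : ℕ) : Prop := ∃ y ∈ J ^ n, J ^ n ≤ (k ∙ y) ⊔ J ^ (n + 1)

theorem lay_of_rel {J : Submodule k R} {n : ℕ} {p q : R} (hp : p ∈ J ^ n) (hq : q ∈ J ^ n)
    (h : J ^ n ≤ (k ∙ p) ⊔ ((k ∙ q) ⊔ J ^ (n + 1))) {α β : k} (h0 : α ≠ 0 ∨ β ≠ 0)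
    (h1 : α • p + β • q ∈ J ^ (n + 1)) : Lay J n := by
  rcases h0 with h0 | h0
  · refine ⟨q, hq, h.trans (sup_le ((Submodule.span_singleton_le_iff_mem _ _).2
      (mem_line_sup.2 ⟨-(β / α), ?_⟩)) le_rfl)⟩
    convert Submodule.smul_mem _ α⁻¹ h1 using 1
    simp [smul_smul, h0, div_eq_inv_mul]
  · refine ⟨p, hp, h.trans (sup_le le_sup_left (sup_le ((Submodule.span_singleton_le_iff_mem _ _).2
      (mem_line_sup.2 ⟨-(α / β), ?_⟩)) le_sup_right))⟩
    convert Submodule.smul_mem _ β⁻¹ h1 using 1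
    simp [smul_smul, h0, div_eq_inv_mul, add_comm]

namespace SL

variable {i : R} {J : Submodule k R} {t : R →ₗ[k] k} (h : SL i J t)
include h

theorem pw_succ (n : ℕ) : J ^ (n + 2) ≤ J ^ (n + 1) := by
  induction n with
  | zero => simpa [sq] using h.mul
  | succ n ih => exact pw_ind' fun a ha b hb => pw_mul (ih ha) (pw_one hb)

theorem pw_anti {m n : ℕ} (h1 : m ≤ n := by omega) (h0 : 1 ≤ m := by omega) : J ^ n ≤ J ^ m := by
  obtain ⟨m, rfl⟩ := Nat.exists_eq_add_of_le' h0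
  induction n, h1 using Nat.le_induction with
  | base => rfl
  | succ n hn ih =>
    obtain ⟨n, rfl⟩ := Nat.exists_eq_add_of_le' (show 1 ≤ n by omega)
    exact (h.pw_succ n).trans ih

theorem pw_le {n : ℕ} (h0 : 1 ≤ n := by omega) : J ^ n ≤ J := (h.pw_anti h0).trans (pow_one J).le

theorem exists_top {n : ℕ} (hn : J ^ (n + 1) ≠ ⊥) : ∃ e s, s ∈ J ^ (n + 1 + e) ∧ t s ≠ 0 ∧
    J ^ (n + 1 + e + 1) = ⊥ ∧ J ^ (n + 1 + e) ≤ k ∙ s := by
  classical
  have ex : ∃ e, J ^ (n + 1 + e + 1) = ⊥ := h.nil.imp fun e he => by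
    rw [show n + 1 + e + 1 = e + (n + 2) by omega, pow_add, he, zero_mul]; rfl
  have h1 := Nat.find_spec ex
  have h2 : J ^ (n + 1 + Nat.find ex) ≠ ⊥ := by
    rcases e : Nat.find ex with _ | e'
    exacts [hn, Nat.find_min ex (m := e') (by omega)]
  obtain ⟨s, s1, s2⟩ := h.exists_ne h.pw_le ((pow_succ J _).ge.trans h.pw_anti) h2
  refine ⟨_, s, s1, s2, h1, fun a ha => Submodule.mem_span_singleton.2 ⟨t a / t s, (sub_eq_zero.1
    (h.nd _ (Submodule.mem_sup_left (h.pw_le (by omega) (sub_mem ha (Submodule.smul_mem _ _ s1))))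
      (by simp [s2]) fun b hb => ?_)).symm⟩⟩
  rw [(Submodule.mem_bot k).1 (h1.le (pw_mul (sub_mem ha (Submodule.smul_mem _ _ s1)) (pw_one hb))),
    map_zero]

theorem central {n : ℕ} (hy : Lay J (n + 2)) : ∀ w ∈ J ^ (n + 1), ∀ v ∈ J, w * v = v * w := by
  obtain ⟨y, y1, hy⟩ := hy
  by_cases h3 : J ^ (n + 3) = ⊥
  · intro w hw v hv
    have := sub_mem (pw_mul hw (pw_one hv) (n := n + 2)) (pw_mul (pw_one hv) hw)
    exact sub_eq_zero.1 (h.nd _ (Submodule.mem_sup_left (h.pw_le (by omega) this)) (by simp [h.sym w])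
      fun b hb => by rw [(Submodule.mem_bot k).1 (h3.le (pw_mul this (pw_one hb))), map_zero])
  obtain ⟨a, a1, a2⟩ := SetLike.not_le_iff_exists.1 fun e : J ^ (n + 3) ≤ J ^ (n + 4) =>
    h3 (h.eq_bot (e.trans (pow_succ J _).le))
  obtain ⟨φ, φ1, φ2⟩ := Submodule.exists_dual_map_eq_bot_of_notMem a2 inferInstance
  replace φ2 : ∀ x ∈ J ^ (n + 4), φ x = 0 := fun x hx => φ2.le ⟨x, hx, rfl⟩
  have y2 : y ∉ J ^ (n + 3) := fun e => h3 (le_bot_iff.1 (h.pw_anti.trans (h.eq_bot ((hy.trans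
    (sup_le ((Submodule.span_singleton_le_iff_mem _ _).2 e) le_rfl)).trans (pow_succ J _).le)).le))
  obtain ⟨ψ, ψ1, ψ2⟩ := Submodule.exists_dual_map_eq_bot_of_notMem y2 inferInstance
  have ψ3 : ∀ b ∈ J ^ (n + 2), ψ y • b - ψ b • y ∈ J ^ (n + 3) := fun b hb => by
    obtain ⟨c, hc⟩ := mem_line_sup.1 (hy hb)
    have : ψ (b - c • y) = 0 := ψ2.le ⟨_, hc, rfl⟩
    rw [map_sub, map_smul, sub_eq_zero] at this
    convert Submodule.smul_mem _ (ψ y) hc using 1
    simp [this, smul_sub, smul_smul, mul_comm]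
  have l1 : ∀ u ∈ J, ∀ b ∈ J ^ (n + 2), ψ y * φ (u * b) = ψ b * φ (u * y) := fun u hu b hb => by
    simpa [mul_sub, sub_eq_zero] using φ2 _ (pw_mul (pw_one hu) (ψ3 b hb))
  have l2 : ∀ u ∈ J, ∀ b ∈ J ^ (n + 2), ψ y * φ (b * u) = ψ b * φ (y * u) := fun u hu b hb => by
    simpa [sub_mul, sub_eq_zero] using φ2 _ (pw_mul (ψ3 b hb) (pw_one hu))
  obtain ⟨x, hx, x0⟩ : ∃ x ∈ J, φ (x * y) ≠ 0 := by
    by_contra! e
    exact φ1 (pw_ind (N := LinearMap.ker φ) (fun u hu b hb => by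
      simpa [e u hu, ψ1] using l1 u hu b hb) a1)
  obtain ⟨v, hv, v0⟩ : ∃ x ∈ J, φ (y * x) ≠ 0 := by
    by_contra! e
    exact φ1 (pw_ind' (N := LinearMap.ker φ) (fun b hb u hu => by
      simpa [e u hu, ψ1] using l2 u hu b hb) a1)
  have l3 : ∀ u ∈ J, ∀ b ∈ J ^ (n + 1), ψ (u * b) * φ (y * v) = ψ (b * v) * φ (u * y) :=
    fun u hu b hb => by
      rw [← l1 u hu _ (pw_mul hb (pw_one hv)), ← l2 v hv _ (pw_mul (pw_one hu) hb), mul_assoc]
  have ψ4 : ∀ b ∈ J ^ (n + 2), ψ b = 0 → b ∈ J ^ (n + 3) := fun b hb e => by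
    simpa [e, ψ1, smul_smul] using Submodule.smul_mem _ (ψ y)⁻¹ (ψ3 b hb)
  have xp : ∀ j, x ^ j ∈ J ^ j := Submodule.pow_mem_pow _ hx
  have dec : ∀ u ∈ J, ∃ c : k, u - c • x ∈ J ∧ φ ((u - c • x) * y) = 0 := fun u hu =>
    ⟨φ (u * y) / φ (x * y), sub_mem hu (J.smul_mem _ hx), by simp [sub_mul, x0]⟩
  have s0 : ∀ u ∈ J, φ (u * y) = 0 → ∀ p q, p + q = n + 1 → ∀ b ∈ J ^ q, ψ (x ^ p * u * b) = 0 :=
    fun u hu e p => by
      induction p with
      | zero => exact fun q hq b hb => by simpa [e, v0] using l3 u hu b (by simpa [← hq] using hb)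
      | succ p ih =>
        intro q hq b hb
        have := l3 x hx _ (pw_mul (pw_mul (xp p) (pw_one hu) rfl) hb)
        rw [mul_assoc _ b, ih (q + 1) (by omega) _ (pw_mul hb (pw_one hv))] at this
        simpa [v0, pow_succ', mul_assoc] using this
  have s1 : ∀ p q, p + q = n + 2 →
      J ^ (n + 2) ≤ (J ^ q).map (LinearMap.mulLeft k (x ^ p)) ⊔ J ^ (n + 3) := fun p => by
    induction p with
    | zero => exact fun q hq a ha => Submodule.mem_sup_left ⟨a, by simpa [← hq] using ha, by simp⟩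
    | succ p ih =>
      refine fun q hq => (ih (q + 1) (by omega)).trans (sup_le (Submodule.map_le_iff_le_comap.2
        (pw_ind fun u hu b hb => ?_)) le_sup_right)
      obtain ⟨c, c1, c2⟩ := dec u hu
      refine Submodule.mem_sup.2 ⟨_, ⟨c • b, Submodule.smul_mem _ _ hb, rfl⟩, _,
        ψ4 _ (pw_mul (pw_mul (xp p) (pw_one c1) rfl) hb) (s0 _ c1 c2 p q (by omega) b hb), ?_⟩
      simp [mul_sub, sub_mul, pow_succ, mul_assoc]
  have s2 : ∀ j, J ^ (n + 2 + j) ≤ (k ∙ x ^ (n + 2 + j)) ⊔ J ^ (n + 2 + j + 1) := fun j => by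
    induction j with
    | zero =>
      refine (s1 (n + 2) 0 rfl).trans (sup_le_sup_right ?_ _)
      rintro _ ⟨a, ha, rfl⟩
      obtain ⟨c, rfl⟩ := Submodule.mem_one.1 ((pow_zero J).le ha)
      exact Submodule.mem_span_singleton.2 ⟨c, by simp [Algebra.algebraMap_eq_smul_one]⟩
    | succ j ih =>
      refine pw_ind (n := n + 2 + j) fun u hu b hb => mem_line_sup.2 ?_
      obtain ⟨c, c1, c2⟩ := dec u hu
      obtain ⟨d, hd⟩ := mem_line_sup.1 (ih hb)
      have e : (u - c • x) * x ^ (n + 1) ∈ J ^ (n + 3) :=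
        ψ4 _ (pw_mul (pw_one c1) (xp _)) (by simpa using s0 _ c1 c2 0 _ (by omega) _ (xp _))
      refine ⟨c * d, ?_⟩
      convert add_mem (pw_mul (pw_one hu) hd (n := n + 2 + (j + 1) + 1))
        (Submodule.smul_mem _ d (pw_mul e (xp (j + 1)))) using 1
      rw [mul_assoc, ← pow_add, show n + 1 + (j + 1) = n + 2 + j by omega, ← add_assoc, pow_succ']
      simp only [mul_sub, sub_mul, mul_smul_comm, smul_mul_assoc]
      module
  obtain ⟨e, s, e1, e2, e3, -⟩ := h.exists_top (n := n + 1) fun e =>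
    h3 (le_bot_iff.1 (h.pw_anti.trans e.le))
  have t0 : t (x ^ (n + 2 + e)) ≠ 0 := fun e0 => by
    obtain ⟨c, hc⟩ := mem_line_sup.1 (s2 e e1)
    rw [e3, Submodule.mem_bot, sub_eq_zero] at hc
    simp [hc, e0] at e2
  have nd : ∀ g ∈ J ^ (n + 2), (∀ j, t (g * x ^ j) = 0) → g = 0 := fun g hg h0 => by
    have : ∀ j q, j + q = e + 1 → g ∈ J ^ (n + 2 + j) := fun j => by
      induction j with
      | zero => exact fun _ _ => hg
      | succ j ih =>
        intro q hq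
        obtain ⟨c, hc⟩ := mem_line_sup.1 (s2 j (ih (q + 1) (by omega)))
        have := congrArg t ((Submodule.mem_bot k).1 (e3.le (pw_mul hc (xp q))))
        rw [sub_mul, smul_mul_assoc, ← pow_add, show n + 2 + j + q = n + 2 + e by omega] at this
        simp only [map_sub, h0, map_smul, smul_eq_mul, map_zero, zero_sub, neg_eq_zero,
          mul_eq_zero, t0, or_false] at this
        rwa [this, zero_smul, sub_zero] at hc
    exact e3.le (this (e + 1) 0 rfl)
  have cm : ∀ w ∈ J ^ (n + 1), ∀ v ∈ J, w * v - v * w ∈ J ^ (n + 2) := fun w hw v hv =>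
    sub_mem (pw_mul hw (pw_one hv)) (pw_mul (pw_one hv) hw)
  intro w hw v hv
  have c1 : Commute w x := sub_eq_zero.1 (nd _ (cm w hw x hx) fun j => by
    rw [sub_mul, map_sub, mul_assoc x, h.sym x, mul_assoc, mul_assoc, pow_mul_comm', sub_self])
  exact sub_eq_zero.1 (nd _ (cm w hw v hv) fun j => by
    rw [sub_mul, map_sub, mul_assoc w, h.sym w, mul_assoc, mul_assoc, (c1.pow_right j).eq, sub_self])

omit h in
/-- `a` and `b` generate `J`. -/
structure Gen (J : Submodule k R) (a b : R) : Prop where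
  l : a ∈ J
  r : b ∈ J
  gen : ∀ u ∈ J, ∃ α β : k, u - (α • a + β • b) ∈ J ^ 2

omit h in
theorem Gen.change {a b : R} (g : Gen J a b) {α β γ δ : k} (hd : α * δ - β * γ ≠ 0) :
    Gen J (α • a + β • b) (γ • a + δ • b) :=
  ⟨add_mem (J.smul_mem _ g.l) (J.smul_mem _ g.r), add_mem (J.smul_mem _ g.l) (J.smul_mem _ g.r),
    fun u hu => by
      obtain ⟨x, y, e⟩ := g.gen u hu
      refine ⟨(x * δ - y * γ) * (α * δ - β * γ)⁻¹, (y * α - x * β) * (α * δ - β * γ)⁻¹, ?_⟩
      convert e using 2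
      match_scalars
      · linear_combination x * mul_inv_cancel₀ hd
      · linear_combination y * mul_inv_cancel₀ hd⟩

omit h in
theorem Gen.symm {a b : R} (g : Gen J a b) : Gen J b a := by
  simpa using g.change (α := 0) (β := 1) (γ := 1) (δ := 0) (by simp)

omit h in
theorem Gen.two {a b : R} (g : Gen J a b) : ∀ w ∈ J ^ 2, ∃ α β γ δ : k,
    w - (α • (a * a) + β • (a * b) + γ • (b * a) + δ • (b * b)) ∈ J ^ 3 := fun w hw => by
  refine Submodule.mul_induction_on ((sq J).le hw) (fun u hu v hv => ?_)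
    fun x y ⟨α, β, γ, δ, h1⟩ ⟨α', β', γ', δ', h2⟩ => ⟨α + α', β + β', γ + γ', δ + δ', by
      convert add_mem h1 h2 using 1; module⟩
  obtain ⟨α, β, h1⟩ := g.gen u hu
  obtain ⟨γ, δ, h2⟩ := g.gen v hv
  refine ⟨α * γ, α * δ, β * γ, β * δ, ?_⟩
  convert add_mem (pw_mul h1 (pw_one hv) (n := 3))
    (pw_mul (pw_one (add_mem (J.smul_mem α g.l) (J.smul_mem β g.r))) h2) using 1
  simp only [mul_sub, sub_mul, mul_add, add_mul, smul_mul_assoc, mul_smul_comm]
  module

omit h in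
variable (J) in
/-- The span of the commutators of `J` with `J ^ n`. -/
def cm (n : ℕ) : Submodule k R := Submodule.span k {c | ∃ u ∈ J, ∃ w ∈ J ^ n, u * w - w * u = c}

omit h in
theorem mem_cm {n : ℕ} {u w : R} (hu : u ∈ J) (hw : w ∈ J ^ n) : u * w - w * u ∈ cm J n :=
  Submodule.subset_span ⟨u, hu, w, hw, rfl⟩

omit h in
theorem cm_le {n : ℕ} {N : Submodule k R} (e : ∀ u ∈ J, ∀ w ∈ J ^ n, u * w - w * u ∈ N) : cm J n ≤ N :=
  Submodule.span_le.2 (by rintro _ ⟨u, hu, w, hw, rfl⟩; exact e u hu w hw)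

omit h in
theorem cm_le_pw (n : ℕ) : cm J n ≤ J ^ (n + 1) :=
  cm_le fun _ hu _ hw => sub_mem (pw_mul (pw_one hu) hw) (pw_mul hw (pw_one hu))

omit h in
theorem mem_cm_two {n : ℕ} {u w : R} (hu : u ∈ J ^ 2) (hw : w ∈ J ^ n) : u * w - w * u ∈ cm J (n + 1) :=
  Submodule.mul_induction_on ((sq J).le hu) (fun p hp q hq => by
    convert add_mem (mem_cm hp (pw_mul (pw_one hq) hw (n := n + 1)))
      (mem_cm hq (pw_mul hw (pw_one hp))) using 1
    simp [mul_assoc]) fun x y h1 h2 => by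
      convert add_mem h1 h2 using 1
      simp only [add_mul, mul_add]; abel

omit h in
theorem Gen.cm_le {a b : R} (g : Gen J a b) {n : ℕ} {N : Submodule k R} (h1 : cm J (n + 1) ≤ N)
    (S : Submodule k R) (h2 : J ^ n ≤ S ⊔ J ^ (n + 1))
    (h3 : ∀ w ∈ S, a * w - w * a ∈ N ∧ b * w - w * b ∈ N) : cm J n ≤ N := SL.cm_le fun u hu w hw => by
  obtain ⟨α, β, e⟩ := g.gen u hu
  obtain ⟨p, hp, q, hq, rfl⟩ := Submodule.mem_sup.1 (h2 hw)
  convert add_mem (add_mem (h1 (mem_cm_two e hw)) (h1 (mem_cm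
    (add_mem (J.smul_mem α g.l) (J.smul_mem β g.r)) hq)))
    (add_mem (N.smul_mem α (h3 p hp).1) (N.smul_mem β (h3 p hp).2)) using 1
  simp only [mul_sub, sub_mul, mul_add, add_mul, smul_mul_assoc, mul_smul_comm]
  module

omit h in
theorem Gen.cm_two {a b : R} (g : Gen J a b) {N : Submodule k R} (h1 : cm J 3 ≤ N)
    (h3 : ∀ x ∈ ({a, b} : Set R), ∀ y ∈ ({a, b} : Set R), ∀ z ∈ ({a, b} : Set R),
      x * (y * z) - y * z * x ∈ N) : cm J 2 ≤ N := by
  refine g.cm_le h1 (Submodule.span k {a * a, a * b, b * a, b * b}) (fun w hw => ?_) fun w hw => ?_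
  · obtain ⟨α, β, γ, δ, e⟩ := g.two w hw
    refine Submodule.mem_sup.2 ⟨_, ?_, _, e, add_sub_cancel _ _⟩
    refine add_mem (add_mem (add_mem ?_ ?_) ?_) ?_ <;>
      exact Submodule.smul_mem _ _ (Submodule.subset_span (by simp))
  · have : ∀ x ∈ ({a, b} : Set R), x * w - w * x ∈ N := fun x hx => (Submodule.span_le
      (p := N.comap (LinearMap.mulLeft k x - LinearMap.mulRight k x))).2 (by
        rintro _ (rfl | rfl | rfl | rfl) <;> exact h3 x hx _ (by simp) _ (by simp)) hw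
    exact ⟨this a (by simp), this b (by simp)⟩

section two

variable [FiniteDimensional k R] {a b s : R} (g : Gen J a b) (hs : s ∈ J ^ 5)
  (H : J ^ 3 ≤ (k ∙ s) ⊔ cm J 2) (hd : finrank k (J ^ 2 : Submodule k R) ≤ finrank k (J ^ 3 : Submodule k R) + 2)
include hd

theorem dep {p q r : R} (hp : p ∈ J ^ 2) (hq : q ∈ J ^ 2) (hr : r ∈ J ^ 2) :
    ∃ α β γ : k, (α ≠ 0 ∨ β ≠ 0 ∨ γ ≠ 0) ∧ α • p + β • q + γ • r ∈ J ^ 3 := by
  by_contra! e
  have h1 := finrank_lt_sup (N := J ^ 3) (x := r) fun e' => e 0 0 1 (by simp) (by simpa)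
  have h2 := finrank_lt_sup (N := (k ∙ r) ⊔ J ^ 3) (x := q) fun e' => by
    obtain ⟨c, hc⟩ := mem_line_sup.1 e'
    exact e 0 1 (-c) (by simp) (by simpa [sub_eq_add_neg] using hc)
  have h3 := finrank_lt_sup (N := (k ∙ q) ⊔ ((k ∙ r) ⊔ J ^ 3)) (x := p) fun e' => by
    obtain ⟨c, hc⟩ := mem_line_sup.1 e'
    obtain ⟨d, hc⟩ := mem_line_sup.1 hc
    exact e 1 (-c) (-d) (by simp) (by simpa [sub_eq_add_neg] using hc)
  have := Submodule.finrank_mono (sup_le ((Submodule.span_singleton_le_iff_mem _ _).2 hp) (sup_le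
    ((Submodule.span_singleton_le_iff_mem _ _).2 hq) (sup_le
    ((Submodule.span_singleton_le_iff_mem _ _).2 hr) (show J ^ 3 ≤ _ from h.pw_succ 1))))
  omega

include g hs H

omit hd in
theorem three_le {N : Submodule k R} (h1 : J ^ 4 ≤ N)
    (h3 : ∀ x ∈ ({a, b} : Set R), ∀ y ∈ ({a, b} : Set R), ∀ z ∈ ({a, b} : Set R),
      x * (y * z) - y * z * x ∈ N) : J ^ 3 ≤ N :=
  H.trans (sup_le ((Submodule.span_singleton_le_iff_mem _ _).2 (h1 (h.pw_succ 3 hs)))
    (g.cm_two ((cm_le_pw 3).trans h1) h3))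

theorem lay_pure (e : a * b ∈ J ^ 3) : Lay J 3 := by
  have A := pw_one g.l
  have B := pw_one g.r
  let π := (J ^ 4).mkQ
  have z : ∀ {x}, π x = 0 ↔ x ∈ J ^ 4 := Submodule.Quotient.mk_eq_zero _
  have e1 : π (a * (b * a)) = 0 := z.2 (mul_assoc a b a ▸ pw_mul e A)
  have e2 : π (a * (b * b)) = 0 := z.2 (mul_assoc a b b ▸ pw_mul e B)
  have e3 : π (a * (a * b)) = 0 := z.2 (pw_mul A e)
  have e4 : π (b * (a * b)) = 0 := z.2 (pw_mul B e)
  have h1 : J ^ 3 ≤ (k ∙ (b * (a * a))) ⊔ ((k ∙ (b * (b * a))) ⊔ J ^ 4) :=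
    h.three_le g hs H (le_sup_of_le_right le_sup_right) (by
      simp only [mem_line_sup, ← z]
      rintro x (rfl | rfl) y (rfl | rfl) w (rfl | rfl) <;> simp only [mul_assoc, map_sub, map_smul, e1, e2, e3, e4]
      exacts [⟨0, 0, by module⟩, ⟨0, 0, by module⟩, ⟨-1, 0, by module⟩, ⟨0, -1, by module⟩,
        ⟨1, 0, by module⟩, ⟨0, 0, by module⟩, ⟨0, 1, by module⟩, ⟨0, 0, by module⟩])
  obtain ⟨α, β, γ, h0, r⟩ := h.dep hd (pw_mul A A) (pw_mul B A) (pw_mul B B)
  have r1 := z.2 (pw_mul A r)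
  have r2 := z.2 (pw_mul B r)
  have r3 := z.2 (pw_mul r A)
  have r4 := z.2 (pw_mul r B)
  simp only [mul_add, add_mul, mul_smul_comm, smul_mul_assoc, mul_assoc, map_add, map_smul, e1, e2,
    e3, e4, smul_zero, add_zero, zero_add] at r1 r2 r3 r4
  have p1 := pw_mul B (pw_mul A A rfl) (n := 3)
  have p2 := pw_mul B (pw_mul B A rfl) (n := 3)
  by_cases h2 : α ≠ 0 ∨ β ≠ 0
  · exact lay_of_rel p1 p2 h1 h2 (z.1 (by
      rw [map_add, map_smul, map_smul]; linear_combination (norm := module) r2 - r4))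
  · exact lay_of_rel p1 p2 h1 (α := β) (β := γ) (by tauto) (z.1 (by
      rw [map_add, map_smul, map_smul]; linear_combination (norm := module) r3 - r1))

omit hd in
theorem lay_dih (e : a * a ∈ J ^ 3) (e' : b * b ∈ J ^ 3) : Lay J 3 ∨ Lay J 4 := by
  refine or_iff_not_imp_left.2 fun hn => ?_
  have A := pw_one g.l
  have B := pw_one g.r
  have h1 : J ^ 3 ≤ (k ∙ s) ⊔ ((k ∙ (a * (b * a) - b * a * a)) ⊔ ((k ∙ (b * (a * b) - a * b * b)) ⊔
      cm J 3)) := H.trans (sup_le_sup_left (g.cm_two (le_sup_of_le_right le_sup_right) (by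
    simp only [mem_line_sup]
    rintro x (rfl | rfl) y (rfl | rfl) w (rfl | rfl)
    · exact ⟨0, 0, by simp [mul_assoc]⟩
    · exact ⟨-1, 0, by convert neg_mem (mem_cm g.r e) using 1; simp [mul_assoc]⟩
    · exact ⟨1, 0, by simp⟩
    · exact ⟨0, 0, by simpa using mem_cm g.l e'⟩
    · exact ⟨0, 0, by simpa using mem_cm g.r e⟩
    · exact ⟨0, 1, by simp⟩
    · exact ⟨0, -1, by convert neg_mem (mem_cm g.l e') using 1; simp [mul_assoc]⟩
    · exact ⟨0, 0, by simp [mul_assoc]⟩)) _)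
  have h2 : ∀ w ∈ J ^ 3, ∃ σ α β : k, w - σ • s - α • (a * (b * a) - b * a * a) -
      β • (b * (a * b) - a * b * b) ∈ cm J 3 ∧ w - α • (a * (b * a)) - β • (b * (a * b)) ∈ J ^ 4 :=
    fun w hw => by
      obtain ⟨σ, α, β, h3⟩ := by simpa only [mem_line_sup] using h1 hw
      refine ⟨σ, α, β, h3, ?_⟩
      convert sub_mem (sub_mem (add_mem (cm_le_pw 3 h3) (Submodule.smul_mem _ σ (h.pw_succ 3 hs)))
        (Submodule.smul_mem _ α (pw_mul B e))) (Submodule.smul_mem _ β (pw_mul A e')) using 1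
      simp only [mul_assoc]
      module
  have h3 : J ^ 3 ≤ (k ∙ (a * (b * a))) ⊔ ((k ∙ (b * (a * b))) ⊔ J ^ 4) := fun w hw => by
    obtain ⟨-, α, β, -, e⟩ := h2 w hw
    simp only [mem_line_sup]
    exact ⟨α, β, e⟩
  have p1 := pw_mul A (pw_mul B A rfl) (n := 3)
  have p2 := pw_mul B (pw_mul A B rfl) (n := 3)
  have h4 : cm J 3 ≤ (k ∙ (a * (b * (a * b)) - b * (a * (b * a)))) ⊔ J ^ 5 := by
    refine g.cm_le ((cm_le_pw 4).trans le_sup_right) ((k ∙ (a * (b * a))) ⊔ (k ∙ (b * (a * b))))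
      (h3.trans (sup_assoc _ _ _).ge) fun w hw => ?_
    obtain ⟨_, h5, _, h6, rfl⟩ := Submodule.mem_sup.1 hw
    obtain ⟨α, rfl⟩ := Submodule.mem_span_singleton.1 h5
    obtain ⟨β, rfl⟩ := Submodule.mem_span_singleton.1 h6
    refine ⟨mem_line_sup.2 ⟨β, ?_⟩, mem_line_sup.2 ⟨-α, ?_⟩⟩
    · convert Submodule.smul_mem _ α (sub_mem (pw_mul e (pw_mul B A rfl) (n := 5))
        (pw_mul (pw_mul A B rfl) e)) using 1
      simp only [mul_add, add_mul, mul_smul_comm, smul_mul_assoc, mul_assoc]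
      module
    · convert Submodule.smul_mem _ β (sub_mem (pw_mul e' (pw_mul A B rfl) (n := 5))
        (pw_mul (pw_mul B A rfl) e')) using 1
      simp only [mul_add, add_mul, mul_smul_comm, smul_mul_assoc, mul_assoc]
      module
  refine ⟨_, sub_mem (pw_mul A p2) (pw_mul B p1), fun w hw => ?_⟩
  obtain ⟨σ, α, β, e1, e2⟩ := h2 w (h.pw_succ 2 hw)
  have : ¬ (α ≠ 0 ∨ β ≠ 0) := fun h0 => hn (lay_of_rel p1 p2 h3 h0 (by
    convert sub_mem hw e2 using 1; abel))
  simp only [not_or, not_not] at this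
  simp only [this, zero_smul, sub_zero] at e1
  simpa using add_mem (h4 e1) (Submodule.mem_sup_right (Submodule.smul_mem _ σ hs))

theorem lay_sq (e : a * a ∈ J ^ 3) : Lay J 3 ∨ Lay J 4 := by
  have A := pw_one g.l
  have B := pw_one g.r
  obtain ⟨α, β, γ, h0, r⟩ := h.dep hd (pw_mul A B) (pw_mul B A) (pw_mul B B)
  by_cases hγ : γ = 0
  · by_cases hα : α = 0
    · refine .inl (h.lay_pure g.symm hs H hd ?_)
      simpa [hα, hγ, smul_smul, show β ≠ 0 by tauto] using Submodule.smul_mem _ β⁻¹ r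
    let π := (J ^ 4).mkQ
    have z : ∀ {x}, π x = 0 ↔ x ∈ J ^ 4 := Submodule.Quotient.mk_eq_zero _
    obtain ⟨q, r⟩ : ∃ q : k, a * b - q • (b * a) ∈ J ^ 3 := ⟨-(β / α), by
      simpa [hα, hγ, smul_smul, div_eq_inv_mul] using Submodule.smul_mem _ α⁻¹ r⟩
    have e1 : π (a * (a * a)) = 0 := z.2 (pw_mul A e)
    have e2 : π (a * (a * b)) = 0 := z.2 (mul_assoc a a b ▸ pw_mul e B)
    have e3 : π (b * (a * a)) = 0 := z.2 (pw_mul B e)
    have r1 := z.2 (pw_mul r A)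
    have r2 := z.2 (pw_mul B r)
    have r3 := z.2 (pw_mul r B)
    simp only [mul_sub, sub_mul, mul_smul_comm, smul_mul_assoc, mul_assoc, map_sub, map_smul, e3,
      smul_zero, sub_eq_zero] at r1 r2 r3
    refine .inl ⟨b * (b * a), pw_mul B (pw_mul B A rfl), h.three_le g hs H le_sup_right ?_⟩
    simp only [mem_line_sup, ← z]
    rintro x (rfl | rfl) y (rfl | rfl) w (rfl | rfl) <;>
      simp only [mul_assoc, map_sub, map_smul, e1, e2, e3, r1, r2, r3]
    exacts [⟨0, by module⟩, ⟨0, by module⟩, ⟨0, by module⟩, ⟨q * q - 1, by module⟩,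
      ⟨0, by module⟩, ⟨q - q * q, by module⟩, ⟨1 - q, by module⟩, ⟨0, by module⟩]
  have r' : ((α / γ) • a + (1 : k) • b) * ((β / γ) • a + (1 : k) • b) ∈ J ^ 3 := by
    convert add_mem (Submodule.smul_mem _ γ⁻¹ r) (Submodule.smul_mem _ (α / γ * (β / γ)) e) using 1
    simp only [mul_add, add_mul, mul_smul_comm, smul_mul_assoc]
    match_scalars <;> field_simp
  by_cases h1 : α = β
  · subst h1
    have := g.change (α := 1) (β := 0) (γ := α / γ) (δ := 1) (by simp)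
    exact h.lay_dih this hs H (by simpa using e) r'
  · exact .inl (h.lay_pure (g.change (by simpa [sub_eq_zero, div_left_inj' hγ])) hs H hd r')

theorem lay_two [IsAlgClosed k] : Lay J 3 ∨ Lay J 4 := by
  have A := pw_one g.l
  have B := pw_one g.r
  obtain ⟨α, β, γ, δ, h1, h2, r⟩ : ∃ α β γ δ : k, (α ≠ 0 ∨ β ≠ 0) ∧ (γ ≠ 0 ∨ δ ≠ 0) ∧
      (α • a + β • b) * (γ • a + δ • b) ∈ J ^ 3 := by
    obtain ⟨p, hp, e⟩ := exists_finrank_le (h.pw_succ 1) (n := 1) hd
    have a1 := sup_le (h.pw_succ 1) ((Submodule.span_singleton_le_iff_mem _ _).2 hp)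
    obtain ⟨q, hq, e⟩ := exists_finrank_le a1 e
    have e := (Submodule.eq_of_le_of_finrank_le
      (sup_le a1 ((Submodule.span_singleton_le_iff_mem _ _).2 hq)) e).ge
    rw [sup_comm, sup_comm (J ^ _)] at e
    have e' := fun {x} hx => by simpa only [mem_line_sup] using @e x hx
    obtain ⟨x1, x2, hx⟩ := e' (pw_mul A A)
    obtain ⟨y1, y2, hy⟩ := e' (pw_mul A B)
    obtain ⟨z1, z2, hz⟩ := e' (pw_mul B A)
    obtain ⟨w1, w2, hw⟩ := e' (pw_mul B B)
    obtain ⟨α, β, h1, h2⟩ : ∃ α β : k, (α ≠ 0 ∨ β ≠ 0) ∧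
        (α * x1 + β * z1) * (α * y2 + β * w2) - (α * y1 + β * w1) * (α * x2 + β * z2) = 0 := by
      by_cases h0 : x1 * y2 - y1 * x2 = 0
      · exact ⟨1, 0, by simp, by simpa⟩
      obtain ⟨c, hc⟩ := IsAlgClosed.exists_root (.C (x1 * y2 - y1 * x2) * .X ^ 2 +
        .C (x1 * w2 + z1 * y2 - y1 * z2 - w1 * x2) * .X + .C (z1 * w2 - w1 * z2))
        (by rw [Polynomial.degree_quadratic h0]; decide)
      refine ⟨c, 1, by simp, ?_⟩
      simp only [Polynomial.IsRoot, Polynomial.eval_add, Polynomial.eval_mul, Polynomial.eval_C,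
        Polynomial.eval_pow, Polynomial.eval_X] at hc
      linear_combination hc
    obtain ⟨v, v0, hv⟩ := (Matrix.exists_mulVec_eq_zero_iff (M := !![α * x1 + β * z1, α * y1 + β * w1;
      α * x2 + β * z2, α * y2 + β * w2])).2 (by simpa [Matrix.det_fin_two] using h2)
    have v1 := congrFun hv 0
    have v2 := congrFun hv 1
    simp [Matrix.mulVec, dotProduct] at v1 v2
    refine ⟨α, β, v 0, v 1, h1, by simpa [funext_iff, imp_iff_not_or] using v0, ?_⟩
    convert add_mem (add_mem (Submodule.smul_mem _ (α * v 0) hx) (Submodule.smul_mem _ (α * v 1) hy))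
      (add_mem (Submodule.smul_mem _ (β * v 0) hz) (Submodule.smul_mem _ (β * v 1) hw)) using 1
    simp only [mul_add, add_mul, mul_smul_comm, smul_mul_assoc]
    linear_combination (norm := module) v1 • q + v2 • p
  by_cases h0 : α * δ - β * γ = 0
  swap
  · exact .inl (h.lay_pure (g.change h0) hs H hd r)
  obtain ⟨c, hc⟩ : ∃ c : k, α • a + β • b = c • (γ • a + δ • b) := by
    rcases h2 with h2 | h2
    · exact ⟨α / γ, by match_scalars <;> field_simp; linear_combination -h0⟩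
    · exact ⟨β / δ, by match_scalars <;> field_simp; linear_combination h0⟩
  have e : (α • a + β • b) * (α • a + β • b) ∈ J ^ 3 := by
    simpa only [← mul_smul_comm, ← hc] using Submodule.smul_mem _ c r
  rcases h1 with h1 | h1
  · exact h.lay_sq (g.change (γ := 0) (δ := 1) (by simpa)) hs H hd e
  · exact h.lay_sq (g.change (γ := 1) (δ := 0) (by simpa)) hs H hd e

end two

variable [FiniteDimensional k R] {Z : Submodule k R}
  (hZ : ∀ z ∈ J ⊔ k ∙ i, (∀ x ∈ J, z * x = x * z) → z ∈ Z)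
include hZ

theorem finrank_le_cm : finrank k J + 1 ≤ finrank k (cm J 1) + finrank k Z := by
  let φ : (J ⊔ k ∙ i : Submodule k R) →ₗ[k] Dual k (cm J 1) :=
    ((LinearMap.mul k R).compr₂ t).domRestrict₁₂ _ _
  have h1 := φ.finrank_range_add_finrank_ker
  have h2 := (LinearMap.range φ).finrank_le
  rw [Subspace.dual_finrank_eq] at h2
  have h3 : finrank k (LinearMap.ker φ) ≤ finrank k Z := by
    rw [← Submodule.finrank_map_subtype_eq]
    refine Submodule.finrank_mono ?_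
    rintro _ ⟨⟨z, hz⟩, h1, rfl⟩
    refine hZ z hz fun x hx => sub_eq_zero.1 (h.nd _ (Submodule.mem_sup_left ?_)
      (by simp [h.sym x]) fun b hb => ?_)
    · obtain ⟨y, hy, _, h2, rfl⟩ := Submodule.mem_sup.1 hz
      obtain ⟨c, rfl⟩ := Submodule.mem_span_singleton.1 h2
      simp only [add_mul, mul_add, smul_mul_assoc, mul_smul_comm, h.il x hx, h.ir x hx,
        add_sub_add_right_eq_sub]
      exact h.mul (sub_mem (Submodule.mul_mem_mul hy hx) (Submodule.mul_mem_mul hx hy))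
    · have := LinearMap.congr_fun h1 ⟨_, mem_cm hx (pw_one hb)⟩
      change t (z * (x * b - b * x)) = 0 at this
      rw [sub_mul, map_sub, mul_assoc x, h.sym x, ← map_sub, ← this]
      simp only [mul_sub, mul_assoc]
  have := finrank_lt_sup h.nm
  rw [sup_comm] at this
  omega

theorem finrank_lt_of_lay {n : ℕ} (hy : Lay J (n + 2)) :
    finrank k (J ^ (n + 1) : Submodule k R) < finrank k Z :=
  (finrank_lt_sup fun e => h.nm (h.pw_le (by omega) e)).trans_le (Submodule.finrank_mono (sup_le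
    ((Submodule.span_singleton_le_iff_mem _ _).2 (hZ i (Submodule.mem_sup_right
      (Submodule.mem_span_singleton_self i)) fun x hx => by rw [h.il x hx, h.ir x hx]))
    fun w hw => hZ w (Submodule.mem_sup_left (h.pw_le (by omega) hw)) (h.central hy w hw)))

theorem le_eight [IsAlgClosed k] (h5 : finrank k Z ≤ 5) : finrank k J ≤ 8 := by
  by_contra! h9
  have d1 := h.finrank_le_cm hZ
  have l2 : ¬ Lay J 2 := fun e => by
    have := h.finrank_lt_of_lay hZ e
    rw [zero_add, pow_one] at this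
    omega
  have K1 : ∀ x ∈ cm J 1, t x = 0 := cm_le (N := LinearMap.ker t) fun u _ w _ => by simp [h.sym u]
  have n3 : J ^ 3 ≠ ⊥ := fun e => by
    have : cm J 1 = ⊥ := eq_bot_iff.2 fun a ha => h.nd a (Submodule.mem_sup_left
      (h.pw_le (by omega) (cm_le_pw 1 ha))) (K1 a ha) fun b hb => by
        rw [(Submodule.mem_bot k).1 (e.le (pw_mul (cm_le_pw 1 ha) (pw_one hb))), map_zero]
    rw [this, finrank_bot] at d1
    omega
  obtain ⟨e, s, s1, s2, s3, s4⟩ := h.exists_top n3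
  have d2 := finrank_lt_sup (N := cm J 1) (x := s) fun e => s2 (K1 s e)
  have a0 : (k ∙ s) ⊔ cm J 1 ≤ J ^ 2 :=
    sup_le ((Submodule.span_singleton_le_iff_mem _ _).2 (h.pw_anti (by omega) (by omega) s1)) (cm_le_pw 1)
  have d3 := Submodule.finrank_mono a0
  have j2 : J ^ 2 ≤ J := h.pw_le
  obtain ⟨c, hc, e1⟩ := exists_finrank_le j2 (n := 2) (by omega)
  have a1 := sup_le j2 ((Submodule.span_singleton_le_iff_mem _ _).2 hc)
  by_cases r2 : finrank k J ≤ finrank k (J ^ 2 : Submodule k R) + 2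
  · obtain ⟨a, ha, e1⟩ := exists_finrank_le j2 (n := 1) r2
    have a1 := sup_le j2 ((Submodule.span_singleton_le_iff_mem _ _).2 ha)
    obtain ⟨b, hb, e1⟩ := exists_finrank_le a1 e1
    have e1 := (Submodule.eq_of_le_of_finrank_le
      (sup_le a1 ((Submodule.span_singleton_le_iff_mem _ _).2 hb)) e1).ge
    rw [sup_comm, sup_comm (J ^ _)] at e1
    have g : Gen J a b := ⟨ha, hb, fun u hu => by
      obtain ⟨β, α, e⟩ := by simpa only [mem_line_sup] using e1 hu
      exact ⟨α, β, by convert e using 1; abel⟩⟩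
    have k1 : cm J 1 ≤ (k ∙ (a * b - b * a)) ⊔ cm J 2 := g.cm_le le_sup_right
      ((k ∙ b) ⊔ (k ∙ a)) ((pow_one J).le.trans (e1.trans (sup_assoc _ _ _).ge)) fun w hw => by
        obtain ⟨_, h5, _, h6, rfl⟩ := Submodule.mem_sup.1 hw
        obtain ⟨α, rfl⟩ := Submodule.mem_span_singleton.1 h5
        obtain ⟨β, rfl⟩ := Submodule.mem_span_singleton.1 h6
        refine ⟨mem_line_sup.2 ⟨α, ?_⟩, mem_line_sup.2 ⟨-β, ?_⟩⟩ <;>
          simp only [mul_add, add_mul, mul_smul_comm, smul_mul_assoc] <;>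
          convert (cm J 2).zero_mem using 1 <;> module
    have c2 : a * b - b * a ∈ J ^ 2 := cm_le_pw 1 (mem_cm ha (pw_one hb))
    have r2' : finrank k (J ^ 2 : Submodule k R) + 2 ≤ finrank k J := by
      by_contra! hd
      obtain ⟨x, hx, e⟩ := exists_finrank_le j2 (n := 0) (by omega)
      have := h.comm_of_gen hx ((Submodule.eq_of_le_of_finrank_le
        (sup_le j2 ((Submodule.span_singleton_le_iff_mem _ _).2 hx)) e).ge.trans (by rw [sq]))
      have : cm J 1 = ⊥ := eq_bot_iff.2 (cm_le fun u hu w hw => sub_eq_zero.2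
        (this u hu w ((pow_one J).le hw)))
      rw [this, finrank_bot] at d1
      omega
    obtain ⟨y, hy, e2⟩ := exists_finrank_le a0 (n := 0) (by omega)
    have e2 := (Submodule.eq_of_le_of_finrank_le
      (sup_le a0 ((Submodule.span_singleton_le_iff_mem _ _).2 hy)) e2).ge
    have k2 : ∀ w ∈ J ^ 2, ∃ η σ γ : k, w - η • y - σ • s - γ • (a * b - b * a) ∈ cm J 2 ∧
        w - η • y - γ • (a * b - b * a) ∈ J ^ 3 := fun w hw => by
      obtain ⟨η, σ, γ, e⟩ := by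
        simpa only [mem_line_sup] using ((sup_comm _ _).le.trans (sup_le_sup_left
          (sup_le_sup_left k1 _) _)) (e2 hw)
      exact ⟨η, σ, γ, e, by
        convert add_mem (cm_le_pw 2 e) (Submodule.smul_mem _ σ (h.pw_anti (by omega) (by omega) s1))
          using 1; abel⟩
    have k3 : J ^ 2 ≤ (k ∙ y) ⊔ ((k ∙ (a * b - b * a)) ⊔ J ^ 3) := fun w hw => by
      obtain ⟨η, -, γ, -, e⟩ := k2 w hw
      simp only [mem_line_sup]
      exact ⟨η, γ, e⟩
    have hd : finrank k (J ^ 2 : Submodule k R) ≤ finrank k (J ^ 3 : Submodule k R) + 2 :=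
      (Submodule.finrank_mono k3).trans ((finrank_sup_le _ _).trans
        (Nat.succ_le_succ (finrank_sup_le _ _)))
    have : Lay J 3 ∨ Lay J 4 := by
      rcases e with _ | _ | e
      · exact .inl ⟨s, s1, s4.trans le_sup_left⟩
      · exact .inr ⟨s, s1, s4.trans le_sup_left⟩
      refine h.lay_two g (h.pw_anti (by omega) (by omega) s1) (fun w hw => ?_) hd
      obtain ⟨η, σ, γ, e1, e2⟩ := k2 w (h.pw_succ 1 hw)
      have : ¬ (η ≠ 0 ∨ γ ≠ 0) := fun h0 => l2 (lay_of_rel hy c2 k3 h0 (by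
        convert sub_mem hw e2 using 1; abel))
      simp only [not_or, not_not] at this
      exact mem_line_sup.2 ⟨σ, by simpa [this] using e1⟩
    rcases this with l | l
    · have : finrank k (J ^ 2 : Submodule k R) < _ := h.finrank_lt_of_lay hZ l
      omega
    · have : finrank k (J ^ 3 : Submodule k R) < _ := h.finrank_lt_of_lay hZ l
      omega
  obtain ⟨b, hb, e1⟩ := exists_finrank_le a1 (n := 1) e1
  have a2 := sup_le a1 ((Submodule.span_singleton_le_iff_mem _ _).2 hb)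
  obtain ⟨a, ha, e1⟩ := exists_finrank_le a2 e1
  have e1 := (Submodule.eq_of_le_of_finrank_le
    (sup_le a2 ((Submodule.span_singleton_le_iff_mem _ _).2 ha)) e1).ge
  rw [sup_comm, sup_comm _ (k ∙ b), sup_comm _ (k ∙ c)] at e1
  have e2 := (Submodule.eq_of_le_of_finrank_le a0 (by omega)).ge
  let ι := Fintype.linearCombination k ![a, b, c]
  let κ := Fintype.linearCombination k ![b * c - c * b, c * a - a * c, a * b - b * a]
  have ι1 : ∀ u, ι u = u 0 • a + u 1 • b + u 2 • c := fun u => by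
    simp [ι, Fintype.linearCombination_apply, Fin.sum_univ_three]
  have κ1 : ∀ u, κ u = u 0 • (b * c - c * b) + u 1 • (c * a - a * c) + u 2 • (a * b - b * a) :=
    fun u => by simp [κ, Fintype.linearCombination_apply, Fin.sum_univ_three]
  have ι2 : ∀ u, ι u ∈ J := fun u =>
    ι1 u ▸ add_mem (add_mem (J.smul_mem _ ha) (J.smul_mem _ hb)) (J.smul_mem _ hc)
  have ι3 : ∀ x ∈ J, ∃ u, x - ι u ∈ J ^ 2 := fun x hx => by
    obtain ⟨α, β, γ, e⟩ := by simpa only [mem_line_sup] using e1 hx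
    exact ⟨![α, β, γ], by convert e using 1; simp [ι1, sub_sub, add_assoc]⟩
  have U1 : ∀ n, LinearMap.range ι ^ n ≤ J ^ n := pow_le_pow_left' (by rintro _ ⟨u, rfl⟩; exact ι2 u)
  have U2 : ∀ n, J ^ (n + 1) ≤ LinearMap.range ι ^ (n + 1) ⊔ J ^ (n + 2) := fun n => by
    induction n with
    | zero => exact fun x hx => let ⟨u, h⟩ := ι3 x ((pow_one J).le hx)
        Submodule.mem_sup.2 ⟨ι u, by simp, _, h, add_sub_cancel _ _⟩
    | succ n ih =>
      refine pw_ind fun x hx y hy => ?_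
      obtain ⟨u, hu⟩ := ι3 x hx
      obtain ⟨p, hp, q, hq, rfl⟩ := Submodule.mem_sup.1 (ih hy)
      refine Submodule.mem_sup.2 ⟨_, pw_ml u hp, _, add_mem (pw_mul (pw_one (ι2 u)) hq)
        (pw_mul hu hy), ?_⟩
      simp only [mul_add, sub_mul]; abel
  have k1 : cm J 1 ≤ LinearMap.range κ ⊔ cm J 2 := cm_le fun x hx y hy => by
    obtain ⟨u, hu⟩ := ι3 x hx
    obtain ⟨v, hv⟩ := ι3 y ((pow_one J).le hy)
    refine Submodule.mem_sup.2 ⟨_, ⟨crossProduct u v, rfl⟩, _,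
      add_mem (mem_cm_two hu hy) (mem_cm (ι2 u) hv), ?_⟩
    simp only [κ1, ι1, cross_apply, Matrix.cons_val, mul_sub, sub_mul, mul_add, add_mul,
      smul_mul_assoc, mul_smul_comm]
    module
  have k2 : ∀ w ∈ J ^ 2, ∃ γ, ∃ σ : k, w - κ γ - σ • s ∈ cm J 2 := fun w hw => by
    obtain ⟨σ, e⟩ := mem_line_sup.1 (e2 hw)
    obtain ⟨_, ⟨γ, rfl⟩, z, hz, e⟩ := Submodule.mem_sup.1 (k1 e)
    exact ⟨γ, σ, by rwa [sub_right_comm, ← e, add_sub_cancel_left]⟩
  have k3 : ∀ w ∈ J ^ 2, ∃ γ, w - κ γ ∈ J ^ 3 := fun w hw => by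
    obtain ⟨γ, σ, e⟩ := k2 w hw
    exact ⟨γ, by simpa using add_mem (cm_le_pw 2 e) (Submodule.smul_mem _ σ
      (h.pw_anti (by omega) (by omega) s1))⟩
  rcases e with _ | n
  · have h1 : J ^ 2 ≤ LinearMap.range κ ⊔ k ∙ s := fun w hw => let ⟨γ, e⟩ := k3 w hw
      Submodule.mem_sup.2 ⟨_, ⟨γ, rfl⟩, _, s4 e, add_sub_cancel _ _⟩
    have h2 := (Submodule.finrank_mono (h1.trans (sup_comm _ _).le)).trans (finrank_sup_le _ _)
    have h3 := κ.finrank_range_le
    rw [finrank_fin_fun] at h3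
    omega
  have z : ∀ {p q x}, x ∈ J ^ p → p + q = n + 5 → tp t (LinearMap.range ι ^ q) x = 0 :=
    fun hx e => tp_eq_zero.2 fun w hw => by
      rw [(Submodule.mem_bot k).1 (s3.le (pw_mul hx (U1 _ hw))), map_zero]
  have k4 : cm J 2 ≤ Submodule.span k {c | ∃ u v w, ι u * (ι v * ι w) - ι v * ι w * ι u = c} ⊔ J ^ 4 :=
    cm_le fun x hx y hy => by
      obtain ⟨u, hu⟩ := ι3 x hx
      obtain ⟨p, hp, q, hq, rfl⟩ := Submodule.mem_sup.1 (U2 1 hy)
      refine Submodule.mem_sup.2 ⟨ι u * p - p * ι u, ?_, _, cm_le_pw 3 (add_mem (mem_cm_two hu hy)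
        (mem_cm (ι2 u) hq)), by simp only [mul_sub, sub_mul, mul_add, add_mul]; abel⟩
      refine Submodule.mul_induction_on (C := fun p => ι u * p - p * ι u ∈ _)
        ((sq (LinearMap.range ι)).le hp) ?_ fun x y h1 h2 => by
        convert add_mem h1 h2 using 1
        simp only [mul_add, add_mul]; abel
      rintro _ ⟨v, rfl⟩ _ ⟨w, rfl⟩
      exact Submodule.subset_span ⟨u, v, w, rfl⟩
  obtain ⟨p, hp, q, hq, rfl⟩ := Submodule.mem_sup.1 (U2 (n + 3) ((congrArg (J ^ ·) (by omega)).le s1))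
  rw [(Submodule.mem_bot k).1 (s3.le ((congrArg (J ^ ·) (by omega)).le hq)), add_zero] at *
  refine s2 (trace_three h.sym (n := n) (finrank_fin_fun k) κ (fun γ => ?_) (fun u v => ?_)
    (fun u v w => ?_) p hp)
  · rw [κ1]
    refine add_mem (add_mem ?_ ?_) ?_ <;> refine Submodule.smul_mem _ _ (Submodule.subset_span ?_)
    exacts [⟨![0, 1, 0], ![0, 0, 1], by simp [ι1]⟩, ⟨![0, 0, 1], ![1, 0, 0], by simp [ι1]⟩,
      ⟨![1, 0, 0], ![0, 1, 0], by simp [ι1]⟩]
  · exact (k3 _ (pw_mul (pw_one (ι2 u)) (pw_one (ι2 v)))).imp fun γ e => z e (by omega)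
  · have h1 := pw_mul (pw_mul (pw_one (ι2 u)) (pw_one (ι2 v)) rfl) (pw_one (ι2 w)) (n := 3)
    obtain ⟨γ, σ, e⟩ := k2 _ (h.pw_succ 1 h1)
    obtain ⟨c, c1, d, d1, e'⟩ := Submodule.mem_sup.1 (k4 e)
    have h2 : σ • p ∈ J ^ 4 := Submodule.smul_mem _ σ (h.pw_anti (by omega) (by omega) s1)
    refine ⟨γ, c, c1, z (p := 3) ?_ (by omega), z (p := 4) ?_ (by omega)⟩
    · convert sub_mem (sub_mem h1 (cm_le_pw 2 e)) (h.pw_succ 2 h2) using 1
      abel
    · convert add_mem d1 h2 using 1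
      linear_combination (norm := abel) -e'

end SL

open H5 Cfsg MonoidAlgebra

variable {M : Ideal AlgInt} {G : Type*} [Group G] [Finite G] [M.IsMaximal] {A : Set (IrrCharacter G)}

theorem IsSat.cart_le_nine (hA : IsSat M A) {j : IBr M G} (hj : IB M A = {j}) (h5 : Nat.card A ≤ 5) :
    cart j j ≤ 9 := by
  have := Fintype.ofFinite G
  have := isAlgClosed_F M
  obtain ⟨x, y, e⟩ := hA.exists_sum_eq_fB hj
  have hf := hA.fB_mul_pidem (hj.ge rfl)
  have hc := exists_corner j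
  have hn : redA M (pidem j).1 ∉ Ring.jacobson (F M)[G] := fun h => by
    simpa [brep_pidem] using congrFun₂ (mem_jacobson_iff.1 h j) (bo j) (bo j)
  rw [← finrank_corner]
  rw [← hA.finrank_ZB] at h5
  have hi : IsIdempotentElem (redA M (pidem j).1) := (pidem_idem j).map (redH M G)
  generalize redA M (pidem j).1 = i at *
  let C := LinearMap.range (LinearMap.mulLeftRight (F M) (i, i))
  let J := C ⊓ (Ring.jacobson (F M)[G]).restrictScalars (F M)
  have c1 : ∀ {a}, a ∈ C ↔ i * a = a ∧ a * i = a := (Subsemigroup.mem_corner_iff hi)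
  replace hc : ∀ r, ∃ c : F M, i * r * i - c • i ∈ J := fun r => (hc r).imp fun c hc =>
    ⟨sub_mem ⟨r, rfl⟩ (C.smul_mem c (c1.2 ⟨hi, hi⟩)), hc⟩
  have c2 : J ⊔ (F M) ∙ i = C := le_antisymm (sup_le inf_le_left
    ((Submodule.span_singleton_le_iff_mem _ _).2 (c1.2 ⟨hi, hi⟩))) (by
      rintro _ ⟨r, rfl⟩
      obtain ⟨c, hc⟩ := hc r
      exact Submodule.mem_sup.2 ⟨_, hc, _, Submodule.mem_span_singleton.2 ⟨c, rfl⟩,
        sub_add_cancel _ _⟩)
  have s : SL i J (cf1 (F M) G) := ⟨fun x hx => (c1.1 hx.1).1, fun x hx => (c1.1 hx.1).2,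
    Submodule.mul_le.2 fun a ha b hb => ⟨c1.2 ⟨by rw [← mul_assoc, (c1.1 ha.1).1], by
      rw [mul_assoc, (c1.1 hb.1).2]⟩, Ideal.mul_mem_left _ _ hb.2⟩,
    nil_jac.imp fun n h => le_bot_iff.1 ((pow_le_pow_left' inf_le_right n).trans h.le),
    fun h => hn h.2, cf1_comm, fun a ha h1 h2 => eq_zero_of_coeff_one fun b => by
      obtain ⟨a1, a2⟩ := c1.1 (c2.le ha)
      obtain ⟨c, hc⟩ := hc b
      have := h2 _ hc
      rwa [mul_sub, mul_smul_comm, a2, map_sub, map_smul, h1, smul_zero, sub_zero, ← mul_assoc,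
        cf1_comm, ← mul_assoc, ← mul_assoc, a1, a2, cf1_comm] at this⟩
  have key : ∀ z ∈ J ⊔ (F M) ∙ i, (∀ x ∈ J, z * x = x * z) →
      z ∈ (ZB M A).map (LinearMap.mulRight (F M) i) := fun z hz h => by
    obtain ⟨z1, z2⟩ := c1.1 (c2.le hz)
    have h1 : ∀ r, z * r * i = i * r * z := fun r => by
      obtain ⟨c, hc⟩ := hc r
      have := h _ hc
      rwa [mul_sub, sub_mul, mul_smul_comm, smul_mul_assoc, z1, z2, sub_left_inj, ← mul_assoc,
        ← mul_assoc, z2, mul_assoc _ i, z1] at this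
    have h2 : fB M A * z = z := by rw [← z1, ← mul_assoc, hf]
    have h3 : fB M A * ∑ a, x a * z * y a = ∑ a, x a * z * y a := by
      simp only [Finset.mul_sum, ← mul_assoc, Z_comm (fB_mem_Z A) (x _)]
      simp only [mul_assoc (x _), h2]
    refine ⟨∑ a, x a * z * y a, ⟨Subalgebra.mem_center_iff.2 fun r => ?_, h3⟩, ?_⟩
    · rw [← h3, ← mul_assoc, ← Z_comm (fB_mem_Z A), mul_assoc (fB M A) _ r, Z_comm (fB_mem_Z A) (_ * r),
        ← e]
      simp only [Finset.mul_sum, Finset.sum_mul]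
      refine Finset.sum_congr rfl fun a _ => Finset.sum_congr rfl fun b _ => ?_
      simpa only [mul_assoc] using congrArg (x b * · * y a) (h1 (y b * r * x a)).symm
    · refine Eq.trans ?_ h2
      simp only [← e, LinearMap.mulRight_apply, Finset.sum_mul, mul_assoc (x _), h1]
  have h1 := s.le_eight key ((Submodule.finrank_map_le _ _).trans h5)
  have h2 := finrank_sup_le J i
  rw [sup_comm, c2] at h2
  exact h2.trans (by omega)

end H7
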