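import Cfsg.Agent.H7.IBr
import Cfsg.Agent.H8.Good
import Cfsg.Agent.H26.Zsig
import Cfsg.Agent.S0041
/-! Brauer lift of a modular representation of a `p'`-group (`exists_lift`) and the twisted
transitive lemma `tw_card_le`: a `p'`-group acting faithfully and transitively on the non-identity
elements of an abelian `p`-group `A`, with an alternating bicharacter whose point stabilizers have
no good element `≠ 1` and with at most one good class `≠ 1`, forces `#A ≤ 3`. -/
open H5 Cfsg Finset MonoidAlgebra Module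
namespace H7
variable {M : Ideal AlgInt} {p : ℕ} [hp : Fact p.Prime] [PM p M] {E : Type*} [Group E] [Finite E]

theorem exists_lift (hE : ¬ p ∣ Nat.card E) {V : Type*} [AddCommGroup V] [Module (F M) V]
    [FiniteDimensional (F M) V] (ρ : Representation (F M) E V) :
    ∃ β : E → ℂ, IsCharacter E β ∧ β 1 = finrank (F M) V ∧ (∀ g, β g = β 1 → ρ g = 1) ∧
      ∀ (K : Subgroup E) [Fintype K] (l : K →* ℂˣ),
        (∀ v, (∀ k : K, red M (l k : ℂ) • ρ k v = v) → v = 0) → ∑ k : K, β k * l k = 0 := by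
  classical
  have hr : RkF fun a : OG M E =>
      finrank (F M) (LinearMap.range (ρ.asAlgebraHom (redA M a.1))) :=
    (rkF_range (F M) V).comp (ρ.asAlgebraHom.toRingHom.comp (redH M E))
  obtain ⟨β, hβ, h⟩ : ∃ β : E → ℂ, IsCharacter E β ∧ ∀ e, IsIdempotentElem e → e ∈ OG M E →
      ev β e = finrank (F M) (LinearMap.range (ρ.asAlgebraHom (redA M e))) := by
    refine ⟨∑ i : IBr M E, (finrank (F M) (LinearMap.range
      (ρ.asAlgebraHom (redA M (pidem i).1))) : ℂ) • bch p i, ?_, fun e he hO => ?_⟩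
    · exact IsCharacter.sum _ fun i _ => by
        rw [Nat.cast_smul_eq_nsmul]; exact (bch_eq_pim hE i).2.isCharacter.nsmul _
    · have := hr.eq_sum (idem_mk he hO)
      simp only at this
      rw [this, ev_sum_fun]
      push_cast
      refine sum_congr rfl fun i _ => ?_
      rw [ev_smul_fun, show bch p i = bth i from funext fun g => bch_of_not_dvd i fun h =>
        hE (h.trans (orderOf_dvd_natCard g)), ev_bth_idem i he hO]
      simp [mul_comm]
  have key : ∀ (K : Subgroup E) [Fintype K] (l : K →* ℂˣ), ∃ P : End (F M) V,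
      (∀ k : K, red M (l k : ℂ) • ρ k * P = P) ∧
      ∑ k : K, β k * l k = Nat.card K * finrank (F M) (LinearMap.range P) := fun K _ l => by
    have hK : ¬ p ∣ Nat.card K := fun h => hE (h.trans (Subgroup.card_subgroup_dvd_card K))
    have h0 : (Nat.card K : ℂ) ≠ 0 := Nat.cast_ne_zero.2 Nat.card_pos.ne'
    have hl : ∀ k, (l k : ℂ) ∈ O M := fun k => mem_O_of_pow_eq_one (Nat.card_pos (α := K)).ne' (by
      rw [← Units.val_pow_eq_pow_val, ← map_pow, pow_card_eq_one', map_one, Units.val_one])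
    obtain ⟨e, he⟩ : ∃ e : ℂ[E], e = ∑ k : K, ((Nat.card K : ℂ)⁻¹ * l k) • single (k : E) 1 :=
      ⟨_, rfl⟩
    have h1 : ∀ k : K, (l k : ℂ) • (single (k : E) 1 * e) = e := fun k => by
      rw [he, mul_sum, smul_sum]
      refine Fintype.sum_equiv (Equiv.mulLeft k) _ _ fun j => ?_
      rw [mul_smul_comm, single_mul_single, smul_smul]
      simp [mul_left_comm]
    have h2 : e ∈ OG M E := he ▸ sum_mem fun k _ =>
      smul_mem_OG (mul_mem (natCast_inv_mem_O hK) (hl k)) (single_mem_OG _ (one_mem _))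
    have h3 : IsIdempotentElem e := by
      rw [IsIdempotentElem]
      nth_rw 1 [he]
      simp only [sum_mul, smul_mul_assoc, mul_smul, h1]
      rw [sum_const, card_univ, ← Nat.card_eq_fintype_card, ← Nat.cast_smul_eq_nsmul ℂ, smul_smul,
        mul_inv_cancel₀ h0, one_smul]
    refine ⟨ρ.asAlgebraHom (redA M e), fun k => ?_, ?_⟩
    · conv_rhs => rw [← h1 k]
      rw [redA_smul (hl k) (mul_mem (single_mem_OG _ (one_mem _)) h2),
        redA_mul (single_mem_OG _ (one_mem _)) h2, redA_single, map_smul, map_mul,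
        Representation.asAlgebraHom_single_one, smul_mul_assoc]
    · rw [← h e h3 h2, he, map_sum, mul_sum]
      refine sum_congr rfl fun k _ => ?_
      rw [map_smul, ev_single, smul_eq_mul]
      field_simp
  have h1 : β 1 = finrank (F M) V := by
    rw [← ev_one β, h 1 .one (one_mem _), redA_one, map_one]
    rw [End.one_eq_id, LinearMap.range_id, finrank_top]
  refine ⟨β, hβ, h1, fun g hg => ?_, fun K _ l hv => ?_⟩
  · letI := Fintype.ofFinite (Subgroup.zpowers g)
    obtain ⟨P, h2, h3⟩ := key (Subgroup.zpowers g) 1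
    have h4 : ∀ k : Subgroup.zpowers g, β k = β 1 := fun k => hβ.mem_charKer.1
      (Subgroup.zpowers_le.2 (hβ.mem_charKer.2 hg) k.2)
    simp only [h4, MonoidHom.one_apply, Units.val_one, mul_one, sum_const, card_univ,
      ← Nat.card_eq_fintype_card, nsmul_eq_mul, h1] at h3
    have h5 : LinearMap.range P = ⊤ := Submodule.eq_top_of_finrank_eq
      (by exact_mod_cast (mul_left_cancel₀ (Nat.cast_ne_zero.2 Nat.card_pos.ne') h3).symm)
    ext v
    obtain ⟨v, rfl⟩ := LinearMap.range_eq_top.1 h5 v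
    simpa using congrArg (· v) (h2 ⟨g, Subgroup.mem_zpowers g⟩)
  · obtain ⟨P, h2, h3⟩ := key K l
    rw [h3, show P = 0 from LinearMap.ext fun v => hv _ fun k => by
      simpa using congrArg (· v) (h2 k)]
    simp

omit hp in
theorem isCyclic_of_fpf {A : Type*} [CommGroup A] [Finite A] [Nontrivial A] (a : E →* MulAut A)
    (hc : ∀ x y : E, x * y = y * x) (h : ∀ g, g ≠ 1 → ∀ u, a g u = u → u = 1) : IsCyclic E := by
  haveI : Finite (A ⋊[a] E) := Finite.of_equiv _ SemidirectProduct.equivProd.symm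
  haveI : (SemidirectProduct.inl : A →* A ⋊[a] E).range.Normal := by
    rw [SemidirectProduct.range_inl_eq_ker_rightHom]; infer_instance
  haveI : IsMulCommutative (SemidirectProduct.inl : A →* A ⋊[a] E).range := ⟨⟨by
    rintro ⟨_, x, rfl⟩ ⟨_, y, rfl⟩
    exact Subtype.ext (by simp [← map_mul, mul_comm])⟩⟩
  have := Cfsg.Agent.S0041.result (G := A ⋊[a] E) SemidirectProduct.inr.range
    SemidirectProduct.inl.range (fun e => by
      obtain ⟨u, hu⟩ := exists_ne (1 : A)
      exact hu (SemidirectProduct.inl_injective ((Subgroup.mem_bot.1 (e.le ⟨u, rfl⟩)).trans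
        (map_one _).symm)))
    (by rw [Subgroup.normalizer_eq_top]; exact le_top) (by
      rintro _ ⟨g, rfl⟩ hg
      refine eq_bot_iff.2 ?_
      rintro _ ⟨⟨u, rfl⟩, hu⟩
      have h1 := congrArg SemidirectProduct.left (Subgroup.mem_centralizer_singleton_iff.1 hu)
      rw [h g (fun e => hg (by simp [e])) u (by simpa using h1.symm), map_one]
      exact one_mem _) (.inl ⟨⟨by
    rintro ⟨_, x, rfl⟩ ⟨_, y, rfl⟩
    exact Subtype.ext (by simp only [Subgroup.coe_mul, ← map_mul, hc x y])⟩⟩)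
  exact isCyclic_of_surjective (MonoidHom.ofInjective
    (SemidirectProduct.inr_injective (φ := a))).symm (MulEquiv.surjective _)

/-- `y` is good for the bicharacter `ε`. -/
def Gd (ε : E → E → ℂˣ) (y : E) : Prop := ∀ g, Commute g y → ε y g = 1

/-- The data of the twisted transitive lemma. -/
structure TW {A : Type*} [Group A] (a : E →* MulAut A) (ε : E → E → ℂˣ) : Prop where
  inj : Function.Injective a
  mul : ∀ y g g', Commute g y → Commute g' y → ε y (g * g') = ε y g * ε y g'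
  anti : ∀ y g, Commute g y → ε y g * ε g y = 1
  self : ∀ g, ε g g = 1
  tr : ∀ u v : A, u ≠ 1 → v ≠ 1 → ∃ g, a g u = v
  st : ∀ u : A, u ≠ 1 → ∀ y, y ≠ 1 → a y u = u → ∃ g, a g u = u ∧ Commute g y ∧ ε y g ≠ 1
  gd : ∀ g g', g ≠ 1 → g' ≠ 1 → Gd ε g → (Gd ε g' ↔ IsConj g g')

namespace TW
variable {A : Type*} [CommGroup A] [Finite A] {a : E →* MulAut A} {ε : E → E → ℂˣ}
omit hp

/-- `ε y` as a linear character of the centralizer of `y`. -/
def hom (h : TW a ε) (y : E) : Subgroup.centralizer ({y} : Set E) →* ℂˣ :=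
  MonoidHom.mk' (fun g => ε y g) fun g g' => h.mul _ _ _
    (Subgroup.mem_centralizer_singleton_iff.1 g.2) (Subgroup.mem_centralizer_singleton_iff.1 g'.2)

omit [Finite E] [Finite A] in
theorem zpow (h : TW a ε) (x : E) (i j : ℤ) : ε (x ^ i) (x ^ j) = 1 := by
  have h1 : ∀ y, ∀ hy : Commute x y, ∀ j : ℤ, ε y (x ^ j) = ε y x ^ j := fun y hy j =>
    map_zpow (h.hom y) ⟨x, Subgroup.mem_centralizer_singleton_iff.2 hy⟩ j
  have h2 := h.anti x (x ^ i) (Commute.zpow_self x i)
  rw [h1 x rfl, h.self, one_zpow, one_mul] at h2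
  rw [h1 _ (Commute.self_zpow x i), h2, one_zpow]

omit [Finite E] [Finite A] in
theorem one (h : TW a ε) (g : E) : ε 1 g = 1 := by simpa using h.zpow g 0 1

theorem gd_of_fpf [Nontrivial A] (h : TW a ε) {y : E}
    (hy : ∀ g, g ≠ 1 → Commute g y → ∀ u, a g u = u → u = 1) : Gd ε y := fun g hg => by
  have hc : ∀ x ∈ Subgroup.closure ({g, y} : Set E), Commute x y := fun x hx =>
    Subgroup.mem_centralizer_singleton_iff.1 ((Subgroup.closure_le _).2 (by
      rintro _ (rfl | rfl)
      exacts [Subgroup.mem_centralizer_singleton_iff.2 hg,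
        Subgroup.mem_centralizer_singleton_iff.2 rfl]) hx)
  haveI := Subgroup.isMulCommutative_closure (G := E) (k := {g, y}) (by
    rintro _ (rfl | rfl) _ (rfl | rfl)
    exacts [rfl, hg, hg.symm, rfl])
  obtain ⟨x, hx⟩ := (isCyclic_of_fpf (a.comp (Subgroup.closure ({g, y} : Set E)).subtype)
    (fun x y => mul_comm' x y) fun x h1 u => hy x (by simpa using h1) (hc x x.2) u).exists_generator
  obtain ⟨i, hi⟩ := hx ⟨g, Subgroup.subset_closure (by simp)⟩
  obtain ⟨j, hj⟩ := hx ⟨y, Subgroup.subset_closure (by simp)⟩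
  have := h.zpow (x : E) j i
  rwa [show (x : E) ^ i = g from congrArg Subtype.val hi,
    show (x : E) ^ j = y from congrArg Subtype.val hj] at this

include hp

omit [Finite E] in
theorem pow_eq_one (h : TW a ε) (hA : IsPGroup p A) (u : A) : u ^ p = 1 := by
  by_cases hu : u = 1
  · simp [hu]
  haveI : Nontrivial A := ⟨u, 1, hu⟩
  obtain ⟨v, hv⟩ := exists_prime_orderOf_dvd_card' p
    (hA.card_eq_or_dvd.resolve_left Finite.one_lt_card.ne')
  obtain ⟨g, rfl⟩ := h.tr v u (fun e => hp.out.one_lt.ne (by rw [← hv, e, orderOf_one])) hu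
  rw [← map_pow, ← hv, pow_orderOf_eq_one, map_one]

variable (M) in
omit [Finite A] in
theorem _root_.H7.exists_addHom_ne (hA : ∀ u : A, u ^ p = 1) {u : A} (hu : u ≠ 1) :
    ∃ f : Additive A →+ F M, f (.ofMul u) ≠ 0 := by
  have key : ∀ [Module (ZMod p) (Additive A)], ∃ f : Additive A →+ F M, f (.ofMul u) ≠ 0 := by
    intro _
    obtain ⟨φ, hφ⟩ := not_forall.1 ((Module.forall_dual_apply_eq_zero_iff (ZMod p)
      (Additive.ofMul u)).not.2 hu)
    exact ⟨(ZMod.castHom (dvd_refl p) (F M)).toAddMonoidHom.comp φ.toAddMonoidHom,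
      (map_ne_zero_iff _ (ZMod.castHom (dvd_refl p) (F M)).injective).2 hφ⟩
  exact @key (AddCommGroup.zmodModule fun x => hA x.toMul)

theorem exists_gd (M : Ideal AlgInt) [PM p M] (h : TW a ε) (hE : ¬ p ∣ Nat.card E) (hA : IsPGroup p A) (h2 : 2 < Nat.card A) :
    ∃ x, x ≠ 1 ∧ Gd ε x ∧ x ^ 2 = 1 := by
  classical
  letI := Fintype.ofFinite E
  let ρ : Representation (F M) E (Additive A →+ F M) :=
    { toFun := fun g =>
        { toFun := fun f => f.comp (MonoidHom.toAdditive (a g⁻¹).toMonoidHom)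
          map_add' := fun _ _ => rfl
          map_smul' := fun _ _ => rfl }
      map_one' := by ext; simp
      map_mul' := fun _ _ => by ext; simp }
  have hρ : ∀ g (f : Additive A →+ F M) u, ρ g f (.ofMul u) = f (.ofMul (a g⁻¹ u)) := fun _ _ _ => rfl
  haveI : FiniteDimensional (F M) (Additive A →+ F M) := Module.Finite.of_injective
    (⟨⟨fun f => f, fun _ _ => rfl⟩, fun _ _ => rfl⟩ :
      (Additive A →+ F M) →ₗ[F M] Additive A → F M) DFunLike.coe_injective
  obtain ⟨β, hβ, h1, h3, h4⟩ := exists_lift hE ρ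
  haveI : Nontrivial A := Finite.one_lt_card_iff_nontrivial.1 (by omega)
  have h5 : β 1 ≠ 0 := by
    obtain ⟨u, hu⟩ := exists_ne (1 : A)
    obtain ⟨f, hf⟩ := exists_addHom_ne M (h.pow_eq_one hA) hu
    haveI : Nontrivial (Additive A →+ F M) := ⟨f, 0, fun e => hf (by simp [e])⟩
    rw [h1]
    exact Nat.cast_ne_zero.2 finrank_pos.ne'
  have h6 : ∀ y, ∑ k : Subgroup.centralizer ({y} : Set E), β k * ε y k = 0 := fun y =>
    h4 _ (h.hom y) fun f hf => by
      replace hf : ∀ k, Commute k y → ∀ u,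
          red M (ε y k : ℂ) * f (.ofMul (a k⁻¹ u)) = f (.ofMul u) := fun k hk u =>
        congrArg (· (Additive.ofMul u)) (hf ⟨k, Subgroup.mem_centralizer_singleton_iff.2 hk⟩)
      by_contra h0
      obtain ⟨u, hu⟩ : ∃ u, f (.ofMul u) ≠ 0 := by
        by_contra! hu
        exact h0 (AddMonoidHom.ext hu)
      by_cases hy : y = 1
      · subst hy
        have e : ∀ v, v ≠ 1 → f (.ofMul v) = f (.ofMul u) := fun v hv => by
          obtain ⟨g, rfl⟩ := h.tr u v (fun e => hu (by simp [e])) hv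
          simpa [h.one] using (hf g (Commute.one_right g) (a g u)).symm
        obtain ⟨v, hv, hv'⟩ : ∃ v, v ≠ 1 ∧ v ≠ u⁻¹ := by
          by_contra! hv
          have : (Set.univ : Set A) ⊆ {1, u⁻¹} := fun v _ => by
            by_cases e : v = 1
            exacts [.inl e, .inr (hv v e)]
          have := (Set.ncard_le_ncard this).trans (Set.ncard_insert_le _ _)
          rw [Set.ncard_univ, Set.ncard_singleton] at this
          omega
        have := e (u * v) fun e => hv' (eq_inv_of_mul_eq_one_right e)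
        rw [ofMul_mul, map_add, e v hv, add_eq_left] at this
        exact hu this
      have e1 : ∀ v, f (.ofMul (a y v)) = f (.ofMul v) := fun v => by
        simpa [h.self] using (hf y rfl (a y v)).symm
      have e2 : ∀ (i : ℕ) v, f (.ofMul (a (y ^ i) v)) = f (.ofMul v) := fun i => by
        induction i with
        | zero => simp
        | succ i ih => intro v; rw [pow_succ', map_mul, MulAut.mul_apply, e1, ih]
      have e3 : f (.ofMul (∏ i ∈ range (orderOf y), a (y ^ i) u)) ≠ 0 := by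
        rw [ofMul_prod, map_sum]
        simp only [e2, sum_const, card_range, nsmul_eq_mul]
        exact mul_ne_zero (fun e => hE (((natCast_F_eq_zero_iff _).1 e).trans
          (orderOf_dvd_natCard y))) hu
      obtain ⟨g, e4, e5, e6⟩ := h.st (∏ i ∈ range (orderOf y), a (y ^ i) u)
        (fun e => e3 (by rw [e, ofMul_one, map_zero])) y hy (by
          have := prod_range_succ (fun i => a (y ^ i) u) (orderOf y)
          rw [prod_range_succ', pow_orderOf_eq_one, pow_zero, mul_left_inj] at this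
          rw [map_prod]
          simpa only [pow_succ', map_mul, MulAut.mul_apply] using this)
      have e7 := hf g e5 (a g (∏ i ∈ range (orderOf y), a (y ^ i) u))
      rw [map_inv, MulAut.inv_apply_self, e4, mul_eq_right₀ e3] at e7
      refine e6 (Units.ext (eq_one_of_red_eq_one hE ?_ e7))
      have := map_pow (h.hom y) ⟨g, Subgroup.mem_centralizer_singleton_iff.2 e5⟩ (Nat.card E)
      rw [show (⟨g, _⟩ : Subgroup.centralizer ({y} : Set E)) ^ Nat.card E = 1 from
        Subtype.ext (by simp), map_one] at this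
      exact congrArg Units.val this.symm
  have h7 : ∑ g, β g * (if Gd ε g then
      (Nat.card (Subgroup.centralizer ({g} : Set E)) : ℂ) else 0) = 0 := by
    have e : ∀ y, ∑ g, (if Commute g y then β g * ε y g else 0) = 0 := fun y => by
      rw [← sum_filter, ← h6 y]
      exact sum_subtype _ (fun g => by
        simp [Subgroup.mem_centralizer_singleton_iff, commute_iff_eq]) _
    refine Eq.trans ?_ (sum_comm.trans (sum_eq_zero fun y (_ : y ∈ univ) => e y))
    refine sum_congr rfl fun g _ => Eq.symm ?_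
    rw [← sum_filter, ← mul_sum, sum_subtype (p := (· ∈ Subgroup.centralizer ({g} : Set E))) _
      (fun y => by simp [Subgroup.mem_centralizer_singleton_iff, commute_iff_eq, @eq_comm _ (g * y)]),
      sum_congr rfl (g := fun y => (Units.coeHom ℂ).comp (h.hom g)⁻¹ y) fun y _ => congrArg
        Units.val (eq_inv_of_mul_eq_one_left
          (h.anti y g (Subgroup.mem_centralizer_singleton_iff.1 y.2).symm)), sum_hom_units]
    congr 1
    push_cast
    refine if_congr ⟨fun e y hy => ?_, fun e => MonoidHom.ext fun y => ?_⟩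
      (by rw [Nat.card_eq_fintype_card]) rfl
    · simpa [hom] using DFunLike.congr_fun e ⟨y, Subgroup.mem_centralizer_singleton_iff.2 hy⟩
    · simpa [hom] using e y (Subgroup.mem_centralizer_singleton_iff.1 y.2)
  have h8 : (Nat.card E : ℂ) ≠ 0 := Nat.cast_ne_zero.2 Nat.card_pos.ne'
  rw [← add_sum_erase _ _ (mem_univ 1), if_pos (show Gd ε 1 from fun g _ => h.one g),
    Subgroup.centralizer_eq_top_iff_subset.2 (by simp), Subgroup.card_top] at h7
  by_cases hx : ∃ x, x ≠ 1 ∧ Gd ε x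
  swap
  · rw [sum_eq_zero fun g hg => by
      rw [if_neg fun e => hx ⟨g, ne_of_mem_erase hg, e⟩, mul_zero], add_zero] at h7
    exact absurd h7 (mul_ne_zero h5 h8)
  obtain ⟨x, hx, hx'⟩ := hx
  refine ⟨x, hx, hx', ?_⟩
  have h9 : (∑ g, if ConjClasses.mk g = ConjClasses.mk x then
      (Nat.card (Subgroup.centralizer ({g} : Set E)) : ℂ) else 0) =
      Nat.card E * Nat.card {C // C = ConjClasses.mk x} := by
    convert H8.sum_card_centralizer_filter (G := E) (· = ConjClasses.mk x)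
  rw [Nat.card_unique (α := {C // C = _}), Nat.cast_one, mul_one, ← add_sum_erase _ _ (mem_univ 1),
    if_neg fun e => hx (isConj_one_right.1 (ConjClasses.mk_eq_mk_iff_isConj.1 e)), zero_add] at h9
  rw [sum_congr rfl (g := fun g => β x * if ConjClasses.mk g = ConjClasses.mk x then
    (Nat.card (Subgroup.centralizer ({g} : Set E)) : ℂ) else 0) fun g hg => by
      have := h.gd x g hx (ne_of_mem_erase hg) hx'
      by_cases e : IsConj x g
      · rw [if_pos (this.2 e), if_pos (ConjClasses.mk_eq_mk_iff_isConj.2 e.symm),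
          hβ.isClassFunction.eq_of_isConj e]
      · rw [if_neg (this.not.2 e), if_neg fun e' => e (ConjClasses.mk_eq_mk_iff_isConj.1 e').symm]
        simp, ← mul_sum, h9, ← add_mul, mul_eq_zero, or_iff_left h8, add_eq_zero_iff_neg_eq] at h7
  obtain ⟨c, -, hc⟩ := hβ.mem_charCenter.2 (show ‖β x‖ = ‖β 1‖ by rw [← h7, norm_neg])
  have h10 := hc 1
  rw [mul_one, ← h7, ← neg_one_mul, mul_left_inj' h5] at h10
  have h11 := h3 (x ^ 2)⁻¹⁻¹ (by rw [inv_inv, sq, hc, ← h10, ← h7]; simp)
  rw [inv_inv] at h11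
  refine inv_eq_one.1 (h.inj (MulEquiv.ext fun u => ?_))
  by_contra e
  obtain ⟨f, hf⟩ := exists_addHom_ne M (h.pow_eq_one hA) (div_ne_one.2 e)
  rw [ofMul_div, map_sub, ← hρ, h11] at hf
  simp at hf

/-- The fixed points of `g`. -/
def Fx (a : E →* MulAut A) (g : E) : Subgroup A := (a g).toMonoidHom.eqLocus (MonoidHom.id A)

/-- The elements inverted by `g`. -/
def Iv (a : E →* MulAut A) (g : E) : Subgroup A := (a g).toMonoidHom.eqLocus invMonoidHom

section
omit hp [Finite E] [Finite A]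

theorem mem_Fx {g : E} {u : A} : u ∈ Fx a g ↔ a g u = u := Iff.rfl

theorem mem_Iv {g : E} {u : A} : u ∈ Iv a g ↔ a g u = u⁻¹ := Iff.rfl

theorem Fx_inv {g y : E} (h : Commute g y) : ∀ u ∈ Fx a g, a y u ∈ Fx a g := fun u hu => by
  rw [mem_Fx, ← MulAut.mul_apply, ← map_mul, h.eq, map_mul, MulAut.mul_apply, mem_Fx.1 hu]

theorem Iv_inv {g y : E} (h : Commute g y) : ∀ u ∈ Iv a g, a y u ∈ Iv a g := fun u hu => by
  rw [mem_Iv, ← MulAut.mul_apply, ← map_mul, h.eq, map_mul, MulAut.mul_apply, mem_Iv.1 hu, map_inv]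

theorem Fx_ne_top (h : TW a ε) {g : E} (hg : g ≠ 1) : Fx a g ≠ ⊤ := fun e =>
  hg (h.inj (MulEquiv.ext fun u => by simpa using mem_Fx.1 (e.ge (Subgroup.mem_top u))))

theorem mul_mem_Fx {t : E} (ht : t ^ 2 = 1) (u : A) : u * a t u ∈ Fx a t := by
  rw [mem_Fx, map_mul, ← MulAut.mul_apply, ← map_mul, ← sq, ht, map_one, MulAut.one_apply, mul_comm]

theorem mul_mem_Iv {t : E} (ht : t ^ 2 = 1) (u : A) : u * (a t u)⁻¹ ∈ Iv a t := by
  rw [mem_Iv, map_mul, map_inv, ← MulAut.mul_apply, ← map_mul, ← sq, ht, map_one, MulAut.one_apply,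
    mul_inv, inv_inv, mul_comm]

theorem Iv_ne_bot (h : TW a ε) {t : E} (ht : t ^ 2 = 1) (h1 : t ≠ 1) : Iv a t ≠ ⊥ := fun e =>
  h.Fx_ne_top h1 (eq_top_iff.2 fun u _ => (mul_inv_eq_one.1 (e.le (mul_mem_Iv ht u))).symm)
end

omit hp [Finite E] in
theorem card_modEq {S : Subgroup A} {y : E} {r : ℕ} [Fact r.Prime] (hy : y ^ r = 1)
    (hS : ∀ u ∈ S, a y u ∈ S) : Nat.card S ≡ Nat.card (S ⊓ Fx a y : Subgroup A) [MOD r] := by
  classical
  letI := Fintype.ofFinite S
  let f : Function.End S := fun u => ⟨a y u, hS _ u.2⟩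
  have h1 : ∀ (n : ℕ) (u : S), ((f ^ n) u : A) = a (y ^ n) u := fun n => by
    induction n with
    | zero => intro u; simp; rfl
    | succ n ih => intro u; rw [pow_succ, pow_succ, map_mul, MulAut.mul_apply]; exact ih (f u)
  have := Equiv.Perm.card_fixedPoints_modEq (f := f) (p := r) (n := 1)
    (funext fun u => Subtype.ext (by rw [h1, pow_one, hy, map_one]; rfl))
  rw [← Nat.card_eq_fintype_card, ← Nat.card_eq_fintype_card] at this
  rwa [Nat.card_congr (α := (S ⊓ Fx a y : Subgroup A)) (β := f.fixedPoints) ⟨fun u => ⟨⟨u.1, u.2.1⟩, Subtype.ext u.2.2⟩,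
    fun u => ⟨u.1.1, u.1.2, congrArg Subtype.val u.2⟩, fun _ => rfl, fun _ => rfl⟩]

omit [Finite E] in
theorem pm {S : Subgroup A} (hS : Nat.card S = p) {s : E} (hs : s ^ 2 = 1)
    (h : ∀ u ∈ S, a s u ∈ S) : S ≤ Fx a s ∨ S ≤ Iv a s := by
  haveI : Fact (Nat.card S).Prime := hS ▸ hp
  refine ((Fx a s).subgroupOf S).eq_bot_or_eq_top_of_prime_card.symm.imp
    Subgroup.subgroupOf_eq_top.1 fun e u hu => ?_
  exact eq_inv_of_mul_eq_one_right (congrArg Subtype.val
    (e.le (show (⟨_, mul_mem hu (h u hu)⟩ : S) ∈ _ from mul_mem_Fx hs u)))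

omit [Finite E] in
theorem four {S : Subgroup A} (hS : Nat.card S = p) {y : E} (h : ∀ u ∈ S, a y u ∈ S)
    (h' : S ≤ Iv a (y ^ 2)) : p % 4 ≠ 3 := by
  haveI : Nontrivial S := Finite.one_lt_card_iff_nontrivial.1 (hS ▸ hp.out.one_lt)
  obtain ⟨b, hb⟩ := exists_ne (1 : S)
  obtain ⟨i, hi⟩ := mem_zpowers_of_prime_card hS hb (g' := ⟨_, h b b.2⟩)
  replace hi : (b : A) ^ i = a y b := congrArg Subtype.val hi
  have h1 := mem_Iv.1 (h' b.2)
  rw [sq, map_mul, MulAut.mul_apply, ← hi, map_zpow, ← hi, ← zpow_mul, eq_inv_iff_mul_eq_one,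
    ← zpow_add_one, ← orderOf_dvd_iff_zpow_eq_one, Subgroup.orderOf_coe,
    orderOf_eq_prime (hS ▸ pow_card_eq_one') hb, ← ZMod.intCast_zmod_eq_zero_iff_dvd] at h1
  refine ZMod.mod_four_ne_three_of_sq_eq_neg_one (y := (i : ZMod p)) ?_
  push_cast at h1
  linear_combination h1

theorem card_le (M : Ideal AlgInt) [PM p M] (h : TW a ε) (hE : ¬ p ∣ Nat.card E)
    (hA : IsPGroup p A) : Nat.card A ≤ 3 := by
  classical
  by_contra! h3
  haveI : Nontrivial A := Finite.one_lt_card_iff_nontrivial.1 (by omega)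
  obtain ⟨x, hx, hx1, hx2⟩ := h.exists_gd M hE hA (by omega)
  have hg : ∀ y, Gd ε y → y ^ 2 = 1 := fun y hy => by
    by_cases e : y = 1
    · simp [e]
    · exact isConj_one_right.1 (hx2 ▸ ((h.gd x y hx e hx1).1 hy).pow 2)
  have hp2 : p ≠ 2 := fun e => hE (by
    rw [e, ← orderOf_eq_prime hx2 hx]; exact orderOf_dvd_natCard x)
  have hsq : ∀ u : A, u ^ 2 = 1 → u = 1 := fun u hu => by
    have := pow_gcd_eq_one.2 ⟨hu, h.pow_eq_one hA u⟩
    rwa [show Nat.gcd 2 p = 1 from (Nat.coprime_primes Nat.prime_two hp.out).2 hp2.symm,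
      pow_one] at this
  obtain ⟨n, hn⟩ := hA.exists_card_eq
  have hS : ∀ S : Subgroup A, S ≠ ⊤ → ∃ k < n, Nat.card S = p ^ k := fun S h1 => by
    obtain ⟨k, hk⟩ := (hA.to_subgroup S).exists_card_eq
    refine ⟨k, (Nat.pow_lt_pow_iff_right hp.out.one_lt).1 ?_, hk⟩
    rw [← hk, ← hn]
    exact lt_of_le_of_ne (Subgroup.card_le_card_group S) fun e =>
      h1 (Subgroup.eq_top_of_card_eq S e)
  obtain ⟨u₀, hu₀⟩ := exists_ne (1 : A)
  have hd : p ^ n - 1 ∣ Nat.card E := by
    letI := MulAction.compHom A a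
    have e : MulAction.orbit E u₀ = {1}ᶜ := Set.ext fun v => ⟨by
      rintro ⟨g, rfl⟩ e
      exact hu₀ ((a g).map_eq_one_iff.1 e), fun hv => h.tr u₀ v hu₀ hv⟩
    rw [← hn, ← Set.ncard_singleton (1 : A), ← Set.ncard_compl, ← e, ← MulAction.index_stabilizer]
    exact Subgroup.index_dvd_card _
  rcases n with _ | _ | n
  · simp [hn] at h3
  · have e : ∀ y, Gd ε y := fun y => h.gd_of_fpf fun g h1 _ u hu => by
      obtain ⟨k, hk, e⟩ := hS _ (h.Fx_ne_top h1)
      rw [Nat.lt_one_iff.1 hk, pow_zero, Subgroup.card_eq_one] at e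
      exact e.le hu
    have : (Set.univ : Set A) ⊆ {1, u₀, u₀⁻¹} := fun v _ => by
      by_cases hv : v = 1
      · exact .inl hv
      obtain ⟨g, rfl⟩ := h.tr u₀ v hu₀ hv
      exact .inr ((pm (a := a) (S := ⊤) (by simpa using hn) (hg g (e g)) fun _ _ => trivial).imp
        (fun e => e trivial) fun e => e trivial)
    have := (Set.ncard_le_ncard this).trans ((Set.ncard_insert_le _ _).trans
      (Nat.succ_le_succ (Set.ncard_insert_le _ _)))
    rw [Set.ncard_univ, Set.ncard_singleton] at this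
    omega
  by_cases hm : n + 1 + 1 = 2 ∧ ∃ m, p + 1 = 2 ^ m
  swap
  · obtain ⟨r, hr, h4, h5⟩ := H26.zsigmondy hp.out.one_lt (by omega) (fun e => hp2 e.1) hm
    haveI := Fact.mk hr
    obtain ⟨y, hy⟩ := exists_prime_orderOf_dvd_card' r (h4.trans hd)
    have hy' : y ^ r = 1 := hy ▸ pow_orderOf_eq_one y
    have h6 : ∀ k < n + 1 + 1, p ^ k ≡ 1 [MOD r] → k = 0 := fun k hk e => by
      by_contra e'
      exact h5 k (Nat.pos_of_ne_zero e') hk ((Nat.modEq_iff_dvd' (Nat.one_le_pow _ _ hp.out.pos)).1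
        e.symm)
    have h7 : y ≠ 1 := fun e => hr.one_lt.ne (by rw [← hy, e, orderOf_one])
    have h8 : Fx a y = ⊥ := by
      obtain ⟨k, hk, e⟩ := hS _ (h.Fx_ne_top h7)
      have := card_modEq (a := a) (S := ⊤) hy' fun _ _ => trivial
      rw [top_inf_eq, e, Subgroup.card_top, hn] at this
      rw [← Subgroup.card_eq_one, e, h6 k hk (this.symm.trans
        ((Nat.modEq_iff_dvd' (Nat.one_le_pow _ _ hp.out.pos)).2 h4).symm), pow_zero]
    have h9 := hg y (h.gd_of_fpf fun g h1 hc u hu => by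
      obtain ⟨k, hk, e⟩ := hS _ (h.Fx_ne_top h1)
      have := card_modEq hy' (Fx_inv (a := a) hc)
      rw [h8, inf_bot_eq, Subgroup.card_bot, e] at this
      rw [h6 k hk this, pow_zero, Subgroup.card_eq_one] at e
      exact e.le hu)
    rw [← orderOf_dvd_iff_pow_eq_one, hy, Nat.prime_dvd_prime_iff_eq hr Nat.prime_two] at h9
    refine h5 1 one_pos (by omega) ?_
    rw [h9, pow_one, ← even_iff_two_dvd]
    exact hp.out.even_sub_one hp2
  obtain ⟨rfl, m, hm⟩ : n = 0 ∧ _ := ⟨by omega, hm.2⟩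
  have h4 : p % 4 = 3 := by
    have := hp.out.two_le
    rcases m with _ | _ | m
    · omega
    · omega
    · rw [pow_succ, pow_succ] at hm; omega
  have hP : ∀ S : Subgroup A, S ≠ ⊥ → S ≠ ⊤ → Nat.card S = p := fun S h1 h2 => by
    obtain ⟨k, hk, e⟩ := hS S h2
    obtain rfl | rfl : k = 0 ∨ k = 1 := by omega
    · exact absurd (Subgroup.card_eq_one.1 e) h1
    · rwa [pow_one] at e
  have hI : ∀ t, Fx a t ≠ ⊥ → Iv a t ≠ ⊤ := fun t h1 e => h1 (eq_bot_iff.2 fun u hu => hsq u (by
    rw [sq, ← eq_inv_iff_mul_eq_one, ← mem_Iv.1 (e.ge (Subgroup.mem_top u)), mem_Fx.1 hu]))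
  have h5 : ∀ y : E, y ^ 2 ^ 2 = 1 → y ^ 2 = 1 := fun y hy => by
    by_contra e
    rw [sq 2, pow_mul] at hy
    refine e (hg y (h.gd_of_fpf fun g h1 hc u hu => ?_))
    by_contra hu1
    have e1 := hP _ (fun e => hu1 (e.le hu)) (h.Fx_ne_top h1)
    rcases pm e1 hy (Fx_inv (hc.pow_right 2)) with e2 | e2
    · exact four (hP _ (h.Iv_ne_bot hy e) (hI _ fun e => hu1 (e.le (e2 hu))))
        (Iv_inv (Commute.pow_self y 2)) le_rfl h4
    · exact four e1 (Fx_inv hc) e2 h4
  obtain ⟨S, hS⟩ := Sylow.exists_subgroup_card_pow_prime (G := E) 2 (n := 3) (Dvd.dvd.trans (by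
    rw [show p ^ (0 + 1 + 1) - 1 = (p + 1) * (p - 1) by rw [← Nat.sq_sub_sq]]
    exact mul_dvd_mul (a := 4) (c := 2) (by omega) (by omega)) hd)
  have h6 : ∀ s ∈ S, s ^ 2 = 1 := fun s hs => h5 s (by
    have : s ^ 2 ^ 3 = 1 := hS ▸ congrArg Subtype.val (pow_card_eq_one' (x := (⟨s, hs⟩ : S)))
    rw [sq 2, pow_mul]
    exact h5 _ (by rw [← pow_mul]; exact this))
  have h7 : ∀ s ∈ S, ∀ t ∈ S, Commute s t := fun s hs t ht => congrArg Subtype.val
    (Commute.of_orderOf_dvd_two (G := S) (fun g => orderOf_dvd_of_pow_eq_one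
      (Subtype.ext (h6 g g.2))) ⟨s, hs⟩ ⟨t, ht⟩)
  obtain ⟨t, ht, h8, h9⟩ : ∃ t ∈ S, t ≠ 1 ∧ Iv a t ≠ ⊤ := by
    by_contra! e
    have := Nat.card_le_card_of_injective (fun s : S => decide ((s : E) = 1)) fun s s' e' => by
      by_cases e1 : (s : E) = 1
      · exact Subtype.ext (e1.trans (by simpa [e1] using e' : (s' : E) = 1).symm)
      · exact Subtype.ext (h.inj (MulEquiv.ext fun u => (mem_Iv.1 ((e s s.2 e1).ge trivial)).trans
          (mem_Iv.1 ((e s' s'.2 (by simpa [e1] using e')).ge trivial)).symm))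
    simp [hS] at this
  have e1 := hP _ (fun e => h9 (eq_top_iff.2 fun u _ => eq_inv_of_mul_eq_one_right
    (e.le (mul_mem_Fx (h6 t ht) u)))) (h.Fx_ne_top h8)
  have e2 := hP _ (h.Iv_ne_bot (h6 t ht) h8) h9
  have key : ∀ B : Subgroup A, Nat.card B = p → (∀ s ∈ S, ∀ u ∈ B, a s u ∈ B) → ∀ s ∈ S, ∀ s' ∈ S,
      (B ≤ Fx a s ↔ B ≤ Fx a s') → ∀ u ∈ B, a s u = a s' u := fun B hB hi s hs s' hs' e u hu => by
    by_cases e' : B ≤ Fx a s
    · exact (e' hu).trans (e.1 e' hu).symm
    · exact ((pm hB (h6 s hs) (hi s hs)).resolve_left e' hu).trans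
        ((pm hB (h6 s' hs') (hi s' hs')).resolve_left (e.not.1 e') hu).symm
  have := Nat.card_le_card_of_injective
    (fun s : S => (decide (Fx a t ≤ Fx a s), decide (Iv a t ≤ Fx a s))) fun s s' e => by
      simp only [Prod.mk.injEq, decide_eq_decide] at e
      refine Subtype.ext (h.inj (MulEquiv.ext fun u => div_eq_one.1 (hsq _ ?_)))
      have := congrArg₂ (· * ·) (key _ e1 (fun s hs => Fx_inv (h7 t ht s hs)) s s.2 s' s'.2 e.1 _
        (mul_mem_Fx (h6 t ht) u)) (key _ e2 (fun s hs => Iv_inv (h7 t ht s hs)) s s.2 s' s'.2 e.2 _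
        (mul_mem_Iv (h6 t ht) u))
      simp only [← map_mul, mul_mul_mul_comm u, mul_inv_cancel, mul_one] at this
      rw [div_pow, sq, sq, ← map_mul, ← map_mul, this, div_self']
  simp [hS] at this

end TW
end H7
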