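import Cfsg.Agent.H8.Bl60
import Cfsg.Agent.H8.Blich
import Cfsg.Agent.H8.PDeg
import Cfsg.Agent.H1.Cores
/-! Elements with the two eigenvalues `1`, `exp (2πi/p)` (`p ≥ 7`) in a faithful irreducible
character: `H7.two_eig_card` (multiplicities from power sums), `H7.two_eig_abelian` (the normal
closure is abelian, Blichfeldt), `H7.two_eig_monomial`. -/
open H5 Cfsg Subgroup Polynomial H8 H8.Jordan
open scoped commutatorElement
namespace H7

open Classical in
theorem two_eig_card {ι : Type*} (s : Finset ι) (ε : ι → ℂ) (e a b ω : ℂ)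
    (h : ∀ j : ℕ, e * ∑ i ∈ s, ε i ^ j = a * ω ^ j + b) (μ : ℂ) :
    e * (s.filter fun i => ε i = μ).card = (if ω = μ then a else 0) + if 1 = μ then b else 0 := by
  have hq : ∀ q : ℂ[X], e * ∑ i ∈ s, q.eval (ε i) = a * q.eval ω + b * q.eval 1 := by
    intro q
    induction q using Polynomial.induction_on' with
    | add p q hp hq =>
      simp only [eval_add, Finset.sum_add_distrib, mul_add, hp, hq]; ring
    | monomial n c =>
      simp only [eval_monomial, ← Finset.mul_sum, one_pow]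
      linear_combination c * h n
  let S := (insert 1 (insert ω (s.image ε))).erase μ
  let g : ℂ[X] := ∏ ν ∈ S, (X - C ν)
  have hg : ∀ x, g.eval x = ∏ ν ∈ S, (x - ν) := fun x => by simp [g, eval_prod]
  have h0 : g.eval μ ≠ 0 := by
    rw [hg]
    exact Finset.prod_ne_zero_iff.2 fun ν hν => sub_ne_zero.2 (Finset.ne_of_mem_erase hν).symm
  have h1 : ∀ x ∈ insert 1 (insert ω (s.image ε)), g.eval x = if x = μ then g.eval μ else 0 := by
    intro x hx
    split_ifs with e1
    · rw [e1]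
    · rw [hg]
      exact Finset.prod_eq_zero (Finset.mem_erase.2 ⟨e1, hx⟩) (sub_self x)
  have h2 := hq g
  rw [Finset.sum_congr rfl fun i hi => h1 (ε i) (by simp [Finset.mem_image_of_mem ε hi]),
    h1 ω (by simp), h1 1 (by simp), ← Finset.sum_filter, Finset.sum_const, nsmul_eq_mul] at h2
  apply mul_right_cancel₀ h0
  rw [mul_assoc]
  convert h2 using 1
  split_ifs <;> ring

variable {G : Type*} [Group G] [Finite G] {χ : G → ℂ}

theorem two_eig_abelian (hχ : IsCharacter G χ) (hf : ∀ g : G, χ g = χ 1 → g = 1) {w : G}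
    {a b ω : ℂ} (hω : ‖ω - 1‖ < 1) (h : ∀ j : ℕ, χ (w ^ j) = a * ω ^ j + b) :
    ∃ A : Subgroup G, A.Normal ∧ w ∈ A ∧ ∀ x ∈ A, ∀ y ∈ A, x * y = y * x := by
  classical
  obtain ⟨n, σ, rfl, hσ⟩ := exists_unitary_of_isCharacter hχ
  have hinj : Function.Injective σ := by
    rw [injective_iff_map_eq_one]
    intro g hg
    exact hf g (by simp [Representation.character, hg])
  obtain ⟨B, ε, -, h2, h3⟩ := exists_eigenbasis_rep σ w
  have hε : ∀ i, ε i = ω ∨ ε i = 1 := by
    intro i
    by_contra hc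
    push Not at hc
    have := two_eig_card Finset.univ ε 1 a b ω (fun j => by rw [one_mul, ← h3, h]) (ε i)
    rw [if_neg hc.1.symm, if_neg hc.2.symm, one_mul, add_zero, Nat.cast_eq_zero,
      Finset.card_eq_zero] at this
    exact Finset.notMem_empty i (this ▸ by simp)
  have hev : ∀ μ, Module.End.HasEigenvalue (σ w) μ → μ = ω ∨ μ = 1 := by
    intro μ hμ
    obtain ⟨v, hv⟩ := hμ.exists_hasEigenvector
    have e0 : (σ w - ω • LinearMap.id) ∘ₗ (σ w - LinearMap.id) = 0 := B.ext fun i => by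
      simp only [LinearMap.comp_apply, LinearMap.sub_apply, LinearMap.id_apply, h2, map_sub,
        map_smul, LinearMap.smul_apply, LinearMap.zero_apply, smul_smul, ← sub_smul]
      rcases hε i with e | e <;> rw [e]
      · simp
      · simp
    have e1 := LinearMap.congr_fun e0 v
    simp only [LinearMap.comp_apply, LinearMap.sub_apply, LinearMap.id_apply, hv.apply_eq_smul,
      map_sub, map_smul, LinearMap.smul_apply, LinearMap.zero_apply, smul_smul, ← sub_smul] at e1
    have e2 : (μ - ω) * (μ - 1) = 0 := by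
      have := (smul_eq_zero.1 e1).resolve_right hv.2
      linear_combination this
    rcases mul_eq_zero.1 e2 with e | e
    · exact Or.inl (sub_eq_zero.1 e)
    · exact Or.inr (sub_eq_zero.1 e)
  have hconj : ∀ (c : ℂ) (g x : G), ‖U σ (x * g * x⁻¹) - algebraMap ℂ _ c‖ =
      ‖U σ g - algebraMap ℂ _ c‖ := by
    intro c g x
    have : U σ (x * g * x⁻¹) - algebraMap ℂ _ c =
        U σ x * (U σ g - algebraMap ℂ _ c) * U σ x⁻¹ := by
      rw [mul_sub, sub_mul, ← map_mul, ← map_mul, ← Algebra.commutes,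
        mul_assoc (algebraMap ℂ _ c), ← map_mul]; simp
    rw [this, CStarRing.norm_mul_mem_unitary _ (U_mem hσ _),
      CStarRing.norm_mem_unitary_mul _ (U_mem hσ _)]
  have hw1 := norm_lt_of_eigenvalues hσ w ((1 + ω) / 2) (1 / 2) (by norm_num) (fun μ hμ => by
    have e : ‖(ω - 1) / 2‖ < 1 / 2 := by
      rw [norm_div]; simp only [Complex.norm_ofNat]; linarith
    push_cast
    rcases hev μ hμ with rfl | rfl
    · convert e using 2; ring
    · rw [← norm_neg, show -(1 - (1 + ω) / 2) = (ω - 1) / 2 by ring]; exact e)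
  have hw2 := norm_lt_of_eigenvalues hσ w 1 1 one_pos (fun μ hμ => by
    rcases hev μ hμ with rfl | rfl
    · exact hω
    · simp)
  have hcomm : ∀ x ∈ Group.conjugatesOfSet {w}, ∀ y ∈ Group.conjugatesOfSet {w},
      x * y = y * x := by
    intro x hx y hy
    obtain ⟨x', ex, hx'⟩ := Group.mem_conjugatesOfSet_iff.1 hx
    obtain ⟨y', ey, hy'⟩ := Group.mem_conjugatesOfSet_iff.1 hy
    rw [Set.mem_singleton_iff.1 ex] at hx'
    rw [Set.mem_singleton_iff.1 ey] at hy'
    obtain ⟨u, rfl⟩ := isConj_iff.1 hx'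
    obtain ⟨v, rfl⟩ := isConj_iff.1 hy'
    have e1 := hconj 1 w v
    rw [map_one] at e1 hw2
    have := commute_of_small hσ hinj (u * w * u⁻¹) ((1 + ω) / 2)
      (by rw [hconj]; simpa using hw1) (v * w * v⁻¹) (by
        rw [e1]
        have : ‖U σ w - 1‖ < 1 := by simpa using hw2
        nlinarith [norm_nonneg (U σ w - 1)])
    rw [mul_assoc, inv_mul_eq_iff_eq_mul] at this
    exact this
  refine ⟨normalClosure {w}, inferInstance, subset_normalClosure rfl, ?_⟩
  have h1 : closure (Group.conjugatesOfSet {w}) ≤ centralizer (Group.conjugatesOfSet {w}) :=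
    (closure_le _).2 fun y hy x hx => hcomm x hx y hy
  rw [← centralizer_closure] at h1
  exact fun x hx y hy => h1 hy x hx

theorem two_eig_monomial (hχ : IsIrrCharacter G χ) (hf : ∀ g : G, χ g = χ 1 → g = 1) {w : G}
    {a b : ℕ} {ω : ℂ} (hω : ‖ω - 1‖ < 1) (hω1 : ω ≠ 1) (hab : a.Coprime b)
    (h : ∀ j : ℕ, χ (w ^ j) = a * ω ^ j + b) :
    ∃ K : Subgroup G, K.Normal ∧ K.index ∣ (charDegree χ).factorial ∧
      ∀ x ∈ K, ∀ y ∈ K, x * y = y * x := by
  classical
  letI := Fintype.ofFinite G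
  obtain ⟨A, hA, hwA, hab'⟩ := two_eig_abelian hχ.isCharacter hf hω h
  obtain ⟨θ, hθ, hin⟩ := H6.exists_irr_under (N := A) hχ
  have hAc : ∀ x y : A, x * y = y * x := fun x y => Subtype.ext (hab' x x.2 y y.2)
  obtain ⟨e, he⟩ := (hχ.isCharacter.restrict A).exists_classInner_nat hθ.isCharacter
  have hres := H6.clifford_res hχ hθ hin
  rw [H6.sum_cj_eq, smul_comm, he] at hres
  have hres2 := smul_right_injective _ (card_ne_zero_complex (G := H6.inertia θ)) hres
  have hpw : ∀ j : ℕ, (e : ℂ) * ∑ φ ∈ Finset.univ.image (H6.cj θ : G → A → ℂ),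
      φ ⟨w, hwA⟩ ^ j = a * ω ^ j + b := by
    intro j
    rw [← h]
    have := congrFun hres2 (⟨w, hwA⟩ ^ j)
    simp only [Pi.smul_apply, Finset.sum_apply, smul_eq_mul, SubmonoidClass.mk_pow] at this
    rw [this]
    congr 1
    refine Finset.sum_congr rfl fun φ hφ => ?_
    obtain ⟨g, -, rfl⟩ := Finset.mem_image.1 hφ
    obtain ⟨lam, hl⟩ := (H6.isIrr_cj hθ g).exists_hom_of_comm hAc
    rw [hl, ← SubmonoidClass.mk_pow w hwA]
    simp only [map_pow, Units.val_pow_eq_pow_val]
  have e1 := two_eig_card _ _ _ _ _ _ hpw ω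
  have e2 := two_eig_card _ _ _ _ _ _ hpw 1
  rw [if_pos rfl, if_neg hω1.symm, add_zero] at e1
  rw [if_pos rfl, if_neg hω1, zero_add] at e2
  have he1 : e = 1 := Nat.eq_one_of_dvd_coprimes hab
    ⟨_, by exact_mod_cast e1.symm⟩ ⟨_, by exact_mod_cast e2.symm⟩
  have hdeg := H6.clifford_degree hχ hθ hin
  rw [he, he1, hθ.apply_one_of_comm hAc, Nat.cast_one, one_mul, mul_one] at hdeg
  obtain ⟨H, hH⟩ : ∃ H, H = H6.inertia θ := ⟨_, rfl⟩
  rw [← hH] at hdeg
  obtain ⟨ψ, hψ, hind, -⟩ := H6.corr_surj (T := H) hθ hH.ge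
    (hH ▸ H6.le_inertia hθ.isClassFunction) hχ hin
  have hψ1 : ψ 1 = 1 := by
    have := indFun_apply_one H ψ
    rw [hind, hdeg] at this
    have h0 : (H.index : ℂ) ≠ 0 := Nat.cast_ne_zero.2 index_ne_zero_of_finite
    exact (mul_left_cancel₀ h0 (by rw [← this, mul_one])).symm
  obtain ⟨lam, rfl⟩ := hψ.isCharacter.exists_hom_of_apply_one hψ1
  have hd : charDegree χ = H.index := charDegree_eq_of_apply_one hdeg
  refine ⟨H.normalCore, inferInstance, ?_, ?_⟩
  · rw [hd, normalCore_eq_ker, index_ker, index_eq_card, ← Nat.card_perm]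
    exact card_subgroup_dvd_card _
  have h4 : ⁅H.normalCore, H.normalCore⁆ ≤ charKer χ := by
    have hle : ⁅H.normalCore, H.normalCore⁆ ≤ H :=
      (commutator_le_left _ _).trans H.normalCore_le
    rw [← hind]
    refine H6.normal_le_charKer_ind H (isCharacter_hom lam) _ hle fun m => ?_
    have : ⁅H.normalCore, H.normalCore⁆ ≤ lam.ker.map H.subtype := by
      rw [commutator_le]
      intro a ha b hb
      refine ⟨⁅(⟨a, H.normalCore_le ha⟩ : H), (⟨b, H.normalCore_le hb⟩ : H)⁆, ?_, rfl⟩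
      rw [SetLike.mem_coe, MonoidHom.mem_ker, map_commutatorElement,
        commutatorElement_eq_one_iff_mul_comm, mul_comm]
    obtain ⟨y, hy, e2⟩ := this m.2
    have : (⟨m, hle m.2⟩ : H) = y := Subtype.ext e2.symm
    rw [this, MonoidHom.mem_ker.1 hy, map_one]
  intro x hx y hy
  exact commutatorElement_eq_one_iff_mul_comm.1
    (hf _ (apply_eq_of_mem_charKer (h4 (commutator_mem_commutator hx hy))))

end H7
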